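import Mathlib
import Cfsg.Agent.H7.BR4
import Cfsg.Agent.S0157
import Cfsg.Agent.H10.SmallIso

/-!
Permutation groups of degree `p` or `2 p` with Sylow normalizer of order `2 p`.
-/

set_option autoImplicit false
set_option linter.unusedSectionVars false
set_option linter.unusedVariables false
set_option linter.style.haveILetI false

namespace Cfsg.Agent.H7

open Cfsg Subgroup Finset Cfsg.Agent.H24.D1 Cfsg.Agent.H23 MulAction
open scoped MatrixGroups ComplexConjugate

variable {G : Type*} [Group G] [Finite G] {p : ℕ} [hp : Fact p.Prime] {x : G}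

theorem e2_perm (h : SC p x) (he : (CC x).relIndex (NN x) = 2) (hp3 : 3 < p)
    (hG : commutator G = ⊤) {θ : G → ℂ} (hθ : IsCharacter G θ)
    (h0 : ∀ g, p ∣ orderOf g → θ g = 0) (h1 : ip θ 1 = 1) (hd : charDegree θ ≤ 2 * p) :
    ∃ χ : IrrCharacter G, χ ≠ H8.irrOne G ∧ ip θ χ.1 = 1 ∧
      (charDegree χ.1 = p - 1 ∨ charDegree χ.1 = 2 * p - 1) ∧
      ∀ φ : IrrCharacter G, ip θ φ.1 ≠ 0 → φ = H8.irrOne G ∨ φ = χ ∨ p ∣ charDegree φ.1 := by
  classical
  obtain ⟨M, hM⟩ := H9.exists_pmod p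
  obtain ⟨X, ψ, ε, δ, F, hX1⟩ := h.syl1.exists_fam_principal hM
  obtain ⟨t, ht⟩ := exists_t h.syl1
  obtain ⟨Y, hY, hYc⟩ : ∃ Y : Finset (IrrCharacter G), (∀ φ ∈ Y, ∃ j, ψ j = φ) ∧ Y.card = t :=
    ⟨_, fun φ hφ => by simpa using hφ, card_image_psi F ht⟩
  obtain ⟨χ, hχ⟩ := card_eq_one.1 (show (X.erase (H8.irrOne G)).card = 1 by
    rw [card_erase_of_mem hX1, F.card₀, he])
  have hχ' := mem_erase.1 (hχ ▸ mem_singleton_self χ)
  have hXe : X = {H8.irrOne G, χ} := by rw [← insert_erase hX1, hχ]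
  choose m hm using fun φ : IrrCharacter G => ip_char_nat hθ (irr_char φ.2)
  have hm1 : m (H8.irrOne G) = 1 := by
    have := hm (H8.irrOne G)
    rw [show ip θ (H8.irrOne G).1 = 1 from h1] at this
    exact_mod_cast this.symm
  have hrel : ∀ j, 1 + ε χ * m χ = δ * m (ψ j) := fun j => by
    have h2 : ip (Phi p x (fun _ => 1) j) θ = ip (Phi p x (fun _ => 1) j) 0 :=
      ip_congr_sing (fun g hg => h.syl1.Phi_reg _ _ hg) h0
    rw [ip_zero_right, ip_eq_zero_comm, F.phi, hXe, sum_pair hχ'.1.symm, ip_sub_right, ip_add_right,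
      ip_smul_right, ip_smul_right, ip_smul_right, hm, hm, hm, hm1, PB.eps_one F hX1] at h2
    simp only [map_intCast] at h2
    have : ((1 + ε χ * m χ : ℤ) : ℂ) = (δ * m (ψ j) : ℤ) := by
      push_cast at h2 ⊢; linear_combination h2
    exact_mod_cast this
  have hdeg : ∀ j, δ * charDegree (ψ j).1 = 1 + ε χ * charDegree χ.1 := fun j => by
    rw [F.deg_rel j, hXe, sum_pair hχ'.1.symm, PB.eps_one F hX1,
      show charDegree (H8.irrOne G).1 = 1 from charDegree_one]
    simp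
  have hle := (sum_deg_le hθ (X ∪ Y) m fun φ _ => ⟨_, hm φ, le_rfl⟩).trans hd
  have hmj : ∀ j, m (ψ j) = m (ψ 1) := fun j => by
    have a1 := hrel j
    have a2 := hrel 1
    rcases F.sδ with e | e <;> rw [e] at a1 a2 <;> omega
  rw [sum_union (disjoint_left.2 fun φ a b => by
      obtain ⟨j, rfl⟩ := hY φ b
      exact F.notMem j a), hXe, sum_pair hχ'.1.symm, hm1,
    show charDegree (H8.irrOne G).1 = 1 from charDegree_one,
    sum_congr rfl (g := fun _ => m (ψ 1) * charDegree (ψ 1).1) fun φ hφ => by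
      obtain ⟨j, rfl⟩ := hY φ hφ
      rw [hmj, F.deg_eq j 1], sum_const, hYc, smul_eq_mul] at hle
  have h2 := deg_ne_one hG hχ'.1
  have h3 := (F.degX₀ hχ'.2).symm.dvd
  have r1 := hrel 1
  have r2 := hdeg 1
  have ht2 : 2 ≤ t := by rw [he] at ht; omega
  set d := charDegree χ.1
  set z := charDegree (ψ 1).1
  set b := m (ψ 1) with hb
  have hbz : 2 * (b * z) ≤ t * (b * z) := Nat.mul_le_mul_right _ ht2
  rcases F.sε χ hχ'.2 with e | e <;> rw [e] at h3 r1 r2
  · exfalso
    have h4 := Int.le_of_dvd (by omega) h3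
    have hδ : δ = 1 := F.sδ.resolve_right fun e' => by rw [e'] at r2; omega
    rw [hδ] at r1 r2
    have : z ≤ b * z := Nat.le_mul_of_pos_left _ (by omega)
    omega
  · have h4 := Int.le_of_dvd (by omega) h3
    have hδ : δ = -1 := F.sδ.resolve_left fun e' => by rw [e'] at r2; omega
    rw [hδ] at r1 r2
    have hb0 : b = 0 := by
      by_contra hc
      have : z ≤ b * z := Nat.le_mul_of_pos_left _ (by omega)
      have : 2 * d ≤ m χ * d := Nat.mul_le_mul_right _ (by omega)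
      omega
    have ha : m χ = 1 := by omega
    refine ⟨χ, hχ'.1, by rw [hm, ha, Nat.cast_one], ?_, fun φ hφ => ?_⟩
    · obtain ⟨k, hk⟩ := h3
      rw [ha] at hle
      have : 0 < k := by by_contra; nlinarith
      have : k < 3 := by by_contra; nlinarith
      interval_cases k <;> omega
    · by_contra hc
      push Not at hc
      rcases (F.mem φ).1 (h.mem_principal hM hc.2.2) with e' | ⟨j, rfl⟩
      · rw [hXe] at e'
        exact (mem_insert.1 e').elim hc.1 fun a => hc.2.1 (mem_singleton.1 a)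
      · exact hφ (by rw [hm, hmj, hb0, Nat.cast_zero])

theorem card_lt_sum_fix {Ω : Type*} [MulAction G Ω] [FaithfulSMul G Ω] [Finite Ω] [Fintype G]
    [IsPretransitive G Ω] [Nonempty Ω] {j : G} (hj : orderOf j = 2) :
    Nat.card G < ∑ g : G, Nat.card (fixedBy Ω (g * g)) := by
  have h1 := H6.classInner_perm_one (G := G) Ω
  rw [(H6.card_orbits_eq_one_iff Ω).2 inferInstance, H6.classInner_one_right, Nat.cast_one,
    inv_mul_eq_one₀ (card_ne_zero' G)] at h1
  have h2 : Nat.card G = ∑ g : G, Nat.card (fixedBy Ω g) := by exact_mod_cast h1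
  rw [h2]
  have h3 : ∀ g : G, fixedBy Ω g ⊆ fixedBy Ω (g * g) := fun g a ha => by
    rw [mem_fixedBy] at ha ⊢
    rw [mul_smul, ha, ha]
  refine sum_lt_sum (fun g _ => Set.ncard_le_ncard (h3 g)) ⟨j, mem_univ _, ?_⟩
  obtain ⟨a, ha⟩ := H16.exists_smul_ne (α := Ω) (H20.ne_one_of_orderOf_two hj)
  exact Set.ncard_lt_ncard ⟨h3 j, fun e => ha (e (by
    rw [H20.mul_self_of_orderOf_two hj]; exact one_smul _ a))⟩

theorem fs_ne_of_perm {Ω : Type*} [MulAction G Ω] [FaithfulSMul G Ω] [Finite Ω] [Fintype G]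
    [IsPretransitive G Ω] [Nonempty Ω] {j : G} (hj : orderOf j = 2) {χ ζ : G → ℂ}
    (hζ : ζ = 0 ∨ IsIrrCharacter G ζ)
    (h : ∀ g, (Nat.card (fixedBy Ω g) : ℂ) = 1 + χ g + ζ g) : H6.fsInd χ ≠ -1 := fun e => by
  have h1 := card_lt_sum_fix (Ω := Ω) hj
  have h2 : ((∑ g : G, Nat.card (fixedBy Ω (g * g)) : ℕ) : ℂ) = Nat.card G * H6.fsInd ζ := by
    rw [H6.fsInd_def] at e ⊢
    rw [← mul_assoc, mul_inv_cancel₀ (card_ne_zero' G), one_mul]
    rw [inv_mul_eq_iff_eq_mul₀ (card_ne_zero' G)] at e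
    push_cast
    simp only [h, sum_add_distrib, e, sum_const, card_univ, ← Nat.card_eq_fintype_card]
    simp
  have h3 : H6.fsInd ζ = 0 ∨ H6.fsInd ζ = 1 ∨ H6.fsInd ζ = -1 := by
    rcases hζ with rfl | hζ
    · left; simp [H6.fsInd_def]
    · exact H6.fsInd_trichotomy hζ
  generalize ∑ g : G, Nat.card (fixedBy Ω (g * g)) = A at h1 h2
  rcases h3 with e | e | e <;> rw [e] at h2
  · have : A = 0 := by exact_mod_cast h2.trans (mul_zero _)
    omega
  · have : A = Nat.card G := by exact_mod_cast h2.trans (mul_one _)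
    omega
  · have : (A : ℤ) = -Nat.card G := by exact_mod_cast h2.trans (mul_neg_one _)
    omega

theorem SC_of_card (hx : Syl1 p x) (hN : Nat.card (NN x) = 2 * p)
    (he : (CC x).relIndex (NN x) ≠ 1) : SC p x ∧ (CC x).relIndex (NN x) = 2 := by
  obtain ⟨k, hk⟩ := card_dvd_of_le (zp_le_CC x)
  rw [H24.D1.card_NN, hk, hx.card_zp, mul_assoc, mul_comm 2] at hN
  have h1 := Nat.eq_of_mul_eq_mul_left hp.out.pos hN
  have h2 := ((Nat.dvd_prime Nat.prime_two).1 (h1 ▸ dvd_mul_left _ _)).resolve_left he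
  rw [h2] at h1
  exact ⟨⟨hx.ord, (eq_of_le_of_card_ge (zp_le_CC x) (by rw [hk, show k = 1 by omega, mul_one])).symm⟩,
    h2⟩

theorem SC_perfect (h : SC p x) (he : (CC x).relIndex (NN x) = 2)
    (hn : ∀ K : Subgroup G, K.Normal → K ≠ ⊥ → p ∣ Nat.card K ∧ Nat.card K ≠ p) :
    commutator G = ⊤ := by
  have he1 : (CC x).relIndex (NN x) ≠ 1 := by omega
  have hx := h.syl1.mem_commutator he1
  by_cases h4 : derivedSeries G 2 = derivedSeries G 1
  swap
  · obtain ⟨h1, h2⟩ := h.second_derived he1 h4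
    have h3 : derivedSeries G 2 = ⊥ := by
      by_contra hc
      exact h1 (hn _ inferInstance hc).1
    rw [h3, bot_sup_eq] at h2
    refine absurd (by rw [h2, h.syl1.card_zp]) (hn (commutator G) inferInstance fun e => ?_).2
    exact h.syl1.ne_one (mem_bot.1 (e ▸ hx))
  by_contra hc
  have h2 := h.index_dvd hx
  rw [he] at h2
  have h3 : (commutator G).index = 2 :=
    ((Nat.dvd_prime Nat.prime_two).1 h2).resolve_left fun e => hc (index_eq_one.1 e)
  have h5 : NN x ⊔ commutator G = ⊤ :=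
    Sylow.normalizer_sup_eq_top' h.syl1.syl (N := commutator G) (zpowers_le.2 hx)
  rw [← relIndex_top_right, ← h5, relIndex_sup_right, ← inf_relIndex_right] at h3
  have h6 := relIndex_mul_relIndex (CC x) (commutator G ⊓ NN x) (NN x)
    (le_inf (h.cent ▸ zpowers_le.2 hx) (CC_le_NN x)) inf_le_right
  rw [h3, he] at h6
  have h7 : commutator G ⊓ NN x ≤ CC x := relIndex_eq_one.1 (by omega)
  refine (h.sub hx).syl1.relIndex_ne_one ?_ (relIndex_eq_one.2 fun n hn => ?_)
  · have h8 : x ∈ (commutator (commutator G)).map (commutator G).subtype := by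
      rw [_root_.commutator_def (commutator G), map_commutator, ← MonoidHom.range_eq_map, range_subtype]
      exact h4.ge hx
    obtain ⟨y, hy, e⟩ := h8
    rwa [show y = ⟨x, hx⟩ from Subtype.ext e] at hy
  · obtain ⟨k, hk⟩ := conj_mem_zp (inv_mem hn) (mem_zpowers _)
    have h8 : (n : G) ∈ NN x := h.syl1.mem_NN_of_conj (zp_le_CC x (mem_zpowers x))
      (h.ord.symm ▸ dvd_rfl) (zp_le_CC x ⟨k, by simpa using congrArg Subtype.val hk⟩)
    exact mem_CC.2 (Subtype.ext (mem_CC.1 (h7 ⟨n.2, h8⟩)).eq)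

theorem prim_two_p {Ω : Type*} [MulAction G Ω] [FaithfulSMul G Ω] [Finite Ω] (hp3 : 3 < p)
    (hΩ : Nat.card Ω = 2 * p) [IsPreprimitive G Ω] (hn2 : ¬ IsMultiplyPretransitive G Ω 2)
    (P : Sylow p G) (hN : Nat.card (normalizer ((P : Subgroup G) : Set G)) = 2 * p) :
    p = 5 ∧ Nonempty (G ≃* alternatingGroup (Fin 5)) := by
  classical
  haveI := Fintype.ofFinite G
  obtain ⟨a⟩ : Nonempty Ω := (Nat.card_pos_iff.1 (by omega)).1
  haveI : Nonempty Ω := ⟨a⟩
  have hp2 : p ≠ 2 := by omega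
  have htr : ∀ K : Subgroup G, K.Normal → K ≠ ⊥ → 2 * p ∣ Nat.card K := fun K _ hK => by
    haveI := H16.normal_trans (α := Ω) K hK
    exact hΩ ▸ H16.card_dvd_of_trans
  have hGH := H16.card_eq_card_mul_stabilizer (G := G) a
  set H := stabilizer G a with hH
  rw [hΩ] at hGH
  have hpG : p ∣ Nat.card G := hGH ▸ (dvd_mul_left p 2).mul_right _
  have hP : Nat.card P = p := by
    obtain ⟨k, hk⟩ := P.isPGroup'.exists_card_eq
    have h1 : Nat.card P ∣ 2 * p := hN ▸ card_dvd_of_le le_normalizer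
    have h2 : k ≠ 0 := fun e => P.ne_bot_of_dvd_card hpG (card_eq_one.1 (by rw [hk, e, pow_zero]))
    rw [hk] at h1 ⊢
    have h3 := ((Nat.coprime_primes hp.out Nat.prime_two).2 hp2).pow_left k |>.dvd_of_dvd_mul_left h1
    have h4 := (Nat.pow_dvd_pow_iff_le_right hp.out.one_lt).1 (h3.trans (pow_one p).symm.dvd)
    rw [show k = 1 by omega, pow_one]
  obtain ⟨x, hx, hxP⟩ := exists_syl1 P hP
  rw [← hxP] at hN
  have he1 : (CC x).relIndex (NN x) ≠ 1 := fun e => by
    obtain ⟨Q, K, hK, hKQ⟩ := hx.hasNPC e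
    have h1 := hKQ.card_mul
    rw [card_sylow_eq hpG hx.not_sq_dvd Q] at h1
    by_cases h2 : K = ⊥
    · rw [h2, card_bot, one_mul, hGH] at h1
      have : 0 < Nat.card H := Nat.card_pos
      nlinarith
    · refine hx.not_sq_dvd ?_
      rw [← h1, pow_two]
      exact Nat.mul_dvd_mul_right ((dvd_mul_left p 2).trans (htr K hK h2)) p
  obtain ⟨h, he⟩ := SC_of_card hx hN he1
  have hG : commutator G = ⊤ := SC_perfect h he fun K hK hK1 => by
    have := Nat.le_of_dvd Nat.card_pos (htr K hK hK1)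
    exact ⟨(dvd_mul_left p 2).trans (htr K hK hK1), by omega⟩
  have hHp : ¬ p ∣ Nat.card H := fun hd => hx.not_sq_dvd (by
    rw [hGH, pow_two, mul_comm 2, mul_assoc]
    exact Nat.mul_dvd_mul_left p (hd.mul_left 2))
  have hHreg : ∀ g ∈ H, ¬ p ∣ orderOf g := fun g hg hd =>
    hHp (hd.trans (orderOf_dvd_natCard H hg))
  set θ := ind H.subtype (fun _ => (1 : ℂ)) with hθ
  have hθc : IsCharacter G θ := char_ind _ char_one
  have hθf : ∀ g, (Nat.card (fixedBy Ω g) : ℂ) = θ g := fun g => by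
    rw [hθ, ind_subtype, ← H6.perm_eq_indFun Ω a]
  have hθ1 : θ 1 = (2 * p : ℕ) := by rw [← hθf, fixedBy_one_eq_univ, Nat.card_univ, hΩ]
  have hθi : ip θ 1 = 1 := by
    rw [hθ, ip_ind_left _ _ cf_one]; exact ip_irr_self irr_one
  obtain ⟨χ, hχ1, hχm, hχd, hχo⟩ := e2_perm h he hp3 hG hθc (fun g hg =>
    ind_apply_eq_zero _ _ fun y k e => absurd (by
      rw [show (k : G) = y⁻¹ * g * y from e, orderOf_conj']; exact hg) (hHreg k k.2)) hθi
    (charDegree_eq hθ1).le
  have hne : χ.1 ≠ 1 := fun e => hχ1 (Subtype.ext e)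
  have hc1 := char_sub_irr hθc irr_one (by rw [hθi]; exact one_ne_zero)
  have hi1 : ip (θ - 1) χ.1 = 1 := by rw [ip_sub_left, hχm, ip_irr_ne irr_one χ.2 hne.symm, sub_zero]
  have hd : charDegree χ.1 = p - 1 := hχd.resolve_right fun e => hn2 (by
    rw [← S0157.result Ω (by omega)]
    have := eq_irr_of_degree_eq hc1 χ.2 (by rw [hi1]; exact one_ne_zero) (by
      rw [Pi.sub_apply, hθ1, H8.irr_one_eq, e, Nat.cast_sub (by omega)]; simp)
    simp only [hθf]
    change IsIrrCharacter G (θ - 1)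
    rw [this]; exact χ.2)
  have hχv : χ.1 1 = p - 1 := by rw [H8.irr_one_eq, hd, Nat.cast_sub hp.out.one_le, Nat.cast_one]
  have hc2 := char_sub_irr hc1 χ.2 (by rw [hi1]; exact one_ne_zero)
  have hζ1 : (θ - 1 - χ.1) 1 = p := by
    simp only [Pi.sub_apply, hθ1, hχv, Pi.one_apply]; push_cast; ring
  have hζ : IsIrrCharacter G (θ - 1 - χ.1) := by
    obtain ⟨φ, hφ, hφ0⟩ := exists_irr_ip_ne_zero (char_cf hc2) fun e => by
      rw [e] at hζ1
      exact hp.out.ne_zero (Nat.cast_eq_zero.1 hζ1.symm)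
    have h2 : φ ≠ 1 := fun e => hφ0 (by
      rw [e, ip_sub_left, ip_sub_left, hθi, ip_irr_self irr_one, ip_irr_ne χ.2 irr_one hne]; simp)
    have h3 : φ ≠ χ.1 := fun e => hφ0 (by
      rw [e, ip_sub_left, hi1, ip_irr_self χ.2, sub_self])
    have h4 := hφ0
    rw [ip_sub_left, ip_sub_left, ip_irr_ne irr_one hφ h2.symm, ip_irr_ne χ.2 hφ h3.symm, sub_zero,
      sub_zero] at h4
    have h5 : p ∣ charDegree φ := ((hχo ⟨φ, hφ⟩ h4).resolve_left fun e =>
      h2 (congrArg Subtype.val e)).resolve_left fun e => h3 (congrArg Subtype.val e)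
    have h6 := deg_le_of_ip hc2 hφ hφ0
    rw [charDegree_eq hζ1] at h6
    have h7 := Nat.le_of_dvd (deg_pos ⟨φ, hφ⟩) h5
    rw [eq_irr_of_degree_eq hc2 hφ hφ0 (by
      rw [hζ1, char_one_eq (irr_char hφ), le_antisymm h6 h7])]
    exact hφ
  have hfa : ∀ g, χ.1 g = χ.1 1 → g = 1 := fun g hg => by
    haveI := H6.charKer_normal (irr_cf χ.2)
    by_contra hc
    have h2 := h.commutator_le_of_dvd ((dvd_mul_left p 2).trans (htr (H6.charKer χ.1) this
      fun e => hc (mem_bot.1 (e ▸ (H6.mem_charKer_iff_irr χ.2).2 hg))))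
    rw [hG, top_le_iff] at h2
    exact hne (H6.irr_eq_one_of_charKer_eq_top χ.2 h2)
  obtain ⟨j₀, hj₀, -⟩ := SC_exists_inv_NN h (by rw [he]; exact even_two)
  obtain ⟨j, hj, -, hconj, hC, hall, hcard, hv0, hv1, b, K, _, _, hK, hpb, ⟨e⟩, -⟩ :=
    e2_main h he hp3 χ.2 hd hfa fun {_} => fs_ne_of_perm (Ω := Ω) hj₀ (Or.inr hζ) fun g => by
      rw [hθf]; simp
  suffices hp5 : p = 5 by
    obtain ⟨f⟩ := H10.PSL2_four_equiv (F := K) (by rw [Nat.card_eq_fintype_card]; omega)
    exact ⟨hp5, ⟨e.trans f⟩⟩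
  obtain ⟨r, hr⟩ := hp.out.even_sub_one hp2
  have hH2 : Nat.card H = r * (2 * r - 1) := by
    rw [hcard, hr, show p - 2 = 2 * r - 1 by omega] at hGH
    apply Nat.eq_of_mul_eq_mul_left (show 0 < 2 * p by omega)
    rw [← hGH]; ring
  haveI := Fintype.ofFinite H
  set I : Finset H := {s : H | orderOf s = 2} with hI
  have hIc : #I = 2 * r - 1 := by
    have h2 := hχm
    rw [hθ, ip_ind_left _ _ (irr_cf χ.2)] at h2
    have h3 := sum_eq_card_mul_ip fun s : H => χ.1 s
    rw [show ip (fun s : H => χ.1 s) 1 = 1 from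
        (ip_natCast_comm (n := 1) (h2.trans Nat.cast_one.symm)).trans Nat.cast_one, mul_one,
      sum_congr rfl (g := fun s : H => 1 + (if s = 1 then (p - 2 : ℂ) else 0) -
        if orderOf s = 2 then 1 else 0) fun s _ => by
      by_cases h4 : s = 1
      · rw [if_pos h4, h4, if_neg (by simp), OneMemClass.coe_one, hχv]; ring
      rw [if_neg h4]
      split_ifs with h5
      · rw [hv0 s (by rw [orderOf_coe, h5])]; ring
      · rw [hv1 s (hHreg s s.2) fun e => h5 (H20.orderOf_two_of (Subtype.ext e) h4)]; ring,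
      sum_sub_distrib, sum_add_distrib, sum_ite_eq', sum_boole, ← hI] at h3
    simp only [sum_const, card_univ, ← Nat.card_eq_fintype_card, mem_univ, if_true, nsmul_eq_mul,
      mul_one] at h3
    have h4 : ((#I + 2 : ℕ) : ℂ) = p := by push_cast; linear_combination -h3
    have : #I + 2 = p := by exact_mod_cast h4
    omega
  have hCs : ∀ s : G, orderOf s = 2 → Nat.card (CC s) = 2 * r ∧ ∀ w ∈ CC s, w * w = 1 :=
    fun s hs => by
      refine ⟨by rw [← H20.card_cent_of_isConj (hconj s hs), hC]; omega, fun w hw => ?_⟩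
      obtain ⟨g, rfl⟩ := isConj_iff.1 (hconj s hs)
      rw [CC, H20.cent_conj] at hw
      obtain ⟨v, hv, rfl⟩ := hw
      rw [← map_mul, hall v hv, map_one]
  have hCH : ∀ s : H, orderOf s = 2 → Nat.card (CC s) = r := fun s hs => by
    have h2 := H20.card_isConj_mul_card_cent s
    have h3 : Nat.card {g : H // IsConj s g} ≤ 2 * r - 1 := by
      rw [← hIc, hI, ← H20.natCard_subtype_eq_filter]
      exact H20.natCard_subtype_le fun g hg => (H20.orderOf_eq_of_isConj hg).symm.trans hs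
    have h4 : Nat.card (CC s) ∣ 2 * r := by
      rw [← (hCs s (by rw [orderOf_coe, hs])).1, ← card_map_of_injective (subtype_injective H)]
      refine card_dvd_of_le ?_
      rintro _ ⟨w, hw, rfl⟩
      exact mem_CC.2 (congrArg Subtype.val (mem_CC.1 hw).eq)
    obtain ⟨k, hk⟩ := h4
    rw [hH2] at h2
    change _ * Nat.card (CC s) = _ at h2
    have h5 : r ≤ Nat.card (CC s) := by
      by_contra hc
      have := Nat.mul_lt_mul_of_le_of_lt h3 (not_le.1 hc) (by omega)
      rw [h2, mul_comm] at this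
      omega
    have h6 : k ≠ 1 := by
      rintro rfl
      rw [mul_one] at hk
      rw [← hk, ← mul_assoc, mul_comm r] at h2
      have := Nat.eq_of_mul_eq_mul_right (by omega) h2
      omega
    have h7 : k < 3 := by
      by_contra hc
      have : r * 3 ≤ Nat.card (CC s) * k := Nat.mul_le_mul h5 (by omega)
      omega
    interval_cases k <;> omega
  have hdv : r - 1 ∣ #I := by
    rw [card_eq_sum_card_image (fun s : H => CC s) I]
    refine dvd_sum fun T hT => ?_
    obtain ⟨s, hs, rfl⟩ := mem_image.1 hT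
    have hs2 := (mem_filter.1 hs).2
    have hsq : ∀ w ∈ CC s, w * w = 1 := fun w hw => Subtype.ext
      ((hCs s (by rw [orderOf_coe, hs2])).2 w (mem_CC.2 (congrArg Subtype.val (mem_CC.1 hw).eq)))
    have h2 : {s' ∈ I | CC s' = CC s} = ({w : H | w ∈ CC s} : Finset H).erase 1 := by
      ext w
      simp only [hI, mem_filter, mem_univ, true_and, mem_erase]
      constructor
      · rintro ⟨h3, h4⟩
        exact ⟨H20.ne_one_of_orderOf_two h3, h4 ▸ mem_CC.2 (Commute.refl w)⟩
      · rintro ⟨h3, h4⟩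
        have h5 := H20.orderOf_two_of (hsq w h4) h3
        refine ⟨h5, (eq_of_le_of_card_ge (fun v hv => mem_CC.2 ?_)
          (by rw [hCH w h5, hCH s hs2])).symm⟩
        have h6 := hsq _ (mul_mem h4 hv)
        change w * v = v * w
        calc w * v = (w * v)⁻¹ := (inv_eq_of_mul_eq_one_right h6).symm
          _ = v * w := by
            rw [mul_inv_rev, inv_eq_of_mul_eq_one_right (hsq w h4),
              inv_eq_of_mul_eq_one_right (hsq v hv)]
    rw [h2, card_erase_of_mem (mem_filter.2 ⟨mem_univ _, one_mem _⟩),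
      ← H20.natCard_subtype_eq_filter]
    exact (congrArg (· - 1) (hCH s hs2)).symm.dvd
  rw [hIc, show 2 * r - 1 = (r - 1) * 2 + 1 by omega] at hdv
  have := Nat.dvd_one.1 ((Nat.dvd_add_right (dvd_mul_right _ _)).1 hdv)
  omega

end Cfsg.Agent.H7
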