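import Mathlib
import Cfsg.Agent.H7.BR5
import Cfsg.Agent.H16.PrimeDeg2

/-!
Permutation groups of prime degree `p` with Sylow normalizer of order `2 p`.
-/

set_option autoImplicit false
set_option linter.unusedSectionVars false
set_option linter.unusedVariables false
set_option linter.style.haveILetI false

namespace Cfsg.Agent.H7

open Cfsg Subgroup Finset Cfsg.Agent.H24.D1 Cfsg.Agent.H23 MulAction
open scoped MatrixGroups ComplexConjugate

variable {G : Type*} [Group G] [Finite G] {p : ℕ} [hp : Fact p.Prime] {x : G}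

theorem trans_of_dvd {Ω : Type*} [MulAction G Ω] [FaithfulSMul G Ω] [Finite Ω]
    (hΩ : Nat.card Ω = p) (hd : p ∣ Nat.card G) : IsPretransitive G Ω := by
  obtain ⟨c, hc⟩ := exists_prime_orderOf_dvd_card' (G := G) p hd
  obtain ⟨e, he⟩ := H16.exists_coord hΩ hc
  refine ⟨fun a b => ?_⟩
  obtain ⟨i, rfl⟩ := e.surjective a
  obtain ⟨j, rfl⟩ := e.surjective b
  exact ⟨c ^ (j - i).val, by rw [H16.coord_pow he]; simp⟩

theorem prime_deg_e2 {Ω : Type*} [MulAction G Ω] [FaithfulSMul G Ω] [Finite Ω] (hp2 : 2 < p)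
    (hΩ : Nat.card Ω = p) (P : Sylow p G)
    (hN : Nat.card (normalizer ((P : Subgroup G) : Set G)) = 2 * p)
    (hP : ¬ (P : Subgroup G).Normal) : ∃ (a : ℕ) (F : Type) (_ : Field F) (_ : Fintype F),
      p = 2 ^ a + 1 ∧ Fintype.card F = 2 ^ a ∧ Nonempty (G ≃* SL(2, F)) := by
  classical
  haveI := Fintype.ofFinite G
  have hd : p ∣ Nat.card G := (dvd_mul_left p 2).trans (hN ▸ card_subgroup_dvd_card _)
  haveI := trans_of_dvd hΩ hd
  obtain ⟨a⟩ : Nonempty Ω := (Nat.card_pos_iff.1 (by omega)).1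
  haveI : Nonempty Ω := ⟨a⟩
  have hPc := H16.card_sylow_prime_deg hΩ P
  have hp3 : 3 < p := by
    by_contra hc
    obtain rfl : p = 3 := by omega
    haveI := Fintype.ofFinite Ω
    have h1 := card_dvd_of_injective (toPermHom G Ω) toPerm_injective
    rw [Nat.card_perm, hΩ] at h1
    have h2 := Nat.le_of_dvd (by decide) h1
    refine hP (normalizer_eq_top_iff.1 (eq_top_of_le_card _ ?_))
    rw [hN]; exact h2
  obtain ⟨x, hx, hxP⟩ := exists_syl1 P hPc
  have hnorm : ∀ K : Subgroup G, K.Normal → K ≠ ⊥ → p ∣ Nat.card K ∧ Nat.card K ≠ p :=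
    fun K hK h1 => by
      have h2 := H16.sylow_le_normal_prime_deg hΩ P K h1
      refine ⟨hPc ▸ card_dvd_of_le h2, fun e => hP ?_⟩
      rwa [eq_of_le_of_card_ge h2 (by rw [e, hPc])]
  have h : SC p x := ⟨hx.ord, by
    rw [hxP, ← H16.centralizer_sylow_prime_deg hΩ P, ← hxP, zpowers_eq_closure, centralizer_closure]⟩
  have he : (CC x).relIndex (NN x) = 2 := by
    have := h.card_NN
    rw [NN, hxP, hN, mul_comm] at this
    rw [NN, hxP]
    exact (Nat.eq_of_mul_eq_mul_left hp.out.pos this).symm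
  have hG := SC_perfect h he hnorm
  have hGH := H16.card_eq_card_mul_stabilizer (G := G) a
  set H := stabilizer G a with hH
  have hHp : ¬ p ∣ Nat.card H := fun hd => hx.not_sq_dvd (by
    rw [hGH, pow_two, hΩ]
    exact Nat.mul_dvd_mul_left p hd)
  set θ := ind H.subtype (fun _ => (1 : ℂ)) with hθ
  have hθc : IsCharacter G θ := char_ind _ char_one
  have hθf : ∀ g, (Nat.card (fixedBy Ω g) : ℂ) = θ g := fun g => by
    rw [hθ, ind_subtype, ← H6.perm_eq_indFun Ω a]
  have hθ1 : θ 1 = p := by rw [← hθf, fixedBy_one_eq_univ, Nat.card_univ, hΩ]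
  have hθi : ip θ 1 = 1 := by
    rw [hθ, ip_ind_left _ _ cf_one]; exact ip_irr_self irr_one
  obtain ⟨χ, hχ1, hχm, hχd, -⟩ := e2_perm h he hp3 hG hθc (fun g hg =>
    ind_apply_eq_zero _ _ fun y k e => absurd (by
      rw [show (k : G) = y⁻¹ * g * y from e, orderOf_conj']; exact hg)
      fun hd : p ∣ orderOf (k : G) => hHp (hd.trans (orderOf_dvd_natCard H k.2))) hθi
    (by rw [charDegree_eq hθ1]; omega)
  have hne : χ.1 ≠ 1 := fun e => hχ1 (Subtype.ext e)
  have hc1 := char_sub_irr hθc irr_one (by rw [hθi]; exact one_ne_zero)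
  have hi1 : ip (θ - 1) χ.1 = 1 := by rw [ip_sub_left, hχm, ip_irr_ne irr_one χ.2 hne.symm, sub_zero]
  have hd : charDegree χ.1 = p - 1 := hχd.resolve_right fun e => by
    have := deg_le_of_ip hθc χ.2 (by rw [hχm]; exact one_ne_zero)
    rw [charDegree_eq hθ1] at this
    omega
  have heq := eq_irr_of_degree_eq hc1 χ.2 (by rw [hi1]; exact one_ne_zero) (by
    rw [Pi.sub_apply, hθ1, H8.irr_one_eq, hd, Nat.cast_sub (by omega)]; simp)
  have hfa : ∀ g, χ.1 g = χ.1 1 → g = 1 := fun g hg => by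
    haveI := H6.charKer_normal (irr_cf χ.2)
    by_contra hc
    have h2 := h.commutator_le_of_dvd (hnorm (H6.charKer χ.1) this
      fun e => hc (mem_bot.1 (e ▸ (H6.mem_charKer_iff_irr χ.2).2 hg))).1
    rw [hG, top_le_iff] at h2
    exact hne (H6.irr_eq_one_of_charKer_eq_top χ.2 h2)
  obtain ⟨j₀, hj₀, -⟩ := SC_exists_inv_NN h (by rw [he]; exact even_two)
  obtain ⟨-, -, -, -, -, -, -, -, -, b, K, _, _, hK, hpb, -, e⟩ :=
    e2_main h he hp3 χ.2 hd hfa fun {_} => fs_ne_of_perm (Ω := Ω) hj₀ (Or.inl rfl) fun g => by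
      rw [hθf, ← heq]; simp
  exact ⟨b, K, inferInstance, inferInstance, hpb, hK, e⟩

end Cfsg.Agent.H7
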