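import Mathlib
import Cfsg.Agent.H7.BT3

/-!
The theorem of Brauer and Tuan on simple groups of order `p q^b g₀` with `g₀ < p - 1`.
-/

set_option autoImplicit false
set_option linter.unusedSectionVars false
set_option linter.unusedVariables false
set_option linter.style.haveILetI false

namespace Cfsg.Agent.H7

open Cfsg Subgroup Finset Cfsg.Agent.H24.D1 Cfsg.Agent.H23 Cfsg.Agent.H9.P1
open Cfsg.Agent.H8 (irrOne)
open scoped MatrixGroups ComplexConjugate Pointwise

variable {G : Type*} [Group G] [Finite G] {p : ℕ} [hp : Fact p.Prime] {x : G}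

theorem simple_faithful [IsSimpleGroup G] {χ : IrrCharacter G} (h : χ ≠ irrOne G) (g : G)
    (hg : χ.1 g = χ.1 1) : g = 1 := by
  have := (H6.mem_charKer_iff_irr χ.2).2 hg
  rwa [H6.charKer_eq_bot_of_simple χ.2 fun e => h (Subtype.ext e)] at this

theorem SC_of_Cen (h : Syl1 p x) (hC : Cen p x) (hZ : center G = ⊥) : SC p x :=
  ⟨h.ord, le_antisymm (fun c hc => by
    obtain ⟨a, z, hz, -, rfl⟩ := hC.eq_mul h hc
    rw [hZ, mem_bot] at hz
    rw [hz, mul_one]
    exact npow_mem_zpowers x _) (zp_le_CC x)⟩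

theorem brauer_tuan [IsSimpleGroup G] (hnc : ¬ IsMulCommutative G) {q b g₀ : ℕ} (hq : q.Prime)
    (hpq : p ≠ q) (hc : Nat.card G = p * q ^ b * g₀) (hg : g₀ < p - 1) :
    (∃ m, (p = 2 ^ m + 1 ∨ p = 2 ^ m - 1) ∧ Nonempty (G ≃* PSL(2, ZMod p))) ∨
      ∃ (m : ℕ) (F : Type) (_ : Field F) (_ : Fintype F), Fintype.card F = 2 ^ m ∧
        p = 2 ^ m + 1 ∧ 3 < p ∧ Nonempty (G ≃* PSL(2, F)) := by
  classical
  have hG := H20.simple_commutator_eq_top hnc
  have hZ := H20.simple_center_eq_bot hnc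
  have hg0 : 0 < g₀ := Nat.pos_of_ne_zero fun e => by
    rw [e, mul_zero] at hc; exact Nat.card_pos.ne' hc
  have hdiv : p ∣ Nat.card G := by rw [hc, mul_assoc]; exact dvd_mul_right _ _
  have hsq : ¬ p ^ 2 ∣ Nat.card G := fun h => by
    rw [hc, mul_assoc, pow_two, Nat.mul_dvd_mul_iff_left hp.out.pos] at h
    rcases (Nat.Prime.dvd_mul hp.out).1 h with h | h
    · exact hpq ((Nat.prime_dvd_prime_iff_eq hp.out hq).1 (hp.out.dvd_of_dvd_pow h))
    · have := Nat.le_of_dvd hg0 h; omega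
  obtain ⟨P⟩ : Nonempty (Sylow p G) := inferInstance
  obtain ⟨x, h, hx⟩ := exists_syl1 P (card_sylow_eq hdiv hsq P)
  have hn : ¬ (zpowers x).Normal := hx ▸ H20.simple_sylow_not_normal hnc P hdiv
  obtain ⟨M, hM⟩ := H9.exists_pmod p
  obtain ⟨X, ψ, ε, δ, F, h1⟩ := h.exists_fam_principal hM
  have hdeg : ∀ χ : IrrCharacter G, ¬ p ∣ charDegree χ.1 → ¬ q ∣ charDegree χ.1 →
      charDegree χ.1 ∣ g₀ := fun χ a b => by
    have h2 := H8.charDegree_dvd_card χ
    rw [hc] at h2
    exact (Nat.Coprime.mul_right ((hp.out.coprime_iff_not_dvd).2 a).symm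
      (Nat.Coprime.pow_right _ ((hq.coprime_iff_not_dvd).2 b).symm)).dvd_of_dvd_mul_left h2
  have hX : ∀ χ ∈ X, χ ≠ irrOne G → q ∣ charDegree χ.1 := fun χ hχ hne => by
    by_contra hq'
    have h2 := le_deg_of_const h (irr_char χ.2)
      (fun e => h.ne_one (simple_faithful hne x e)) (c := ε χ) fun a ha => F.val₀ hχ (dvd_pow h ha)
    have h3 := Nat.le_of_dvd hg0 (hdeg χ (fun hd => by
      have h4 := (Int.modEq_zero_iff_dvd.2 (Int.natCast_dvd_natCast.2 hd)).symm.trans (F.degX₀ hχ)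
      have h5 := Int.modEq_zero_iff_dvd.1 h4.symm
      rcases F.sε χ hχ with e | e <;> rw [e] at h5
      · exact hp.out.one_lt.ne' (by exact_mod_cast Int.eq_one_of_dvd_one (by positivity) h5)
      · exact hp.out.one_lt.ne' (by
          exact_mod_cast Int.eq_one_of_dvd_one (by positivity) (dvd_neg.1 h5))) hq')
    omega
  have hel : ee x < p := by
    have := Nat.le_of_dvd (by omega) h.relIndex_dvd
    change ee x ≤ p - 1 at this
    omega
  have he0 := ee_pos x
  have hψ : charDegree (ψ 1).1 ∣ g₀ := by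
    refine hdeg _ (fun hd => ?_) fun hd => ?_
    · have h4 := (Int.modEq_zero_iff_dvd.2 (Int.natCast_dvd_natCast.2 hd)).symm.trans (F.degY₀ 1)
      have h5 := Int.modEq_zero_iff_dvd.1 h4.symm
      have h6 : (p : ℤ) ∣ ee x := by
        rcases F.sδ with e | e <;> rw [e] at h5 <;> simpa using h5
      have := Nat.le_of_dvd he0 (Int.natCast_dvd_natCast.1 h6)
      omega
    · have h4 := F.deg_rel 1
      rw [← add_sum_erase _ _ h1, PB.eps_one F h1, deg_one] at h4
      have h5 : (q : ℤ) ∣ 1 := by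
        have h6 : (q : ℤ) ∣ ∑ χ ∈ X.erase (irrOne G), ε χ * charDegree χ.1 :=
          dvd_sum fun χ hχ => (Int.natCast_dvd_natCast.2
            (hX χ (mem_erase.1 hχ).2 (mem_erase.1 hχ).1)).mul_left _
        have h7 := (Int.natCast_dvd_natCast.2 hd).mul_left δ
        rw [h4] at h7
        simpa using (dvd_add_left h6).1 h7
      exact hq.one_lt.ne' (by exact_mod_cast Int.eq_one_of_dvd_one (by positivity) h5)
  have hψ' := Nat.le_of_dvd hg0 hψ
  have hf := simple_faithful (PB.psi_ne F h1 1)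
  obtain ⟨-, hC, he1, he, θ, X', ψ', ε', δ', i, -, -, -, hcase⟩ :=
    small_struct h hn hM (ψ 1) hf (by omega)
  have hS := SC_of_Cen h hC hZ
  have hg1 : g₀ = charDegree (ψ 1).1 := by
    obtain ⟨k, hk⟩ := hψ
    have h2 : p ≤ 2 * charDegree (ψ 1).1 + 1 := by rcases hcase with a | a <;> omega
    have h3 : k < 2 := by
      by_contra hc
      have := Nat.mul_le_mul_left (charDegree (ψ 1).1) (not_lt.1 hc)
      omega
    interval_cases k <;> omega
  rcases hcase with ⟨-, -, hd, he'⟩ | ⟨-, hd⟩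
  · obtain ⟨e⟩ := psl_of_half h hn (irr_char (ψ 1).2) hf (by omega)
    have e' : G ≃* PSL(2, ZMod p) :=
      ((QuotientGroup.quotientMulEquivOfEq hZ).trans QuotientGroup.quotientBot).symm.trans e
    refine Or.inl ⟨b, Or.inr ?_, ⟨e'⟩⟩
    have h2 := H10.card_PSL2 (F := ZMod p)
    rw [← Nat.card_congr e'.toEquiv, Nat.card_zmod, hc, hg1, hd, show p - 1 = 2 * ee x by omega,
      Nat.gcd_mul_right_right] at h2
    have h3 : q ^ b = p + 1 := by
      apply Nat.eq_of_mul_eq_mul_left (show 0 < 2 * p * ee x by have := hp.out.pos; positivity)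
      linarith
    have h4 : 2 = q := (Nat.prime_dvd_prime_iff_eq Nat.prime_two hq).1
      (Nat.prime_two.dvd_of_dvd_pow (n := b) (by omega))
    rw [h4, h3]; rfl
  have hδ : δ = -1 := F.sδ.resolve_left fun e => by
    have h4 := (F.degY₀ 1).dvd
    rw [e, show (charDegree (ψ 1).1 : ℤ) = p - ee x by omega] at h4
    have h5 : (p : ℤ) ∣ 2 * ee x := by
      have := dvd_add h4 (dvd_refl (p : ℤ))
      rwa [show (1 : ℤ) * ((CC x).relIndex (NN x) : ℕ) - (p - ee x) + p = 2 * ee x by ring] at this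
    have := Int.le_of_dvd (by omega) h5
    omega
  subst hδ
  have hd' : ∀ j, charDegree (ψ j).1 + ee x = p := fun j => by rw [F.deg_eq j 1, hd]
  have he2 : 2 ≤ ee x := by omega
  have hev := N_even hS hM F h1 hd' he he2
  have hedvd : ee x ∣ q ^ b := by
    have h2 : p * ee x ∣ p * (q ^ b * g₀) := by
      rw [← hS.card_NN, ← mul_assoc, ← hc]; exact card_subgroup_dvd_card _
    refine Nat.Coprime.dvd_of_dvd_mul_right ?_ (Nat.dvd_of_mul_dvd_mul_left hp.out.pos h2)
    rw [hg1, ← Nat.coprime_add_self_right, hd]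
    exact ((hp.out.coprime_iff_not_dvd).2 fun hc => by
      have := Nat.le_of_dvd he0 hc; omega).symm
  obtain rfl : 2 = q := (Nat.prime_dvd_prime_iff_eq Nat.prime_two hq).1
    (Nat.prime_two.dvd_of_dvd_pow (hev.two_dvd.trans hedvd))
  obtain ⟨f, -, hef⟩ := (Nat.dvd_prime_pow Nat.prime_two).1 hedvd
  by_cases ht : 2 * ee x + 1 = p
  · obtain ⟨T⟩ : Nonempty (Sylow 2 G) := inferInstance
    have hm : p = 2 ^ (f + 1) + 1 := by rw [pow_succ]; omega
    have h2 := N_two_bound hS hM F h1 hd' ht he2 hG (fun χ hχ => by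
        by_cases hc : χ = irrOne G
        · rw [hc, deg_one]; omega
        · have := hX χ hχ hc; omega)
      (fun χ hχ => by
        rw [H6.charCenter_eq_center χ.2 (H9.P1.charKer_eq_bot (simple_faithful hχ)), hZ]) hm T
    have h3 : 2 ^ b ≤ Nat.card T := Nat.le_of_dvd Nat.card_pos
      (T.pow_dvd_card_of_pow_dvd_card (by rw [hc]; exact Dvd.intro_left (p * g₀) (by ring)))
    have h4 : g₀ = ee x + 1 := by omega
    have h5 : 2 ^ b ≤ 2 * ee x := by
      have h6 := (Nat.mul_le_mul_right (p * (p + 1)) (Nat.pow_le_pow_left h3 2)).trans h2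
      rw [hc, h4, show p + 1 = 2 * (ee x + 1) by omega] at h6
      have h7 : 0 < 2 ^ b * p * (2 * (ee x + 1)) :=
        Nat.mul_pos (Nat.mul_pos (Nat.two_pow_pos _) hp.out.pos) (by omega)
      exact Nat.le_of_mul_le_mul_left (by linarith) h7
    obtain ⟨n, hn'⟩ := exists_index_NN h
    have h6 := SC_card hS hn'
    have h7 := SC_n_pos hS hG hn'
    have h8 : 1 + n * p ≤ p + 1 := by
      rw [hc, h4] at h6
      have h9 : p * ee x * (1 + n * p) ≤ p * ee x * (p + 1) := by
        change p * 2 ^ b * (ee x + 1) = p * ee x * (1 + n * p) at h6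
        rw [← h6, show p + 1 = 2 * (ee x + 1) by omega]
        calc p * 2 ^ b * (ee x + 1) ≤ p * (2 * ee x) * (ee x + 1) := by gcongr
          _ = _ := by ring
      exact Nat.le_of_mul_le_mul_left h9 (by have := hp.out.pos; positivity)
    have h9 : n = 1 := by have := hp.out.pos; nlinarith
    exact Or.inl ⟨f + 1, Or.inl hm, (psl_of_SC_index hS hG (by rw [hn', h9]; ring)).2.2⟩
  rcases f with _ | _ | f
  · omega
  · have h7 : 7 ≤ p := by
      have : p ≠ 6 := by rintro rfl; exact absurd hp.out (by norm_num)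
      omega
    obtain ⟨-, a, K, _, _, ha, hK, ⟨e⟩⟩ := sl_of_perfect h hn
      ((IsSimpleGroup.eq_bot_or_eq_top_of_normal (NC x) inferInstance).resolve_left fun e =>
        h.ne_one (by have := mem_NC x; rwa [e] at this)) h7 (ψ 1) hf (by omega)
    obtain ⟨e'⟩ := psl_sl_of_even (K := K) (by
      rw [Nat.card_eq_fintype_card, hK]
      rcases a with _ | a
      · omega
      · exact (even_two.mul_left _ : Even (2 ^ a * 2)))
    exact Or.inr ⟨a, K, inferInstance, inferInstance, hK, ha, by omega, ⟨e.trans e'.symm⟩⟩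
  · exfalso
    obtain ⟨k, hk, hko, -⟩ := hS.exists_gen
    change orderOf k = ee x at hko
    have h2 : 0 < 2 ^ f := by positivity
    refine ht (N_t_two hS hM F h1 hd' he he2 (j := ⟨k, hk⟩ ^ 2 ^ f * ⟨k, hk⟩ ^ 2 ^ f) ?_ ?_)
    · change orderOf (k ^ 2 ^ f * k ^ 2 ^ f) = 2
      rw [← pow_add]
      refine orderOf_eq_prime ?_ (pow_ne_one_of_lt_orderOf (by omega) ?_)
      · rw [← pow_mul, ← orderOf_dvd_iff_pow_eq_one, hko, hef]
        exact dvd_of_eq (by ring)
      · rw [hko, hef, pow_succ, pow_succ]; omega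
    · rw [N_rho_mul hS F hd', N_rho_sq hS hM F hd' he he2]

end Cfsg.Agent.H7
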