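import Mathlib
import Cfsg.Agent.H7.BT4
import Cfsg.Agent.H7.Gal
import Cfsg.Agent.S0483
import Cfsg.Agent.S0992
import Cfsg.Agent.H10.SmallIso

/-!
Simple groups of order `4 p^a q^b` and `3 p^a q^b`.
-/

set_option autoImplicit false
set_option linter.unusedSectionVars false
set_option linter.unusedVariables false
set_option linter.style.haveILetI false

namespace Cfsg.Agent.H7

open Cfsg Subgroup Finset Cfsg.Agent.H24.D1 Cfsg.Agent.H23 Cfsg.Agent.H9.P1
open Cfsg.Agent.H8 (irrOne)
open scoped MatrixGroups ComplexConjugate Pointwise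

theorem not_three_coprime {p q a b u v w : ℕ} (hp : p.Prime) (hq : q.Prime) (hu : u ≠ 1)
    (hv : v ≠ 1) (hw : w ≠ 1) (huv : u.Coprime v) (huw : u.Coprime w) (hvw : v.Coprime w)
    (h : u * v * w = p ^ a * q ^ b) : False := by
  have key : ∀ n, n ≠ 1 → n ∣ p ^ a * q ^ b → p ∣ n ∨ q ∣ n := fun n hn hd => by
    have h1 := Nat.minFac_prime hn
    rcases (Nat.Prime.dvd_mul h1).1 ((Nat.minFac_dvd n).trans hd) with e | e
    · exact Or.inl (((Nat.prime_dvd_prime_iff_eq h1 hp).1 (h1.dvd_of_dvd_pow e)) ▸ Nat.minFac_dvd n)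
    · exact Or.inr (((Nat.prime_dvd_prime_iff_eq h1 hq).1 (h1.dvd_of_dvd_pow e)) ▸ Nat.minFac_dvd n)
  have no : ∀ {r m n : ℕ}, r.Prime → m.Coprime n → r ∣ m → r ∣ n → False := fun hr hc h1 h2 =>
    hr.one_lt.ne' (Nat.eq_one_of_dvd_coprimes hc h1 h2)
  rcases key u hu (h ▸ (dvd_mul_right u v).mul_right w) with h1 | h1 <;>
  rcases key v hv (h ▸ (dvd_mul_left v u).mul_right w) with h2 | h2 <;>
  rcases key w hw (h ▸ dvd_mul_left w _) with h3 | h3 <;>
  first
    | exact no hp huv h1 h2 | exact no hq huv h1 h2 | exact no hp huw h1 h3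
    | exact no hq huw h1 h3 | exact no hp hvw h2 h3 | exact no hq hvw h2 h3

variable {G : Type*} [Group G] [Finite G] [IsSimpleGroup G]

theorem simple_four (hnc : ¬ IsMulCommutative G) {p q a b : ℕ} (hp : p.Prime) (hq : q.Prime)
    (hc : Nat.card G = 4 * p ^ a * q ^ b) : Nonempty (G ≃* alternatingGroup (Fin 5)) := by
  have hns := H20.simple_not_solvable hnc
  have hp2 : p ≠ 2 := by
    rintro rfl
    exact hns (H6.isSolvable_of_card_dvd (a := a + 2) (b := b) hp hq
      (dvd_of_eq (by rw [hc]; ring)))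
  have hq2 : q ≠ 2 := by
    rintro rfl
    exact hns (H6.isSolvable_of_card_dvd (a := a) (b := b + 2) hp hq
      (dvd_of_eq (by rw [hc]; ring)))
  have hodd : Odd (p ^ a * q ^ b) := (hp.odd_of_ne_two hp2).pow.mul (hq.odd_of_ne_two hq2).pow
  rw [mul_assoc] at hc
  obtain ⟨T⟩ : Nonempty (Sylow 2 G) := inferInstance
  haveI := (S0992.result hnc (by rw [hc]; exact Even.mul_right (by norm_num) _) (by
    rw [hc]; rcases hodd with ⟨k, hk⟩; omega) T).1
  haveI : Group.IsPerfect G := ⟨H20.simple_commutator_eq_top hnc⟩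
  have hO : oddCore G = ⊥ := by
    haveI : (oddCore G).Characteristic := H2.pPrimeCore_characteristic (p := 2)
    refine (IsSimpleGroup.eq_bot_or_eq_top_of_normal _ inferInstance).resolve_right fun e => ?_
    have := (H2.pPrimeCore_eq_top_iff (p := 2)).1 e
    rw [hc] at this
    exact absurd (Nat.Coprime.coprime_mul_right this) (by norm_num)
  have e0 : G ≃* G ⧸ oddCore G :=
    ((QuotientGroup.quotientMulEquivOfEq hO).trans QuotientGroup.quotientBot).symm
  rcases S0483.result T 2 le_rfl IsKleinFour.nonempty_mulEquiv with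
    ⟨F, _, _, ho, h3, ⟨e⟩⟩ | ⟨⟨e⟩⟩
  · obtain ⟨u, hu⟩ := ho
    have h2 := H10.card_PSL2 (F := F)
    rw [← Nat.card_congr (e0.trans e).toEquiv, Nat.card_eq_fintype_card (α := F), hc, hu,
      Nat.add_sub_cancel, Nat.gcd_mul_right_right] at h2
    have h4 : u = 2 := by
      by_contra hu2
      rcases Nat.even_or_odd' u with ⟨w, rfl | rfl⟩
      · refine not_three_coprime (a := a) (b := b) (u := w) (v := 2 * w + 1) (w := 2 * (2 * w) + 1)
          hp hq (by omega) (by omega) (by omega) (by simp) ?_ ?_ (by linarith)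
        · rw [← mul_assoc]; simp
        · rw [show 2 * (2 * w) + 1 = 2 * w + (2 * w + 1) by ring, Nat.coprime_add_self_right]
          simp
      · refine not_three_coprime (a := a) (b := b) (u := w + 1) (v := 2 * w + 1)
          (w := 2 * (2 * w + 1) + 1) hp hq (by omega) (by omega) (by omega) ?_ ?_ (by simp)
          (by linarith)
        · rw [show 2 * w + 1 = w + (w + 1) by ring, Nat.coprime_add_self_right]; simp
        · refine Nat.Coprime.coprime_dvd_left (Dvd.intro_left 4 rfl) ?_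
          rw [show 4 * (w + 1) = 1 + (2 * (2 * w + 1) + 1) by ring, Nat.coprime_add_self_left]
          simp
    obtain ⟨e'⟩ := H10.PSL2_five_equiv (F := F) (by rw [Nat.card_eq_fintype_card, hu, h4]; rfl)
    exact ⟨(e0.trans e).trans e'⟩
  · exfalso
    have h2 := two_mul_nat_card_alternatingGroup (α := Fin 7)
    rw [← Nat.card_congr (e0.trans e).toEquiv, hc, Nat.card_perm, Nat.card_fin] at h2
    rcases hodd with ⟨k, hk⟩
    simp only [Nat.factorial] at h2
    omega

theorem not_deg_prime (hnc : ¬ IsMulCommutative G) {p : ℕ} [hp : Fact p.Prime] (P : Sylow p G)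
    (hP : Nat.card P = p ^ 2) (χ : IrrCharacter G) : charDegree χ.1 ≠ p := fun hd => by
  have hne : χ ≠ irrOne G := by
    rintro rfl
    rw [deg_one] at hd
    exact hp.out.one_lt.ne hd
  have h0 : ∀ u : (P : Subgroup G), u ≠ 1 → χ.1 u = 0 := fun u hu => by
    refine (H6.eq_zero_or_mem_charCenter_of_coprime χ.2 (H8.irr_one_eq χ) ?_).resolve_right
      fun hc => ?_
    · rw [hd]
      refine (hp.out.coprime_iff_not_dvd).2 fun hc => P.not_dvd_index (hc.trans
        (index_dvd_of_le fun v hv => mem_CC.2 ?_))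
      exact congrArg Subtype.val ((IsPGroup.isMulCommutative_of_card_eq_prime_sq hP).is_comm.comm
        u ⟨v, hv⟩)
    · rw [H6.charCenter_eq_center χ.2 (H9.P1.charKer_eq_bot (simple_faithful hne)),
        H20.simple_center_eq_bot hnc] at hc
      exact hu (Subtype.ext hc)
  have h1 := ip_one_of_vanish (φ := fun u : (P : Subgroup G) => χ.1 u) h0
  obtain ⟨n, hn⟩ := ip_char_nat (char_comp (P : Subgroup G).subtype (irr_char χ.2)) char_one
  have h2 : (n : ℂ) = (Nat.card P : ℂ)⁻¹ * χ.1 1 := hn.symm.trans h1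
  rw [hP, H8.irr_one_eq, hd] at h2
  have h3 : (p : ℂ) ≠ 0 := p_ne
  have h4 : ((p * n : ℕ) : ℂ) = (1 : ℕ) := by
    push_cast at h2 ⊢; rw [h2]; field_simp
  exact hp.out.one_lt.ne' (Nat.eq_one_of_mul_eq_one_right (by exact_mod_cast h4))

theorem simple_three (hnc : ¬ IsMulCommutative G) {p q a b : ℕ} (hp : p.Prime) (hq : q.Prime)
    (hpq : p ≠ q) (ha : a ≤ 2) (hc : Nat.card G = 3 * p ^ a * q ^ b) :
    Nonempty (G ≃* alternatingGroup (Fin 5)) ∨ Nonempty (G ≃* PSL(2, ZMod 7)) := by
  classical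
  have hns := H20.simple_not_solvable hnc
  have hp3 : p ≠ 3 := by
    rintro rfl
    exact hns (H6.isSolvable_of_card_dvd (a := a + 1) (b := b) hp hq
      (dvd_of_eq (by rw [hc]; ring)))
  have hq3 : q ≠ 3 := by
    rintro rfl
    exact hns (H6.isSolvable_of_card_dvd (a := a) (b := b + 1) hp hq
      (dvd_of_eq (by rw [hc]; ring)))
  have hev : ¬ Odd (Nat.card G) := fun h => hns (FT.odd_order_solvable h)
  by_cases hp2 : p = 2
  · subst hp2
    have ho := (hq.odd_of_ne_two hpq.symm).pow (n := b)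
    obtain ⟨T⟩ : Nonempty (Sylow 2 G) := inferInstance
    have h4 := (S0992.result hnc (Nat.not_odd_iff_even.1 hev) (by
      rw [hc]; rcases ho with ⟨k, hk⟩; rw [hk]; interval_cases a <;> omega) T).1.card_four
    have h5 := card_subgroup_dvd_card (T : Subgroup G)
    rw [h4, hc] at h5
    obtain rfl : a = 2 := by
      rcases ho with ⟨k, hk⟩; rw [hk] at h5; interval_cases a <;> omega
    exact Or.inl (simple_four hnc (a := 1) (b := b) Nat.prime_three hq (by rw [hc]; ring))
  obtain rfl : q = 2 := by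
    by_contra hq2
    exact hev (by
      rw [hc]
      exact ((by norm_num : Odd 3).mul (hp.odd_of_ne_two hp2).pow).mul (hq.odd_of_ne_two hq2).pow)
  have hp5 : 5 ≤ p := hp.five_le_of_ne_two_of_ne_three hp2 hp3
  haveI := Fact.mk hp
  obtain ⟨u, hu⟩ := hp.odd_of_ne_two hp2
  have hodd : ∀ o : ℕ, Odd o → o ∣ 3 * 2 ^ b → o = 1 ∨ o = 3 := fun o ho hd =>
    (Nat.dvd_prime Nat.prime_three).1 ((Nat.Coprime.pow_right _
      (Nat.coprime_two_right.2 ho)).dvd_of_dvd_mul_right hd)
  interval_cases a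
  · exact (hns (H6.isSolvable_of_card_dvd (a := 1) (b := b) Nat.prime_three hq
      (dvd_of_eq (by rw [hc]; ring)))).elim
  · rcases brauer_tuan (p := p) (b := b) (g₀ := 3) hnc hq hpq (by rw [hc]; ring) (by omega) with
      ⟨m, -, ⟨e⟩⟩ | ⟨m, F, _, _, hF, hm, -, ⟨e⟩⟩
    · have h2 := H10.card_PSL2 (F := ZMod p)
      rw [← Nat.card_congr e.toEquiv, Nat.card_zmod, hc, show p - 1 = 2 * u by omega,
        Nat.gcd_mul_right_right] at h2
      have h3 : 2 * (u * (u + 1)) = 3 * 2 ^ b := by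
        apply Nat.eq_of_mul_eq_mul_left (show 0 < 2 * p by omega)
        rw [show p + 1 = 2 * (u + 1) by omega] at h2
        linarith
      have h4 : p = 5 ∨ p = 7 := by
        rcases Nat.even_or_odd u with h | h
        · have := hodd (u + 1) h.add_one (h3 ▸ (dvd_mul_left _ _).mul_left 2)
          omega
        · have := hodd u h (h3 ▸ (dvd_mul_right _ _).mul_left 2)
          omega
      rcases h4 with rfl | rfl
      · obtain ⟨e'⟩ := H10.PSL2_five_equiv (F := ZMod 5) (Nat.card_zmod 5)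
        exact Or.inl ⟨e.trans e'⟩
      · exact Or.inr ⟨e⟩
    · have h2 := H10.card_PSL2 (F := F)
      have h1 : 2 ^ m = 2 * u := by omega
      rw [← Nat.card_congr e.toEquiv, Nat.card_eq_fintype_card (α := F), hF, hc, ← hm, h1,
        (Nat.coprime_two_left.2 ⟨u - 1, by omega⟩ : Nat.Coprime 2 (2 * u - 1))] at h2
      have h3 : 2 * u * (2 * u - 1) = 3 * 2 ^ b := by
        apply Nat.eq_of_mul_eq_mul_left hp.pos
        linarith
      have := hodd (2 * u - 1) ⟨u - 1, by omega⟩ (h3 ▸ dvd_mul_left _ _)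
      obtain ⟨e'⟩ := H10.PSL2_four_equiv (F := F) (by
        rw [Nat.card_eq_fintype_card, hF]; omega)
      exact Or.inl ⟨e.trans e'⟩
  exfalso
  haveI := Fact.mk Nat.prime_three
  have hG := H20.simple_commutator_eq_top hnc
  have h3 : ¬ 3 ∣ p ^ 2 * 2 ^ b := fun h => by
    rcases (Nat.Prime.dvd_mul Nat.prime_three).1 h with h | h
    · exact hp3 ((Nat.prime_dvd_prime_iff_eq Nat.prime_three hp).1
        (Nat.prime_three.dvd_of_dvd_pow h)).symm
    · exact absurd (Nat.prime_three.dvd_of_dvd_pow h) (by norm_num)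
  rw [mul_assoc] at hc
  obtain ⟨Q⟩ : Nonempty (Sylow 3 G) := inferInstance
  obtain ⟨x, h, -⟩ := exists_syl1 Q (card_sylow_eq (hc ▸ dvd_mul_right _ _) (fun h => h3 (by
    rwa [hc, pow_two, Nat.mul_dvd_mul_iff_left (by norm_num)] at h)) Q)
  obtain ⟨M, hM⟩ := H9.exists_pmod 3
  obtain ⟨X, ψ, ε, δ, F, h1⟩ := h.exists_fam_principal hM
  have he : #X = 2 := by
    rw [F.card₀]
    exact ((Nat.dvd_prime Nat.prime_two).1 h.relIndex_dvd).resolve_left
      (h.relIndex_ne_one (hG ▸ mem_top x))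
  obtain ⟨χ, hχ⟩ := card_eq_one.1 (show #(X.erase (irrOne G)) = 1 by
    rw [card_erase_of_mem h1, he])
  have hχ' : χ ∈ X.erase (irrOne G) := hχ ▸ mem_singleton_self χ
  have hr := F.deg_rel 1
  rw [← add_sum_erase _ _ h1, hχ, sum_singleton, PB.eps_one F h1, deg_one] at hr
  have h4 := F.degX₀ (mem_erase.1 hχ').2
  have h5 := deg_ne_one hG (mem_erase.1 hχ').1
  have h6 := deg_ne_one hG (PB.psi_ne F h1 1)
  obtain ⟨P⟩ : Nonempty (Sylow p G) := inferInstance
  have hP : Nat.card P = p ^ 2 := by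
    rw [P.card_eq_multiplicity, hc, Nat.factorization_mul (by norm_num) (by positivity),
      Nat.factorization_mul (by positivity) (by positivity)]
    simp [hp.factorization, Nat.prime_three.factorization, Nat.prime_two.factorization,
      Finsupp.single_apply, hp2, hp3, Ne.symm hp2, Ne.symm hp3]
  have key : ∀ o w : IrrCharacter G, 2 ≤ charDegree o.1 → ¬ 3 ∣ charDegree o.1 →
      ¬ 3 ∣ charDegree w.1 → Odd (charDegree o.1) →
      (charDegree w.1 = charDegree o.1 + 1 ∨ charDegree w.1 + 1 = charDegree o.1) → False := by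
    intro o w ho ho3 hw3 hodd hw
    have d1 := H8.charDegree_dvd_card o
    have d2 := H8.charDegree_dvd_card w
    rw [hc] at d1 d2
    have d3 := (Nat.Coprime.pow_right _ (Nat.coprime_two_right.2 hodd)).dvd_of_dvd_mul_right
      (((Nat.prime_three.coprime_iff_not_dvd).2 ho3).symm.dvd_of_dvd_mul_left d1)
    obtain ⟨k, hk, e⟩ := (Nat.dvd_prime_pow hp).1 d3
    interval_cases k
    · rw [pow_zero] at e; omega
    · exact not_deg_prime hnc P hP o (by rw [e, pow_one])
    have d4 : charDegree w.1 = p ^ 2 + 1 := by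
      have : p % 3 = 1 ∨ p % 3 = 2 := by
        have := mt (Nat.prime_dvd_prime_iff_eq Nat.prime_three hp).1 hp3.symm
        omega
      have : p ^ 2 % 3 = 1 := by rcases this with h | h <;> simp [Nat.pow_mod, h]
      omega
    have d5 := ((Nat.prime_three.coprime_iff_not_dvd).2 hw3).symm.dvd_of_dvd_mul_left d2
    rw [d4] at d5
    obtain ⟨j, -, hj⟩ := (Nat.dvd_prime_pow Nat.prime_two).1
      (Nat.Coprime.dvd_of_dvd_mul_left (Nat.coprime_self_add_left.2 (Nat.coprime_one_left _)) d5)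
    have : p ^ 2 + 1 = 4 * (u * u + u) + 2 := by rw [hu]; ring
    rw [this] at hj
    rcases j with _ | _ | j
    · omega
    · omega
    · rw [pow_succ 2, pow_succ 2] at hj
      omega
  unfold Int.ModEq at h4
  rcases Nat.even_or_odd' (charDegree χ.1) with ⟨w, hw | hw⟩
  · refine key (ψ 1) χ h6 ?_ ?_ (Nat.odd_iff.2 ?_) ?_ <;>
    rcases F.sε χ (mem_erase.1 hχ').2 with e | e <;> rcases F.sδ with e' | e' <;>
    rw [e] at h4 <;> rw [e, e'] at hr <;> omega
  · refine key χ (ψ 1) h5 ?_ ?_ (Nat.odd_iff.2 ?_) ?_ <;>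
    rcases F.sε χ (mem_erase.1 hχ').2 with e | e <;> rcases F.sδ with e' | e' <;>
    rw [e] at h4 <;> rw [e, e'] at hr <;> omega

end Cfsg.Agent.H7
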