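import Mathlib
import Cfsg.Prelude.Def_Characters
import Cfsg.Agent.H7.CT
import Cfsg.Agent.H7.Deg

/-!
Berger's theorem: quasi-primitive characters of solvable groups are primitive.
-/

namespace Cfsg.Agent.H7

open Cfsg
open scoped ComplexConjugate commutatorElement

universe u

section Basic

variable {G N : Type*} [Group G] [Group N] [Finite G] [Finite N]

/-- The restriction of `χ` along `f` is homogeneous. -/
def Homog (f : N →* G) (χ : G → ℂ) : Prop :=
  ∃ (ϑ : N → ℂ) (e : ℕ), IsIrrCharacter N ϑ ∧ (fun n => χ (f n)) = (e : ℂ) • ϑ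

theorem ip_ne_zero_of_eq_smul {φ ϑ : N → ℂ} (hϑ : IsIrrCharacter N ϑ) {e : ℂ} (h : φ = e • ϑ)
    (h1 : φ 1 ≠ 0) : ip φ ϑ ≠ 0 := by
  rw [h, ip_smul_left, ip_irr_self hϑ, mul_one]
  rintro rfl
  exact h1 (by rw [h]; simp)

theorem eq_of_ip_smul {ϑ η : N → ℂ} (hϑ : IsIrrCharacter N ϑ) (hη : IsIrrCharacter N η) {e : ℂ}
    (h : ip (e • ϑ) η ≠ 0) : ϑ = η := by
  rw [ip_smul_left] at h
  exact irr_eq_of_ip_ne_zero hϑ hη (right_ne_zero_of_mul h)

theorem IsPrim.homog {χ : G → ℂ} (hp : IsPrim χ) (hχ : IsIrrCharacter G χ) {f : N →* G}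
    (hf : IsNE f) : Homog f χ := by
  obtain ⟨θ, hθ, h⟩ := exists_irr_under f hχ
  obtain ⟨e, -, he⟩ := hf.clifford_inv_nat hχ hθ (hp.inv hχ hf hθ h) h
  exact ⟨θ, e, hθ, he⟩

theorem IsPrim.comp_surj {Q : Type*} [Group Q] [Finite Q] {π : G →* Q}
    (hπ : Function.Surjective π) {β : Q → ℂ} (hβ : IsIrrCharacter Q β) (hp : IsPrim β) :
    IsPrim (fun g => β (π g)) := by
  intro U θ hθ h
  have hi := irr_comp_surjective π hπ hβ
  have hθi : IsIrrCharacter U θ := irr_of_irr_ind U.subtype_injective hθ (h ▸ hi)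
  have h1 : π.ker ≤ U := by
    refine (H6.ker_le_charKer_comp (χ := β) π).trans ?_
    rw [← h]
    simpa using charKer_ind_le U.subtype_injective hθ (irr_one_ne_zero hθi)
  obtain ⟨V, rfl⟩ : ∃ V : Subgroup Q, U = V.comap π :=
    ⟨U.map π, (Subgroup.comap_map_eq_self h1).symm⟩
  have h2 : ip (fun x : V.comap π => β (π x)) θ ≠ 0 := by
    have := ip_ind_right (V.comap π).subtype θ (irr_cf hi)
    rw [h, ip_irr_self hi] at this
    simp only [Subgroup.coe_subtype] at this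
    rw [← this]
    exact one_ne_zero
  have h3 : (π.subgroupComap V).ker ≤ H6.charKer θ := by
    refine le_trans ?_ (charKer_le_of_ip (char_comp (V.comap π).subtype (irr_char hi)) hθi h2)
    intro x hx y
    have : π x = 1 := congrArg Subtype.val hx
    simp [this]
  obtain ⟨θ0, hθ0, e⟩ := H6.exists_irr_comp_eq _
    (π.subgroupComap_surjective_of_surjective V hπ) hθi h3
  have h4 := ind_comap hπ V (irr_cf hθ0)
  have h5 : ind V.subtype θ0 = β := by
    funext y
    obtain ⟨g, rfl⟩ := hπ y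
    have := congrFun h4 g
    rw [← this, ← congrFun h g, e]
    rfl
  rw [hp V θ0 (irr_char hθ0) h5, Subgroup.comap_top]

theorem IsPrim.of_mul {a b : G → ℂ} (hb : IsCharacter G b) (hp : IsPrim (a * b)) : IsPrim a := by
  intro U θ hθ h
  refine hp U (θ * fun x => b (U.subtype x)) (char_mul hθ (char_comp _ hb)) ?_
  rw [ind_mul_comp _ _ (char_cf hb), h]

theorem irr_of_irr_mul {a b : G → ℂ} (ha : IsCharacter G a) (hb : IsCharacter G b)
    (h : IsIrrCharacter G (a * b)) : IsIrrCharacter G a := by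
  have h0 : a ≠ 0 := by
    rintro rfl
    exact irr_ne_zero h (by simp)
  have hb0 : b 1 ≠ 0 := fun e => irr_one_ne_zero h (by simp [e])
  obtain ⟨c, hc, h1⟩ := exists_irr_ip_ne_zero (char_cf ha) h0
  have hcb := char_mul (irr_char hc) hb
  obtain ⟨d, hd, h2⟩ := exists_irr_ip_ne_zero (char_cf hcb) (fun e =>
    mul_ne_zero (irr_one_ne_zero hc) hb0 (congrFun e 1))
  have h3 : ip (a * b) d ≠ 0 := by
    have e : a * b = c * b + (a - c) * b := by ring
    obtain ⟨m, hm⟩ := ip_char_nat hcb (irr_char hd)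
    obtain ⟨n, hn⟩ := ip_char_nat (char_mul (char_sub_irr ha hc h1) hb) (irr_char hd)
    rw [e, ip_add_left, hm, hn]
    rw [hm] at h2
    have : m ≠ 0 := by exact_mod_cast h2
    exact_mod_cast (by omega : m + n ≠ 0)
  have h4 := irr_eq_of_ip_ne_zero h hd h3
  have h5 := deg_le_of_ip hcb hd h2
  rw [← h4, deg_mul ha hb, deg_mul (irr_char hc) hb] at h5
  have h6 : 0 < charDegree b := by
    rw [char_one_eq hb] at hb0
    exact Nat.pos_of_ne_zero (by exact_mod_cast hb0)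
  have h7 := le_antisymm (Nat.le_of_mul_le_mul_right h5 h6) (deg_le_of_ip ha hc h1)
  rw [eq_irr_of_degree_eq ha hc h1 (by rw [char_one_eq ha, char_one_eq (irr_char hc), h7])]
  exact hc

/-- A character homogeneous on `U Z` with `Z` central is homogeneous on `U`. -/
theorem Homog.of_sup_center {U Z : Subgroup G} [U.Normal] (hZ : Z ≤ Subgroup.center G)
    {χ : G → ℂ} (h : Homog (U ⊔ Z).subtype χ) : Homog U.subtype χ := by
  obtain ⟨γ, e, hγ, he⟩ := h
  have hn : IsNE (Subgroup.inclusion (le_sup_left : U ≤ U ⊔ Z)) := isNE_inclusion_of_normal _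
  obtain ⟨η, hη, h1⟩ := exists_irr_under (Subgroup.inclusion (le_sup_left : U ≤ U ⊔ Z)) hγ
  have hinv : hn.Inv η := by
    rintro ⟨g, hg⟩
    rw [← SetLike.mem_coe, Subgroup.normal_mul] at hg
    obtain ⟨u, hu, z, hz, rfl⟩ := hg
    funext n
    rw [hn.cjf_apply, hn.cj_eq (m := ⟨u, hu⟩ * n * ⟨u, hu⟩⁻¹), irr_cf hη]
    apply Subtype.ext
    have := Subgroup.mem_center_iff.mp (hZ hz) n
    simp only [Subgroup.coe_inclusion, Subgroup.coe_mul, Subgroup.coe_inv, mul_inv_rev]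
    rw [mul_assoc u z, ← this]
    group
  obtain ⟨c, -, hc⟩ := hn.clifford_inv_nat hγ hη hinv h1
  refine ⟨η, e * c, hη, funext fun n => ?_⟩
  have h2 := congrFun he (Subgroup.inclusion le_sup_left n)
  have h3 := congrFun hc n
  simp only [Pi.smul_apply, smul_eq_mul] at h2 h3 ⊢
  rw [h3] at h2
  push_cast
  rw [mul_assoc, ← h2]
  rfl

end Basic

namespace CT

variable {G N E Q : Type*} [Group G] [Group N] [Group E] [Group Q] [Finite G] [Finite N]
  [Finite E] [Finite Q] {f : N →* G} {θ : N → ℂ} {π : E →* G} {q : E →* Q} {θ' : E → ℂ}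
  {Z : Subgroup Q} {lam : Z →* ℂˣ} (h : CT f θ π q θ' Z lam)

include h

theorem isSolvable [f.range.Normal] [Group.IsSolvable (G ⧸ f.range)] : Group.IsSolvable Q := by
  obtain ⟨ρ, h1, h2, -⟩ := h.exists_quot (QuotientGroup.mk'_surjective f.range)
    (QuotientGroup.ker_mk' _)
  haveI : Group.IsSolvable Z := Group.isSolvable_of_comm fun a b =>
    Subtype.ext (Subgroup.mem_center_iff.mp (h.cen b.2) a)
  exact Group.isSolvable_of_ker_le_range Z.subtype ρ (by simp [h2])

theorem deg_eq {H U : Type*} [Group H] [Group U] {ι : H →* G} {κ : U →* Q} {ψ : H → ℂ}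
    {β : U → ℂ} (hψ : IsCharacter H ψ) (hβ : IsCharacter U β) (r : ctR π q θ' ι κ ψ β) :
    charDegree ψ = charDegree β * charDegree θ := by
  have := h.degree r
  rw [char_one_eq hψ, char_one_eq hβ, char_one_eq (irr_char h.irr)] at this
  exact_mod_cast this

theorem homog {χ : G → ℂ} {β : Q → ℂ} (hχ : IsIrrCharacter G χ)
    (h0 : ip (fun n => χ (f n)) θ ≠ 0)
    (r : ctR π q θ' (MonoidHom.id G) (MonoidHom.id Q) χ β)
    (hq : ∀ M : Subgroup G, M.Normal → f.range ≤ M → Homog M.subtype χ) (U : Subgroup Q)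
    [U.Normal] : Homog U.subtype β := by
  haveI := h.normal_Z
  refine Homog.of_sup_center h.cen ?_
  obtain ⟨M, c⟩ := h.exists_cor_left (U ⊔ Z) le_sup_right
  have hM := h.range_le_of_cor c
  obtain ⟨ϑ, e, hϑ, he⟩ := hq M ((h.normal_iff_of_cor c).mpr inferInstance) hM
  have hk : ∀ n, M.subtype (f.codRestrict M (fun n => hM ⟨n, rfl⟩) n) = f n := fun n => rfl
  have h1 : ip (fun n => ϑ (f.codRestrict M (fun n => hM ⟨n, rfl⟩) n)) θ ≠ 0 := by
    have : (fun n => χ (f n)) = (e : ℂ) • fun n => ϑ (f.codRestrict M (fun n => hM ⟨n, rfl⟩) n) :=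
      funext fun n => congrFun he (f.codRestrict M (fun n => hM ⟨n, rfl⟩) n)
    rw [this, ip_smul_left] at h0
    exact right_ne_zero_of_mul h0
  obtain ⟨γ, hγ, r'⟩ := h.exists_right (ctCor_subtype c) hk hϑ h1
  refine ⟨γ, e, hγ, h.right_unique (ctCor_subtype c) ?_ (r'.smul e)⟩
  rw [← he]
  exact r.comp M.subtype (U ⊔ Z).subtype (fun _ => rfl) (fun _ => rfl)

theorem ind_eq {H : Subgroup G} {U : Subgroup Q} (c : H.comap π = U.comap q) {χ : G → ℂ}
    {β : Q → ℂ} (hβ : IsIrrCharacter Q β) (r : ctR π q θ' (MonoidHom.id G) (MonoidHom.id Q) χ β)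
    {ψ : H → ℂ} {γ : U → ℂ} (hψ : IsIrrCharacter H ψ) (hγ : IsIrrCharacter U γ)
    (r' : ctR π q θ' H.subtype U.subtype ψ γ) (hχ : IsIrrCharacter G χ)
    (e : ind H.subtype ψ = χ) : ind U.subtype γ = β := by
  have h1 := h.ip_eq (ctCor_subtype c) r'
    (r.comp H.subtype U.subtype (fun _ => rfl) (fun _ => rfl))
  have h2 := ip_ind_left H.subtype ψ (irr_cf hχ)
  rw [e, ip_irr_self hχ] at h2
  have h3 : ip (ind U.subtype γ) β ≠ 0 := by
    rw [ip_ind_left _ _ (irr_cf hβ)]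
    exact (h2.trans h1) ▸ one_ne_zero
  refine eq_irr_of_degree_eq (char_ind _ (irr_char hγ)) hβ h3 ?_
  have h4 := h.degree r
  have h5 := h.degree r'
  rw [← e, ind_apply_one H.subtype_injective, h5, Subgroup.range_subtype, h.index_of_cor c,
    ← mul_assoc] at h4
  rw [ind_apply_one U.subtype_injective, Subgroup.range_subtype]
  exact mul_right_cancel₀ (irr_one_ne_zero h.irr) h4

/-- Transfer of primitivity back along a character triple isomorphism. -/
theorem eq_top_of_prim {χ : G → ℂ} {β : Q → ℂ} (hχ : IsIrrCharacter G χ)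
    (hβ : IsIrrCharacter Q β) (hinv : h.ne.Inv θ) (h0 : ip (fun n => χ (f n)) θ ≠ 0)
    (r : ctR π q θ' (MonoidHom.id G) (MonoidHom.id Q) χ β) (hp : IsPrim β) {H : Subgroup G}
    (hH : f.range ≤ H) {ψ : H → ℂ} (hψ : IsCharacter H ψ) (e : ind H.subtype ψ = χ) : H = ⊤ := by
  obtain ⟨U, c⟩ := h.exists_cor_right H hH
  have hψi : IsIrrCharacter H ψ := irr_of_irr_ind H.subtype_injective hψ (e ▸ hχ)
  have hk : ∀ n, H.subtype (f.codRestrict H (fun n => hH ⟨n, rfl⟩) n) = f n := fun n => rfl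
  obtain ⟨η, hη, h1⟩ := exists_irr_under (f.codRestrict H (fun n => hH ⟨n, rfl⟩)) hψi
  have h2 : ip (fun x => χ (H.subtype x)) ψ ≠ 0 := by
    rw [← ip_ind_right _ _ (irr_cf hχ), e, ip_irr_self hχ]
    exact one_ne_zero
  have h3 := ip_comp_comp_ne_zero H.subtype _ (irr_char hχ) hψi (irr_char hη) h2 h1
  obtain ⟨a, -, ha⟩ := h.ne.clifford_inv_nat hχ h.irr hinv h0
  have h4 : θ = η := eq_of_ip_smul h.irr hη (ha ▸ h3)
  obtain ⟨γ, hγ, r'⟩ := h.exists_right (ctCor_subtype c) hk hψi (h4 ▸ h1)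
  have h5 := hp U γ (irr_char hγ) (h.ind_eq c hβ r hψi hγ r' hχ e)
  exact (h.eq_iff_of_cor c (by simp : (⊤ : Subgroup G).comap π = (⊤ : Subgroup Q).comap q)).mpr h5

end CT

section Main

theorem mem_charCenter_iff_of_res {G N : Type*} [Group G] [Group N] [Finite G] [Finite N]
    (f : N →* G) {χ : G → ℂ} (hχ : IsCharacter G χ) (h1 : χ 1 ≠ 0) {η : N → ℂ}
    (hη : IsCharacter N η) {m : ℂ} (h : (fun n => χ (f n)) = m • η) (n : N) :
    n ∈ H6.charCenter η ↔ f n ∈ H6.charCenter χ := by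
  have h2 := congrFun h 1
  have h3 := congrFun h n
  simp only [map_one, Pi.smul_apply, smul_eq_mul] at h2 h3
  have hm : ‖m‖ ≠ 0 := norm_ne_zero_iff.mpr fun e => h1 (by rw [h2, e, zero_mul])
  rw [H6.mem_charCenter_iff hχ, H6.mem_charCenter_iff hη, h2, h3, norm_mul, norm_mul,
    mul_right_inj' hm]

theorem mem_charCenter_star {G : Type*} [Group G] [Finite G] {χ : G → ℂ} (hχ : IsCharacter G χ)
    (g : G) : g ∈ H6.charCenter (star χ) ↔ g ∈ H6.charCenter χ := by
  rw [H6.mem_charCenter_iff hχ, H6.mem_charCenter_iff (char_star hχ)]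
  simp

theorem mem_charCenter_linear {G : Type*} [Group G] [Finite G] {η : G → ℂ} (hη : IsCharacter G η)
    (h1 : η 1 = 1) (g : G) : g ∈ H6.charCenter η :=
  ⟨η g, fun e => by simpa [e] using linear_mul_conj hη h1 g, linear_map_mul hη h1 g⟩

theorem IsChief.commutator_le_of_pow {G : Type*} [Group G] [Finite G] {L K M : Subgroup G}
    (h : IsChief L K) [L.Normal] [M.Normal] {p : ℕ} (hp : p.Prime)
    (hM : ∀ x ∈ M, ∃ k : ℕ, x ^ p ^ k ∈ L) : ⁅M, K⁆ ≤ L := by
  haveI := Fact.mk hp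
  have h1 := (h.isMinNormal_map (QuotientGroup.mk'_surjective L)
    (QuotientGroup.ker_mk' L)).le_centralizer_fittingSubgroup
  haveI : (M.map (QuotientGroup.mk' L)).Normal :=
    Subgroup.Normal.map inferInstance _ (QuotientGroup.mk'_surjective L)
  have h2 : IsPGroup p (M.map (QuotientGroup.mk' L)) := by
    rintro ⟨_, x, hx, rfl⟩
    obtain ⟨k, hk⟩ := hM x hx
    exact ⟨k, Subtype.ext (by
      simpa [← QuotientGroup.mk_pow, QuotientGroup.eq_one_iff] using hk)⟩
  have h3 := H2.le_fittingSubgroup h2.isNilpotent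
  rw [Subgroup.commutator_le]
  intro m hm k hk
  rw [← QuotientGroup.eq_one_iff, ← QuotientGroup.mk'_apply, map_commutatorElement,
    commutatorElement_eq_one_iff_mul_comm]
  exact h1 ⟨k, hk, rfl⟩ _ (h3 ⟨m, hm, rfl⟩)

theorem berger_core {G : Type u} [Group G] [Finite G] [Group.IsSolvable G] {χ : G → ℂ}
    (hχ : IsIrrCharacter G χ)
    (IH : ∀ (Q : Type u) [Group Q] [Finite Q] [Group.IsSolvable Q] (β : Q → ℂ),
      IsIrrCharacter Q β → charDegree β < charDegree χ →
      (∀ U : Subgroup Q, U.Normal → Homog U.subtype β) → IsPrim β)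
    (hq : ∀ M : Subgroup G, M.Normal → Homog M.subtype χ) {H : Subgroup G} (hH : IsCoatom H)
    {ψ : H → ℂ} (hψ : IsCharacter H ψ) (e : ind H.subtype ψ = χ) : False := by
  have red : ∀ (M : Subgroup G) [M.Normal] (ϑ : M → ℂ) (a : ℂ), IsIrrCharacter M ϑ →
      (fun n => χ (M.subtype n)) = a • ϑ → 1 < charDegree ϑ →
      ∃ (E Q : Type u) (_ : Group E) (_ : Finite E) (_ : Group Q) (_ : Finite Q) (π : E →* G)
        (q : E →* Q) (θ' : E → ℂ) (Z : Subgroup Q) (lam : Z →* ℂˣ) (β : Q → ℂ),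
        CT M.subtype ϑ π q θ' Z lam ∧ IsIrrCharacter Q β ∧
        ctR π q θ' (MonoidHom.id G) (MonoidHom.id Q) χ β ∧ IsPrim β := by
    intro M _ ϑ a hϑ ha h1
    have h0 := ip_ne_zero_of_eq_smul hϑ ha (by simpa using irr_one_ne_zero hχ)
    have ha0 : a ≠ 0 := by
      rintro rfl
      exact h0 (by rw [ha, zero_smul, ip_zero_left])
    obtain ⟨E, Q, _, _, _, _, π, q, θ', Z, lam, h⟩ := (isNE_subtype M).exists_ct hϑ
      ((isNE_subtype M).inv_of_res_eq_smul (irr_cf hχ) ha0 ha)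
    obtain ⟨β, hβ, r⟩ := h.exists_right ctCor_id (k := M.subtype) (fun _ => rfl) hχ h0
    haveI := h.ne.normal
    haveI := h.isSolvable
    refine ⟨E, Q, _, ‹_›, _, ‹_›, π, q, θ', Z, lam, β, h, hβ, r, IH Q β hβ ?_ fun U _ =>
      h.homog hχ h0 r (fun M hM _ => hq M hM) U⟩
    rw [h.deg_eq (irr_char hχ) (irr_char hβ) r]
    exact lt_mul_of_one_lt_right (irr_degree_pos hβ) h1
  have hψi : IsIrrCharacter H ψ := irr_of_irr_ind H.subtype_injective hψ (e ▸ hχ)
  have hψχ : ip (fun x => χ (H.subtype x)) ψ = 1 := by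
    rw [← ip_ind_right _ _ (irr_cf hχ), e, ip_irr_self hχ]
  obtain ⟨L, hL⟩ : ∃ L, L = H.normalCore := ⟨_, rfl⟩
  haveI : L.Normal := hL ▸ inferInstance
  have hLH : L ≤ H := hL ▸ H.normalCore_le
  obtain ⟨φ, a, hφ, ha⟩ := hq L inferInstance
  have h0 := ip_ne_zero_of_eq_smul hφ ha (by simpa using irr_one_ne_zero hχ)
  have ha0 : (a : ℂ) ≠ 0 := fun e => h0 (by rw [ha, e, zero_smul, ip_zero_left])
  have hφinv := (isNE_subtype L).inv_of_res_eq_smul (irr_cf hχ) ha0 ha
  have hφ1 : φ 1 = 1 := by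
    by_contra h1
    have h2 : 1 < charDegree φ := by
      have := irr_degree_pos hφ
      rw [char_one_eq (irr_char hφ)] at h1
      have : charDegree φ ≠ 1 := fun e => h1 (by rw [e]; simp)
      omega
    obtain ⟨E, Q, _, _, _, _, π, q, θ', Z, lam, β, h, hβ, r, hp⟩ := red L φ a hφ ha h2
    exact hH.1 (h.eq_top_of_prim hχ hβ hφinv h0 r hp (by simpa using hLH) hψ e)
  obtain ⟨K, -, hK⟩ := exists_chief_above (N := L) (K := ⊤)
    (lt_of_le_of_lt hLH hH.1.lt_top)
  haveI := hK.normal_right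
  have hKH : ¬ K ≤ H := fun h => hK.lt.not_ge (hL ▸ Subgroup.normal_le_normalCore.mpr h)
  have hmul : ∀ g, ∃ (h : H) (x : K), g = K.subtype x * H.subtype h := by
    intro g
    have : g ∈ K ⊔ H := by
      rw [hH.2 (K ⊔ H) (lt_of_le_of_ne le_sup_right fun e => hKH (e ▸ le_sup_left))]
      trivial
    rw [← SetLike.mem_coe, Subgroup.normal_mul] at this
    obtain ⟨x, hx, h, hh, rfl⟩ := this
    exact ⟨⟨h, hh⟩, ⟨x, hx⟩, rfl⟩
  have hnorm : ∀ M : Subgroup G, M.Normal → L ≤ M → ⁅M ⊓ H, K⁆ ≤ L → M ⊓ H ≤ L := by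
    intro M hM h1 h2
    rw [hL]
    refine (@Subgroup.normal_le_normalCore _ _ _ _ ⟨fun b hb g => ?_⟩).mpr inf_le_right
    obtain ⟨h, x, rfl⟩ := hmul g
    have h3 : (h : G) * b * (h : G)⁻¹ ∈ M ⊓ H := ⟨hM.conj_mem _ hb.1 _,
      H.mul_mem (H.mul_mem h.2 hb.2) (H.inv_mem h.2)⟩
    have h4 := (le_inf h1 hLH) (h2 (Subgroup.commutator_mem_commutator h3 x.2))
    have := (M ⊓ H).mul_mem ((M ⊓ H).inv_mem h4) h3
    convert this using 1
    simp only [Subgroup.coe_subtype, commutatorElement_def]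
    group
  have hKL : K ⊓ H ≤ L := hnorm K inferInstance hK.lt.le
    ((Subgroup.commutator_mono inf_le_left le_rfl).trans hK.commutator_le)
  have hmack := ind_comp_of_mul (f := H.subtype) (k := K.subtype) (a := Subgroup.inclusion hLH)
    (b := Subgroup.inclusion hK.lt.le) (fun _ => rfl)
    (fun _ _ h _ => Subgroup.inclusion_injective _ h)
    (fun h x e => ⟨⟨h, hKL ⟨by rw [show (h : G) = x from e]; exact x.2, h.2⟩⟩, rfl,
      Subtype.ext e⟩) hmul (irr_cf hψi)
  rw [e] at hmack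
  obtain ⟨c, hc0, hc⟩ : ∃ c : ℕ, 0 < c ∧ (fun n => ψ (Subgroup.inclusion hLH n)) = (c : ℂ) • φ := by
    have hn := isNE_inclusion_of_normal hLH
    obtain ⟨η, hη, h1⟩ := exists_irr_under (Subgroup.inclusion hLH) hψi
    have h3 := ip_comp_comp_ne_zero H.subtype _ (irr_char hχ) hψi (irr_char hη)
      (hψχ ▸ one_ne_zero) h1
    have h4 : φ = η := eq_of_ip_smul hφ hη (ha ▸ h3)
    exact hn.clifford_inv_nat hψi hφ (hφinv.of_comp hn (ι := H.subtype) fun _ => rfl) (h4 ▸ h1)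
  rw [hc, ind_smul] at hmack
  obtain ⟨ϑ, b, hϑ, hb⟩ := hq K inferInstance
  have hb0 : (b : ℂ) ≠ 0 := fun e => irr_one_ne_zero hχ (by simpa [e] using congrFun hb 1)
  have hnK := isNE_inclusion_of_normal hK.lt.le
  have hvan : ∀ x : K, (x : G) ∉ L → ϑ x = 0 := by
    intro x hx
    haveI := hnK.normal
    have h1 := congrFun (hb.symm.trans hmack) x
    simp only [Pi.smul_apply, smul_eq_mul] at h1
    rw [ind_apply_of_notMem φ (g := x) (by rintro ⟨y, rfl⟩; exact hx y.2), mul_zero] at h1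
    exact (mul_eq_zero.mp h1).resolve_left hb0
  obtain ⟨t, ht0, ht⟩ : ∃ t : ℕ, 0 < t ∧
      (fun n => ϑ (Subgroup.inclusion hK.lt.le n)) = (t : ℂ) • φ := by
    refine hnK.clifford_inv_nat hϑ hφ (hφinv.of_comp hnK (ι := K.subtype) fun _ => rfl) ?_
    have : (fun n => χ (L.subtype n)) = (b : ℂ) • fun n => ϑ (Subgroup.inclusion hK.lt.le n) :=
      funext fun n => congrFun hb (Subgroup.inclusion hK.lt.le n)
    rw [this, ip_smul_left] at h0
    exact right_ne_zero_of_mul h0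
  have hϑ1 : ϑ 1 = t := by simpa [hφ1] using congrFun ht 1
  have hψ1 : ψ 1 = c := by simpa [hφ1] using congrFun hc 1
  have ht2 : t ^ 2 = L.relIndex K := by
    rw [← range_inclusion_index hK.lt.le]
    exact (vanish_iff_sq_eq_index hnK.inj hϑ hφ ht).mpr fun x hx => hvan x fun h => hx ⟨⟨x, h⟩, rfl⟩
  obtain ⟨p, k, hp, hk, hpk, hpow⟩ := hK.exists_prime_pow
  have ht1 : 1 < t := by
    have := Nat.one_lt_pow hk.ne' hp.one_lt
    rw [← hpk, ← ht2] at this
    exact lt_of_pow_lt_pow_left₀ 2 (by omega) (by simpa using this)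
  have hbct : (b : ℂ) = c * t := by
    have h1 := congrFun (hb.symm.trans hmack) 1
    simp only [Pi.smul_apply, smul_eq_mul] at h1
    rw [ind_apply_one hnK.inj, range_inclusion_index, ← ht2, hφ1, hϑ1] at h1
    refine mul_right_cancel₀ (b := (t : ℂ)) (by exact_mod_cast ht0.ne') ?_
    rw [h1]
    push_cast
    ring
  have hKtop : K ≠ ⊤ := by
    intro eK
    have h1 := sq_le_index_of_res_eq (isNE_subtype K) hχ hϑ hb
    rw [Subgroup.range_subtype, eK, Subgroup.index_top] at h1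
    have : b = c * t := by exact_mod_cast hbct
    subst this
    nlinarith [Nat.mul_le_mul hc0 ht1]
  obtain ⟨M, -, hM⟩ := exists_chief_above (N := K) (K := ⊤) hKtop.lt_top
  haveI := hM.normal_right
  obtain ⟨r, l, hr, -, -, hpow'⟩ := hM.exists_prime_pow
  suffices h : ⁅M ⊓ H, K⁆ ≤ L by
    have h1 := hnorm M inferInstance (hK.lt.le.trans hM.lt.le) h
    refine hM.lt.not_ge fun m hm => ?_
    obtain ⟨h, x, rfl⟩ := hmul m
    exact K.mul_mem x.2 (hK.lt.le (h1 ⟨(M.mul_mem_cancel_left (hM.lt.le x.2)).mp hm, h.2⟩))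
  by_cases hpr : r = p
  · subst hpr
    refine (Subgroup.commutator_mono inf_le_left le_rfl).trans
      (hK.commutator_le_of_pow hp fun x hx => ⟨2, ?_⟩)
    rw [pow_two, pow_mul]
    exact hpow _ (hpow' x hx)
  obtain ⟨E, Q, _, _, _, _, π, q, θ', Z, lam, β, h, hβ, rr, hprim⟩ :=
    red K ϑ b hϑ hb (by rwa [charDegree_eq hϑ1])
  obtain ⟨j, hj1, hj2, hj3⟩ := h.exj
  have hθ'i : IsIrrCharacter E θ' := irr_of_irr_comp j h.char (by simpa [hj3] using hϑ)
  have hθ'1 : θ' 1 = t := h.one_eq.trans hϑ1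
  have hqD : Function.Surjective (q.comp (H.comap π).subtype) := by
    intro y
    obtain ⟨x, rfl⟩ := h.q_surj y
    obtain ⟨h', x', e'⟩ := hmul (π x)
    refine ⟨⟨(j x')⁻¹ * x, ?_⟩, ?_⟩
    · rw [Subgroup.mem_comap, map_mul, map_inv, hj1, e', inv_mul_cancel_left]
      exact h'.2
    · have : q (j x') = 1 := by
        rw [← MonoidHom.mem_ker, hj2]
        exact ⟨_, rfl⟩
      simp [this]
  have haD := π.subgroupComap_surjective_of_surjective H h.π_surj
  have hβD := irr_comp_surjective _ hqD hβ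
  have hΨ := char_comp (H.comap π).subtype h.char
  have hψD := char_comp (π.subgroupComap H) hψ
  have key : star (fun x => θ' ((H.comap π).subtype x)) * (fun x => ψ (π.subgroupComap H x)) =
      fun x => β (q.comp (H.comap π).subtype x) := by
    refine eq_irr_of_degree_eq (char_mul (char_star hΨ) hψD) hβD ?_ ?_
    · rw [ip_ne_zero_comm, mul_comm, ← ip_mul_right]
      have : ((fun x => β (q.comp (H.comap π).subtype x)) * fun x => θ' ((H.comap π).subtype x)) =
          fun x => χ (H.subtype (π.subgroupComap H x)) :=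
        funext fun x => (rr x _ _ rfl rfl).symm
      rw [this, ip_comp_surjective _ haD (fun x => χ (H.subtype x)), hψχ]
      exact one_ne_zero
    · have h1 := h.degree rr
      have h2 := congrFun hb 1
      simp only [map_one, Pi.smul_apply, smul_eq_mul, Pi.mul_apply, Pi.star_apply] at h2 ⊢
      rw [h2, hbct] at h1
      rw [hθ'1, hψ1, ← mul_right_cancel₀ (irr_one_ne_zero hϑ) h1]
      simp [mul_comm]
  have hΨi := irr_of_irr_mul (char_star hΨ) hψD (key ▸ hβD)
  have hΨp := IsPrim.of_mul hψD (key ▸ hprim.comp_surj hqD hβ)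
  obtain ⟨η, m, hη, hm⟩ := hΨp.homog hΨi (isNE_subtype (M.comap (π.comp (H.comap π).subtype)))
  have hcen : ∀ x, x ∈ H6.charCenter η ↔ ((x : H.comap π) : E) ∈ H6.charCenter θ' := by
    intro x
    rw [mem_charCenter_iff_of_res _ (irr_char hΨi) (irr_one_ne_zero hΨi) (irr_char hη) hm,
      mem_charCenter_star hΨ, H6.mem_charCenter_iff hΨ, H6.mem_charCenter_iff h.char]
    rfl
  have hLcen : ∀ x : E, π x ∈ L → x ∈ H6.charCenter θ' := by
    intro x hx
    have h1 : j ⟨π x, hK.lt.le hx⟩ ∈ H6.charCenter θ' := by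
      rw [H6.mem_charCenter_iff h.char, hj3, h.one_eq, ← H6.mem_charCenter_iff (irr_char hϑ)]
      exact (mem_charCenter_iff_of_res _ (irr_char hϑ) (irr_one_ne_zero hϑ) (irr_char hφ) ht
        ⟨π x, hx⟩).mp (mem_charCenter_linear (irr_char hφ) hφ1 _)
    have h2 : x * (j ⟨π x, hK.lt.le hx⟩)⁻¹ ∈ H6.charCenter θ' :=
      H6.center_le_charCenter hθ'i (h.cenE (by simp [MonoidHom.mem_ker, hj1]))
    simpa using mul_mem h2 h1
  have hη1 : η 1 = 1 := by
    haveI := H6.charCenter_normal (irr_cf hη)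
    haveI := Fact.mk hr
    have h1 : IsPGroup r (_ ⧸ H6.charCenter η) := by
      intro y
      obtain ⟨x, rfl⟩ := QuotientGroup.mk_surjective y
      refine ⟨1, ?_⟩
      rw [← QuotientGroup.mk_pow, QuotientGroup.eq_one_iff, hcen, pow_one]
      refine hLcen _ (hKL ⟨?_, ?_⟩)
      · simpa using hpow' _ x.2
      · exact ((x ^ r : M.comap (π.comp (H.comap π).subtype)) : H.comap π).2
    obtain ⟨n, hn⟩ := h1.exists_card_eq
    have h2 := H6.degree_dvd_index_charCenter hη (char_one_eq (irr_char hη))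
    rw [Subgroup.index_eq_card, hn] at h2
    have h3 : charDegree η ∣ p ^ k := by
      have h4 := congrFun hm 1
      simp only [map_one, Pi.smul_apply, smul_eq_mul, Pi.star_apply, hθ'1, star_natCast] at h4
      rw [char_one_eq (irr_char hη)] at h4
      have h5 : t = m * charDegree η := by exact_mod_cast h4
      rw [← hpk, ← ht2, h5]
      exact Dvd.dvd.pow (dvd_mul_left _ _) two_ne_zero
    rw [char_one_eq (irr_char hη), Nat.eq_one_of_dvd_coprimes
      (Nat.Coprime.pow n k ((Nat.coprime_primes hr hp).mpr hpr)) h2 h3, Nat.cast_one]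
  rw [Subgroup.commutator_le]
  intro y hy x hx
  obtain ⟨z, rfl⟩ := h.π_surj y
  have h1 := (hcen ⟨⟨z, hy.2⟩, hy.1⟩).mp (mem_charCenter_linear (irr_char hη) hη1 _)
  have h2 := H6.apply_eq_of_mem_charKer (H6.commutator_mem_charKer (char_cf h.char) h1 (j ⟨x, hx⟩))
  obtain ⟨w, hw⟩ : ⁅z, j ⟨x, hx⟩⁆ ∈ j.range := by
    have : q (j ⟨x, hx⟩) = 1 := by
      rw [← MonoidHom.mem_ker, hj2]
      exact ⟨_, rfl⟩
    rw [← hj2, MonoidHom.mem_ker, map_commutatorElement, this, commutatorElement_one_right]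
  have h3 : (w : G) = ⁅π z, x⁆ := by
    have := congrArg π hw
    rwa [hj1, map_commutatorElement, hj1] at this
  rw [← h3]
  by_contra h4
  change θ' ⁅z, j ⟨x, hx⟩⁆ = _ at h2
  rw [← hw, hj3, hvan w h4] at h2
  exact irr_one_ne_zero hθ'i h2.symm

/-- Berger's theorem. -/
theorem berger : ∀ (d : ℕ) {G : Type u} [Group G] [Finite G] [Group.IsSolvable G] {χ : G → ℂ}
    (_ : IsIrrCharacter G χ) (_ : charDegree χ = d)
    (_ : ∀ M : Subgroup G, M.Normal → Homog M.subtype χ), IsPrim χ := by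
  intro d
  induction d using Nat.strong_induction_on with
  | _ d IH =>
  intro G _ _ _ χ hχ hd hq U θ hθ e
  by_contra h
  obtain ⟨H, hH, hUH⟩ := (eq_top_or_exists_le_coatom U).resolve_left h
  refine berger_core hχ (fun Q _ _ _ β hβ h1 h2 => IH _ (hd ▸ h1) hβ rfl h2) hq hH
    (char_ind (Subgroup.inclusion hUH) hθ) ?_
  rw [ind_ind, ← e]
  rfl

/-- Berger's theorem, relative form. -/
theorem berger_rel {G : Type u} [Group G] [Finite G] (L : Subgroup G) [L.Normal]
    [Group.IsSolvable (G ⧸ L)] {χ : G → ℂ} (hχ : IsIrrCharacter G χ)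
    (hq : ∀ M : Subgroup G, M.Normal → L ≤ M → Homog M.subtype χ) {H : Subgroup G} (hH : L ≤ H)
    {ψ : H → ℂ} (hψ : IsCharacter H ψ) (e : ind H.subtype ψ = χ) : H = ⊤ := by
  obtain ⟨φ, a, hφ, ha⟩ := hq L inferInstance le_rfl
  have h0 := ip_ne_zero_of_eq_smul hφ ha (by simpa using irr_one_ne_zero hχ)
  have ha0 : (a : ℂ) ≠ 0 := fun e => h0 (by rw [ha, e, zero_smul, ip_zero_left])
  have hinv := (isNE_subtype L).inv_of_res_eq_smul (irr_cf hχ) ha0 ha
  obtain ⟨E, Q, _, _, _, _, π, q, θ', Z, lam, h⟩ := (isNE_subtype L).exists_ct hφ hinv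
  obtain ⟨β, hβ, r⟩ := h.exists_right ctCor_id (k := L.subtype) (fun _ => rfl) hχ h0
  haveI := h.ne.normal
  haveI : Group.IsSolvable (G ⧸ L.subtype.range) :=
    isSolvable_quotient_of_ker_le (QuotientGroup.mk' L) _ (by simp)
  haveI := h.isSolvable
  exact h.eq_top_of_prim hχ hβ hinv h0 r (berger _ hβ rfl fun U _ =>
    h.homog hχ h0 r (fun M hM h1 => hq M hM (by simpa using h1)) U) (by simpa using hH) hψ e

end Main

end Cfsg.Agent.H7
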