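import Cfsg.Prelude.Def_TwoFusion
import Cfsg.Prelude.Def_Local
import Cfsg.Prelude.Def_CaseTheorems
import Cfsg.Prelude.Def_Transfer
import Cfsg.Prelude.Def_Spor_Mathieu
import Cfsg.Agent.H1.G2a

/-! Sylow `2`-subgroups of type `M₁₂` with two classes of involutions: the configurations. -/

set_option autoImplicit false
set_option linter.unusedVariables false

namespace Cfsg.Agent.H7.Bf

open Subgroup Cfsg.Agent.H19.Gt Cfsg.Agent.H1.G2

universe u

/-- the conjugates of `t` in `S` -/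
def InB {G K : Type*} [Group G] [CommGroup K] (τ : K × K →* G) (u : G) (z : K) (s : G) : Prop :=
  s = τ (z, z) ∨ s = τ (z, 1) ∨ s = τ (1, z) ∨ ∃ a b, (¬ IsSquare a ∨ ¬ IsSquare b) ∧ s = τ (a, b) * u

/-- the six noncentral involutions of `E` -/
def InE {G K : Type*} [Group G] [CommGroup K] (τ : K × K →* G) (u : G) (z : K) (s : G) : Prop :=
  s = τ (z, 1) ∨ s = τ (1, z) ∨ ∃ a b, ¬ IsSquare a ∧ ¬ IsSquare b ∧ s = τ (a, b) * u

/-- the configuration in the simple group -/
structure Tw {G K : Type*} [Group G] [CommGroup K] (S : Sylow 2 G) (τ : K × K →* G) (u v : G) (z : K) :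
    Prop where
  gz : Gz (S : Subgroup G) τ u v z
  four : Nat.card K = 4
  cl : ∀ s ∈ (S : Subgroup G), IsConj s (τ (z, z)) ↔ InB τ u z s
  cv : IsConj u v
  cw : IsConj u (u * v)

/-- the configuration in `C(t)` and in `C(t)/O(C(t))` -/
structure Cw {G K : Type*} [Group G] [CommGroup K] (S : Sylow 2 G) (τ : K × K →* G) (u v : G) (z : K) :
    Prop where
  gz : Gz (S : Subgroup G) τ u v z
  four : Nat.card K = 4
  cen : ∀ g, g * τ (z, z) = τ (z, z) * g
  fe : ∀ s ∈ (S : Subgroup G), IsConj s (τ (z, 1)) ↔ InE τ u z s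
  cv : IsConj u v
  cw : IsConj u (u * v)
  nx : ∀ a, ¬ IsSquare a → ¬ IsConj (τ (a, 1) * u) u

/-- the statement `S2767` -/
def H2767 : Prop := ∀ (W : Type u) [Group W] [Finite W] (S : Sylow 2 W) (S₁ S₂ : Subgroup W),
  IsStronglyClosed S₁ (S : Subgroup W) → IsStronglyClosed S₂ (S : Subgroup W) →
  (∀ a ∈ S₁, ∀ b ∈ S₂, a * b = b * a) →
  ⁅normalClosure (S₁ : Set W), normalClosure (S₂ : Set W)⁆ ≤
    normalClosure ((S₁ ⊓ S₂ : Subgroup W) : Set W) ⊔ pPrimeCore 2 W

/-- completeness of `a ↦ O(C(a))` on the pure subgroups of order `8` -/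
def HW {G : Type*} [Group G] (t : G) : Prop := ∀ A V : Subgroup G, (∀ a ∈ A, a * a = 1) → Nat.card A = 8 →
  V ≤ A → Nat.card V = 4 → (∀ a ∈ A, a ≠ 1 → IsConj a t) →
  Odd (Nat.card (signalizerClosure A (centralizerPPrimeCore 2))) ∧
    signalizerClosure A (centralizerPPrimeCore 2) = signalizerClosure V (centralizerPPrimeCore 2)

end Cfsg.Agent.H7.Bf
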