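import Mathlib
import Cfsg.Agent.H7.Gt9
import Cfsg.Agent.H15.Nm7
import Cfsg.Agent.H28.U43
import Cfsg.Agent.S0280

/-!
The group `3·U₄(3)·2` acting on `F₂¹²`.
-/

set_option autoImplicit false
set_option maxRecDepth 100000

namespace Cfsg.Agent.H7.Gt

open Cfsg.Agent.H15 Cfsg.Agent.H14 Subgroup

theorem tower {C T U : Type*} [Group C] [Group T] [Group U] [Finite C] [Finite T] (φ : C →* T)
    {S Z : Subgroup T} (hZ : Z ≤ S) (hS : S ≤ φ.range) (hn : φ.range ≤ normalizer (Z : Set T))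
    (c3 : Nat.card Z = 3) (h2 : Nat.card φ.range = Nat.card S * 2) [(Z.subgroupOf S).Normal]
    (e : S ⧸ Z.subgroupOf S ≃* U) : ∃ (N M : Subgroup C) (_ : N.Normal) (_ : M.Normal),
      φ.ker ≤ N ∧ N ≤ M ∧ Nat.card N = 3 * Nat.card φ.ker ∧ Nonempty (M ⧸ N.subgroupOf M ≃* U) ∧
      M.index = 2 := by
  have key : ∀ K ≤ φ.range, Nat.card K * (K.comap φ).index = Nat.card φ.range := fun K hK => by
    rw [index_comap, relIndex, ← Nat.card_congr (subgroupOfEquivOfLe hK).toEquiv, card_mul_index]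
  have a1 : (S.comap φ).index = 2 := Nat.eq_of_mul_eq_mul_left Nat.card_pos ((key S hS).trans h2)
  have n1 : (Z.comap φ).Normal := ⟨fun x hx g => by
    rw [mem_comap, map_mul, map_mul, map_inv]
    exact (mem_normalizer_iff.1 (hn ⟨g, rfl⟩) _).1 hx⟩
  let f : S.comap φ →* S ⧸ Z.subgroupOf S := (QuotientGroup.mk' _).comp (φ.subgroupComap S)
  have a2 : Function.Surjective f := (QuotientGroup.mk'_surjective _).comp fun y =>
    let ⟨x, hx⟩ := hS y.2; ⟨⟨x, by rw [mem_comap, hx]; exact y.2⟩, Subtype.ext hx⟩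
  refine ⟨Z.comap φ, S.comap φ, n1, normal_of_index_eq_two a1, ker_le_comap _ _, comap_mono hZ, ?_,
    ⟨((QuotientGroup.quotientMulEquivOfEq (Subgroup.ext fun x => ?_)).trans
      (QuotientGroup.quotientKerEquivOfSurjective f a2)).trans e⟩, a1⟩
  · refine Nat.eq_of_mul_eq_mul_right (Nat.pos_of_ne_zero (index_ne_zero_of_finite (H := Z.comap φ))) ?_
    rw [card_mul_index, ← φ.ker.card_mul_index, index_ker, ← key Z (hZ.trans hS), c3]; ring
  · exact (QuotientGroup.eq_one_iff (N := Z.subgroupOf S) (φ.subgroupComap S x)).symm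

theorem card_U43 {F : Type} [Field F] [Fintype F] (hF : Fintype.card F = 9) :
    Nat.card (PSU 4 F 3) = 3265920 := by
  have h1 := S0280.result (q := 3) hF 4 (by norm_num)
  simp [Finset.prod_range_succ, Nat.even_iff] at h1
  omega

theorem u43_hom {F C : Type} [Field F] [Fintype F] (hF : Fintype.card F = 9) [Group C] [Finite C]
    (c : ℕ → C) (h : ∀ w ∈ H28.U43.P, H25.ev c w = 1) (h1 : ∀ a, 7 ≤ a → c a = 1) :
    ∃ ψ : PSU 4 F 3 →* C, ∀ a, c a ∈ ψ.range := by
  obtain ⟨φ, h0⟩ := H28.fm9 hF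
  have : Finite (PSU 4 F 3) := Nat.finite_of_card_ne_zero (by rw [card_U43 hF]; norm_num)
  obtain ⟨_, g, pt, H⟩ := H28.md_su h0 (q := 3) hF (by norm_num) H28.U43.hm (by decide) H28.U43.hAm
    H28.U43.hInj (card_U43 hF)
  obtain ⟨ψ, hψ⟩ := H25.exists_hom (H28.U43.relP H) (H28.U43.htb H).1 c
    (fun w hw => ⟨H28.U43.hP H w hw, h w hw⟩) (fun a ha => by
      have : 7 ≤ a := by
        by_contra hc
        rw [Nat.testBit_two_pow_sub_one] at ha
        exact hc (by simpa using ha)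
      exact ⟨H.one a this, h1 a this⟩)
  exact ⟨ψ, fun a => ⟨_, hψ a⟩⟩

theorem u43_quot {F T : Type} [Field F] [Fintype F] (hF : Fintype.card F = 9) [Group T] [Finite T]
    (e : ℕ → T) {Z : Subgroup T} (hZ : Z ≤ cl e 7) [(Z.subgroupOf (cl e 7)).Normal]
    (c3 : Nat.card Z = 3) (h : ∀ w ∈ H28.U43.P, lprod e w ∈ Z) (hc : 9797760 ≤ Nat.card (cl e 7)) :
    Nat.card (cl e 7) = 9797760 ∧ Nonempty (cl e 7 ⧸ Z.subgroupOf (cl e 7) ≃* PSU 4 F 3) := by
  have hs : ∀ w ∈ H28.U43.P, ∀ a ∈ w, a < 7 := by decide +kernel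
  have : Finite (PSU 4 F 3) := Nat.finite_of_card_ne_zero (by rw [card_U43 hF]; norm_num)
  let x : ℕ → cl e 7 := fun a => if h : a < 7 then ⟨e a, mem_cl h⟩ else 1
  let π := QuotientGroup.mk' (Z.subgroupOf (cl e 7))
  obtain ⟨ψ, hψ⟩ := u43_hom hF (fun a => π (x a)) (fun w hw => by
    refine (map_lprod π w).symm.trans ((QuotientGroup.eq_one_iff _).2 ?_)
    have : ((lprod x w : cl e 7) : T) = lprod e w := (map_lprod (cl e 7).subtype w).trans
      (H25.ev_congr fun a ha => by simp [x, hs w hw a ha])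
    rw [mem_subgroupOf, this]
    exact h w hw) fun a ha => by
      simp [x, not_lt.2 ha]
  have a1 : Function.Surjective ψ := fun y => by
    obtain ⟨y, rfl⟩ := QuotientGroup.mk'_surjective _ y
    have : cl e 7 ≤ (ψ.range.comap π).map (cl e 7).subtype :=
      cl_le.2 fun l hl => ⟨x l, hψ l, by simp [x, hl]⟩
    obtain ⟨u, hu, e⟩ := this y.2
    exact (show u = y from Subtype.ext e) ▸ hu
  have a2 := card_eq_card_quotient_mul_card_subgroup (Z.subgroupOf (cl e 7))
  rw [Nat.card_congr (subgroupOfEquivOfLe hZ).toEquiv, c3] at a2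
  have a3 := Nat.card_le_card_of_surjective _ a1
  rw [card_U43 hF] at a3
  exact ⟨by omega, ⟨(MulEquiv.ofBijective ψ (a1.bijective_of_nat_card_le (by
    rw [card_U43 hF]; omega))).symm⟩⟩

noncomputable abbrev c12 : Crd (ZMod 2) (Fin 12) := crd1 2 (Equiv.refl _) (by decide)

theorem k12 : all2 C12 c12.okM I12 = true := by decide +kernel

noncomputable abbrev A12 := c12.tab C12 I12 k12

theorem ap12 (P : (ℕ → ℕ → ℕ) → Bool) (h : P (apL 2 12 C12) = true) : P A12.ap = true :=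
  cast_ap (c12.tab_ap k12 rfl rfl) P h

theorem lowB : A12.Lower (gp A12.e mT0) [1152, 16, 2, 8] 25920 :=
  TabAct.Lower.step (k := 135) (TabAct.Lower.step (k := 12) (TabAct.Lower.step (k := 8)
    (TabAct.Lower.step (k := 2) (TabAct.lower_nil _ _)
    (ap12 (fun ap => stepOk ap 8 (2 ^ 12) id mS3 [] 8 2) (by decide +kernel)))
    (ap12 (fun ap => stepOk ap 8 (2 ^ 12) id mS2 mT3 2 8) (by decide +kernel)))
    (ap12 (fun ap => stepOk ap 8 (2 ^ 12) id mS1 mT2 16 12) (by decide +kernel)))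
    (ap12 (fun ap => stepOk ap 8 (2 ^ 12) id mS0 mT1 1152 135) (by decide +kernel))

theorem lowM : A12.Lower (gp A12.e ([[0], [1], [2], [3], [4], [5], [6]] ++ mT0)) [1, 1152, 16, 2, 8]
    9797760 := TabAct.Lower.step (k := 378) lowB
  (ap12 (fun ap => stepOk ap 8 (2 ^ 12) id [[0], [1], [2], [3], [4], [5], [6]] mT0 1 378)
    (by decide +kernel))

theorem lowS : A12.Lower (gp A12.e ([[0], [1], [2], [3], [4], [5], [6]] ++ ([[7]] ++ mT0)))
    [1, 4, 1152, 16, 2, 8] 19595520 := TabAct.Lower.step (k := 378) (TabAct.Lower.step (k := 2) lowB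
  (ap12 (fun ap => stepOk ap 8 (2 ^ 12) id [[7]] mT0 4 2) (by decide +kernel)))
  (ap12 (fun ap => stepOk ap 8 (2 ^ 12) id [[0], [1], [2], [3], [4], [5], [6]] ([[7]] ++ mT0) 1 378)
    (by decide +kernel))

theorem pc12 : pCore 2 (cl A12.e A12.L) = ⊥ :=
  A12.pcore_bot (bs := [10, 15, 17, 21, 33, 40, 65, 129, 257, 513, 1025, 2049])
    ((show (basC 2 12).map (aff 128 2 12 B12 0) = [10, 15, 17, 21, 33, 40, 65, 129, 257, 513, 1025,
      2049] by decide +kernel) ▸ c12.base2 k12 (Cs := B12)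
      (inv := [15, 62, 12, 63, 11, 31, 79, 143, 271, 527, 1039, 2063]) (by decide +kernel))
    1702 [(10, [10, 15, 17, 21, 33, 40, 65, 129, 257, 513, 1025, 2049])]
    (ap12 (fun ap => allL [(10, [10, 15, 17, 21, 33, 40, 65, 129, 257, 513, 1025, 2049])]
      (fun r => copChk ap 8 (2 ^ 12) 2 1702 r.1 r.2) &&
      allL [10, 15, 17, 21, 33, 40, 65, 129, 257, 513, 1025, 2049] fun b =>
        anyL [(10, [10, 15, 17, 21, 33, 40, 65, 129, 257, 513, 1025, 2049])] fun r => memN r.2 b)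
      (by decide +kernel))

theorem eq12 {u v : List ℕ} (h : eqOn (apL 2 12 C12) 8 (basC 2 12) u v = true) :
    lprod A12.e u = lprod A12.e v := (c12.base k12).eq (ap12 (eqOn · 8 (basC 2 12) u v) h)

theorem om_ord : orderOf (lprod A12.e om) = 3 :=
  orderOf_eq_prime (by rw [← lprod_repL]; exact eq12 (v := []) (by decide +kernel))
    (A12.ne_of_neAt (x := 1) (v := []) (ap12 (neAt · 8 (2 ^ 12) 1 om []) (by decide +kernel)))

theorem om_norm : cl A12.e 8 ≤ normalizer (zpowers (lprod A12.e om) : Set _) := cl_le.2 fun l hl => by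
  have h : ∀ l < 8, eqOn (apL 2 12 C12) 8 (basC 2 12) (appL [l] om) (appL (repL om (l / 7 + 1)) [l]) = true := by
    decide +kernel
  have := eq12 (h l hl)
  rw [lprod_appL, lprod_appL, lprod_repL, lprod_single] at this
  exact mem_N_zpowers (mul_inv_eq_of_eq_mul this)

theorem om_le : zpowers (lprod A12.e om) ≤ cl A12.e 7 :=
  zpowers_le.2 (lprod_mem_cl (by decide +kernel))

theorem om_rel : ∀ w ∈ H28.U43.P, lprod A12.e w ∈ zpowers (lprod A12.e om) := fun w hw => by
  have h3 : ∀ w ∈ H28.U43.P, eqOn (apL 2 12 C12) 8 (basC 2 12) w [] = true ∨ w = om := by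
    decide +kernel
  rcases h3 w hw with h | h
  · rw [eq12 h, lprod_nil]; exact one_mem _
  · rw [h]; exact mem_zpowers _

theorem cl78 : cl A12.e 7 ≤ cl A12.e 8 := cl_le.2 fun _ hl => mem_cl (hl.trans (by norm_num))

theorem om_nm : ((zpowers (lprod A12.e om)).subgroupOf (cl A12.e 7)).Normal :=
  (normal_subgroupOf_iff_le_normalizer om_le).2 (cl78.trans om_norm)

theorem quot12 {F : Type} [Field F] [Fintype F] (hF : Fintype.card F = 9) :
    Nat.card (cl A12.e 7) = 9797760 ∧ haveI := om_nm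
      Nonempty (cl A12.e 7 ⧸ (zpowers (lprod A12.e om)).subgroupOf (cl A12.e 7) ≃* PSU 4 F 3) :=
  haveI := om_nm
  u43_quot hF A12.e om_le (by rw [Nat.card_zpowers, om_ord]) om_rel
    (lowM.le_card.trans (card_le_of_le (gp_le_cl (by decide +kernel))))

end Cfsg.Agent.H7.Gt
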