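import Mathlib
import Cfsg.Agent.H7.Gt10
import Cfsg.Agent.H7.Gt11
import Cfsg.Agent.H7.Gt12
import Cfsg.Agent.H15.Loc3

/-!
The centraliser of a product of four commuting transpositions in `M(24)'`.
-/

set_option autoImplicit false
set_option maxRecDepth 100000

namespace Cfsg.Agent.H7.Gt

open Cfsg.Agent.H15 Cfsg.Agent.H14 Subgroup

open PMod.Scan in
theorem covz {G : Type*} [Group G] (M : PMod X24.τ G) : M.Cov (fun _ => True) Az Iz :=
  (M.cov_full _).refine (new := Az) (append (append (of M fz_0) (append (of M fz_51156)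
    (of M fz_102312))) (append (of M fz_153468) (append (of M fz_204624) (of M fz_255780))))

variable {G : Type*} [Group G] [Finite G] {M : PMod X24.τ G} {G0 : Type} [Group G0] {E0 : ℕ → G0}
  {L0 : ℕ} {hs : List (List ℕ)} (hM : M.Good E0 L0 2510411418381323442585600 31672 hs)

variable (M) in
theorem sec12 : Sec (gp M.e [z4]) (cs12.map M.w) 2 :=
  M.sec (M.gp_le_N (List.replicate 12 [[0]]) (by decide +kernel)) tP12 tC12 (by decide +kernel)

omit [Finite G] in
variable (M) in
theorem z_ord : orderOf (M.w z4) = 2 := M.orderW (x := 1) (by norm_num) (by decide +kernel)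

variable (M) in
theorem card1 : Nat.card (gp M.e [z4]) ≤ 2 := by rw [M.gp_one, Nat.card_zpowers, z_ord]

variable (M) in
theorem card13 : Nat.card (gp M.e (cs12 ++ [z4])) = 8192 :=
  le_antisymm (M.card_sec (sec12 M) (by norm_num) (card1 M)) ((PMod.LB.step (S := qS0) (b := 0) (k := 4)
    (PMod.LB.step (S := qS1) (b := 74) (k := 4)
    (PMod.LB.step (S := qS2) (b := 116) (k := 4)
    (PMod.LB.step (S := qS3) (b := 122) (k := 4)
    (PMod.LB.step (S := qS4) (b := 159) (k := 4)
    (PMod.LB.step (S := qS5) (b := 75286) (k := 4)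
    (PMod.LB.step (M := M) (S := [z4]) (b := 1) (k := 2) PMod.LB.nil (by decide +kernel)) (by decide +kernel)) (by decide +kernel)) (by decide +kernel)) (by decide +kernel)) (by decide +kernel)) (by decide +kernel)).le.trans
    (card_le_of_le (M.gp_le_gp qtab (by decide +kernel))))

variable (M) in
theorem ld12 : M.LD [z4] cs12 gs8 C12 2 :=
  ⟨sec12 M, by norm_num, by decide, (Nat.mul_le_mul_left _ (card1 M)).trans (card13 M).ge,
    (.cons (M.lin (m := 12) (M.mem_N [[0]] (by decide +kernel)) [[], [], [], [0], [], [], [], [], [], [0], [], []] (by decide +kernel))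
      (.cons (M.lin (m := 12) (M.mem_N [[0]] (by decide +kernel)) [[], [], [], [], [], [], [], [], [], [], [0], [0]] (by decide +kernel))
      (.cons (M.lin (m := 12) (M.mem_N [[0]] (by decide +kernel)) [[], [0], [], [0], [0], [], [0], [], [], [], [], [0]] (by decide +kernel))
      (.cons (M.lin (m := 12) (M.mem_N [[0]] (by decide +kernel)) [[], [], [], [0], [], [0], [], [], [], [], [0], []] (by decide +kernel))
      (.cons (M.lin (m := 12) (M.mem_N [[0]] (by decide +kernel)) [[], [], [], [0], [0], [], [], [0], [0], [], [0], [0]] (by decide +kernel))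
      (.cons (M.lin (m := 12) (M.mem_N [[0]] (by decide +kernel)) [[], [], [], [], [], [], [], [0], [0], [0], [0], []] (by decide +kernel))
      (.cons (M.lin (m := 12) (M.mem_N [[0]] (by decide +kernel)) [[], [], [0], [], [], [], [0], [], [], [], [], []] (by decide +kernel))
      (.cons (M.lin (m := 12) (M.mem_N [[0]] (by decide +kernel)) [[], [], [0], [0], [0], [], [], [], [], [0], [], [0]] (by decide +kernel))
      .nil))))))))⟩

variable (M) in
theorem es13 : IsExtraspecial 2 (gp M.e (cs12 ++ [z4])) :=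
  M.xs (by norm_num) (sec12 M) (z_ord M)
    (M.center_le (by norm_num) (sec12 M) (by decide +kernel) dual12 (by decide +kernel))
    (by rw [card13]; norm_num)

omit [Finite G] in
variable (M) in
/-- `t` commutes with every member of the class that commutes with `z` and `T 0` -/
def Tw (t : G) : Prop := ∀ s ∈ M.D, Commute (M.w z4) s → Commute (M.T 0) s → Commute t s

omit [Finite G] in
theorem covz0 : M.Cov (fun _ => True) (.adj 0 [] 11 true :: Az) Iz0 :=
  (covz M).scan (new := [.adj 0 [] 11 true]) (by decide +kernel)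

omit [Finite G] in
theorem tw_of {p l : ℕ} (h : X24.τ.scan [.adj p [] l false] Iz0 PL.nil 0 Iz0.k = true) :
    Tw M (M.T p) := by
  rintro _ ⟨q, hq, rfl⟩ h1 h2
  by_contra h3
  obtain ⟨i, hi, -⟩ := covz0.scan h q hq trivial (by simpa [PMod.Ps, PMod.P, Az, lprods] using ⟨h3, h2, by simpa using h1⟩)
  exact absurd hi (Nat.not_lt_zero _)

omit [Finite G] in
theorem Tw.conj {t g : G} (h : Tw M t) {ps : List ℕ} (hp : 0 ∈ ps)
    (hg : g ∈ M.cen [z4] [] ⊓ M.cen [] ps) : Tw M (g * t * g⁻¹) := fun s hs h1 h2 => by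
  have := h _ (M.conj_mem g⁻¹ hs)
    ((H19.commute_J_of' ((M.mem_cen.1 hg.1).1 z4 (by simp)).inv_left).2 h1)
    ((H19.commute_J_of' ((M.mem_cen.1 hg.2).2 0 hp).inv_left).2 h2)
  simpa [mul_assoc] using this.conj g

omit [Finite G] in
theorem covw : M.Cov (Tw M) (.ne 0 :: .adj 0 [] 11 true :: Az) Iz1 :=
  (covz0.scan (new := [.adj 1826 [] 2 true, .adj 1827 [] 1 true, .adj 74 [12, 8, 14] 2 true, .ne 0])
    (by decide +kernel)).imp fun t _ h1 h2 => ⟨trivial, by
      have : ∀ p, (Nat.blt p X24.τ.n && Nat.beq (tr X24.τ.ap z4 p) p &&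
          (Nat.blt 0 X24.τ.n && Nat.blt p X24.τ.n && X24.τ.adjIs 0 p true)) = true →
          Commute (M.T p) t := fun p hp => by
        simp only [Bool.and_eq_true (_ && _) (_ && _), Bool.and_eq_true (Nat.blt _ _) (Nat.beq _ _),
          Nat.blt_eq, nbeq_iff] at hp
        exact (h1 _ (M.T_mem hp.1.1) ((M.comm_iff (by decide +kernel) hp.1.1).2 hp.1.2)
          ((M.adjT hp.2).2 rfl)).symm
      simp only [PMod.Ps, List.cons_append, List.nil_append, List.forall_mem_cons] at h2 ⊢
      exact ⟨(iff_true_right rfl).2 (this _ (by decide +kernel)), (iff_true_right rfl).2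
        (this _ (by decide +kernel)), (iff_true_right rfl).2 (this _ (by decide +kernel)), h2⟩⟩

include hM

theorem uz2 : M.UB (M.cen [] []) [1825, 0] 258247006617600 :=
  (hM.ub0 (c := (31672 - 1) * 258247006617600) (by decide +kernel) (by decide +kernel)).down'
    (by norm_num) (PMod.le_orbit (by decide +kernel) fun x a b => by
      obtain ⟨g, hg, e⟩ := hM.seg1 x a b
      obtain ⟨k, hk, e'⟩ := hM.seg1 1825 (by norm_num) (by norm_num)
      exact ⟨g * k⁻¹, hM.hs_le (mul_mem hg (inv_mem hk)), by rw [← e, ← e']; group⟩)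

theorem uz4 : M.UB (M.cen [] []) [1822, 8896, 1825, 0] 106168320 :=
  PMod.UB.down (k := 693) (PMod.UB.down (k := 3510) (m := 73574645760) (uz2 hM) (by norm_num)
    [[0], [1], [2], [3], [7], [8], [9], [12], [14]] (by decide +kernel)) (by norm_num)
    [[3], [2], [1], [8], [0], [14, 12, 14], [6, 15, 12, 15, 6]] (by decide +kernel)

theorem uz : M.UB (M.cen [z4] []) [] 321052999680 := by
  have c2 : M.Cov _ _ Iz2 := covw.scan (new := [.ne 1825]) (by decide +kernel)
  exact (((((uz4 hM).any _).pickQ (xs := [z4]) le_rfl (c2.scan (new := [.ne 8896]) (I' := Iz3)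
    (by decide +kernel)) (fun _ => (tw_of (l := 7) (by decide +kernel)).conj (by simp))
    (by decide +kernel)).pickQ (xs := [z4]) le_rfl c2
    (fun _ => (tw_of (l := 9) (by decide +kernel)).conj (by simp)) (by decide +kernel)).pickQ
    (xs := [z4]) le_rfl covw (fun _ => (tw_of (l := 5) (by decide +kernel)).conj (by simp))
    (by decide +kernel)).pick (xs := [z4]) le_rfl (covz M) (by decide +kernel)

omit [Finite G] hM in
variable (M) in
/-- distinct commuting members of the class -/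
def Ok (l : List G) : Prop := l.Nodup ∧ (∀ a ∈ l, a ∈ M.D) ∧ ∀ a ∈ l, ∀ b ∈ l, Commute a b

omit [Finite G] hM in
theorem Ok.step {l : List G} (h : Ok M l) (g : G) {y : G}
    (H : Ok M (l.map (MulAut.conj g)) → IsConj (l.map (MulAut.conj g)).prod y) : IsConj l.prod y :=
  (isConj_iff.2 ⟨g, map_list_prod (MulAut.conj g) l⟩).trans (H ⟨h.1.map (MulAut.conj g).injective,
    List.forall_mem_map.2 fun a ha => M.conj_mem g (h.2.1 a ha),
    List.forall_mem_map.2 fun a ha => List.forall_mem_map.2 fun b hb => (h.2.2 a ha b hb).map _⟩)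

omit [Finite G] in
theorem cov1 : M.Cov (fun _ => True) [.adj 1825 [] 5 true, .ne 1825, .ne 0, .adj 0 [] 11 true] J1 :=
  (hM.cov0 [] 11).scan (new := [.adj 1825 [] 5 true, .ne 1825, .ne 0]) (by decide +kernel)

omit [Finite G] in
theorem r4 {d : G} (h : Ok M [M.T 0, M.T 1825, M.T 8896, d]) :
    IsConj [M.T 0, M.T 1825, M.T 8896, d].prod (M.w z4) := by
  have n := h.1
  simp only [List.nodup_cons, List.mem_cons, List.not_mem_nil, or_false, not_or] at n
  obtain ⟨r, hr, -, g, hg, e⟩ := ((cov1 hM).scan (new := [.adj 8896 [] 9 true, .ne 8896]) (I' := J2)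
    (by decide +kernel)).trans (reps := [1822]) (fuel := 694)
    (gs := [[3], [2], [1], [8], [0], [14, 12, 14], [6, 15, 12, 15, 6]]) (by decide +kernel)
    (h.2.1 d (by simp)) trivial (by
      simpa [PMod.Ps, PMod.P] using ⟨h.2.2 _ (by simp) _ (by simp), Ne.symm n.2.2.1,
        h.2.2 _ (by simp) _ (by simp), Ne.symm n.2.1.2, Ne.symm n.1.2.2, h.2.2 _ (by simp) _ (by simp)⟩)
  obtain rfl := List.mem_singleton.1 hr
  have a := (M.mem_cen.1 (M.gp_le_cen (xs := []) (ps := [0, 1825, 8896]) (by decide +kernel) hg)).2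
  refine h.step g fun _ => ?_
  simp only [List.map_cons, List.map_nil, MulAut.conj_apply, e, mul_inv_eq_of_eq_mul (a 0 (by simp)).eq,
    mul_inv_eq_of_eq_mul (a 1825 (by simp)).eq, mul_inv_eq_of_eq_mul (a 8896 (by simp)).eq]
  rw [show M.w z4 = [M.e 11, M.e 5, M.e 9, M.e 7].prod from rfl, ← M.Tpt 11 (by decide),
    ← M.Tpt 5 (by decide), ← M.Tpt 9 (by decide), ← M.Tpt 7 (by decide),
    show X24.τ.pt 11 = 0 by decide +kernel, show X24.τ.pt 5 = 1825 by decide +kernel,
    show X24.τ.pt 9 = 8896 by decide +kernel, show X24.τ.pt 7 = 1822 by decide +kernel]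

omit [Finite G] in
theorem r3 {c d : G} (h : Ok M [M.T 0, M.T 1825, c, d]) :
    IsConj [M.T 0, M.T 1825, c, d].prod (M.w z4) := by
  have n := h.1
  simp only [List.nodup_cons, List.mem_cons, List.not_mem_nil, or_false, not_or] at n
  obtain ⟨r, hr, -, g, hg, e⟩ := (cov1 hM).trans (reps := [8896]) (fuel := 3511)
    (gs := [[0], [1], [2], [3], [7], [8], [9], [12], [14]]) (by decide +kernel)
    (h.2.1 c (by simp)) trivial (by
      simpa [PMod.Ps, PMod.P] using ⟨h.2.2 _ (by simp) _ (by simp), Ne.symm n.2.1.1,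
        Ne.symm n.1.2.1, h.2.2 _ (by simp) _ (by simp)⟩)
  obtain rfl := List.mem_singleton.1 hr
  have a := (M.mem_cen.1 (M.gp_le_cen (xs := []) (ps := [0, 1825]) (by decide +kernel) hg)).2
  refine h.step g ?_
  simp only [List.map_cons, List.map_nil, MulAut.conj_apply, e, mul_inv_eq_of_eq_mul (a 0 (by simp)).eq,
    mul_inv_eq_of_eq_mul (a 1825 (by simp)).eq]
  exact r4 hM

omit [Finite G] in
theorem r2 {b c d : G} (h : Ok M [M.T 0, b, c, d]) : IsConj [M.T 0, b, c, d].prod (M.w z4) := by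
  obtain ⟨x, hx, rfl⟩ := h.2.1 b (by simp)
  obtain ⟨g, hg, e⟩ := hM.seg1 x (Nat.pos_of_ne_zero fun e => by simpa [e] using h.1)
    ((hM.adj0 x hx).1 (h.2.2 _ (by simp) _ (by simp)))
  obtain ⟨k, hk, e'⟩ := hM.seg1 1825 (by norm_num) (by norm_num)
  have a := mul_mem hk (inv_mem hg)
  rw [← hM.cen0, mem_centralizer_singleton_iff] at a
  refine h.step (k * g⁻¹) ?_
  simp only [List.map_cons, List.map_nil, MulAut.conj_apply, mul_inv_eq_of_eq_mul a,
    show k * g⁻¹ * M.T x * (k * g⁻¹)⁻¹ = M.T 1825 by rw [← e, ← e']; group]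
  exact r3 hM

omit [Finite G] in
theorem r1 {a b c d : G} (h : Ok M [a, b, c, d]) : IsConj [a, b, c, d].prod (M.w z4) := by
  have h0 := M.T_mem (x := 0) (by decide +kernel)
  have h1 := h.2.1 a (by simp)
  rw [hM.D_eq] at h0 h1
  obtain ⟨g, e⟩ := isConj_iff.1 ((show IsConj _ _ from h1).symm.trans h0)
  refine h.step g ?_
  simp only [List.map_cons, List.map_nil, MulAut.conj_apply, e]
  exact r2 hM

omit [Finite G] hM in
theorem even_mem {L : Subgroup G} (hL : L.index = 2) (h : ∀ d ∈ M.D, d ∉ L) (w : List ℕ)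
    (hw : okW X24.τ.L w = true) : M.w w ∈ L ↔ w.length % 2 = 0 := by
  induction w with
  | nil => exact iff_of_true (one_mem _) rfl
  | cons a w ih =>
    rw [okW_iff, List.forall_mem_cons] at hw
    rw [PMod.w, lprod_cons, mul_mem_iff_of_index_two hL, ih (okW_iff.2 hw.2), List.length_cons,
      ← M.Tpt a hw.1, iff_false_intro (h _ (M.T_mem (M.ptlt a hw.1))), false_iff]
    omega

omit [Finite G] hM in
theorem even_le {L : Subgroup G} (hL : L.index = 2) (h : ∀ d ∈ M.D, d ∉ L) {ws : List (List ℕ)}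
    (H : (X24.τ.cenChk [z4] [] ws && allL ws fun w => okW X24.τ.L w &&
      Nat.beq (w.length % 2) 0) = true) : gp M.e ws ≤ L ⊓ M.cen [z4] [] := by
  simp only [Bool.and_eq_true, allL_iff, nbeq_iff] at H
  exact le_inf (gp_le.2 fun w hw => (even_mem hL h w (H.2 w hw).1).2 (H.2 w hw).2) (M.gp_le_cen H.1)

theorem mainz {L : Subgroup G} (hL : L.index = 2) (h : ∀ d ∈ M.D, d ∉ L) :
    Nat.card (cl A12.e A12.L) = 19595520 ∧ QR (MonoidHom.id _) ((ld12 M).R c12 k12)
      (L ⊓ M.cen [z4] []) (gp M.e (cs12 ++ [z4])) (cl A12.e A12.L) := by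
  have h1 := card_inf_index_two (N := M.cen [z4] []) hL (d := M.w [11])
    (M.gp_le_cen (gs := [[11]]) (by decide +kernel) (mem_gp (by simp)))
    (fun c => absurd ((even_mem hL h _ (by decide +kernel)).1 c) (by decide))
  have h2 := (uz hM).le
  exact ((ld12 M).qr c12 k12 rfl (even_le hL h (by decide +kernel)) (even_le hL h (by decide +kernel))
    ((ld12 M).low _) (a := 8192) (by omega) (card13 M).ge lowS (by decide +kernel)).2.2

theorem final {L C : Subgroup G} (hL : L.index = 2) (h : ∀ d ∈ M.D, d ∉ L)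
    (hC : C = L ⊓ M.cen [z4] []) : ∃ (Q : Subgroup C) (_ : Q.Normal),
    generalizedFittingSubgroup C = Q ∧ IsExtraspecial 2 Q ∧ Nat.card Q = 2 ^ 13 ∧
    ∃ (N M : Subgroup C) (_ : N.Normal) (_ : M.Normal), Q ≤ N ∧ N ≤ M ∧
      Nat.card N = 3 * Nat.card Q ∧ (∃ (K : Type) (_ : Field K) (_ : Fintype K),
        Fintype.card K = 9 ∧ Nonempty (M ⧸ N.subgroupOf M ≃* PSU 4 K 3)) ∧ M.index = 2 := by
  obtain ⟨a1, a2⟩ := mainz hM hL h
  rw [← hC] at a2
  have a3 := QH.fstar (a2.qh.pcore (IsPGroup.of_card (n := 13) (card13 M)) pc12) a2.1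
    fun _ hg => a2.mem hg.1 ((ld12 M).cen _ hg.2)
  let _ := Fintype.ofFinite (GaloisField 3 2)
  have hF : Fintype.card (GaloisField 3 2) = 9 := by
    rw [← Nat.card_eq_fintype_card, GaloisField.card 3 2 (by norm_num)]; rfl
  obtain ⟨b1, ⟨e⟩⟩ := quot12 hF
  obtain ⟨a4, φ, a5, a6⟩ := a2.qh
  have := om_nm
  obtain ⟨N, M', n1, n2, c1, c2, c3, c4, c5⟩ := tower φ om_le (cl78.trans a5.ge) (a5.le.trans om_norm)
    (by rw [Nat.card_zpowers, om_ord]) (by rw [a5, a1, b1]) e
  rw [a6] at c1 c3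
  exact ⟨_, a2.qh.normal, a3, H3.isExtraspecial_of_equiv (es13 M) (subgroupOfEquivOfLe a4).symm,
    a2.qh.card_sub.trans (card13 M), N, M', n1, n2, c1, c2, c3, ⟨_, _, _, hF, c4⟩, c5⟩

end Cfsg.Agent.H7.Gt
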