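import Mathlib
import Cfsg.Agent.H12.RGD7
import Cfsg.Agent.H12.Aut1
import Cfsg.Agent.H12.Tb

/-!
Iterated cores of a maximal parabolic subgroup and its conjugate by the missing simple
reflection, over the field of two elements: the chain is the level filtration of the
unipotent radical.
-/

set_option autoImplicit false
set_option linter.unusedSectionVars false

namespace Cfsg.Agent.H7.Ic

open Cfsg.Agent.H12

section Core

variable {G : Type*} [Group G]

/-- the core in `P` of `Y` -/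
def core (P Y : Subgroup G) : Subgroup G := (Y.subgroupOf P).normalCore.map P.subtype

theorem mem_core {P Y : Subgroup G} {x : G} :
    x ∈ core P Y ↔ x ∈ P ∧ ∀ p ∈ P, p * x * p⁻¹ ∈ Y := by
  constructor
  · rintro ⟨y, hy, rfl⟩
    exact ⟨y.2, fun p hp => hy ⟨p, hp⟩⟩
  · rintro ⟨h1, h2⟩
    exact ⟨⟨x, h1⟩, fun p => h2 p p.2, rfl⟩

theorem core_le (P Y : Subgroup G) : core P Y ≤ Y := fun x hx => by
  simpa using (mem_core.1 hx).2 1 P.one_mem

theorem core_le' (P Y : Subgroup G) : core P Y ≤ P := fun _ hx => (mem_core.1 hx).1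

theorem core_conj {P Y : Subgroup G} {p x : G} (hp : p ∈ P) (hx : x ∈ core P Y) :
    p * x * p⁻¹ ∈ core P Y := by
  rw [mem_core] at hx ⊢
  refine ⟨P.mul_mem (P.mul_mem hp hx.1) (P.inv_mem hp), fun q hq => ?_⟩
  have := hx.2 (q * p) (P.mul_mem hq hp)
  simpa [mul_assoc] using this

theorem le_core {P Y H : Subgroup G} (h1 : H ≤ P) (h2 : H ≤ Y)
    (h3 : P ≤ Subgroup.normalizer (H : Set G)) : H ≤ core P Y := fun x hx =>
  mem_core.2 ⟨h1 hx, fun p hp => h2 ((Subgroup.mem_normalizer_iff.1 (h3 hp) x).1 hx)⟩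

theorem mem_map_conj {g x : G} {H : Subgroup G} :
    x ∈ H.map (MulAut.conj g).toMonoidHom ↔ g⁻¹ * x * g ∈ H := by
  constructor
  · rintro ⟨y, hy, rfl⟩
    simpa [mul_assoc] using hy
  · intro h
    exact ⟨_, h, by simp [mul_assoc]⟩

theorem map_core (g : G) (P Y : Subgroup G) :
    (core P Y).map (MulAut.conj g).toMonoidHom =
      core (P.map (MulAut.conj g).toMonoidHom) (Y.map (MulAut.conj g).toMonoidHom) := by
  ext x
  simp only [mem_map_conj, mem_core]
  refine and_congr_right fun _ => ⟨fun h p hp => ?_, fun h p hp => ?_⟩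
  · have := h _ hp
    simpa [mul_assoc] using this
  · have := h (g * p * g⁻¹) (by simpa [mul_assoc] using hp)
    simpa [mul_assoc] using this

/-- the chain of iterated cores -/
def ch (P : Subgroup G) (g : G) : ℕ → Subgroup G
  | 0 => P
  | i + 1 => core P (ch P g i ⊓ (ch P g i).map (MulAut.conj g).toMonoidHom)

theorem map_ch {P : Subgroup G} {g : G} (hg : g * g = 1) (i : ℕ) :
    (ch P g (i + 1)).map (MulAut.conj g).toMonoidHom =
      core (P.map (MulAut.conj g).toMonoidHom)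
        (ch P g i ⊓ (ch P g i).map (MulAut.conj g).toMonoidHom) := by
  rw [ch, map_core]
  congr 1
  have e : g⁻¹ = g := inv_eq_of_mul_eq_one_right hg
  ext x
  simp only [mem_map_conj, Subgroup.mem_inf, e]
  have : g * (g * x * g) * g = x := by
    calc g * (g * x * g) * g = (g * g) * x * (g * g) := by simp only [mul_assoc]
      _ = x := by rw [hg, one_mul, mul_one]
  rw [this, and_comm]

theorem normalCore_le_ch (P : Subgroup G) (g : G) (i : ℕ) : P.normalCore ≤ ch P g i := by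
  induction i with
  | zero => exact P.normalCore_le
  | succ i ih =>
    refine le_core P.normalCore_le (le_inf ih fun x hx => mem_map_conj.2 (ih ?_)) ?_
    · simpa using (P.normalCore_normal).conj_mem x hx g⁻¹
    · rw [Subgroup.normalizer_eq_top]; exact le_top

end Core

variable {Φ I : Type*} [DecidableEq I] [Fintype I] [Finite Φ] {R : RS Φ I ℤ}
  {G : Type*} [Group G] {X : RGD R G} {a : I}

variable (R a) in
/-- the roots of level at least `k` -/
def lv (k : ℤ) : Set Φ := {r | k ≤ R.α r a}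

theorem mem_lv {k : ℤ} {r : Φ} : r ∈ lv R a k ↔ k ≤ R.α r a := Iff.rfl

theorem α_itv {r s t : Φ} (h : t ∈ R.itv r s) (hr : 0 ≤ R.α r a) (hs : 0 ≤ R.α s a) :
    R.α r a + R.α s a ≤ R.α t a := by
  obtain ⟨p, q, hp, hq, h⟩ := h
  have := congrFun h a
  simp only [Pi.add_apply, Pi.smul_apply, smul_eq_mul] at this
  nlinarith

theorem pos_lv {k : ℤ} (hk : 1 ≤ k) {r : Φ} (h : r ∈ lv R a k) : R.Pos r :=
  R.pos_of_coord (i := a) (by have := mem_lv.1 h; omega)

theorem closed_between {k : ℤ} (hk : 1 ≤ k) {S : Set Φ} (h1 : lv R a (k + 1) ⊆ S)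
    (h2 : S ⊆ lv R a k) : R.Closed S := fun r hr s hs t ht => h1 (by
  have e1 := mem_lv.1 (h2 hr)
  have e2 := mem_lv.1 (h2 hs)
  have := α_itv (a := a) ht (by omega) (by omega)
  exact mem_lv.2 (by omega))

theorem lv_anti {k l : ℤ} (h : k ≤ l) : lv R a l ⊆ lv R a k := fun _ hr => h.trans hr

theorem closed_lv {k : ℤ} (hk : 1 ≤ k) : R.Closed (lv R a k) :=
  closed_between hk (lv_anti (by omega)) subset_rfl

theorem α_sref_ne {j : I} (hj : j ≠ a) (r : Φ) : R.α (R.sref j r) a = R.α r a := by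
  rw [R.α_sref', R.sL_apply_ne hj.symm]

theorem α_sref_self (r : Φ) : R.α (R.sref a r) a = R.α r a - R.co a (R.α r) := by
  rw [R.α_sref', R.sL_apply_self]

theorem nonneg_of {r : Φ} (h : R.Pos r ∨ R.InJ {a}ᶜ r) : 0 ≤ R.α r a :=
  h.elim (fun h => h a) fun h => (h a (by simp)).ge

theorem PJ_le_normalizer_lv {k : ℤ} (hk : 1 ≤ k) :
    X.PJ {a}ᶜ ≤ Subgroup.normalizer (X.US (lv R a k) : Set G) := by
  rw [RGD.PJ_eq]
  refine sup_le (RGD.US_le.2 fun r hr => RGD.U_le_normalizer (fun h => ?_) fun s hs _ t ht => ?_)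
    (RGD.T_le_normalizer_US _)
  · have h1 := nonneg_of hr
    have h2 := mem_lv.1 h
    rw [R.α_neg, Pi.neg_apply] at h2
    omega
  · have h1 := nonneg_of hr
    have h2 := mem_lv.1 hs
    have := α_itv (a := a) ht h1 (by omega)
    exact mem_lv.2 (by omega)

theorem lv_le_PJ {k : ℤ} (hk : 1 ≤ k) : X.US (lv R a k) ≤ X.PJ {a}ᶜ :=
  ((RGD.US_mono fun _ hr => pos_lv hk hr).trans RGD.Up_le_B).trans (RGD.B_le_PJ _)

theorem UJ_eq : X.UJ {a}ᶜ = X.US (lv R a 1) := by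
  unfold RGD.UJ
  congr 1
  ext r
  simp only [Set.mem_ofPred_eq, mem_lv]
  constructor
  · rintro ⟨h1, h2⟩
    by_contra h
    have := h1 a
    simp only [Pi.zero_apply] at this
    exact h2 fun i hi => by
      obtain rfl : i = a := by simpa using hi
      omega
  · intro h
    exact ⟨R.pos_of_coord (i := a) (by omega), fun h2 => by
      have := h2 a (by simp)
      omega⟩

/-- the lower bound -/
theorem lv_le_ch (F1 : ∀ r, 2 ≤ R.α r a → R.co a (R.α r) ≤ 1) (i : ℕ) :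
    X.US (lv R a (i + 1)) ≤ ch (X.PJ {a}ᶜ) (X.m a) i := by
  induction i with
  | zero => exact lv_le_PJ (by simp)
  | succ i ih =>
    refine le_core (lv_le_PJ (by omega)) (le_inf ((RGD.US_mono (lv_anti (by omega))).trans ih)
      fun x hx => mem_map_conj.2 (ih ?_)) (PJ_le_normalizer_lv (by omega))
    refine (RGD.rep_m a).conj_US' (fun r hr => ?_) hx
    have h1 := mem_lv.1 hr
    have h2 := F1 r (by push_cast at h1; omega)
    rw [RS.s_inv, RS.s_smul, mem_lv, α_sref_self]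
    push_cast at h1
    omega

/-- moving up one level -/
theorem le_succ {N : Subgroup G} (hN : ∀ j, j ≠ a → ∀ x ∈ N, X.m j * x * (X.m j)⁻¹ ∈ N) {k : ℤ}
    (hk : 1 ≤ k) (hNk : N ≤ X.US (lv R a k))
    (h0 : ∀ r, R.α r a = k → (∀ j, j ≠ a → R.co j (R.α r) ≤ 0) → N ≤ X.US (lv R a k \ {r})) :
    N ≤ X.US (lv R a (k + 1)) := by
  have h1 : ∀ r, R.α r a = k → N ≤ X.US (lv R a k \ {r}) := by
    intro r
    induction r using R.ht_wf.induction with
    | _ r ih =>
      intro hr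
      by_cases h : ∀ j, j ≠ a → R.co j (R.α r) ≤ 0
      · exact h0 r hr h
      push Not at h
      obtain ⟨j, hj, h⟩ := h
      have h2 := ih (R.sref j r) (by rw [R.ht_sref]; omega) (by rw [α_sref_ne hj, hr])
      intro x hx
      have h3 := (RGD.rep_m j).conj_US' (S' := lv R a k \ {r}) (fun t ht => ?_) (h2 (hN j hj x hx))
      · simpa [mul_assoc] using h3
      · rw [RS.s_inv, RS.s_smul]
        refine ⟨mem_lv.2 (by rw [α_sref_ne hj]; exact ht.1), fun e => ht.2 ?_⟩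
        exact R.sref_eq_iff.1 e
  have hc : ∀ F : Set Φ, (∀ r ∈ F, R.α r a = k) → R.Closed (lv R a k \ F) := fun F hF =>
    closed_between hk (fun r hr => ⟨lv_anti (by omega) hr, fun h => by
      have := hF r h
      have := mem_lv.1 hr
      omega⟩) Set.diff_subset
  have h2 : ∀ F : Set Φ, F.Finite → (∀ r ∈ F, R.α r a = k) → N ≤ X.US (lv R a k \ F) := by
    intro F hF
    induction F, hF using Set.Finite.induction_on with
    | empty => intro _; simpa using hNk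
    | @insert r F _ _ ih =>
      intro h
      have e1 := h1 r (h r (Set.mem_insert _ _))
      have e2 := ih fun t ht => h t (Set.mem_insert_of_mem _ ht)
      refine (le_inf e1 e2).trans ((RGD.US_inf_US (hc _ (by simpa using h r (Set.mem_insert _ _)))
        (hc _ fun t ht => h t (Set.mem_insert_of_mem _ ht)) (fun t ht => pos_lv hk ht.1)
        (fun t ht => pos_lv hk ht.1)).le.trans (RGD.US_mono ?_))
      rintro t ⟨⟨t1, t2⟩, -, t3⟩
      exact ⟨t1, fun e => e.elim t2 t3⟩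
  refine (h2 {r | R.α r a = k} (Set.toFinite _) fun _ h => h).trans (RGD.US_mono ?_)
  rintro t ⟨t1, t2⟩
  have := mem_lv.1 t1
  simp only [Set.mem_ofPred_eq] at t2
  exact mem_lv.2 (by omega)

theorem m_mem_P {j : I} (hj : j ≠ a) : X.m j ∈ X.PJ {a}ᶜ := RGD.m_mem_PJ (by simpa using hj)

theorem ch_succ_le {k : ℤ} (hk : 1 ≤ k) {i : ℕ}
    (h : ch (X.PJ {a}ᶜ) (X.m a) i ≤ X.US (lv R a k)) :
    ch (X.PJ {a}ᶜ) (X.m a) (i + 1) ≤ X.US (lv R a (k + 1)) := by
  refine le_succ (fun j hj x hx => core_conj (m_mem_P hj) hx) hk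
    (((core_le _ _).trans inf_le_left).trans h) fun r hr h1 x hx => ?_
  have h2 := core_le _ _ hx
  have h3 := h (mem_map_conj.1 h2.2)
  have h4 := (RGD.rep_m_inv a).mem_US_inter (closed_lv hk) (closed_lv hk) (fun _ => pos_lv hk)
    (fun _ => pos_lv hk) (h h2.1) (by simpa using h3)
  refine RGD.US_mono ?_ h4
  rintro t ⟨t1, t2⟩
  refine ⟨t1, fun e => ?_⟩
  obtain rfl : t = r := e
  obtain ⟨i, hi⟩ := R.descent t (pos_lv hk t1)
  by_cases hia : i = a
  · subst hia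
    rw [RS.s_smul, mem_lv, α_sref_self] at t2
    omega
  · exact absurd hi (not_lt.2 (h1 i hia))

/-- the part of the first core inside the unipotent radical -/
theorem inf_le_two (F2 : ∀ r, R.α r a = 1 → (∀ j, j ≠ a → R.co j (R.α r) ≤ 0) → r = R.simple a) :
    ch (X.PJ {a}ᶜ) (X.m a) 1 ⊓ X.US (lv R a 1) ≤ X.US (lv R a 2) := by
  refine le_succ (X := X) (a := a) (k := 1) (fun j hj x hx => Subgroup.mem_inf.2
    ⟨core_conj (m_mem_P hj) (Subgroup.mem_inf.1 hx).1,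
    (Subgroup.mem_normalizer_iff.1 (PJ_le_normalizer_lv le_rfl (m_mem_P hj)) x).1
      (Subgroup.mem_inf.1 hx).2⟩) le_rfl inf_le_right fun r hr h1 x hx => ?_
  obtain rfl := F2 r hr h1
  obtain ⟨v, hv, u, hu, -, rfl⟩ :=
    RGD.exists_of_mem_US (closed_lv le_rfl) (fun _ => pos_lv le_rfl) a hx.2
  have h2 : (X.m a)⁻¹ * (v * u) * X.m a ∈ X.PJ {a}ᶜ := mem_map_conj.1 (core_le _ _ hx.1).2
  have h3 : (X.m a)⁻¹ * v * X.m a ∈ X.PJ {a}ᶜ := by
    refine RGD.B_le_PJ _ (RGD.Up_le_B ((RGD.rep_m a).conj_US' (fun t ht => ?_) hv))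
    rw [RS.s_inv, RS.s_smul]
    exact R.pos_sref (pos_lv le_rfl ht.1) ht.2
  have h4 : (X.m a)⁻¹ * u * X.m a ∈ X.PJ {a}ᶜ := by
    have := mul_mem (inv_mem h3) h2
    simpa [mul_assoc] using this
  have h5 : (X.m a)⁻¹ * u * X.m a ∈ X.U (R.neg (R.simple a)) := by
    simpa using (RGD.rep_m a).conj_U' hu
  have h6 : (X.m a)⁻¹ * u * X.m a = 1 := by
    by_contra h
    have := (RGD.mem_PJ_iff_of_mem_cell (RGD.mem_cell_of_mem_U_neg h5 h)).1 h4
    simp [R.s_mem_WJ_iff] at this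
  have h7 : u = 1 := by
    have : u = X.m a * ((X.m a)⁻¹ * u * X.m a) * (X.m a)⁻¹ := by simp [mul_assoc]
    rw [this, h6]; simp
  rw [h7, mul_one]
  exact hv

theorem ch_one_le_B
    (F2 : ∀ r, R.α r a = 1 → (∀ j, j ≠ a → R.co j (R.α r) ≤ 0) → r = R.simple a)
    (F4 : ∀ j, j ≠ a → ∃ r, R.α r a = 1 ∧ 0 < R.co j (R.α r)) :
    ch (X.PJ {a}ᶜ) (X.m a) 1 ≤ X.B := by
  set N := ch (X.PJ {a}ᶜ) (X.m a) 1 with hN
  have hNP : N ≤ X.PJ {a}ᶜ := core_le' _ _
  have h1 : ∀ H : Subgroup G, X.US (lv R a 2) ≤ H → H ≤ X.US (lv R a 1) →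
      N ≤ Subgroup.normalizer (H : Set G) := by
    intro H e1 e2
    refine Subgroup.le_normalizer_iff.2 fun x hx h hh => ?_
    have e3 : x * h * x⁻¹ * h⁻¹ ∈ N ⊓ X.US (lv R a 1) := by
      refine Subgroup.mem_inf.2 ⟨?_, Subgroup.mul_mem _ ((Subgroup.mem_normalizer_iff.1
        (PJ_le_normalizer_lv le_rfl (hNP hx)) h).1 (e2 hh)) (Subgroup.inv_mem _ (e2 hh))⟩
      have := N.mul_mem hx (core_conj (lv_le_PJ le_rfl (e2 hh)) (N.inv_mem hx))
      simpa [mul_assoc] using this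
    have := mul_mem (e1 (inf_le_two F2 e3)) hh
    simpa using this
  have h2 := RGD.inf_grp_eq_PJ (X := X) (H := N ⊔ X.B) le_sup_right
  have h3 : {i | X.m i ∈ N ⊔ X.B} = ∅ := by
    refine Set.eq_empty_of_forall_notMem fun j hj => ?_
    have hja : j ≠ a := by
      rintro rfl
      have := RGD.m_mem_PJ_iff.1 (sup_le hNP (RGD.B_le_PJ _) hj)
      simp at this
    obtain ⟨r, hr, hc⟩ := F4 j hja
    let S : Set Φ := {t | 2 ≤ R.α t a ∨ (R.α t a = 1 ∧ R.ht r ≤ R.ht t)}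
    have s1 : lv R a (1 + 1) ⊆ S := fun t ht => Or.inl ht
    have s2 : S ⊆ lv R a 1 := fun t ht => mem_lv.2 (by rcases ht with h | h <;> omega)
    have s3 : ∀ t ∈ S, R.Pos t := fun t ht => pos_lv le_rfl (s2 ht)
    have e1 : N ⊔ X.B ≤ Subgroup.normalizer (X.US S : Set G) := by
      refine sup_le (h1 _ (RGD.US_mono s1) (RGD.US_mono s2))
        (RGD.B_le_normalizer_US s3 fun p hp s hs _ t ht => ?_)
      have e2 := α_itv (a := a) ht (hp a) (s3 s hs a)
      have e3 := R.ht_of_mem_itv hp (s3 s hs) ht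
      have e4 := R.ht_pos hp
      have e5 : 0 ≤ R.α p a := hp a
      rcases hs with hs | hs
      · exact Or.inl (by omega)
      · by_cases e6 : 2 ≤ R.α t a
        · exact Or.inl e6
        · exact Or.inr ⟨by omega, by omega⟩
    obtain ⟨u, hu, hu1⟩ := RGD.exists_ne_one (X := X) r
    have e2 := (Subgroup.mem_normalizer_iff.1 (e1 hj) u).1
      (RGD.U_le_US (S := S) (Or.inr ⟨hr, le_rfl⟩) hu)
    have e3 : R.α (R.sref j r) a = 1 := by rw [α_sref_ne hja, hr]
    have e4 := RGD.eq_one_of_mem_U_US (closed_between le_rfl s1 s2) s3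
      (R.pos_of_coord (i := a) (by omega)) (r := R.sref j r) (by
        rintro (h | ⟨-, h⟩)
        · omega
        · rw [R.ht_sref] at h; omega) (X.m_conj j r u hu) e2
    exact hu1 (by simpa [mul_inv_eq_one] using e4)
  rw [h3, RGD.PJ_empty] at h2
  exact (le_inf le_sup_left (hNP.trans (RGD.PJ_le_grp _))).trans h2.le

theorem ch_le_lv {p : ℕ} [Fact p.Prime] [Finite G] (hp : X.CharP p) (hT : X.T = ⊥)
    (F2 : ∀ r, R.α r a = 1 → (∀ j, j ≠ a → R.co j (R.α r) ≤ 0) → r = R.simple a)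
    (F4 : ∀ j, j ≠ a → ∃ r, R.α r a = 1 ∧ 0 < R.co j (R.α r)) (i : ℕ) :
    ch (X.PJ {a}ᶜ) (X.m a) (i + 1) ≤ X.US (lv R a (i + 2)) := by
  induction i with
  | zero =>
    have h1 : ch (X.PJ {a}ᶜ) (X.m a) 1 ≤ X.Up := by
      have := ch_one_le_B (X := X) F2 F4
      rwa [RGD.B, hT, sup_bot_eq] at this
    have h2 := hp.le_UJ (J := {a}ᶜ) (hp.Up.to_le h1) (core_le' _ _)
      (Subgroup.le_normalizer_iff.2 fun x hx y hy => core_conj hx hy)
    rw [UJ_eq] at h2
    simpa using (le_inf le_rfl h2).trans (inf_le_two F2)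
  | succ i ih =>
    have := ch_succ_le (by omega) ih
    refine this.trans (RGD.US_mono (lv_anti ?_))
    push_cast
    omega

theorem isCoatom_P (top : X.grp = ⊤) : IsCoatom (X.PJ {a}ᶜ) := by
  refine ⟨fun h => ?_, fun H hH => ?_⟩
  · have := RGD.m_mem_PJ_iff.1 (h.ge (Subgroup.mem_top (X.m a)))
    simp at this
  · have h1 := RGD.inf_grp_eq_PJ (X := X) ((RGD.B_le_PJ _).trans hH.le)
    rw [top, inf_top_eq] at h1
    by_cases h : X.m a ∈ H
    · have : {i | X.m i ∈ H} = Set.univ := Set.eq_univ_of_forall fun i => by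
        by_cases e : i = a
        · exact e ▸ h
        · exact hH.le (m_mem_P e)
      rw [h1, this, RGD.PJ_univ, top]
    · have h2 : {i | X.m i ∈ H} ⊆ {a}ᶜ := fun i hi e => h (by
        obtain rfl : i = a := e
        exact hi)
      exact absurd (h1.le.trans (RGD.PJ_mono h2)) hH.not_ge

theorem P_ne :
    X.PJ {a}ᶜ ≠ (X.PJ {a}ᶜ).map (MulAut.conj (X.m a)).toMonoidHom := fun h => by
  have h1 : X.m a ∈ Subgroup.normalizer (X.PJ {a}ᶜ : Set G) := by
    refine Subgroup.mem_normalizer_iff.2 fun x => ?_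
    have h2 : X.m a * x * (X.m a)⁻¹ ∈ (X.PJ {a}ᶜ).map (MulAut.conj (X.m a)).toMonoidHom ↔
        x ∈ X.PJ {a}ᶜ := by
      rw [mem_map_conj]
      simp [mul_assoc]
    rw [← h] at h2
    exact h2.symm
  have := RGD.m_mem_PJ_iff.1 ((RGD.normalizer_PJ (X := X) {a}ᶜ).le
    (Subgroup.mem_inf.2 ⟨h1, RGD.m_mem_grp a⟩))
  simp at this

theorem main {p : ℕ} [Fact p.Prime] [Finite G] (hp : X.CharP p) (hT : X.T = ⊥) (top : X.grp = ⊤)
    (F1 : ∀ r, 2 ≤ R.α r a → R.co a (R.α r) ≤ 1)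
    (F2 : ∀ r, R.α r a = 1 → (∀ j, j ≠ a → R.co j (R.α r) ≤ 0) → r = R.simple a)
    (F3 : ∀ r, R.α r a ≤ 6) (F3' : ∃ r, R.α r a = 6)
    (F4 : ∀ j, j ≠ a → ∃ r, R.α r a = 1 ∧ 0 < R.co j (R.α r)) :
    ∃ (M₁ M₂ : Subgroup G) (g : G) (A B : ℕ → Subgroup G),
      IsCoatom M₁ ∧ M₂ = M₁.map (MulAut.conj g).toMonoidHom ∧ M₁ ≠ M₂ ∧ M₁.normalCore = ⊥ ∧
      A 0 = M₁ ∧ B 0 = M₂ ∧
      (∀ i, A (i + 1) = ((A i ⊓ B i).subgroupOf M₁).normalCore.map M₁.subtype) ∧
      (∀ i, B (i + 1) = ((A i ⊓ B i).subgroupOf M₂).normalCore.map M₂.subtype) ∧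
      A 6 = ⊥ ∧ A 5 ≠ ⊥ := by
  have h6 : ch (X.PJ {a}ᶜ) (X.m a) 6 = ⊥ := by
    refine eq_bot_iff.2 ((ch_le_lv hp hT F2 F4 5).trans (RGD.US_le.2 fun r hr => ?_))
    have h1 := mem_lv.1 hr
    have h2 := F3 r
    push_cast at h1
    omega
  have hm : X.m a * X.m a = 1 := by simpa [hT] using X.m_sq a
  refine ⟨X.PJ {a}ᶜ, _, X.m a, ch (X.PJ {a}ᶜ) (X.m a),
    fun i => (ch (X.PJ {a}ᶜ) (X.m a) i).map (MulAut.conj (X.m a)).toMonoidHom, isCoatom_P top,
    rfl, P_ne, eq_bot_iff.2 (h6 ▸ normalCore_le_ch _ _ 6), rfl, rfl, fun i => rfl,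
    fun i => map_ch hm i, h6, fun h => ?_⟩
  obtain ⟨r, hr⟩ := F3'
  refine RGD.U_ne_bot (X := X) r (eq_bot_iff.2 (((RGD.U_le_US ?_).trans (lv_le_ch F1 5)).trans h.le))
  exact mem_lv.2 (by push_cast; omega)

section E8

open Cfsg.Lie

/-- the facts on levels, as a check on the tables -/
noncomputable def lvChk (X : Tab) (a : ℕ) : Bool :=
  (allLt X.n fun r => (decide (X.al r a < 2) || decide (X.cartan a r ≤ 1)) &&
    (decide (X.al r a ≠ 1) || decide (r = X.simple a) ||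
      anyLt X.l fun j => decide (j ≠ a) && decide (0 < X.cartan j r)) &&
    decide (X.al r a ≤ 6)) &&
  (anyLt X.n fun r => decide (X.al r a = 6)) &&
  allLt X.l fun j => decide (j = a) ||
    anyLt X.n fun r => decide (X.al r a = 1) && decide (0 < X.cartan j r)

theorem lvChk_E8 : lvChk (tb chevE8) 3 = true := by
  rw [tbE8]; decide +kernel

variable {D : ChevalleyDatum} [Good D]

theorem grp_T_bot : (grpRGD D (ZMod 2)).T = ⊥ := by
  refine eq_bot_iff.2 ((Subgroup.closure_le _).2 ?_)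
  rintro _ ⟨r, t, ht, rfl⟩
  have : t = 1 := by revert t; decide
  subst this
  exact StSys.h_one _ r

theorem chev_main (a : Fin D.rank) (h : lvChk (tb D) a = true) :
    ∃ (M₁ M₂ : Subgroup (D.group (ZMod 2))) (g : D.group (ZMod 2))
      (A B : ℕ → Subgroup (D.group (ZMod 2))),
      IsCoatom M₁ ∧ M₂ = M₁.map (MulAut.conj g).toMonoidHom ∧ M₁ ≠ M₂ ∧ M₁.normalCore = ⊥ ∧
      A 0 = M₁ ∧ B 0 = M₂ ∧
      (∀ i, A (i + 1) = ((A i ⊓ B i).subgroupOf M₁).normalCore.map M₁.subtype) ∧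
      (∀ i, B (i + 1) = ((A i ⊓ B i).subgroupOf M₂).normalCore.map M₂.subtype) ∧
      A 6 = ⊥ ∧ A 5 ≠ ⊥ := by
  simp only [lvChk, allLt_iff, anyLt_iff, Bool.or_eq_true, Bool.and_eq_true,
    decide_eq_true_eq] at h
  obtain ⟨⟨h1, r6, h6, h6'⟩, h4⟩ := h
  have hc : ∀ (j : Fin D.rank) (r : Fin D.nroots),
      (rsOf D).co j ((rsOf D).α r) = (tb D).cartan j r := fun j r => cf_av j.2 r.2
  have ha : ∀ r : Fin D.nroots, (rsOf D).α r a = (tb D).al r a := fun r => rfl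
  refine main (a := a) (grp_charP 2) grp_T_bot grpRGD_top (fun r hr => ?_) (fun r hr h => ?_)
    (fun r => (h1 r r.2).2) ⟨⟨r6, h6⟩, h6'⟩ fun j hj => ?_
  · rw [hc]
    rw [ha] at hr
    rcases (h1 r r.2).1.1 with e | e
    · omega
    · exact e
  · rcases (h1 r r.2).1.2 with (e | e) | ⟨j, hj, e1, e2⟩
    · exact absurd hr e
    · exact Fin.ext e
    · have := h ⟨j, hj⟩ fun e => e1 (congrArg Fin.val e)
      rw [hc] at this
      exact absurd e2 (not_lt.2 this)
  · rcases h4 j j.2 with e | ⟨r, hr, e1, e2⟩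
    · exact absurd (Fin.ext e) hj
    · exact ⟨⟨r, hr⟩, e1, by rw [hc]; exact e2⟩

theorem three_lt : 3 < chevE8.rank := by decide

end E8

end Cfsg.Agent.H7.Ic
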