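import Cfsg.Agent.H1.Coprime
import Cfsg.Agent.H2.Subnormal
import Cfsg.Agent.H2.Cores
import Cfsg.Agent.H4.SylowIn

/-! Groups with a TI Sylow subgroup and trivial cores. -/

namespace Cfsg.Agent.H7

open Subgroup
open scoped Pointwise commutatorElement

variable {H : Type*} [Group H] [Finite H] {p : ℕ} [hp : Fact p.Prime]

theorem m3_sylow_inf (P : Sylow p H) {A : Subgroup H} (hA : A.IsSubnormal) :
    H4.IsSylowIn p ((P : Subgroup H) ⊓ A) A := by
  refine (H2.subnormalIn_top.2 hA).induction_on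
    (P := fun X => H4.IsSylowIn p ((P : Subgroup H) ⊓ X) X) ?_ ?_
  · simpa using H4.IsSylowIn.sylow_top P
  · intro X Y hXY hn _ h
    have := h.inf_of_normal_le hXY hn
    rwa [inf_assoc, inf_eq_right.2 hXY] at this

theorem m3_inf_ne_bot (hOp' : pPrimeCore p H = ⊥) (P : Sylow p H) {A : Subgroup H}
    (hA : A.IsSubnormal) (h1 : A ≠ ⊥) : (P : Subgroup H) ⊓ A ≠ ⊥ := by
  intro h
  have h2 := (m3_sylow_inf P hA).2.2
  rw [h, relIndex_bot_left] at h2
  apply h1
  rw [eq_bot_iff, ← hOp']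
  exact H2.le_pPrimeCore_of_isSubnormal hA ((Nat.Prime.coprime_iff_not_dvd hp.out).2 h2).symm

theorem m3_key (hOp : pCore p H = ⊥) (hOp' : pPrimeCore p H = ⊥) (P : Sylow p H)
    (hTI : ∀ g : H, g ∉ normalizer ((P : Subgroup H) : Set H) →
      (P : Subgroup H) ⊓ (MulAut.conj g • (P : Subgroup H)) = ⊥) {A B : Subgroup H}
    (hA : A.IsSubnormal) (hB : B.IsSubnormal) (h1 : A ≠ ⊥) (h2 : B ≠ ⊥)
    (hc : A ≤ centralizer (B : Set H)) : False := by
  have hn : A ≤ normalizer ((P : Subgroup H) : Set H) := by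
    intro a ha
    by_contra hna
    apply m3_inf_ne_bot hOp' P hB h2
    rw [eq_bot_iff, ← hTI a hna]
    intro x hx
    refine mem_inf.2 ⟨hx.1, H1.mem_conj_smul_iff.2 ?_⟩
    have := hc ha x hx.2
    rw [mul_assoc, this, inv_mul_cancel_left]
    exact hx.1
  apply m3_inf_ne_bot hOp' P hA h1
  rw [eq_bot_iff, ← hOp]
  refine H2.le_pCore_of_isSubnormal ?_ (P.isPGroup'.to_inf_left)
  refine (H2.SubnormalIn.of_le_normalizer inf_le_right ?_).isSubnormal hA
  intro a ha
  rw [mem_normalizer_iff]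
  intro x
  exact and_congr (mem_normalizer_iff.1 (hn ha) x) (mem_normalizer_iff.1 (le_normalizer ha) x)

theorem s4620 (hOp : pCore p H = ⊥) (hOp' : pPrimeCore p H = ⊥) (P : Sylow p H)
    (hP1 : (P : Subgroup H) ≠ ⊥)
    (hTI : ∀ g : H, g ∉ normalizer ((P : Subgroup H) : Set H) →
      (P : Subgroup H) ⊓ (MulAut.conj g • (P : Subgroup H)) = ⊥) :
    ∃ N : Subgroup H, N.Normal ∧ N ≠ ⊥ ∧ (∀ K : Subgroup H, K.Normal → K ≠ ⊥ → N ≤ K) ∧
      IsSimpleGroup N ∧ ¬ IsMulCommutative N ∧ centralizer (N : Set H) = ⊥ ∧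
      ∀ Q : Sylow p N, (Q : Subgroup N) ≠ ⊥ ∧
        ∀ n : N, n ∉ normalizer ((Q : Subgroup N) : Set N) →
          (Q : Subgroup N) ⊓ (MulAut.conj n • (Q : Subgroup N)) = ⊥ := by
  haveI : Nontrivial H := by
    obtain ⟨x, -, hx⟩ := (bot_or_exists_ne_one _).resolve_left hP1
    exact ⟨x, 1, hx⟩
  obtain ⟨N, hN⟩ := H2.exists_isMinNormal (G := H)
  haveI := hN.1
  have key := @m3_key H _ _ p _ hOp hOp' P hTI
  have hC : centralizer (N : Set H) = ⊥ := by
    by_contra h
    exact key (Normal.isSubnormal inferInstance) hN.1.isSubnormal h hN.2.1 le_rfl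
  refine ⟨N, hN.1, hN.2.1, ?_, ?_, ?_, hC, ?_⟩
  · intro K hK hK1
    rcases hN.commutator_eq_bot_or_le K with h | h
    · exfalso
      apply hK1
      rw [eq_bot_iff, ← hC]
      rwa [commutator_comm, commutator_eq_bot_iff_le_centralizer] at h
    · exact h
  · haveI : Nontrivial N := (nontrivial_iff_ne_bot N).2 hN.2.1
    obtain ⟨A, hA⟩ := H2.exists_isMinNormal (G := N)
    have hAs : ∀ B : Subgroup N, B.Normal → (B.map N.subtype).IsSubnormal := fun B hB =>
      (H2.subnormalIn_map_subtype.2 hB.isSubnormal).isSubnormal hN.1.isSubnormal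
    have hAn : (A.map N.subtype).Normal := by
      refine ⟨?_⟩
      rintro _ ⟨a, ha, rfl⟩ g
      let e : N ≃* N := MulAut.conjNormal g
      have hB := hA.map_equiv e
      haveI := hA.1
      rcases hB.commutator_eq_bot_or_le A with h | h
      · exfalso
        refine key (hAs _ hB.1) (hAs _ hA.1) ?_ ?_ ?_
        · rw [Ne, map_eq_bot_iff_of_injective _ (subtype_injective _)]
          exact hB.2.1
        · rw [Ne, map_eq_bot_iff_of_injective _ (subtype_injective _)]
          exact hA.2.1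
        · rw [commutator_eq_bot_iff_le_centralizer] at h
          rintro _ ⟨b, hb, rfl⟩ _ ⟨c, hc, rfl⟩
          exact congrArg Subtype.val (h hb c hc)
      · exact ⟨e a, h ⟨a, ha, rfl⟩, rfl⟩
    have hAt : A = ⊤ := by
      rcases hN.2.2 _ hAn (map_subtype_le A) with h | h
      · rw [map_eq_bot_iff_of_injective _ (subtype_injective _)] at h
        exact absurd h hA.2.1
      · rw [eq_top_iff]
        intro x _
        have : x.1 ∈ A.map N.subtype := by rw [h]; exact x.2
        obtain ⟨y, hy, hyx⟩ := this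
        rwa [← Subtype.ext hyx]
    refine ⟨fun B hB => ?_⟩
    have := hA.2.2 B hB (by rw [hAt]; exact le_top)
    rwa [hAt] at this
  · intro hc
    apply hN.2.1
    rw [eq_bot_iff, ← hC]
    intro x hx y hy
    exact congrArg Subtype.val (hc.is_comm.comm (⟨y, hy⟩ : N) ⟨x, hx⟩)
  · intro Q
    have hQ := H4.IsSylowIn.of_sylow_map Q
    have hS := m3_sylow_inf P hN.1.isSubnormal
    obtain ⟨x, hx, hxQ⟩ := hS.exists_conj_eq hQ
    have hmem : ∀ y : N, y ∈ (Q : Subgroup N) ↔ x⁻¹ * y * x ∈ (P : Subgroup H) := by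
      intro y
      have : y ∈ (Q : Subgroup N) ↔ y.1 ∈ (Q : Subgroup N).map N.subtype :=
        (mem_map_iff_mem (f := N.subtype) (subtype_injective N)).symm
      rw [this, ← hxQ, H1.mem_conj_smul_iff, mem_inf]
      exact ⟨fun h => h.1, fun h => ⟨h, mul_mem (mul_mem (inv_mem hx) y.2) hx⟩⟩
    constructor
    · intro h
      apply m3_inf_ne_bot hOp' P hN.1.isSubnormal hN.2.1
      rw [h, Subgroup.map_bot, smul_eq_iff_eq_inv_smul, smul_bot] at hxQ
      exact hxQ
    · intro n hn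
      have hg : x⁻¹ * n * x ∉ normalizer ((P : Subgroup H) : Set H) := by
        intro hg
        apply hn
        rw [mem_normalizer_iff]
        intro y
        rw [hmem, hmem, mem_normalizer_iff.1 hg]
        simp only [coe_mul, coe_inv]
        rw [show x⁻¹ * n * x * (x⁻¹ * y * x) * (x⁻¹ * n * x)⁻¹ = x⁻¹ * (n * y * (n : H)⁻¹) * x by
          group]
      rw [eq_bot_iff]
      intro y hy
      have h1 := (hmem y).1 hy.1
      have h2 := (hmem _).1 (H1.mem_conj_smul_iff.1 hy.2)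
      have h3 : x⁻¹ * y * x ∈ (P : Subgroup H) ⊓ MulAut.conj (x⁻¹ * n * x) • (P : Subgroup H) := by
        refine mem_inf.2 ⟨h1, H1.mem_conj_smul_iff.2 ?_⟩
        simp only [coe_mul, coe_inv] at h2
        rwa [show (x⁻¹ * n * x)⁻¹ * (x⁻¹ * y * x) * (x⁻¹ * n * x) = x⁻¹ * ((n : H)⁻¹ * y * n) * x by
          group]
      rw [hTI _ hg, mem_bot] at h3
      rw [mem_bot]
      apply Subtype.ext
      have : (y : H) = x * (x⁻¹ * y * x) * x⁻¹ := by group
      rw [this, h3]
      simp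

end Cfsg.Agent.H7
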