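import Cfsg.Agent.H7.M6
import Cfsg.Agent.H7.Solv
import Cfsg.Agent.H5.Basic
import Cfsg.Agent.H1.Glauberman

/-! Fully ramified characters: complements of Sylow subgroups in quotients. -/

namespace Cfsg.Agent.H7

open Subgroup
open scoped ComplexConjugate commutatorElement Pointwise

variable {G : Type*} [Group G] [Finite G] {p : ℕ} [hp : Fact p.Prime]

omit hp in
theorem m7_index {Z Q : Type*} [Group Z] [Group Q] [Finite Z] [Finite Q] {f : Z →* G} {k : Z →* Q}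
    {ι : Q →* G} (hf : Function.Injective f) (hι : Function.Injective ι)
    (hk : ∀ z, ι (k z) = f z) : f.range.index = k.range.index * ι.range.index := by
  have hk' : Function.Injective k := fun a b h => hf (by rw [← hk, ← hk, h])
  refine Nat.eq_of_mul_eq_mul_left (Nat.card_pos (α := Z)) ?_
  rw [← mul_assoc, card_mul_index_range hk', card_mul_index_range hι, card_mul_index_range hf]

theorem m7_sq {Z Q : Type*} [Group Z] [Group Q] [Finite Z] [Finite Q] {f : Z →* G} {k : Z →* Q}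
    {ι : Q →* G} (hf : IsNE f) (hι : Function.Injective ι) (hk : ∀ z, ι (k z) = f z)
    {χ : G → ℂ} (hχ : IsIrrCharacter G χ) {θ : Z → ℂ} (hθ : IsIrrCharacter Z θ) {e : ℕ}
    (h : (fun z => χ (f z)) = (e : ℂ) • θ) (he : e ^ 2 = f.range.index)
    (hi : ¬ p ∣ ι.range.index) {a : ℕ} (ha : k.range.index = p ^ a) {η : Q → ℂ}
    (hη : IsIrrCharacter Q η) (h0 : ip (fun z => η (k z)) θ ≠ 0) :
    ∃ b : ℕ, (fun z => η (k z)) = (b : ℂ) • θ ∧ b ^ 2 = k.range.index := by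
  have hk' := isNE_of_comp hf hι hk
  have he0 : (e : ℂ) ≠ 0 := by
    rintro h0
    rw [Nat.cast_eq_zero.1 h0] at he
    exact index_ne_zero_of_finite he.symm
  have hinv : hk'.Inv θ := (hf.inv_of_res_eq_smul (irr_cf hχ) he0 h).of_comp hk' hk
  obtain ⟨b, hb0, hb⟩ := hk'.clifford_inv_nat hη hθ hinv h0
  refine ⟨b, hb, le_antisymm (sq_le_index_of_res_eq hk' hη hθ hb) ?_⟩
  have hv := (vanish_iff_sq_eq_index hf.inj hχ hθ h).1 he
  have h1 : (k.range.index : ℂ) • (fun x => χ (ι x)) = (e : ℂ) • ind k θ := by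
    funext x
    by_cases hx : x ∈ k.range
    · obtain ⟨z, rfl⟩ := hx
      have e1 := congrFun (hk'.res_ind_of_inv hinv) z
      have e2 := congrFun h z
      simp only [Pi.smul_apply, smul_eq_mul] at e1 e2 ⊢
      rw [e1, hk, e2]
      ring
    · haveI := hk'.normal
      simp only [Pi.smul_apply, smul_eq_mul]
      rw [ind_apply_of_notMem θ hx, hv, mul_zero, mul_zero]
      rintro ⟨z, hz⟩
      exact hx ⟨z, hι (by rw [hk, hz])⟩
  obtain ⟨m, hm⟩ := ip_char_nat (char_comp ι (irr_char hχ)) (irr_char hη)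
  have h2 := congrArg (fun φ => ip φ η) h1
  simp only [ip_smul_left] at h2
  rw [hm, ip_ind_left _ _ (irr_cf hη), hb, ip_smul_right, ip_irr_self hθ, map_natCast,
    mul_one] at h2
  have h3 : k.range.index * m = e * b := by exact_mod_cast h2
  have h4 : k.range.index * m ^ 2 = ι.range.index * b ^ 2 := by
    refine Nat.eq_of_mul_eq_mul_left (Nat.pos_of_ne_zero (index_ne_zero_of_finite (H := k.range))) ?_
    rw [← mul_assoc, ← mul_assoc, ← m7_index hf.inj hι hk, ← he, ← mul_pow, ← h3]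
    ring
  refine Nat.le_of_dvd (by positivity) (Nat.Coprime.dvd_of_dvd_mul_left ?_ ⟨_, h4.symm⟩)
  rw [ha]
  exact ((Nat.Prime.coprime_iff_not_dvd hp.out).2 hi).pow_left a

omit hp in
theorem m7_uniq {Z : Type*} [Group Z] [Finite Z] {f : Z →* G} (hf : Function.Injective f)
    {χ : G → ℂ} (hχ : IsIrrCharacter G χ) {θ : Z → ℂ} (hθ : IsIrrCharacter Z θ) {e : ℕ}
    (h : (fun z => χ (f z)) = (e : ℂ) • θ) (he : e ^ 2 = f.range.index)
    {ψ : G → ℂ} (hψ : IsIrrCharacter G ψ) (h0 : ip (fun z => ψ (f z)) θ ≠ 0) : ψ = χ := by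
  rw [← ip_ind_right _ _ (irr_cf hψ), ind_eq_smul_of_sq_eq_index hf hχ hθ h he,
    ip_smul_right] at h0
  exact irr_eq_of_ip_ne_zero hψ hχ (right_ne_zero_of_mul h0)

theorem m7_main {Z K : Subgroup G} [hZ : Z.Normal] [hK : K.Normal] (hZK : Z ≤ K) {χ : G → ℂ}
    (hχ : IsIrrCharacter G χ) {θ : Z → ℂ} (hθ : IsIrrCharacter Z θ) {e : ℕ}
    (he : e ^ 2 = Z.index) (h : ∀ z : Z, χ z = e * θ z) (S : Sylow p G) {Q D : Subgroup G}
    (hQ : Q = Z ⊔ S) (hD : D = Q ⊓ K) (hZD : Z ≤ D) (hDQ : D ≤ Q) (hne : IsNE (inclusion hDQ))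
    (H : ∀ (η : Q → ℂ) (ψ : D → ℂ) (b : ℕ), IsIrrCharacter Q η → IsIrrCharacter D ψ →
      ip (fun d => η (inclusion hDQ d)) ψ ≠ 0 → ip (fun z => ψ (inclusion hZD z)) θ ≠ 0 →
      (fun z => η (inclusion hDQ (inclusion hZD z))) = (b : ℂ) • θ → b ^ 2 = Z.relIndex Q →
      hne.inertia ψ ≤ (inclusion hDQ).range) :
    ∃ M : Subgroup (G ⧸ K), M.IsComplement' ((S : Subgroup G).map (QuotientGroup.mk' K)) := by
  have hf := isNE_subtype Z
  have hSQ : (S : Subgroup G) ≤ Q := hQ ▸ le_sup_right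
  have hDK : D ≤ K := hD ▸ inf_le_right
  have hiQ : ¬ p ∣ Q.index := fun h => S.not_dvd_index (h.trans (index_dvd_of_le hSQ))
  obtain ⟨a, ha⟩ : ∃ a, Z.relIndex Q = p ^ a := by
    obtain ⟨n, hn⟩ := IsPGroup.iff_card.1 S.isPGroup'
    have : Z.relIndex Q ∣ p ^ n := by
      rw [hQ, relIndex_sup_left, ← hn]
      exact relIndex_dvd_card _ _
    obtain ⟨a, -, ha⟩ := (Nat.dvd_prime_pow hp.out).1 this
    exact ⟨a, ha⟩
  have he0 : (e : ℂ) ≠ 0 := by
    rintro h0
    rw [Nat.cast_eq_zero.1 h0] at he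
    exact index_ne_zero_of_finite he.symm
  have hinv := (inv_subtype_iff Z hf θ).1 (hf.inv_of_res_eq_smul (irr_cf hχ) he0 (funext h))
  obtain ⟨ψ, hψ, h1⟩ := exists_irr_over (inclusion_injective hZD) hθ
  obtain ⟨η, hη, h2⟩ := exists_irr_over (inclusion_injective hDQ) hψ
  have h3 := ip_comp_comp_ne_zero _ _ (irr_char hη) hψ (irr_char hθ) h2 h1
  obtain ⟨b, hb, hb'⟩ := m7_sq (p := p) (k := inclusion (hZD.trans hDQ)) hf Q.subtype_injective
    (fun _ => rfl) hχ hθ (funext h) (by rwa [range_subtype]) (by rwa [range_subtype])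
    (by rw [inclusion_range]; exact ha) hη h3
  have hI := H η ψ b hη hψ h2 h1 hb (by rw [hb', inclusion_range]; rfl)
  let N := normalizer (D : Set G)
  have hDN : D ≤ N := le_normalizer
  have hQN : Q ≤ N := by
    intro q hq
    rw [mem_normalizer_iff]
    intro d
    rw [hD, mem_inf, mem_inf]
    refine and_congr ?_ ?_
    · rw [mul_mem_cancel_right (inv_mem hq), mul_mem_cancel_left hq]
    · exact ⟨fun h => hK.conj_mem d h q, fun h => by simpa [mul_assoc] using hK.conj_mem _ h q⁻¹⟩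
  have hnN : IsNE (inclusion hDN) :=
    isNE_inclusion hDN fun t ht k hk => (mem_normalizer_iff.1 ht k).1 hk
  let T := (hnN.inertia ψ).map N.subtype
  have hTN : T ≤ N := map_subtype_le _
  have hDT : D ≤ T := fun d hd => ⟨_, hnN.apply_mem_inertia (irr_cf hψ) ⟨d, hd⟩, rfl⟩
  have hmul : ∀ g ∈ N, ∃ t ∈ T, ∃ q ∈ Q, t * q = g := by
    intro g hg
    have a1 := hnN.irr_cjf ⟨g, hg⟩ hψ
    have a2 : ip (fun z => hnN.cjf ⟨g, hg⟩ ψ (inclusion hZD z)) θ ≠ 0 := by
      have e1 : (fun z => hnN.cjf ⟨g, hg⟩ ψ (inclusion hZD z)) =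
          hf.cjf g fun z => ψ (inclusion hZD z) := by
        funext z
        rw [hnN.cjf_apply, hf.cjf_apply]
        congr 1
        refine hnN.cj_eq (Subtype.ext ?_)
        exact hf.cj_spec g z
      have e2 : hf.cjf g θ = θ := by rw [cjf_subtype]; exact funext (hinv g)
      rw [e1]
      intro h0
      apply h1
      rw [← hf.ip_cjf g, e2]
      exact h0
    obtain ⟨η', hη', a3⟩ := exists_irr_over (inclusion_injective hDQ) a1
    have a6 := ip_comp_comp_ne_zero _ _ (irr_char hη') a1 (irr_char hθ) a3 a2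
    have a4 := m7_uniq (inclusion_injective (hZD.trans hDQ)) hη hθ hb hb' hη' a6
    subst a4
    obtain ⟨q, hq⟩ := hne.mem_orbit.1 (hne.mem_orbit_of_under hη hψ a1 h2 a3)
    rw [hnN.cjf_comp hne (ι := inclusion hQN) (fun _ => rfl)] at hq
    have a5 : (⟨g, hg⟩ : N) * (inclusion hQN q)⁻¹ ∈ hnN.inertia ψ := by
      rw [hnN.mem_inertia, hnN.cjf_mul, ← hq, ← hnN.cjf_mul, mul_inv_cancel, hnN.cjf_one]
    exact ⟨_, ⟨_, a5, rfl⟩, q, q.2, by simp⟩
  have hiT : T.relIndex N = T.relIndex Q := by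
    refine ((H1.set_mul_eq_iff_relIndex hQN hTN).1 (Set.Subset.antisymm ?_ ?_)).symm
    · rintro _ ⟨q, hq, t, ht, rfl⟩
      exact mul_mem (hQN hq) (hTN ht)
    · intro g hg
      obtain ⟨t, ht, q, hq, e⟩ := hmul g⁻¹ (inv_mem hg)
      exact ⟨q⁻¹, inv_mem hq, t⁻¹, inv_mem ht, by
        change q⁻¹ * t⁻¹ = g
        rw [← mul_inv_rev, e, inv_inv]⟩
  have hM : N ⊓ K ≤ T := by
    rw [← relIndex_eq_one]
    have a1 : T.relIndex (N ⊓ K) ∣ T.relIndex N :=
      H1.relIndex_dvd_relIndex_of_le_normalizer T inf_le_left (H1.le_normalizer_inf le_normalizer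
        (by rw [normalizer_eq_top]; exact le_top))
    have a2 : T.relIndex Q ∣ p ^ a := ha ▸ relIndex_dvd_of_le_left Q (hZD.trans hDT)
    have a3 : T.relIndex (N ⊓ K) ∣ Q.index := by
      refine (relIndex_dvd_of_le_left _ hDT).trans ?_
      have := relIndex_mul_relIndex D (N ⊓ K) K (le_inf hDN hDK) inf_le_right
      refine (Dvd.intro _ this).trans ?_
      rw [hD, inf_relIndex_right, ← relIndex_top_right]
      exact H1.relIndex_dvd_relIndex_of_le_normalizer Q le_top (by rw [normalizer_eq_top])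
    exact Nat.eq_one_of_dvd_coprimes
      (((Nat.Prime.coprime_iff_not_dvd hp.out).2 hiQ).pow_left a) ((hiT ▸ a1).trans a2) a3
  have hNK : N ⊔ K = ⊤ := by
    rw [eq_top_iff, ← H5.frattini_inf S K]
    refine sup_le_sup_right ?_ _
    have : D = Z ⊔ (S : Subgroup G) ⊓ K := by
      rw [hD, hQ]
      exact H1.sup_inf_eq_of_le_normalizer hZK (by rw [normalizer_eq_top]; exact le_top)
    change _ ≤ normalizer (D : Set G)
    rw [this]
    refine le_trans (le_inf ?_ le_rfl) (normalizer_inf_normalizer_le_normalizer_sup _ _)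
    rw [normalizer_eq_top Z]; exact le_top
  refine ⟨T.map (QuotientGroup.mk' K), isComplement'_of_disjoint_and_mul_eq_univ ?_ ?_⟩
  · rw [disjoint_iff, eq_bot_iff]
    rintro _ ⟨⟨t, ht, rfl⟩, s, hs, e⟩
    have a1 : s⁻¹ * t ∈ K := QuotientGroup.eq.1 e
    have a2 : s ∈ T := by
      have := mul_mem ht (inv_mem (hM (mem_inf.2
        ⟨mul_mem (inv_mem (hQN (hSQ hs))) (hTN ht), a1⟩)))
      simpa using this
    obtain ⟨y, hy, rfl⟩ := a2
    have a3 : (⟨y, hSQ hs⟩ : Q) ∈ hne.inertia ψ := by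
      rw [hnN.inertia_comp hne (ι := inclusion hQN) (fun _ => rfl)]
      exact hy
    obtain ⟨d, hd⟩ := hI a3
    rw [← e, mem_bot, QuotientGroup.mk'_apply, QuotientGroup.eq_one_iff]
    have a4 : (d : G) = y := congrArg Subtype.val hd
    change (y : G) ∈ K
    rw [← a4]
    exact hDK d.2
  · rw [Set.eq_univ_iff_forall]
    intro x
    obtain ⟨g, rfl⟩ := QuotientGroup.mk'_surjective K x
    obtain ⟨n, hn, k, hk, rfl⟩ := mem_sup_of_normal_right.1 (hNK ▸ mem_top g)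
    obtain ⟨t, ht, q, hq, rfl⟩ := hmul n hn
    rw [hQ] at hq
    obtain ⟨z, hz, s, hs, rfl⟩ := mem_sup_of_normal_left.1 hq
    refine ⟨_, ⟨t, ht, rfl⟩, _, ⟨s, hs, rfl⟩, ?_⟩
    simp [(QuotientGroup.eq_one_iff z).2 (hZK hz), (QuotientGroup.eq_one_iff k).2 hk]

theorem s4564 {Z K : Subgroup G} [hZ : Z.Normal] [hK : K.Normal] (hZK : Z ≤ K) {χ : G → ℂ}
    (hχ : IsIrrCharacter G χ) {θ : Z → ℂ} (hθ : IsIrrCharacter Z θ) {e : ℕ}
    (he : e ^ 2 = Z.index) (h : ∀ z : Z, χ z = e * θ z) (P : Sylow p (G ⧸ K)) (hc : IsCyclic P) :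
    ∃ M : Subgroup (G ⧸ K), M.IsComplement' (P : Subgroup (G ⧸ K)) := by
  obtain ⟨S, rfl⟩ := Sylow.mapSurjective_surjective (QuotientGroup.mk'_surjective K) p P
  set Q := Z ⊔ (S : Subgroup G) with hQ
  have hne : IsNE (inclusion (inf_le_left : Q ⊓ K ≤ Q)) := isNE_inclusion _ fun t ht k hk =>
    mem_inf.2 ⟨mul_mem (mul_mem ht hk.1) (inv_mem ht), hK.conj_mem k hk.2 t⟩
  refine m7_main hZK hχ hθ he h S hQ rfl (le_inf le_sup_left hZK) inf_le_left hne ?_
  intro η ψ b hη hψ h1 h2 h3 h4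
  let I := hne.inertia ψ
  have hI := isNE_codRestrict hne I (hne.apply_mem_inertia (irr_cf hψ))
  let π : I →* G ⧸ K := (QuotientGroup.mk' K).comp (Q.subtype.comp I.subtype)
  have hπ : IsCyclic π.range := by
    refine H3.isCyclic_of_le' (C := (S : Subgroup G).map (QuotientGroup.mk' K)) hc ?_
    rintro _ ⟨⟨⟨q, hq⟩, -⟩, rfl⟩
    obtain ⟨z, hz, s, hs, rfl⟩ := mem_sup_of_normal_left.1 hq
    exact ⟨s, hs, by simp [π, (QuotientGroup.eq_one_iff z).2 (hZK hz)]⟩
  obtain ⟨⟨_, g, rfl⟩, hg⟩ := IsCyclic.exists_zpow_surjective (G := π.range)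
  obtain ⟨ξ, hξ, a1⟩ := hI.exists_ext_of_cyclic hψ (hne.inv_inertia (irr_cf hψ)) g fun x => by
    obtain ⟨k, hk⟩ := hg ⟨_, x, rfl⟩
    have e : π (g ^ k) = π x := by rw [map_zpow]; exact congrArg Subtype.val hk
    have : ((g ^ k)⁻¹ * x : I).1.1 ∈ K := QuotientGroup.eq.1 e
    exact ⟨k, ⟨_, mem_inf.2 ⟨((g ^ k)⁻¹ * x : I).1.2, this⟩⟩, by
      rw [← inv_mul_eq_iff_eq_mul]; rfl⟩
  have hu : ∀ ζ, IsIrrCharacter I ζ → ip (fun n => ζ ((inclusion inf_le_left).codRestrict I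
      (hne.apply_mem_inertia (irr_cf hψ)) n)) ψ ≠ 0 → ind I.subtype ζ = η := by
    intro ζ hζ h0
    have b1 := hne.corr_irr I.subtype_injective (fun _ => rfl) hψ (range_subtype I).ge hζ h0
    have b2 := hne.corr_ip I.subtype_injective (fun _ => rfl) hψ (range_subtype I).ge hζ h0
    have b3 := ip_comp_comp_ne_zero _ _ (irr_char b1) hψ (irr_char hθ) (b2 ▸ h0) h2
    exact m7_uniq (inclusion_injective (le_sup_left : Z ≤ Q)) hη hθ h3
      (by rw [h4, inclusion_range]; rfl) b1 b3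
  have a2 : ip (fun n => ξ ((inclusion inf_le_left).codRestrict I
      (hne.apply_mem_inertia (irr_cf hψ)) n)) ψ ≠ 0 := by
    rw [funext a1, ip_irr_self hψ]; exact one_ne_zero
  have a3 := hI.sq_eq_index_of_unique hξ hψ (e := 1) (by rw [funext a1]; simp) fun ζ hζ h0 =>
    hne.corr_inj I.subtype_injective (fun _ => rfl) hψ (range_subtype I).ge hζ h0 hξ a2
      ((hu ζ hζ h0).trans (hu ξ hξ a2).symm)
  rw [one_pow, eq_comm, index_eq_one] at a3
  intro x hx
  obtain ⟨d, hd⟩ : (⟨x, hx⟩ : I) ∈ _ := a3 ▸ mem_top _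
  exact ⟨d, congrArg Subtype.val hd⟩

omit hp in
theorem m7_dvd_deg {φ : G → ℂ} (hφ : IsCharacter G φ) {d : ℕ}
    (h : ∀ ψ, IsIrrCharacter G ψ → ip φ ψ ≠ 0 → ψ 1 = d) : ∃ c : ℕ, φ 1 = c * d := by
  classical
  choose! m hm using fun ψ (hψ : IsIrrCharacter G ψ) => ip_char_nat hφ (irr_char hψ)
  refine ⟨∑ ψ ∈ irrSet G, m ψ, ?_⟩
  rw [cf_expand (char_cf hφ), Finset.sum_apply, Nat.cast_sum, Finset.sum_mul]
  refine Finset.sum_congr rfl fun ψ hψ => ?_
  have hψ' := mem_irrSet.1 hψ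
  rw [Pi.smul_apply, smul_eq_mul, ← hm ψ hψ']
  by_cases h0 : ip φ ψ = 0
  · rw [h0, zero_mul, zero_mul]
  · rw [h ψ hψ' h0]

omit hp in
theorem s4563 {Z K : Subgroup G} [hZ : Z.Normal] [hK : K.Normal] (hZK : Z ≤ K) {χ : G → ℂ}
    (hχ : IsIrrCharacter G χ) {θ : Z → ℂ} (hθ : IsIrrCharacter Z θ) {e : ℕ}
    (he : e ^ 2 = Z.index) (h : ∀ z : Z, χ z = e * θ z) {φ : K → ℂ} (hφ : IsCharacter K φ)
    (hind : ind K.subtype φ = χ) : Group.IsSolvable (G ⧸ K) := by
  refine isSolvable_of_hall_compl _ rfl fun p hp => ?_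
  haveI := Fact.mk hp
  obtain ⟨S⟩ : Nonempty (Sylow p G) := inferInstance
  set Q := Z ⊔ (S : Subgroup G) with hQ
  have hne : IsNE (inclusion (inf_le_left : Q ⊓ K ≤ Q)) := isNE_inclusion _ fun t ht k hk =>
    mem_inf.2 ⟨mul_mem (mul_mem ht hk.1) (inv_mem ht), hK.conj_mem k hk.2 t⟩
  have hZD : Z ≤ Q ⊓ K := le_inf le_sup_left hZK
  suffices H : _ by
    obtain ⟨M, hM⟩ := m7_main hZK hχ hθ he h S hQ rfl hZD inf_le_left hne H
    let P := S.mapSurjective (QuotientGroup.mk'_surjective K)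
    refine ⟨M, ?_, ?_⟩
    · rw [hM.symm.index_eq_card]
      exact IsPGroup.iff_card.1 P.isPGroup'
    · rw [← hM.index_eq_card]
      exact P.not_dvd_index
  intro η ψ b hη hψ h1 h2 h3 h4
  have hu : ∀ ψ', IsIrrCharacter _ ψ' → ip (fun z => ψ' (inclusion hZD z)) θ ≠ 0 → ∀ η',
      IsIrrCharacter Q η' → ip (fun d => η' (inclusion inf_le_left d)) ψ' ≠ 0 → η' = η := by
    intro ψ' a1 a2 η' a3 a4
    have b3 := ip_comp_comp_ne_zero _ _ (irr_char a3) a1 (irr_char hθ) a4 a2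
    exact m7_uniq (inclusion_injective (le_sup_left : Z ≤ Q)) hη hθ h3
      (by rw [h4, inclusion_range]; rfl) a3 b3
  have hφ' := irr_of_irr_ind K.subtype_injective hφ (hind ▸ hχ)
  obtain ⟨x, hx0, hx⟩ := irr_one_pos hψ
  obtain ⟨y, hy0, hy⟩ := irr_one_pos hθ
  obtain ⟨c, hc⟩ := m7_dvd_deg (char_comp (inclusion (inf_le_right : Q ⊓ K ≤ K)) hφ) (d := x) (by
    intro ψ' a1 a2
    obtain ⟨θ', a3, a4⟩ := exists_irr_under (inclusion hZD) a1
    have a5 : ip (fun k => χ (K.subtype k)) φ ≠ 0 := by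
      rw [← ip_ind_right _ _ (irr_cf hχ), hind, ip_irr_self hχ]; exact one_ne_zero
    have a6 := ip_comp_comp_ne_zero _ _ (irr_char hχ) hφ' (irr_char a1) a5 a2
    have a7 := ip_comp_comp_ne_zero (Q ⊓ K).subtype _ (irr_char hχ) a1 (irr_char a3) a6 a4
    have a8 : (fun z => χ ((Q ⊓ K).subtype (inclusion hZD z))) = (e : ℂ) • θ := funext h
    rw [a8, ip_smul_left] at a7
    rw [← irr_eq_of_ip_ne_zero hθ a3 (right_ne_zero_of_mul a7)] at a4
    obtain ⟨η', b1, b2⟩ := exists_irr_over (inclusion_injective (inf_le_left : Q ⊓ K ≤ Q)) a1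
    rw [hu ψ' a1 a4 η' b1 b2] at b2
    rw [← hx]
    exact hne.degree_eq_of_under hη hψ a1 h1 b2)
  obtain ⟨m, hm⟩ := ip_char_nat (char_comp (inclusion (inf_le_left : Q ⊓ K ≤ Q)) (irr_char hη))
    (irr_char hψ)
  have e1 : ind (inclusion (inf_le_left : Q ⊓ K ≤ Q)) ψ = (m : ℂ) • η := by
    refine cf_ext (ind_cf _ _) (cf_smul _ (irr_cf hη)) fun ζ hζ => ?_
    rw [ip_ind_left _ _ (irr_cf hζ), ip_smul_left]
    by_cases hζη : ζ = η
    · rw [hζη, ip_irr_self hη, mul_one, ip_natCast_comm hm]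
    · rw [ip_irr_ne hη hζ (Ne.symm hζη), mul_zero, ip_eq_zero_comm]
      by_contra h0
      exact hζη (hu ψ hψ h2 ζ hζ h0)
  have e2 := hne.ip_ind_ind_self hψ
  rw [e1, ip_smul_left, ip_smul_right, ip_irr_self hη, map_natCast, mul_one,
    eq_div_iff (card_ne_zero' _)] at e2
  have e2' : m * m * Nat.card (Q ⊓ K : Subgroup G) = Nat.card (hne.inertia ψ) := by
    exact_mod_cast e2
  have e3 : (Q ⊓ K).relIndex Q * x = m * (b * y) := by
    have a1 := congrFun e1 1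
    have a2 := congrFun h3 1
    simp only [map_one, Pi.smul_apply, smul_eq_mul] at a1 a2
    rw [ind_apply_one hne.inj, inclusion_range, hx, a2, hy] at a1
    exact_mod_cast a1
  have e4 : K.index * (c * x) = e * y := by
    have a1 := h 1
    rw [← hind, coe_one, ind_apply_one K.subtype_injective, range_subtype, hy] at a1
    simp only [map_one] at hc
    rw [hc] at a1
    exact_mod_cast a1
  have e5 : e ^ 2 = b ^ 2 * Q.index := by rw [he, h4, relIndex_mul_index le_sup_left]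
  have e6 : (Q ⊓ K).relIndex K * K.index = (Q ⊓ K).relIndex Q * Q.index := by
    rw [relIndex_mul_index inf_le_right, relIndex_mul_index inf_le_left]
  have hiQ : ¬ p ∣ Q.index := fun h => S.not_dvd_index (h.trans (index_dvd_of_le le_sup_right))
  have hu' : (Q ⊓ K).relIndex K ∣ Q.index := by
    rw [inf_relIndex_right, ← relIndex_top_right]
    exact H1.relIndex_dvd_relIndex_of_le_normalizer Q le_top (by rw [normalizer_eq_top])
  have hs : (Q ⊓ K).relIndex Q ∣ Nat.card S := by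
    refine (relIndex_dvd_of_le_left Q hZD).trans ?_
    rw [hQ, relIndex_sup_left]
    exact relIndex_dvd_card _ _
  have hb0 : 0 < b := Nat.pos_of_ne_zero (by
    rintro rfl
    exact index_ne_zero_of_finite h4.symm)
  have hs0 : 0 < (Q ⊓ K).relIndex Q := Nat.pos_of_ne_zero index_ne_zero_of_finite
  have hv0 : 0 < Q.index := Nat.pos_of_ne_zero index_ne_zero_of_finite
  have hms : m * m ∣ (Q ⊓ K).relIndex Q := by
    refine Nat.dvd_of_mul_dvd_mul_right (Nat.card_pos (α := (Q ⊓ K : Subgroup G))) ?_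
    rw [e2', mul_comm, H3.card_mul_relIndex inf_le_left]
    exact card_subgroup_dvd_card _
  generalize (Q ⊓ K).relIndex Q = s at *
  generalize (Q ⊓ K).relIndex K = u at *
  generalize Q.index = v at *
  generalize K.index = w at *
  have e7 : w * c * m * b = s * e := by
    refine Nat.eq_of_mul_eq_mul_right hy0 ?_
    calc w * c * m * b * y = w * c * (m * (b * y)) := by ring
      _ = s * (w * (c * x)) := by rw [← e3]; ring
      _ = s * e * y := by rw [e4]; ring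
  have e8 : v * c ^ 2 * m ^ 2 = u ^ 2 := by
    refine Nat.eq_of_mul_eq_mul_right (show 0 < s ^ 2 * v * b ^ 2 by positivity) ?_
    calc v * c ^ 2 * m ^ 2 * (s ^ 2 * v * b ^ 2) = (s * v) ^ 2 * (c * m * b) ^ 2 := by ring
      _ = u ^ 2 * (w * c * m * b) ^ 2 := by rw [← e6]; ring
      _ = u ^ 2 * (s ^ 2 * v * b ^ 2) := by rw [e7, mul_pow, e5]; ring
  have e9 : m = 1 := by
    obtain ⟨n, hn⟩ := IsPGroup.iff_card.1 S.isPGroup'
    refine Nat.eq_one_of_dvd_coprimes (((Nat.Prime.coprime_iff_not_dvd hp).2 hiQ).pow_left n)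
      (hn ▸ ((Dvd.intro _ rfl).trans hms).trans hs) (Dvd.dvd.trans ?_ hu')
    exact (Nat.pow_dvd_pow_iff two_ne_zero).1 (Dvd.intro_left _ e8)
  rw [e9, one_mul, one_mul, ← card_range_of_injective hne.inj] at e2'
  exact (eq_of_le_of_card_ge (hne.range_le_inertia (irr_cf hψ)) e2'.ge).ge

end Cfsg.Agent.H7
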