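import Mathlib
import Cfsg.Agent.H7.Pr10

/-! Presentations of symplectic groups: the root elements of the presented group. -/

set_option autoImplicit false
set_option linter.unusedSectionVars false

namespace Cfsg.Agent.H7.Pr
open Subgroup Equiv Polynomial H10 H11 H12 H17 H17.CT H17.Frame H19.St
open scoped MatrixGroups

universe u v

variable {F : Type u} [Field F] [Finite F]

theorem gen_ind {ω : Fˣ} (hω : ∀ u : Fˣ, u ∈ zpowers ω) {Q : F → Prop} (h0 : Q 0) (h1 : Q 1)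
    (h2 : ∀ a, Q a → Q (ω * a)) (t : F) : Q t := by
  by_cases ht : t = 0
  · exact ht ▸ h0
  obtain ⟨k, rfl⟩ := exists_pow hω ht
  clear ht
  induction k with
  | zero => simpa using h1
  | succ k ih => rw [pow_succ']; exact h2 _ ih

variable (F) in
/-- the diagonal matrices -/
def hD : Fˣ →* SL(2, F) := MonoidHom.mk' (fun u => hh xx yy (u : F)) fun a b =>
  rel_SL.h_mul_of_finite a.ne_zero b.ne_zero

theorem hD_xx (u : Fˣ) (t : F) : hD F u * xx t * (hD F u)⁻¹ = xx ((u : F) ^ 2 * t) :=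
  mul_inv_eq_iff_eq_mul.2 (rel_SL.h_x u.ne_zero t)

theorem ww_hD (u : Fˣ) : ww xx yy (1 : F) * hD F u = hD F u⁻¹ * ww xx yy (1 : F) := by
  apply Subtype.ext
  simp only [Matrix.SpecialLinearGroup.coe_mul, hD, MonoidHom.mk'_apply, coe_hh u.ne_zero,
    coe_hh u⁻¹.ne_zero, coe_ww (one_ne_zero' F)]
  simp

theorem ww_ww : ww xx yy (1 : F) * ww xx yy (1 : F) = hD F (-1) := by
  apply Subtype.ext
  simp only [Matrix.SpecialLinearGroup.coe_mul, hD, MonoidHom.mk'_apply, coe_hh (-1 : Fˣ).ne_zero,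
    coe_ww (one_ne_zero' F)]
  simp

/-- monomial matrices -/
def Mo (n : ℕ) (γ : SL(2, F)) : Prop :=
  ∀ a : Fin n ⊕ Fin n, ∃ c, (c = a ∨ c = a.swap) ∧ ∃ u, γ * wS F a = wS F c * hD F u

theorem mo_hD (n : ℕ) (u : Fˣ) : Mo n (hD F u) := by
  rintro (a | a)
  · exact ⟨_, .inl rfl, u, by simp [wS]⟩
  · exact ⟨_, .inl rfl, u⁻¹, by simpa [wS] using (ww_hD u⁻¹).symm⟩

theorem mo_ww (n : ℕ) : Mo n (ww xx yy (1 : F)) := by
  rintro (a | a)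
  · exact ⟨_, .inr rfl, 1, by simp [wS]⟩
  · exact ⟨_, .inr rfl, -1, by simp [wS, ww_ww]⟩

variable {V : Type u} [AddCommGroup V] [Module F V]
  {C : CT} {k : Type*} [CommRing k] [LinearOrder k] [IsStrictOrderedRing k]
  {B : V →ₗ[F] V →ₗ[F] F} {Q : V → F}
  (P : Frame (σ := RingHom.id F) C k (-1) 0 0 B Q) [FiniteDimensional F V] {a b c d : C.ι}

/-- the data in the presented group -/
structure SD (E : Type v) [Group E] (ω : Fˣ) (i₀ i₁ : Fin C.n) where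
  f : E →* P.cl.Om
  ψ : Perm (Fin C.n) →* E
  φ : SL(2, F) →* E
  x : F → E
  hω : ∀ u : Fˣ, u ∈ zpowers ω
  h01 : i₀ ≠ i₁
  fψ : ∀ σ, f (ψ σ) = JJ P σ
  fφ : ∀ γ, f (φ γ) = ph P i₀ γ
  fx1 : f (x 1) = P.xo (.inl i₀) (.inl i₁) 1
  c1 : ∀ σ γ, σ i₀ = i₀ → Commute (ψ σ) (φ γ)
  c2 : ∀ γ γ', Commute (φ γ) (PH i₀ ψ φ i₁ γ')
  c3 : ∀ σ, σ i₀ = i₀ → σ i₁ = i₁ → Commute (ψ σ) (x 1)
  c3' : Commute (ψ (swap i₀ i₁)) (x 1)
  c4 : ∀ j, j ≠ i₀ → j ≠ i₁ → ∃ i, i ≠ i₀ ∧ i ≠ i₁ ∧ ∀ γ, Commute (PH i₀ ψ φ i γ) (x 1)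
  c5 : Commute (φ (hD F ω) * (PH i₀ ψ φ i₁ (hD F ω))⁻¹) (x 1)
  add : IsAdd x
  c6 : ∀ t, x (ω * t) = φ (hD F ω) * x t * (φ (hD F ω))⁻¹

theorem ph_hD (i : Fin C.n) (u : Fˣ) : ph P i (hD F u) = P.hz (.inl i) u := ph_hh P i u

theorem hD_xo {i j : Fin C.n} (h : i ≠ j) (u : Fˣ) (t : F) :
    ph P i (hD F u) * P.xo (.inl i) (.inl j) t * (ph P i (hD F u))⁻¹ = P.xo (.inl i) (.inl j) (u * t) := by
  have h' : idx (C := C) (.inl i) ≠ idx (C := C) (.inl j) := jx_ne.2 h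
  rw [ph_hD, conj_xo h' h' (hz_l _ u.ne_zero) ((hz_f u.ne_zero h').trans (one_smul F _).symm)]
  simp

namespace SD

variable {P} {E : Type v} [Group E] {ω : Fˣ} {i₀ i₁ : Fin C.n} (D : SD P E ω i₀ i₁)

/-- the long root subgroups -/
def p (i : Fin C.n) : SL(2, F) →* E := (MulAut.conj (D.ψ (swap i₀ i))).toMonoidHom.comp D.φ

theorem p_eq (i : Fin C.n) (γ : SL(2, F)) : PH i₀ D.ψ D.φ i γ = D.p i γ := rfl

/-- the root elements -/
def Y : C.ι → C.ι → F → E := YY i₀ i₁ D.ψ D.φ D.x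

theorem p0 (γ : SL(2, F)) : D.p i₀ γ = D.φ γ := by simp [p, ← Perm.one_def]

theorem e1 (σ : Perm (Fin C.n)) (i : Fin C.n) (γ : SL(2, F)) :
    D.ψ σ * D.p i γ * (D.ψ σ)⁻¹ = D.p (σ i) γ := by
  have := (D.c1 ((swap i₀ (σ i))⁻¹ * σ * swap i₀ i) γ (by simp)).eq
  simp only [map_mul, map_inv] at this
  rw [← p_eq, ← p_eq, PH, PH]
  calc _ = D.ψ (swap i₀ (σ i)) * ((D.ψ (swap i₀ (σ i)))⁻¹ * D.ψ σ * D.ψ (swap i₀ i) * D.φ γ) *
      (D.ψ (swap i₀ i))⁻¹ * (D.ψ σ)⁻¹ := by group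
    _ = _ := by rw [this]; group

theorem e1' (σ : Perm (Fin C.n)) (i : Fin C.n) (γ : SL(2, F)) :
    D.ψ σ * D.p i γ = D.p (σ i) γ * D.ψ σ := mul_inv_eq_iff_eq_mul.1 (D.e1 σ i γ)

theorem e2 {i j : Fin C.n} (h : i ≠ j) (γ γ' : SL(2, F)) : Commute (D.p i γ) (D.p j γ') := by
  have := (D.c2 γ γ').map (MulAut.conj (D.ψ (tau i₀ i₁ i j)))
  simp only [MulAut.conj_apply] at this
  rwa [← p0, p_eq, e1, e1, tau_l D.h01 h, tau_r] at this

theorem fp (i : Fin C.n) (γ : SL(2, F)) : D.f (D.p i γ) = ph P i γ := by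
  rw [← p_eq, map_PH i₀ D.f D.fψ D.fφ, PH_eq]

theorem fx (t : F) : D.f (D.x t) = P.xo (.inl i₀) (.inl i₁) t :=
  gen_ind D.hω (Q := fun t => D.f (D.x t) = P.xo (.inl i₀) (.inl i₁) t)
    (by simp [D.add.zero, P.xo_zero]) D.fx1
    (fun t h => by simp only [D.c6, map_mul, map_inv, h, D.fφ, hD_xo P D.h01]) t

theorem fY (h : C.Val a b) (t : F) : D.f (D.Y a b t) = ym P a b t := by
  rw [Y, map_YY i₀ i₁ D.f D.fψ D.fφ D.fx, YY_eq P D.h01 h]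

theorem cx {g : E} (h1 : Commute g (D.φ (hD F ω))) (h2 : Commute g (D.x 1)) (t : F) :
    Commute g (D.x t) :=
  gen_ind D.hω (Q := fun t => Commute g (D.x t)) (by simp [D.add.zero]) h2
    (fun t h => by rw [D.c6]; exact (h1.mul_right h).mul_right h1.inv_right) t

theorem xψ {σ : Perm (Fin C.n)} (h0 : σ i₀ = i₀) (h1 : σ i₁ = i₁) (t : F) :
    Commute (D.ψ σ) (D.x t) := D.cx (D.c1 σ _ h0) (D.c3 σ h0 h1) t

theorem xp {j : Fin C.n} (h0 : j ≠ i₀) (h1 : j ≠ i₁) (γ : SL(2, F)) (t : F) :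
    Commute (D.p j γ) (D.x t) := by
  obtain ⟨i, a0, a1, h⟩ := D.c4 j h0 h1
  have := (D.cx (D.p0 _ ▸ D.e2 a0 γ _) (h γ) t).map (MulAut.conj (D.ψ (swap i j)))
  simp only [MulAut.conj_apply] at this
  rwa [p_eq, e1, swap_apply_left, (D.xψ (swap_apply_of_ne_of_ne a0.symm h0.symm)
    (swap_apply_of_ne_of_ne a1.symm h1.symm) t).eq, mul_inv_cancel_right] at this

theorem x1 (t : F) : D.x (ω * t) = D.p i₁ (hD F ω) * D.x t * (D.p i₁ (hD F ω))⁻¹ := by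
  have h := (D.c2 (hD F ω) (hD F ω)).inv_right
  have := (D.cx ((Commute.refl _).mul_left h.symm) D.c5 t).eq
  rw [h.eq, p_eq] at this
  rw [D.c6]
  calc _ = D.p i₁ (hD F ω) * ((D.p i₁ (hD F ω))⁻¹ * D.φ (hD F ω) * D.x t) * (D.φ (hD F ω))⁻¹ := by group
    _ = _ := by rw [this]; group

theorem xsw (t : F) : Commute (D.ψ (swap i₀ i₁)) (D.x t) :=
  gen_ind D.hω (Q := fun t => Commute (D.ψ (swap i₀ i₁)) (D.x t)) (by simp [D.add.zero]) D.c3'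
    (fun t h => by
      rw [Commute, SemiconjBy]
      nth_rewrite 1 [D.c6]
      rw [D.x1, ← p_eq, PH]
      calc _ = D.ψ (swap i₀ i₁) * D.φ (hD F ω) * (D.ψ (swap i₀ i₁))⁻¹ * (D.ψ (swap i₀ i₁) * D.x t) *
          (D.φ (hD F ω))⁻¹ := by group
        _ = _ := by rw [h.eq]; group) t

theorem x0 (u : Fˣ) (t : F) : D.p i₀ (hD F u) * D.x t * (D.p i₀ (hD F u))⁻¹ = D.x (u * t) := by
  obtain ⟨n, rfl⟩ := D.hω u
  rw [p0, map_zpow, map_zpow, ← conj_zpow' ω.ne_zero D.c6]; simp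

theorem Y_self (a : C.ι) (t : F) : D.Y a a t = D.p (jx a) (wS F a * xx t * (wS F a)⁻¹) := if_pos rfl

theorem Y_eq (h : idx a ≠ idx b) {σ : Perm (Fin C.n)} (h0 : σ i₀ = jx a) (h1 : σ i₁ = jx b) (t : F) :
    D.Y a b t = D.ψ σ * (D.p i₀ (wS F a) * D.p i₁ (wS F b)) * D.x t *
      (D.ψ σ * (D.p i₀ (wS F a) * D.p i₁ (wS F b)))⁻¹ := by
  obtain ⟨κ, rfl⟩ : ∃ κ, σ = tau i₀ i₁ (jx a) (jx b) * κ := ⟨_, (mul_inv_cancel_left _ σ).symm⟩
  have k0 : κ i₀ = i₀ := (tau i₀ i₁ (jx a) (jx b)).injective (h0.trans (tau_l D.h01 (jx_ne.1 h)).symm)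
  have k1 : κ i₁ = i₁ := (tau i₀ i₁ (jx a) (jx b)).injective (h1.trans (tau_r _ _ _ _).symm)
  have : D.ψ κ * (D.p i₀ (wS F a) * D.p i₁ (wS F b)) = D.p i₀ (wS F a) * D.p i₁ (wS F b) * D.ψ κ := by
    rw [← mul_assoc, e1', mul_assoc, e1', k0, k1, mul_assoc]
  rw [map_mul, mul_assoc _ (D.ψ κ), this, ← mul_assoc, mul_assoc _ (D.ψ κ), (D.xψ k0 k1 t).eq,
    Y, YY, if_neg (ne_ix h).symm, nn, p_eq, p_eq]
  group

theorem Y_tau (h : idx a ≠ idx b) (t : F) : D.Y a b t =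
    D.ψ (tau i₀ i₁ (jx a) (jx b)) * (D.p i₀ (wS F a) * D.p i₁ (wS F b)) * D.x t *
      (D.ψ (tau i₀ i₁ (jx a) (jx b)) * (D.p i₀ (wS F a) * D.p i₁ (wS F b)))⁻¹ :=
  if_neg (ne_ix h).symm

theorem Y_add (a b : C.ι) : IsAdd (D.Y a b) := fun s t => by
  unfold Y YY
  split_ifs
  · rw [p_eq, p_eq, p_eq, ← map_mul, rel_SL.x_add]; congr 1; group
  · rw [D.add]; group

theorem Y_symm (h : idx a ≠ idx b) (t : F) : D.Y b a t = D.Y a b t := by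
  rw [D.Y_eq h.symm (σ := tau i₀ i₁ (jx a) (jx b) * swap i₀ i₁) (by simp [tau_r])
    (by simp [tau_l D.h01 (jx_ne.1 h)]), D.Y_tau h, map_mul, mul_assoc _ (D.ψ (swap i₀ i₁)),
    ← mul_assoc (D.ψ (swap i₀ i₁)), e1', mul_assoc (D.p _ _), e1', swap_apply_left, swap_apply_right,
    ← mul_assoc (D.p _ _), (D.e2 D.h01.symm _ _).eq, ← mul_assoc, mul_assoc _ (D.ψ (swap i₀ i₁)),
    (D.xsw t).eq]
  group

theorem Y_00 (t : F) : D.Y (.inl i₀) (.inl i₁) t = D.x t := by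
  rw [D.Y_eq (a := .inl i₀) (b := .inl i₁) (jx_ne.2 D.h01) (σ := 1) rfl rfl]; simp [wS]

theorem ψ_Y (σ : Perm (Fin C.n)) (h : C.Val a b) (t : F) :
    D.ψ σ * D.Y a b t * (D.ψ σ)⁻¹ = D.Y (a.map σ σ) (b.map σ σ) t := by
  by_cases e : b = a
  · rw [e, Y_self, Y_self, e1, jx_map, wS_map]
  have h' := ix_of_ne e h.1
  rw [D.Y_tau h', D.Y_eq (a := a.map σ σ) (b := b.map σ σ)
    (jx_ne.2 (by rw [jx_map, jx_map]; exact σ.injective.ne (jx_ne.1 h')))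
    (σ := σ * tau i₀ i₁ (jx a) (jx b)) (by simp [tau_l D.h01 (jx_ne.1 h'), jx_map])
    (by simp [tau_r, jx_map]), wS_map, wS_map, map_mul]
  group

theorem p_Y {j : Fin C.n} (h : C.Val a b) (h0 : j ≠ jx a) (h1 : j ≠ jx b) (γ : SL(2, F)) (t : F) :
    Commute (D.p j γ) (D.Y a b t) := by
  by_cases e : b = a
  · rw [e, Y_self]; exact D.e2 h0 _ _
  have h' := ix_of_ne e h.1
  obtain ⟨j, rfl⟩ := (tau i₀ i₁ (jx a) (jx b)).surjective j
  have k0 : j ≠ i₀ := fun e => h0 (by rw [e, tau_l D.h01 (jx_ne.1 h')])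
  have k1 : j ≠ i₁ := fun e => h1 (by rw [e, tau_r])
  have k2 := (D.e2 k0 γ (wS F a)).mul_right (D.e2 k1 γ (wS F b))
  have := ((k2.mul_right (D.xp k0 k1 γ t)).mul_right k2.inv_right).map
    (MulAut.conj (D.ψ (tau i₀ i₁ (jx a) (jx b))))
  simp only [MulAut.conj_apply] at this
  rw [e1] at this
  rw [D.Y_tau h']
  convert this using 1
  group

theorem p_Y' (h : idx a ≠ idx b) (hc : jx c = jx a) {γ : SL(2, F)} {u : Fˣ}
    (e : γ * wS F a = wS F c * hD F u) (t : F) :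
    D.p (jx a) γ * D.Y a b t * (D.p (jx a) γ)⁻¹ = D.Y c b (u * t) := by
  have h0 := D.e1' (tau i₀ i₁ (jx a) (jx b)) i₀ γ
  rw [tau_l D.h01 (jx_ne.1 h)] at h0
  have h1 : D.p i₀ γ * (D.p i₀ (wS F a) * D.p i₁ (wS F b)) =
      D.p i₀ (wS F c) * D.p i₁ (wS F b) * D.p i₀ (hD F u) := by
    rw [← mul_assoc, ← map_mul, e, map_mul, mul_assoc, (D.e2 D.h01 _ _).eq, mul_assoc]
  have key : ∀ g n x : E, g * (n * x * n⁻¹) * g⁻¹ = g * n * x * (g * n)⁻¹ := fun _ _ _ => by group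
  rw [D.Y_tau h, D.Y_tau (jx_ne.2 (hc ▸ jx_ne.1 h)), hc, ← x0, key, ← mul_assoc (D.p _ γ), ← h0,
    mul_assoc (D.ψ _), h1]
  group

theorem Y_symm' (h : C.Val a b) : D.Y b a = D.Y a b := by
  by_cases e : b = a
  · rw [e]
  · exact funext (D.Y_symm (ix_of_ne e h.1))

/-- elements permuting the root groups -/
def N : Submonoid E where
  carrier := {g | ∀ a b, C.Val a b → ∃ c d, C.Val c d ∧ ∀ t, ∃ t', g * D.Y a b t * g⁻¹ = D.Y c d t'}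
  one_mem' := fun a b h => ⟨a, b, h, fun t => ⟨t, by simp⟩⟩
  mul_mem' := fun {g g'} p q a b h => by
    obtain ⟨c, d, h, q⟩ := q a b h
    obtain ⟨c', d', h, p⟩ := p c d h
    refine ⟨c', d', h, fun t => ?_⟩
    obtain ⟨t, q⟩ := q t
    obtain ⟨t, p⟩ := p t
    exact ⟨t, by rw [← p, ← q]; group⟩

theorem ψ_mem (σ : Perm (Fin C.n)) : D.ψ σ ∈ D.N := fun _ _ h =>
  ⟨_, _, h.map (σ := Equiv.sumCongr σ σ) (swap_map σ), fun t => ⟨t, D.ψ_Y σ h t⟩⟩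

theorem p_mem {γ : SL(2, F)} (hγ : Mo C.n γ) (j : Fin C.n) : D.p j γ ∈ D.N := fun a b h => by
  have jc : ∀ {a c : C.ι}, c = a ∨ c = a.swap → jx c = jx a := by
    rintro a c (rfl | rfl)
    exacts [rfl, jx_swap a]
  by_cases h0 : j = jx a
  · obtain ⟨c, hc, u, e⟩ := hγ a
    by_cases e' : b = a
    · refine ⟨c, c, val_self P.isD_sp c, fun t => ⟨(u : F) ^ 2 * t, ?_⟩⟩
      rw [e', Y_self, Y_self, jc hc, h0, ← map_inv, ← map_mul, ← map_mul, ← hD_xx]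
      congr 1
      calc _ = γ * wS F a * xx t * (γ * wS F a)⁻¹ := by group
        _ = _ := by rw [e]; group
    · have h' := ix_of_ne e' h.1
      exact ⟨c, b, val_ix (jx_ne.2 (jc hc ▸ jx_ne.1 h')), fun t => ⟨_, h0 ▸ D.p_Y' h' (jc hc) e t⟩⟩
  by_cases h1 : j = jx b
  · obtain ⟨c, hc, u, e⟩ := hγ b
    have h' : idx b ≠ idx a := jx_ne.2 (h1 ▸ h0)
    exact ⟨c, a, val_ix (jx_ne.2 (jc hc ▸ jx_ne.1 h')), fun t =>
      ⟨_, by rw [← D.Y_symm' h, h1]; exact D.p_Y' h' (jc hc) e t⟩⟩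
  · exact ⟨a, b, h, fun t => ⟨t, by rw [(D.p_Y h h0 h1 γ t).eq, mul_inv_cancel_right]⟩⟩

variable {D}

theorem eqv {g : E} (hg : g ∈ D.N) (h : C.Val a b) (h' : C.Val c d) (e : b = a ↔ d = c) {s s' : F}
    (ha : (D.f g).1 (P.f a) = s • P.f c) (hb : (D.f g).1 (P.f b) = s' • P.f d) (t : F) :
    g * D.Y a b t * g⁻¹ = D.Y c d (s * s' * t) := by
  obtain ⟨c', d', h'', H⟩ := hg a b h
  have key : ∀ {c' d' t t'}, C.Val c' d' → g * D.Y a b t * g⁻¹ = D.Y c' d' t' →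
      ym P c' d' t' = ym P c d (s * s' * t) := fun h'' e' => by
    rw [← D.fY h'', ← e', map_mul, map_mul, map_inv, D.fY h, ym_conj P h h' e ha hb]
  have e1 : rt k h'' = rt k h' := by
    by_contra hne
    obtain ⟨t', e'⟩ := H 1
    have := RGD.eq_one_of_mem_U_U hne ((ym_mem P h'').2 ⟨_, rfl⟩) ((ym_mem P h').2 ⟨_, key h'' e'⟩)
    rw [key h'' e'] at this
    exact mul_ne_zero (mul_ne_zero (ne_of_smul P ha) (ne_of_smul P hb)) one_ne_zero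
      (ym_eq_one P h' this)
  have e2 : D.Y c' d' = D.Y c d := by
    rcases rt_eq_iff.1 e1 with ⟨rfl, rfl⟩ | ⟨rfl, rfl⟩
    exacts [rfl, D.Y_symm' h']
  obtain ⟨t', e'⟩ := H t
  rw [e2] at e'
  rw [e', ym_inj P h' (key h' e')]

variable (D) in
/-- `g` acts by the signed permutation `ρ` -/
structure Tr (g : E) (ρ : Perm C.ι) : Prop where
  mem : g ∈ D.N
  sw : ∀ c, ρ c.swap = (ρ c).swap
  mon : P.Mon ρ (D.f g).1

theorem Tr.eqv {g : E} {ρ : Perm C.ι} (H : D.Tr g ρ) (h : C.Val a b) :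
    ∃ s : F, s ≠ 0 ∧ ∀ t, g * D.Y a b t * g⁻¹ = D.Y (ρ a) (ρ b) (s * t) := by
  obtain ⟨s, hs, ha⟩ := H.mon.exists a
  obtain ⟨s', hs', hb⟩ := H.mon.exists b
  exact ⟨_, mul_ne_zero hs hs', SD.eqv H.mem h (h.map H.sw) ρ.injective.eq_iff.symm ha hb⟩

theorem Tr.mul {g g' : E} {ρ ρ' : Perm C.ι} (H : D.Tr g ρ) (H' : D.Tr g' ρ') :
    D.Tr (g * g') (ρ * ρ') :=
  ⟨mul_mem H.mem H'.mem, fun c => by simp [H.sw, H'.sw], by rw [map_mul]; exact H.mon.mul H'.mon⟩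

variable (D)

theorem tr_ψ (σ : Perm (Fin C.n)) : D.Tr (D.ψ σ) (Equiv.sumCongr σ σ) :=
  ⟨D.ψ_mem σ, swap_map σ, D.fψ σ ▸ mon_JJ P σ⟩

theorem tr_w (i : Fin C.n) : D.Tr (D.p i (ww xx yy (1 : F))) (C.ρ (.inl i) (.inl i)) :=
  ⟨D.p_mem (mo_ww _) i, ρ_swap (val_self P.isD_sp _), by
    rw [fp, ph_ww]; exact mon_my (vp_sp 1) one_ne_zero P.isD_sp _⟩

theorem ex_tr {κ : Type} [Finite κ] {j : κ → Fin C.n} (hj : j.Injective) {l : κ → C.ι}
    (hl : (jx ∘ l).Injective) : ∃ g ρ, D.Tr g ρ ∧ ∀ m, ρ (.inl (j m)) = l m := by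
  classical
  have key : ∀ S : Finset (Fin C.n), ∃ g ρ, D.Tr g ρ ∧
      ∀ i, ρ (.inl i) = if i ∈ S then .inr i else .inl i := fun S => by
    induction S using Finset.induction_on with
    | empty => exact ⟨1, 1, ⟨one_mem _, fun _ => rfl, by rw [map_one]; exact mon_one⟩, by simp⟩
    | insert i S hi ih =>
      obtain ⟨g, ρ, h, e⟩ := ih
      refine ⟨_, _, (D.tr_w i).mul h, fun j => ?_⟩
      by_cases p : j = i
      · simp [e, p, hi, CT.ρ]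
      · by_cases q : j ∈ S <;> simp [e, p, q, CT.ρ, swap_apply_def]
  obtain ⟨σ, hσ⟩ := Perm.exists_extending_pair j (jx ∘ l) hj hl
  obtain ⟨g, ρ, h, e⟩ := key (Finset.univ.filter fun i => ∃ m, l m = .inr i)
  refine ⟨_, _, h.mul (D.tr_ψ σ), fun m => ?_⟩
  have := hσ m
  simp only [Perm.mul_apply, Equiv.sumCongr_apply, Sum.map_inl, e, this, Function.comp,
    Finset.mem_filter, Finset.mem_univ, true_and]
  split_ifs with q
  · obtain ⟨m', q⟩ := q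
    rw [← q, hl (show jx (l m') = jx (l m) by rw [q]; rfl)]
  · cases e' : l m with
    | inl i => rfl
    | inr i => exact absurd ⟨m, by rw [e']; rfl⟩ q

/-- the torus -/
def T : Subgroup E := ⨆ i, ((D.p i).comp (hD F)).range

theorem hD_mem (i : Fin C.n) (u : Fˣ) : D.p i (hD F u) ∈ D.T :=
  le_iSup (fun i => ((D.p i).comp (hD F)).range) i ⟨u, rfl⟩

theorem T_le {L : Submonoid E} (h : ∀ i u, D.p i (hD F u) ∈ L) {t : E} (ht : t ∈ D.T) : t ∈ L :=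
  Subgroup.iSup_induction _ (C := fun t => t ∈ L) ht (by rintro i _ ⟨u, rfl⟩; exact h i u) L.one_mem
    fun _ _ => L.mul_mem

theorem T_f : D.T ≤ P.rgdO.T.comap D.f := fun _ => D.T_le (L := (P.rgdO.T.comap D.f).toSubmonoid)
  fun i u => show D.f _ ∈ _ by rw [fp, ph_hD]; exact hz_mem _ u.ne_zero

theorem tr_T {t : E} (ht : t ∈ D.T) : D.Tr t 1 :=
  ⟨D.T_le (fun i u => D.p_mem (mo_hD _ u) i) ht, fun _ => rfl, (D.f t).2, P.mem_rgdO_T.1 (D.T_f ht)⟩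

theorem T_inj {t : E} (ht : t ∈ D.T) (h : D.f t = 1) : t = 1 := by
  have hc : Pairwise fun i j => ∀ x y, Commute ((D.p i).comp (hD F) x) ((D.p j).comp (hD F) y) :=
    fun i j h x y => D.e2 h _ _
  rw [T, ← MonoidHom.noncommPiCoprod_range (hcomm := hc)] at ht
  obtain ⟨c, rfl⟩ := ht
  have key : ∀ (c : Fin C.n → Fˣ) i, (D.f (MonoidHom.noncommPiCoprod _ hc c)).1 (P.f (.inl i)) =
      (c i : F) • P.f (.inl i) := fun c i => by
    induction c using Pi.mulSingle_induction with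
    | one => simp
    | mul a b p q => simp [p, q, smul_smul, mul_comm]
    | mulSingle j u =>
      rw [MonoidHom.noncommPiCoprod_mulSingle, MonoidHom.comp_apply, fp, ph_hD]
      by_cases e : j = i
      · rw [e, hz_l _ u.ne_zero]; simp
      · rw [hz_f (a := .inl j) (c := .inl i) u.ne_zero (jx_ne.2 e)]; simp [e]
  rw [show c = 1 from funext fun i => Units.ext (P.smul_f_eq ((key c i).symm.trans (by simp [h]))),
    map_one]

/-- the coroots of the long roots -/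
def tt (a : C.ι) (u : Fˣ) : E := Sum.elim (fun i => D.p i (hD F u)) (fun i => D.p i (hD F u⁻¹)) a

theorem tt_mem (a : C.ι) (u : Fˣ) : D.tt a u ∈ D.T := by cases a <;> exact D.hD_mem _ _

theorem tt_l (a : C.ι) (u : Fˣ) : (D.f (D.tt a u)).1 (P.f a) = (u : F) • P.f a := by
  cases a <;> simp only [tt, Sum.elim_inl, Sum.elim_inr, fp, ph_hD]
  · exact hz_l _ u.ne_zero
  · simpa using hz_l' P (.inl _) u⁻¹.ne_zero

theorem tt_l' (a : C.ι) (u : Fˣ) : (D.f (D.tt a u)).1 (P.f a.swap) = (u : F)⁻¹ • P.f a.swap := by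
  cases a <;> simp only [tt, Sum.elim_inl, Sum.elim_inr, fp, ph_hD]
  · exact hz_l' P _ u.ne_zero
  · simpa using hz_l (P := P) (.inl _) u⁻¹.ne_zero

theorem tt_f (h : idx a ≠ idx c) (u : Fˣ) : (D.f (D.tt a u)).1 (P.f c) = (1 : F) • P.f c := by
  cases a <;> simp only [tt, Sum.elim_inl, Sum.elim_inr, fp, ph_hD, one_smul] <;>
    exact hz_f (Units.ne_zero _) h

theorem T_Y {g : E} (hg : g ∈ D.T) (h : C.Val a b) {s s' : F}
    (ha : (D.f g).1 (P.f a) = s • P.f a) (hb : (D.f g).1 (P.f b) = s' • P.f b) (t : F) :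
    g * D.Y a b t * g⁻¹ = D.Y a b (s * s' * t) := eqv (D.tr_T hg).mem h h Iff.rfl ha hb t

end SD

end Cfsg.Agent.H7.Pr
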