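import Mathlib
import Cfsg.Agent.H7.Pr11

/-! Presentations of symplectic groups: the root group datum of the presented group. -/

set_option autoImplicit false
set_option linter.unusedSectionVars false

namespace Cfsg.Agent.H7.Pr
open Subgroup Equiv Polynomial H10 H11 H12 H17 H17.CT H17.Frame H19.St
open scoped MatrixGroups

universe u v

/-- the root elements with labels in a list -/
def ALs {ι F K : Type*} (Y : ι → ι → F → K) (L : List (ι × ι)) : Set K :=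
  {g | ∃ p ∈ L, ∃ t, g = Y p.1 p.2 t}

/-- one commutator relation -/
def Cm1 {ι F K : Type*} [Group K] [One F] (Y : ι → ι → F → K) (a b c d : ι) (L : List (ι × ι)) : Prop :=
  Y a b 1 * Y c d 1 * (Y a b 1)⁻¹ * (Y c d 1)⁻¹ ∈ closure (ALs Y L)

variable {F : Type u} [Field F] [Finite F] {V : Type u} [AddCommGroup V] [Module F V]
  {C : CT} {k : Type*} [CommRing k] [LinearOrder k] [IsStrictOrderedRing k]
  {B : V →ₗ[F] V →ₗ[F] F} {Q : V → F}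
  {P : Frame (σ := RingHom.id F) C k (-1) 0 0 B Q} [FiniteDimensional F V] {a b c d : C.ι}

namespace SD

variable {E : Type v} [Group E] {ω : Fˣ} {i₀ i₁ : Fin C.n} (D : SD P E ω i₀ i₁)
  {L L' : List (C.ι × C.ι)}

/-- the commutator relation for two root groups -/
def Cm (a b c d : C.ι) (L : List (C.ι × C.ι)) : Prop :=
  ∀ s t, D.Y a b s * D.Y c d t * (D.Y a b s)⁻¹ * (D.Y c d t)⁻¹ ∈ closure (ALs D.Y L)

/-- the torus separates two roots -/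
def Sep (a b c d : C.ι) : Prop := ∃ g ∈ D.T, (∀ s, g * D.Y a b s * g⁻¹ = D.Y a b ((ω : F) ^ 2 * s)) ∧
  ∀ t, g * D.Y c d t * g⁻¹ = D.Y c d t

theorem sep1 (h : idx a ≠ idx b) (h' : C.Val c d) (h1 : idx b ≠ idx c) (h2 : idx b ≠ idx d) :
    D.Sep a b c d := ⟨_, D.tt_mem b (ω ^ 2), fun s => by
  rw [D.T_Y (D.tt_mem _ _) (val_ix h) (D.tt_f h.symm _) (D.tt_l _ _)]; simp, fun t => by
  rw [D.T_Y (D.tt_mem _ _) h' (D.tt_f h1 _) (D.tt_f h2 _)]; simp⟩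

theorem sep4 (h : idx a ≠ idx b) : D.Sep a b a b.swap := by
  have key : ∀ g g' x : E, g * g' * x * (g * g')⁻¹ = g * (g' * x * g'⁻¹) * g⁻¹ := fun _ _ _ => by group
  have h' : idx a ≠ idx b.swap := ix
  refine ⟨_, mul_mem (D.tt_mem a ω) (D.tt_mem b ω), fun s => ?_, fun s => ?_⟩
  · rw [key, D.T_Y (D.tt_mem _ _) (val_ix h) (D.tt_f h.symm _) (D.tt_l _ _),
      D.T_Y (D.tt_mem _ _) (val_ix h) (D.tt_l _ _) (D.tt_f h _)]
    congr 1; ring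
  · rw [key, D.T_Y (D.tt_mem _ _) (val_ix h') (D.tt_f h.symm _) (D.tt_l' _ _),
      D.T_Y (D.tt_mem _ _) (val_ix h') (D.tt_l _ _) (D.tt_f h' _)]
    simp

theorem ex_sq (h : C.Val c d) : ∃ g ∈ D.T, ∀ t, g * D.Y c d t * g⁻¹ = D.Y c d ((ω : F) ^ 2 * t) := by
  by_cases e : d = c
  · exact ⟨_, D.tt_mem c ω, fun t => by
      rw [D.T_Y (D.tt_mem _ _) h (D.tt_l _ _) (by rw [e]; exact D.tt_l _ _), sq]⟩
  · exact ⟨_, D.tt_mem d (ω ^ 2), fun s => by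
      rw [D.T_Y (D.tt_mem _ _) h (D.tt_f (ix_of_ne e h.1).symm _) (D.tt_l _ _)]; simp⟩

variable {D}

theorem Tr.conj {g : E} {ρ : Perm C.ι} (H : D.Tr g ρ)
    (hL : ∀ p ∈ L, C.Val p.1 p.2 ∧ (ρ p.1, ρ p.2) ∈ L') :
    ∀ x ∈ closure (ALs D.Y L), g * x * g⁻¹ ∈ closure (ALs D.Y L') := by
  have : closure (ALs D.Y L) ≤ (closure (ALs D.Y L')).comap (MulAut.conj g).toMonoidHom := by
    rw [closure_le]
    rintro _ ⟨p, hp, t, rfl⟩
    obtain ⟨s, -, e⟩ := H.eqv (hL p hp).1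
    exact subset_closure ⟨_, (hL p hp).2, _, e t⟩
  exact fun x hx => this hx

theorem Cm.symm (h : D.Cm a b c d L) : D.Cm c d a b L := fun s t => cm_symm (h t s)

theorem Cm.mono (h : D.Cm a b c d L) (hL : L ⊆ L') : D.Cm a b c d L' := fun s t =>
  Subgroup.closure_mono (by rintro _ ⟨p, hp, e⟩; exact ⟨p, hL hp, e⟩) (h s t)

theorem Cm.sw (h : D.Cm a b c d L) (h' : idx a ≠ idx b) : D.Cm b a c d L := by
  unfold Cm; rw [D.Y_symm' (val_ix h')]; exact h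

theorem cm_of {a₀ b₀ c₀ d₀ : C.ι} (H1 : Cm1 D.Y a₀ b₀ c₀ d₀ L') {g : E} {ρ : Perm C.ι} (H : D.Tr g ρ)
    (v1 : C.Val a₀ b₀) (v2 : C.Val c₀ d₀) (ea : ρ a₀ = a) (eb : ρ b₀ = b) (ec : ρ c₀ = c)
    (ed : ρ d₀ = d) (hL : ∀ p ∈ L', C.Val p.1 p.2 ∧ (ρ p.1, ρ p.2) ∈ L) (sep : D.Sep a b c d)
    (vL : ∀ p ∈ L, C.Val p.1 p.2 ∧ D.Cm a b p.1 p.2 L ∧ D.Cm c d p.1 p.2 L) : D.Cm a b c d L := by
  subst ea eb ec ed
  obtain ⟨s, hs, e1⟩ := H.eqv v1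
  obtain ⟨t, ht, e2⟩ := H.eqv v2
  have := cm_conj (H.conj hL) H1
  rw [e1, e2, mul_one, mul_one] at this
  obtain ⟨g, hg, h1, h2⟩ := sep
  obtain ⟨g', hg', h4⟩ := D.ex_sq (v2.map H.sw)
  obtain ⟨c, hc, h3⟩ := (D.tr_T hg').eqv (v1.map H.sw)
  refine spread D.hω (D.Y_add _ _) (D.Y_add _ _) (norm_of_cm (D.Y_add _ _) rfl ?_)
    (norm_of_cm (D.Y_add _ _) rfl ?_) ((D.tr_T hg).conj fun p hp => ⟨(vL p hp).1, hp⟩)
    ((D.tr_T hg').conj fun p hp => ⟨(vL p hp).1, hp⟩) h1 h2 hc h3 h4 hs ht this <;>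
    rintro s _ ⟨p, hp, t, rfl⟩
  exacts [(vL p hp).2.1 s t, (vL p hp).2.2 s t]

variable (D)

theorem ex2 (h : idx a ≠ idx b) : ∃ g ρ, D.Tr g ρ ∧ ρ (.inl i₀) = a ∧ ρ (.inl i₁) = b := by
  obtain ⟨g, ρ, H, e⟩ := D.ex_tr (j := ![i₀, i₁]) (List.nodup_ofFn.1 (by simp [D.h01])) (l := ![a, b])
    (List.nodup_ofFn.1 (by simp [jx_ne.1 h]))
  exact ⟨g, ρ, H, e 0, e 1⟩

theorem ex3 {i₂ : Fin C.n} (hi : [i₀, i₁, i₂].Nodup) (h : idx a ≠ idx b) (h1 : idx a ≠ idx c)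
    (h2 : idx b ≠ idx c) : ∃ g ρ, D.Tr g ρ ∧ ρ (.inl i₀) = a ∧ ρ (.inl i₁) = b ∧ ρ (.inl i₂) = c := by
  obtain ⟨g, ρ, H, e⟩ := D.ex_tr (j := ![i₀, i₁, i₂]) (List.nodup_ofFn.1 (by simpa using hi))
    (l := ![a, b, c]) (List.nodup_ofFn.1 (by simp [jx_ne.1 h, jx_ne.1 h1, jx_ne.1 h2]))
  exact ⟨g, ρ, H, e 0, e 1, e 2⟩

theorem cm5 (h : idx a ≠ idx b) (h1 : idx a ≠ idx c) (h2 : idx b ≠ idx c) : D.Cm a b c c [] :=
  fun s t => by
    rw [Y_self, ← (D.p_Y (val_ix h) (jx_ne.1 h1).symm (jx_ne.1 h2).symm _ s).eq]; simp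

theorem cm8 (h : idx a ≠ idx b) : D.Cm a a b b [] := fun s t => by
  rw [Y_self, Y_self, (D.e2 (jx_ne.1 h) _ _).eq, mul_inv_cancel_right, mul_inv_cancel]
  exact one_mem _

/-- the remaining relations -/
structure Rs : Prop where
  r1 : 4 ≤ C.n → ∃ i₂ i₃, [i₀, i₁, i₂, i₃].Nodup ∧ Cm1 D.Y (.inl i₀) (.inl i₁) (.inl i₂) (.inl i₃) []
  r2 : 3 ≤ C.n → ∃ i₂, [i₀, i₁, i₂].Nodup ∧ Cm1 D.Y (.inl i₀) (.inl i₁) (.inl i₀) (.inl i₂) [] ∧
    Cm1 D.Y (.inl i₀) (.inl i₁) (.inr i₀) (.inl i₂) [(.inl i₁, .inl i₂)]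
  r4 : Cm1 D.Y (.inl i₀) (.inl i₁) (.inl i₀) (.inr i₁) [(.inl i₀, .inl i₀)]
  r6 : Cm1 D.Y (.inl i₀) (.inl i₁) (.inl i₀) (.inl i₀) []
  r7 : Cm1 D.Y (.inl i₀) (.inl i₁) (.inr i₀) (.inr i₀) [(.inl i₁, .inl i₁), (.inl i₁, .inr i₀)]
  r0 : D.Y (.inl i₀) (.inr i₁) 1 * D.Y (.inr i₀) (.inl i₁) (-1) * D.Y (.inl i₀) (.inr i₁) 1 =
    D.φ (hD F (-1)) * D.ψ (swap i₀ i₁)
  gen : ∀ L : Subgroup E, (∀ σ, D.ψ σ ∈ L) → (∀ γ, D.φ γ ∈ L) → D.x 1 ∈ L → L = ⊤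

include D in
theorem v01 : C.Val (.inl i₀) (.inl i₁) := val_of_ne (by simp [D.h01.symm]) (by simp)

variable {D} (R : D.Rs)
include R

theorem Rs.cm1 (h : idx a ≠ idx b) (h' : idx c ≠ idx d) (h1 : idx a ≠ idx c) (h2 : idx a ≠ idx d)
    (h3 : idx b ≠ idx c) (h4 : idx b ≠ idx d) : D.Cm a b c d [] := by
  obtain ⟨i₂, i₃, hi, H1⟩ := R.r1 (by
    have := idx_lt a; have := idx_lt b; have := idx_lt c; have := idx_lt d; omega)
  obtain ⟨g, ρ, H, e⟩ := D.ex_tr (j := ![i₀, i₁, i₂, i₃]) (List.nodup_ofFn.1 (by simpa using hi))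
    (l := ![a, b, c, d]) (List.nodup_ofFn.1 (by
      simp [jx_ne.1 h, jx_ne.1 h', jx_ne.1 h1, jx_ne.1 h2, jx_ne.1 h3, jx_ne.1 h4]))
  exact cm_of H1 H D.v01 (val_of_ne (by simp at hi; simp [Ne.symm hi.2.2]) (by simp)) (e 0) (e 1)
    (e 2) (e 3) (by simp) (D.sep1 h (val_ix h') h3 h4) (by simp)

theorem Rs.cm2 (h : idx a ≠ idx b) (h' : idx a ≠ idx c) (h1 : idx b ≠ idx c) : D.Cm a b a c [] := by
  obtain ⟨i₂, hi, H1, -⟩ := R.r2 (by have := idx_lt a; have := idx_lt b; have := idx_lt c; omega)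
  obtain ⟨g, ρ, H, e1, e2, e3⟩ := D.ex3 hi h h' h1
  exact cm_of H1 H D.v01 (val_of_ne (by simp at hi; simp [Ne.symm hi.1.2]) (by simp)) e1 e2 e1 e3
    (by simp) (D.sep1 h (val_ix h') h.symm h1) (by simp)

theorem Rs.cm3 (h : idx a ≠ idx b) (h' : idx a.swap ≠ idx c) (h1 : idx b ≠ idx c) :
    D.Cm a b a.swap c [(b, c)] := by
  rw [idx_swap] at h'
  obtain ⟨i₂, hi, -, H1⟩ := R.r2 (by have := idx_lt a; have := idx_lt b; have := idx_lt c; omega)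
  obtain ⟨g, ρ, H, e1, e2, e3⟩ := D.ex3 hi h h' h1
  simp only [List.nodup_cons, List.mem_cons, List.not_mem_nil, or_false, not_or] at hi
  refine cm_of H1 H D.v01 (val_of_ne (by simp) (by simp [Ne.symm hi.1.2])) e1 e2
    ((H.sw (.inl i₀)).trans (by rw [e1])) e3 ?_ (D.sep1 h (val_ix ix) ix h1) ?_ <;>
    simp only [List.mem_singleton, forall_eq]
  · exact ⟨val_of_ne (by simp [Ne.symm hi.2.1]) (by simp), by rw [e2, e3]⟩
  · exact ⟨val_ix h1, ((R.cm2 h.symm h1 h').sw h.symm).mono (List.nil_subset _),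
      (((R.cm2 (a := c) (b := a.swap) (c := b) ix ix ix).sw ix).symm.sw ix).symm.mono (List.nil_subset _)⟩

theorem Rs.cm6 (h : idx a ≠ idx b) : D.Cm a b a a [] := by
  obtain ⟨g, ρ, H, e1, e2⟩ := D.ex2 h
  exact cm_of R.r6 H D.v01 (val_self P.isD_sp _) e1 e2 e1 e1 (by simp)
    (D.sep1 h (val_self P.isD_sp _) h.symm h.symm) (by simp)

theorem Rs.cm4 (h : idx a ≠ idx b) : D.Cm a b a b.swap [(a, a)] := by
  obtain ⟨g, ρ, H, e1, e2⟩ := D.ex2 h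
  refine cm_of R.r4 H D.v01 (val_of_ne (by simp) (by simp [D.h01.symm])) e1 e2 e1
    ((H.sw (.inl i₁)).trans (by rw [e2])) ?_ (D.sep4 h) ?_ <;>
    simp only [List.mem_singleton, forall_eq]
  · exact ⟨val_self P.isD_sp _, by rw [e1]⟩
  · exact ⟨val_self P.isD_sp _, (R.cm6 h).mono (List.nil_subset _), (R.cm6 ix).mono (List.nil_subset _)⟩

theorem Rs.cm7 (h : idx a ≠ idx b) : D.Cm a b a.swap a.swap [(b, b), (b, a.swap)] := by
  obtain ⟨g, ρ, H, e1, e2⟩ := D.ex2 h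
  have e3 : ρ (.inr i₀) = a.swap := (H.sw (.inl i₀)).trans (by rw [e1])
  refine cm_of R.r7 H D.v01 (val_self P.isD_sp _) e1 e2 e3 e3 ?_
    (D.sep1 h (val_self P.isD_sp _) ix ix) ?_ <;>
    simp only [List.mem_cons, List.not_mem_nil, or_false, forall_eq_or_imp, forall_eq]
  · exact ⟨⟨val_self P.isD_sp _, by simp [e2]⟩, val_of_ne (by simp) (by simp [D.h01]), by simp [e2, e3]⟩
  · exact ⟨⟨val_self P.isD_sp _, ((R.cm6 h.symm).sw h.symm).mono (List.nil_subset _),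
      (D.cm8 ix).mono (List.nil_subset _)⟩, val_ix ix, ((R.cm4 h.symm).sw h.symm).mono (by simp),
      ((R.cm6 (a := a.swap) (b := b) ix).sw ix).symm.mono (List.nil_subset _)⟩

omit R
variable (D)

/-- the root groups -/
def U (r : C.Φ k) : Subgroup E :=
  ⨆ (a : C.ι) (b : C.ι) (h : C.Val a b) (_ : r = rt k h), (D.Y_add a b).rg

theorem mem_U (h : C.Val a b) {g : E} : g ∈ D.U (rt k h) ↔ ∃ t, D.Y a b t = g := by
  refine ⟨fun hg => ?_, fun hg => mem_iSup_of_mem a (mem_iSup_of_mem b (mem_iSup_of_mem h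
    (mem_iSup_of_mem rfl hg)))⟩
  have : D.U (rt k h) ≤ (D.Y_add a b).rg := iSup_le fun c => iSup_le fun d => iSup_le fun h' =>
    iSup_le fun e => by
      rcases rt_eq_iff.1 e with ⟨rfl, rfl⟩ | ⟨rfl, rfl⟩
      · exact le_rfl
      · rintro _ ⟨t, rfl⟩; exact ⟨t, by rw [D.Y_symm' h]⟩
  exact this hg

theorem U_f (r : C.Φ k) : D.U r ≤ (P.rgdO.U r).comap D.f := fun g hg => by
  obtain ⟨a, b, h, rfl⟩ := exists_rt r
  obtain ⟨t, rfl⟩ := (D.mem_U h).1 hg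
  exact (ym_mem P h).2 ⟨t, D.fY h t⟩

variable {D}

theorem Cm.pr {h : C.Val a b} {h' : C.Val c d} (H : D.Cm a b c d L)
    (hL : ∀ p ∈ L, ∃ v : C.Val p.1 p.2, rt k v ∈ (C.rs k).itv (rt k h) (rt k h')) :
    ∀ x ∈ D.U (rt k h), ∀ y ∈ D.U (rt k h'),
      x * y * x⁻¹ * y⁻¹ ∈ ⨆ t ∈ (C.rs k).itv (rt k h) (rt k h'), D.U t := fun x hx y hy => by
  obtain ⟨s, rfl⟩ := (D.mem_U h).1 hx
  obtain ⟨t, rfl⟩ := (D.mem_U h').1 hy
  refine ((closure_le _).2 ?_) (H s t)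
  rintro _ ⟨p, hp, t, rfl⟩
  obtain ⟨v, e⟩ := hL p hp
  exact mem_iSup_of_mem _ (mem_iSup_of_mem e ((D.mem_U v).2 ⟨t, rfl⟩))

theorem Tr.conj_U {g : E} {ρ : Perm C.ι} (H : D.Tr g ρ) (h : C.Val a b) :
    ∀ u ∈ D.U (rt k h), g * u * g⁻¹ ∈ D.U (rt k (h.map H.sw)) := fun u hu => by
  obtain ⟨t, rfl⟩ := (D.mem_U h).1 hu
  obtain ⟨s, -, e⟩ := H.eqv h
  exact (D.mem_U _).2 ⟨_, (e t).symm⟩

theorem conj_T {g : E} (h : ∀ i u, g * D.p i (hD F u) * g⁻¹ ∈ D.T) : ∀ t ∈ D.T, g * t * g⁻¹ ∈ D.T :=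
  fun _ => D.T_le (L := (D.T.comap (MulAut.conj g).toMonoidHom).toSubmonoid) h

include R

theorem Rs.comm (r s : C.Φ k) (h1 : s ≠ r) (h2 : s ≠ (C.rs k).neg r) : ∀ x ∈ D.U r, ∀ y ∈ D.U s,
    x * y * x⁻¹ * y⁻¹ ∈ ⨆ t ∈ (C.rs k).itv r s, D.U t := by
  refine pair_cases (Pr := fun r s => ∀ x ∈ D.U r, ∀ y ∈ D.U s,
    x * y * x⁻¹ * y⁻¹ ∈ ⨆ t ∈ (C.rs k).itv r s, D.U t)
    (fun r s h x hx y hy => by rw [RS.itv_comm]; exact cm_symm (h y hy x hx))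
    (fun h h' h1 h2 h3 h4 => (R.cm1 h h' h1 h2 h3 h4).pr (by simp))
    (fun h h' h1 => (R.cm2 h h' h1).pr (by simp))
    (fun h h' h1 => (R.cm3 h h' h1).pr ?_) (fun h h' => (R.cm4 h).pr ?_)
    (fun h _ h1 h2 => (D.cm5 h h1 h2).pr (by simp)) (fun h _ => (R.cm6 h).pr (by simp))
    (fun h hD => (R.cm7 h).pr ?_) (fun _ h => (D.cm8 h).pr (by simp)) r s h1 h2 <;>
    simp only [List.mem_cons, List.not_mem_nil, or_false, forall_eq_or_imp, forall_eq]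
  · exact ⟨val_ix h1, itv3 h h' h1⟩
  · exact ⟨val_self P.isD_sp _, itv4 h h' P.isD_sp (P.h1 nq_zero)⟩
  · exact ⟨⟨val_self hD _, itv7 h hD⟩, val_ix ix, itv7' h hD ix⟩

theorem Rs.r0' {i j : Fin C.n} (h : i ≠ j) :
    D.Y (.inl i) (.inr j) 1 * D.Y (.inr i) (.inl j) (-1) * D.Y (.inl i) (.inr j) 1 =
      D.p i (hD F (-1)) * D.ψ (swap i j) := by
  have := congrArg (MulAut.conj (D.ψ (tau i₀ i₁ i j))) R.r0
  simp only [map_mul, MulAut.conj_apply] at this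
  rw [D.ψ_Y _ (val_of_ne (by simp) (by simp [D.h01.symm])), D.ψ_Y _ (val_of_ne (by simp)
    (by simp [D.h01.symm])), ← p0, e1, ← map_inv, ← map_mul, ← map_mul, ← swap_apply_apply] at this
  simpa [tau_l D.h01 h, tau_r] using this

theorem Rs.ex_m (i : Fin C.n) : ∃ m, D.Tr m (C.ρ (C.sa i) (C.sb i)) ∧ (∀ t ∈ D.T, m * t * m⁻¹ ∈ D.T) ∧
    m * m ∈ D.T ∧ (∃ t, m = D.Y (C.sa i) (C.sb i) 1 * D.Y (C.sa i).swap (C.sb i).swap t *
      D.Y (C.sa i) (C.sb i) 1) ∧ ∀ t, t ≠ 0 → ∃ s, ∃ τ ∈ D.T, D.Y (C.sa i).swap (C.sb i).swap t =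
        D.Y (C.sa i) (C.sb i) s * (τ * m) * D.Y (C.sa i) (C.sb i) s := by
  rcases simple_cases i with ⟨h, e1, e2⟩ | ⟨-, -, e1, e2⟩ | ⟨-, h, -⟩
  · rw [e1, e2]
    have hj : i ≠ ⟨i + 1, h⟩ := by simp [Fin.ext_iff]
    generalize (⟨i + 1, h⟩ : Fin C.n) = j at hj
    have h' : idx (C := C) (.inl i) ≠ idx (C := C) (.inr j) := jx_ne.2 hj
    have h'' : idx (C := C) (.inr i) ≠ idx (C := C) (.inl j) := jx_ne.2 hj
    have e := R.r0' hj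
    have nT : ∀ t ∈ D.T, D.p i (hD F (-1)) * D.ψ (swap i j) * t *
        (D.p i (hD F (-1)) * D.ψ (swap i j))⁻¹ ∈ D.T := conj_T fun l u => by
      have := mul_mem (mul_mem (D.hD_mem i (-1)) (D.hD_mem (swap i j l) u)) (inv_mem (D.hD_mem i (-1)))
      rw [← D.e1] at this
      simpa [mul_assoc] using this
    refine ⟨_, ⟨mul_mem (D.tr_T (D.hD_mem i (-1))).mem (D.ψ_mem (swap i j)), ρ_swap (val_ix h'), ?_⟩,
      nT, ?_, ⟨_, e.symm⟩, fun t ht => ⟨t⁻¹, _, mul_mem (D.tt_mem (.inl i) (Units.mk0 (-t)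
        (neg_ne_zero.2 ht))⁻¹) (nT _ (D.tt_mem (.inl i) (Units.mk0 (-t) (neg_ne_zero.2 ht)))), ?_⟩⟩
    · have := P.mon_mo h' one_ne_zero
      rw [← e, map_mul, map_mul, D.fY (val_ix h'), D.fY (val_ix h''), ym_ne P h', ym_ne P h'']
      simpa [mo, P.β_inl, β_inr] using this
    · rw [mul_assoc, ← mul_assoc (D.ψ _), D.e1', mul_assoc, ← map_mul, swap_mul_self, map_one, mul_one]
      exact mul_mem (D.hD_mem _ _) (D.hD_mem _ _)
    · have k := congrArg (MulAut.conj (D.tt (.inl i) (Units.mk0 (-t) (neg_ne_zero.2 ht))⁻¹)) e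
      simp only [map_mul (MulAut.conj _), MulAut.conj_apply] at k
      rw [D.T_Y (D.tt_mem _ _) (val_ix h') (D.tt_l _ _) (D.tt_f h' _),
        D.T_Y (D.tt_mem _ _) (val_ix h'') (D.tt_l' (.inl i) _) (D.tt_f (c := .inl j) h' _)] at k
      simp only [Units.val_inv_eq_inv_val, Units.val_mk0, mul_one, inv_inv, mul_neg, neg_neg, inv_neg,
        (D.Y_add _ _).neg, tt, Sum.elim_inl, map_inv] at k
      simp only [tt, Sum.elim_inl, map_inv, Sum.swap_inl, Sum.swap_inr]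
      calc _ = D.Y (.inl i) (.inr j) t⁻¹ * ((D.Y (.inl i) (.inr j) t⁻¹)⁻¹ * D.Y (.inr i) (.inl j) t *
          (D.Y (.inl i) (.inr j) t⁻¹)⁻¹) * D.Y (.inl i) (.inr j) t⁻¹ := by group
        _ = _ := by rw [k]; group
  · rw [e1, e2]
    have y1 : ∀ t, D.Y (.inl i) (.inl i) t = D.p i (xx t) := fun t => by simp [Y_self, wS]
    have y2 : ∀ t, D.Y (.inr i) (.inr i) t = D.p i (yy (-t)) := fun t => by simp [Y_self, wS, ← ww_xx]
    refine ⟨_, D.tr_w i, conj_T fun l u => ?_, ?_, ⟨1, ?_⟩, fun t ht =>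
      ⟨-t⁻¹, _, D.hD_mem i (Units.mk0 t ht)⁻¹, ?_⟩⟩
    · by_cases e : i = l
      · rw [e, ← map_mul, ww_hD, map_mul, mul_inv_cancel_right]; exact D.hD_mem _ _
      · rw [(D.e2 e _ _).eq, mul_inv_cancel_right]; exact D.hD_mem _ _
    · rw [← map_mul, ww_ww]; exact D.hD_mem _ _
    · simp [y1, y2, ww]
    · have := rel_SL.y_eq (t := t⁻¹)
      rw [inv_inv] at this
      simp [y1, y2, this, hD, hh]
  · exact absurd h (by simp [P.isD_sp])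

theorem Rs.inj : Function.Injective D.f := by
  choose m m1 m2 m3 m4 m5 using R.ex_m
  have rep : ∀ i, P.rgdO.Rep (D.f (m i)) ((C.rs k).s i) := fun i => by
    have := (RGD.rep_m i).T_mul (P.mem_T_of_mon (g' := P.rgdO.m i) (m1 i).mon (P.mon_m i))
    rwa [inv_mul_cancel_right] at this
  let Z : RGD (C.rs k) E :=
    { U := D.U
      T := D.T
      m := m
      T_conj := fun t ht r u hu => by
        obtain ⟨a, b, h, rfl⟩ := exists_rt r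
        exact (D.tr_T ht).conj_U h u hu
      m_conj := fun i r u hu => by
        obtain ⟨a, b, h, rfl⟩ := exists_rt r
        rw [sref_rt]
        exact (m1 i).conj_U h u hu
      m_T := m2
      m_sq := m3
      m_mem := fun i => by
        obtain ⟨t, e⟩ := m4 i
        rw [CT.rs_simple, neg_rt]
        exact ⟨_, (D.mem_U _).2 ⟨_, rfl⟩, _, (D.mem_U _).2 ⟨_, rfl⟩, _, (D.mem_U _).2 ⟨_, rfl⟩, e⟩
      rank1 := fun i v hv h1 => by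
        rw [CT.rs_simple, neg_rt] at hv
        obtain ⟨t, rfl⟩ := (D.mem_U _).1 hv
        obtain ⟨s, τ, hτ, e⟩ := m5 i t (by rintro rfl; exact h1 (D.Y_add _ _).zero)
        rw [CT.rs_simple]
        exact ⟨_, (D.mem_U _).2 ⟨_, rfl⟩, τ, hτ, _, (D.mem_U _).2 ⟨_, rfl⟩, e⟩
      comm := R.comm
      not_mem := fun i => rgd_not_mem D.U_f D.T_f (rep i) }
  have hY : ∀ {a b}, C.Val a b → ∀ t, D.Y a b t ∈ Z.grp := fun h t =>
    RGD.U_le_grp (X := Z) _ ((D.mem_U h).2 ⟨t, rfl⟩)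
  refine rgd_inj Z D.U_f D.T_f rep (fun t => D.T_inj) (R.gen _ (fun σ => ?_) (fun γ => ?_)
    (D.Y_00 1 ▸ hY D.v01 1))
  · refine ((closure_le (Z.grp.comap D.ψ)).2 ?_) (Perm.closure_isSwap.ge (mem_top σ))
    rintro _ ⟨i, j, h, rfl⟩
    have v : C.Val (.inl i) (.inr j) := val_of_ne (by simp) (by simp [h.symm])
    have := mul_mem (mul_mem (hY v 1) (hY v.swap (-1))) (hY v 1)
    rw [Sum.swap_inl, Sum.swap_inr, R.r0' h] at this
    exact (Z.grp.mul_mem_cancel_left (RGD.T_le_grp (X := Z) (D.hD_mem _ _))).1 this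
  · refine sl_induction (p := fun γ => D.φ γ ∈ Z.grp) (fun t => ?_) (fun t => ?_)
      (fun a b p q => by rw [map_mul]; exact mul_mem p q) γ
    · simpa [Y_self, wS, p0] using hY (val_self P.isD_sp (.inl i₀)) t
    · have := hY (val_self P.isD_sp (.inr i₀)) (-t)
      rwa [Y_self, wS, Sum.elim_inr, ww_xx, neg_neg, jx_inr, p0] at this

end SD

end Cfsg.Agent.H7.Pr
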