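import Mathlib
import Cfsg.Agent.H7.Pr12

/-! Bounded presentations of symplectic groups. -/

set_option autoImplicit false
set_option linter.unusedSectionVars false

namespace Cfsg.Agent.H7.Pr
open Subgroup Equiv Polynomial H10 H11 H12 H17 H17.CT H17.Frame H19.St
open FreeGroup (lift of lift_apply_of)
open scoped MatrixGroups

universe u v

theorem image_ALs {K K' α F : Type*} (f : K → K') (Y : α → α → F → K) (L : List (α × α)) :
    f '' ALs Y L = ALs (fun a b t => f (Y a b t)) L := by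
  ext g
  constructor
  · rintro ⟨_, ⟨p, hp, t, rfl⟩, rfl⟩; exact ⟨p, hp, t, rfl⟩
  · rintro ⟨p, hp, t, rfl⟩; exact ⟨_, ⟨p, hp, t, rfl⟩, rfl⟩

theorem Rl.cm1 {G : Type u} [Group G] {ι : Type} {s : ι → G} {α F : Type*} [One F]
    (Y : α → α → F → FreeGroup ι) {a b c d : α} {L : List (α × α)}
    (h : Cm1 (fun a b t => lift s (Y a b t)) a b c d L) :
    Rl s 1 fun _ _ x => Cm1 (fun a b t => lift x (Y a b t)) a b c d L :=
  (Rl.mem (Y a b 1 * Y c d 1 * (Y a b 1)⁻¹ * (Y c d 1)⁻¹) (ALs Y L)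
    (by simpa only [image_ALs, map_mul, map_inv, Cm1] using h)).mono le_rfl fun _ _ _ h => by
      simpa only [image_ALs, map_mul, map_inv, Cm1] using h

theorem perm_stab {n : ℕ} (p : Fin n → Prop) [DecidablePred p] : ∃ g : Fin 2 → Perm (Fin n),
    (∀ i j, ¬ p j → g i j = j) ∧ ∀ σ : Perm (Fin n), (∀ j, ¬ p j → σ j = j) →
      σ ∈ closure (Set.range g) := by
  obtain ⟨s, hs⟩ := presS' (Fintype.card {i // p i})
  have h := (hs.equiv (Fintype.equivFin _).symm.permCongrHom).1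
  refine ⟨fun i => Perm.ofSubtype ((Fintype.equivFin _).symm.permCongrHom (s i)),
    fun i j => Perm.ofSubtype_apply_of_not_mem _, fun σ hσ => ?_⟩
  have h1 : ∀ x, p (σ x) ↔ p x := fun x => by
    by_cases e : σ x = x
    · rw [e]
    · exact iff_of_true (by_contra fun q => e (σ.injective (hσ _ q))) (by_contra fun q => e (hσ _ q))
  rw [← Perm.ofSubtype_subtypePerm h1 fun x e => by_contra fun q => e (hσ _ q)]
  have := mem_map_of_mem Perm.ofSubtype (h.ge (mem_top (σ.subtypePerm h1)))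
  rwa [MonoidHom.map_closure, ← Set.range_comp] at this

variable {F : Type u} [Field F] [Fintype F] {V : Type u} [AddCommGroup V] [Module F V]
  {C : CT} {k : Type*} [CommRing k] [LinearOrder k] [IsStrictOrderedRing k]
  {B : V →ₗ[F] V →ₗ[F] F} {Q : V → F}
  (P : Frame (σ := RingHom.id F) C k (-1) 0 0 B Q) [FiniteDimensional F V] {a b c d : C.ι}

theorem mo_eq {i j : Fin C.n} (h : i ≠ j) :
    P.mo (.inl i) (.inr j) 1 = ph P i (hD F (-1)) * JJ P (swap i j) := by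
  have h' : idx (C := C) (.inl i) ≠ idx (C := C) (.inr j) := jx_ne.2 h
  have n1 : ((-1 : Fˣ) : F) ≠ 0 := Units.ne_zero _
  refine om_ext P fun c => ?_
  rw [Subgroup.coe_mul, LinearEquiv.mul_apply, JJ_f, ph_hD]
  rcases idx_cases (C := C) (.inl i) (.inr j) c with rfl | rfl | rfl | rfl | ⟨h1, h2, h3, h4⟩
  · rw [P.mo_l h', hz_f n1 (jx_ne.2 (by simpa [jx_map] using h))]; simp [β_inr]
  · rw [P.mo_r h']; simpa [P.β_inl] using (hz_l' P (.inl i) n1).symm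
  · rw [P.mo_l' h', hz_f n1 (jx_ne.2 (by simpa [jx_map] using h))]; simp [P.β_inl]
  · rw [P.mo_r' h']; simpa [β_inr] using (hz_l (P := P) (.inl i) n1).symm
  · have k1 := ix_of_ne h1 h3
    have k2 := ix_of_ne h2 h4
    have : c.map (swap i j) (swap i j) = c := by
      cases c <;> exact congrArg _ (swap_apply_of_ne_of_ne (jx_ne.1 k1).symm (jx_ne.1 k2).symm)
    rw [P.mo_f h' k1 k2, this, hz_f n1 k1]

theorem pres_sp_of (hn : 2 ≤ C.n) {κ : Fin 2 → Perm (Fin C.n)} {r : ℕ} (hκ : Pres κ r) {m m' : ℕ}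
    (g : Fin m → Perm (Fin C.n)) (g' : Fin m' → Perm (Fin C.n))
    (h1 : ∀ i (j : Fin C.n), j.1 = 0 → g i j = j) (h1' : ∀ i (j : Fin C.n), j.1 ≤ 1 → g' i j = j)
    (h2 : ∀ σ : Perm (Fin C.n), (∀ j : Fin C.n, j.1 = 0 → σ j = j) → σ ∈ closure (Set.range g))
    (h2' : ∀ σ : Perm (Fin C.n), (∀ j : Fin C.n, j.1 ≤ 1 → σ j = j) → σ ∈ closure (Set.range g')) :
    ∃ s : Fin 6 → P.cl.Om, Pres s (r + 3 * m + m' + (if 3 ≤ C.n then 6 else 0) + 27) := by
  obtain ⟨ω, hω⟩ := IsCyclic.exists_generator (α := Fˣ)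
  obtain ⟨i₀, e₀⟩ : ∃ i : Fin C.n, i.1 = 0 := ⟨⟨0, by omega⟩, rfl⟩
  obtain ⟨i₁, e₁⟩ : ∃ i : Fin C.n, i.1 = 1 := ⟨⟨1, by omega⟩, rfl⟩
  have h01 : i₀ ≠ i₁ := by rw [← Fin.val_ne_iff]; omega
  have x01 : idx (C := C) (.inl i₀) ≠ idx (C := C) (.inl i₁) := jx_ne.2 h01
  let s : Fin 6 → P.cl.Om := ![JJ P (κ 0), JJ P (κ 1), ph P i₀ (s2 ω 0), ph P i₀ (s2 ω 1),
    ph P i₀ (s2 ω 2), P.xo (.inl i₀) (.inl i₁) 1]
  let W₀ : Fin 2 → FreeGroup (Fin 6) := ![of 0, of 1]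
  let W₁ : Fin 3 → FreeGroup (Fin 6) := ![of 2, of 3, of 4]
  have j0 : ∀ i, JJ P (κ i) = lift s (W₀ i) := fun i => by fin_cases i <;> simp [s, W₀]
  have j1 : ∀ i, ph P i₀ (s2 ω i) = lift s (W₁ i) := fun i => by fin_cases i <;> simp [s, W₁]
  choose wd hwd using exists_word hκ.1
  choose wd' hwd' using exists_word (s2_gen hω)
  choose pol hpol using gen_of_generator hω
  let Pw : Perm (Fin C.n) → FreeGroup (Fin 6) := fun σ => lift W₀ (wd σ)
  let Sw : SL(2, F) → FreeGroup (Fin 6) := fun γ => lift W₁ (wd' γ)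
  let xw : F → FreeGroup (Fin 6) := fun t => pw (of 5) (Sw (hD F ω)) (pol t)
  let Yw := YY i₀ i₁ Pw Sw xw
  have s5 : lift s (of 5) = P.xo (.inl i₀) (.inl i₁) 1 := by simp [s]
  have gP : ∀ σ, lift s (Pw σ) = JJ P σ := fun σ => by simp only [Pw, lift_lift j0, hwd]
  have gS : ∀ γ, lift s (Sw γ) = ph P i₀ γ := fun γ => by simp only [Sw, lift_lift j1, hwd']
  have gT : ∀ t : F, P.xo (.inl i₀) (.inl i₁) (ω * t) =
      lift s (Sw (hD F ω)) * P.xo (.inl i₀) (.inl i₁) t * (lift s (Sw (hD F ω)))⁻¹ := fun t => by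
    rw [gS, hD_xo P h01]
  have gx : ∀ t, lift s (xw t) = P.xo (.inl i₀) (.inl i₁) t := fun t => by
    simp only [xw, map_pw, s5, pw_field (P.xo_add x01) gT, hpol]
  have gH : ∀ i γ, lift s (PH i₀ Pw Sw i γ) = ph P i γ := fun i γ => by
    rw [map_PH i₀ _ gP gS, PH_eq]
  have gY : ∀ {a b}, C.Val a b → ∀ t, lift s (Yw a b t) = ym P a b t := fun h t => by
    rw [map_YY i₀ i₁ _ gP gS gx, YY_eq P h01 h]
  have gX : ∀ {a b}, idx a ≠ idx b → ∀ t, lift s (Yw a b t) = P.xo a b t := fun h t => by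
    rw [gY (val_ix h), ym_ne P h]
  have gZ : ∀ a t, lift s (Yw a a t) = P.yo a 0 t := fun a t => by
    rw [gY (val_self P.isD_sp a), ym_self]
  have cm0 : ∀ {a b c d}, Commute (lift s (Yw a b 1)) (lift s (Yw c d 1)) →
      Cm1 (fun a b t => lift s (Yw a b t)) a b c d [] := fun h => by
    simp only [Cm1, h.eq, mul_inv_cancel_right, mul_inv_cancel, one_mem]
  have mem : ∀ {L : List (C.ι × C.ι)} {a b}, (a, b) ∈ L → ∀ t,
      lift s (Yw a b t) ∈ closure (ALs (fun a b t => lift s (Yw a b t)) L) :=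
    fun h t => subset_closure ⟨_, h, t, rfl⟩
  have R3 : ∀ hp : 3 ≤ C.n, Rl s 6 fun _ _ x =>
      (∀ l ∈ Finset.univ, Commute (lift x (PH i₀ Pw Sw ⟨2, hp⟩ (s2 ω l))) (lift x (of 5))) ∧
      Cm1 (fun a b t => lift x (Yw a b t)) (.inl i₀) (.inl i₁) (.inl i₀) (.inl ⟨2, hp⟩) [] ∧
      Cm1 (fun a b t => lift x (Yw a b t)) (.inl i₀) (.inl i₁) (.inr i₀) (.inl ⟨2, hp⟩)
        [(.inl i₁, .inl ⟨2, hp⟩)] ∧ ∀ hp' : 4 ≤ C.n,
      Cm1 (fun a b t => lift x (Yw a b t)) (.inl i₀) (.inl i₁) (.inl ⟨2, hp⟩) (.inl ⟨3, hp'⟩) [] := by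
    intro hp
    have x02 : idx (C := C) (.inl i₀) ≠ idx (C := C) (.inl ⟨2, hp⟩) := by simp [idx, e₀]
    have x12 : idx (C := C) (.inl i₁) ≠ idx (C := C) (.inl ⟨2, hp⟩) := by simp [idx, e₁]
    refine ((Rl.comm _ _ _ fun l _ => ?_).and ((Rl.cm1 Yw (cm0 ?_)).and ((Rl.cm1 Yw ?_).and
      (Rl.cond fun hp' => Rl.cm1 Yw (cm0 ?_))))).mono (by simp; split_ifs <;> omega) fun _ _ _ h => h
    · rw [gH, s5]; exact ph_xo P x01 (jx_ne.1 x02) (jx_ne.1 x12) _ _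
    · rw [gX x01, gX x02]; exact P.xx_comm x01 x02 (by simp) (by simp) (by simp) (by simp) _ _
    · refine cm_symm ?_; beta_reduce
      have := P.cm_xx x01.symm x12 x02 1 1
      rw [xo_comm_sp x01, ← gX x12] at this
      rw [gX x01, gX (a := .inr i₀) x02]
      exact this ▸ mem (by simp) _
    · rw [gX x01, gX (by simp [idx])]
      exact P.xx_comm x01 (by simp [idx]) (by simp) (by simp) (by simp) (by simp) _ _
  refine ⟨s, Pres.of_inj ?_ (((Rl.sub hκ W₀ _ j0).and ((Rl.sub (pres_sl2 hω) W₁ _ j1).and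
    ((Rl.apart hω (of 5) (Sw (hD F ω)) (P.xo_add x01) s5.symm gT).and
    ((Rl.comm Finset.univ (fun p : Fin m × Fin 3 => Pw (g p.1)) (fun p => Sw (s2 ω p.2))
      fun p _ => ?_).and
    ((Rl.comm Finset.univ (fun p : Fin 3 × Fin 3 => Sw (s2 ω p.1))
      (fun p => PH i₀ Pw Sw i₁ (s2 ω p.2)) fun p _ => ?_).and
    ((Rl.comm Finset.univ (fun i => Pw (g' i)) (fun _ => of 5) fun i _ => ?_).and
    ((Rl.comm1 (Pw (swap i₀ i₁)) (of 5) ?_).and
    ((Rl.comm1 (Sw (hD F ω) * (PH i₀ Pw Sw i₁ (hD F ω))⁻¹) (of 5) ?_).and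
    ((Rl.cond R3).and
    ((Rl.cm1 Yw (a := .inl i₀) (b := .inl i₁) (c := .inl i₀) (d := .inr i₁)
      (L := [(.inl i₀, .inl i₀)]) ?_).and
    ((Rl.cm1 Yw (a := .inl i₀) (b := .inl i₁) (c := .inl i₀) (d := .inl i₀) (cm0 ?_)).and
    ((Rl.cm1 Yw (a := .inl i₀) (b := .inl i₁) (c := .inr i₀) (d := .inr i₀)
      (L := [(.inl i₁, .inl i₁), (.inl i₁, .inr i₀)]) ?_).and
    (Rl.eq (Yw (.inl i₀) (.inr i₁) 1 * Yw (.inr i₀) (.inl i₁) (-1) * Yw (.inl i₀) (.inr i₁) 1)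
      (Sw (hD F (-1)) * Pw (swap i₀ i₁)) ?_))))))))))))).mono (by simp; split_ifs <;> omega) ?_)⟩
  · rw [eq_top_iff, ← P.rgdO_US_univ, RGD.US_le, ← FreeGroup.range_lift_eq_closure]
    intro r _ y hy
    obtain ⟨a, b, h, rfl⟩ := exists_rt r
    obtain ⟨t, rfl⟩ := (ym_mem P h).1 hy
    exact ⟨_, gY h t⟩
  · rw [gP, gS]; exact mul_inv_eq_iff_eq_mul.1 (by rw [JJ_ph, h1 _ _ e₀])
  · rw [gS, gH]; exact ph_comm P h01 _ _
  · rw [gP, s5]
    exact comm_xo' x01 (by simp [JJ_f, h1' _ _ (e₀.le.trans zero_le_one)]) (by simp [JJ_f, h1' _ _ e₁.le]) _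
  · rw [gP, s5]
    refine mul_inv_eq_iff_eq_mul.1 ?_
    rw [conj_xo (x := 1) (y := 1) x01 x01.symm (by simp [JJ_f]) (by simp [JJ_f]), xo_comm_sp x01]
    simp
  · rw [map_mul, map_inv, gS, gH, s5, ← map_inv, ← map_inv]
    refine mul_inv_eq_iff_eq_mul.1 ?_
    rw [mul_inv_rev, mul_assoc, mul_assoc, ← mul_assoc (P.xo _ _ _), ← mul_assoc (ph P i₁ _),
      ← mul_assoc (ph P i₁ _), ← xo_comm_sp x01, hD_xo P h01.symm, xo_comm_sp x01, xo_comm_sp x01,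
      ← mul_assoc, hD_xo P h01]
    simp
  · refine cm_symm ?_; beta_reduce
    have := P.cm_xx' x01 1 1
    rw [← gZ, xo_comm_sp (a := .inl i₀) (b := (Sum.inl i₁).swap) x01] at this
    rw [gX x01, gX (b := .inr i₁) x01]
    exact this ▸ mem (by simp) _
  · rw [gX x01, gZ]; exact P.xy_comm x01 (by simp) (by simp) _ (vp_sp _)
  · refine cm_symm ?_; beta_reduce
    have := cm_zx (P := P) x01.symm 1 1
    rw [← gZ (.inl i₁), xo_comm_sp x01, ← gX (a := .inl i₁) (b := (Sum.inl i₀).swap) x01.symm] at this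
    rw [gX x01, gZ]
    exact this ▸ mul_mem (mem (by simp) _) (mem (by simp) _)
  · rw [map_mul, map_mul, map_mul, gX (b := .inr i₁) x01, gX (a := .inr i₀) x01, gS, gP, ← mo_eq P h01]
    simp [mo, P.β_inl, β_inr]
  · rintro E _ x ⟨⟨ψ, hψ⟩, ⟨φ, hφ⟩, ⟨y, y1, y2, y3⟩, q1, q2, q3, q4, q5, q6, q7, q8, q9, q10⟩ f hf top
    have xP : ∀ σ, lift x (Pw σ) = ψ σ := fun σ => by simp only [Pw, lift_lift hψ, hwd]
    have xS : ∀ γ, lift x (Sw γ) = φ γ := fun γ => by simp only [Sw, lift_lift hφ, hwd']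
    have xx : ∀ t, lift x (xw t) = y t := fun t => by
      simp only [xw, map_pw, ← y2, pw_field y1 y3, hpol]
    have fl : ∀ w, f (lift x w) = lift s w := fun w =>
      DFunLike.congr_fun (FreeGroup.ext_hom (f.comp (lift x)) (lift s) fun i => by simp [hf]) w
    have all : ∀ (p : SL(2, F) →* E) z, (∀ l, Commute (p (s2 ω l)) z) → ∀ γ, Commute (p γ) z :=
      fun p z h γ => comm_closure p (by rintro _ ⟨l, rfl⟩; exact h l) ((s2_gen hω).ge (mem_top γ))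
    have xY : (fun a b t => lift x (Yw a b t)) = YY i₀ i₁ ψ φ y := by
      funext a b t; exact map_YY i₀ i₁ _ xP xS xx a b t
    simp only [map_mul, map_inv, map_PH i₀ _ xP xS, map_YY i₀ i₁ _ xP xS xx, Yw, xP, xS, ← y2,
      Finset.mem_univ, true_imp_iff, Prod.forall] at q1 q2 q3 q4 q5 q6 q7 q8 q9 q10 y3
    let D : SD P E ω i₀ i₁ :=
      { f := f, ψ := ψ, φ := φ, x := y, hω := hω, h01 := h01
        fψ := fun σ => by rw [← xP, fl, gP]
        fφ := fun γ => by rw [← xS, fl, gS]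
        fx1 := by rw [y2, fl, s5]
        c1 := fun σ γ h => comm_closure ψ
          (by rintro _ ⟨i, rfl⟩; exact (all φ _ (fun l => (q1 i l).symm) γ).symm)
          (h2 σ fun j e => by rwa [show j = i₀ from Fin.ext (e.trans e₀.symm)])
        c2 := fun γ γ' => all φ _ (fun l => (all ((MulAut.conj (ψ (swap i₀ i₁))).toMonoidHom.comp φ) _
          (fun l' => (q2 l l').symm) γ').symm) γ
        c3 := fun σ h h' => comm_closure ψ (by rintro _ ⟨i, rfl⟩; exact q3 i) (h2' σ fun j e => by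
          rcases (show j = i₀ ∨ j = i₁ by simp only [Fin.ext_iff]; omega) with rfl | rfl
          exacts [h, h'])
        c3' := q4
        c4 := fun j a b => by
          have hp : 3 ≤ C.n := by have := j.2; simp only [ne_eq, Fin.ext_iff] at a b; omega
          exact ⟨⟨2, hp⟩, by simp [Fin.ext_iff, e₀], by simp [Fin.ext_iff, e₁],
            all ((MulAut.conj (ψ (swap i₀ _))).toMonoidHom.comp φ) _ (q6 hp).1⟩
        c5 := q5
        add := y1
        c6 := y3 }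
    refine SD.Rs.inj (D := D) ⟨fun hp => ⟨⟨2, by omega⟩, ⟨3, hp⟩, by simp [Fin.ext_iff, e₀, e₁],
      (q6 (by omega)).2.2.2 hp⟩, fun hp => ⟨⟨2, hp⟩, by simp [Fin.ext_iff, e₀, e₁], (q6 hp).2.1,
        (q6 hp).2.2.1⟩, q7, q8, q9, q10, fun L l1 l2 l3 => ?_⟩
    rw [eq_top_iff, ← top, closure_le]
    rintro _ ⟨i, rfl⟩
    fin_cases i
    · simpa [D, hψ, W₀] using l1 (κ 0)
    · simpa [D, hψ, W₀] using l1 (κ 1)
    · simpa [D, hφ, W₁] using l2 (s2 ω 0)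
    · simpa [D, hφ, W₁] using l2 (s2 ω 1)
    · simpa [D, hφ, W₁] using l2 (s2 ω 2)
    · simpa [D, y2] using l3

theorem pres_sp {n : ℕ} (hn : 2 ≤ n) : ∃ s : Fin 6 → Matrix.symplecticGroup (Fin n) F, Pres s 47 := by
  obtain ⟨P, -⟩ := frame_sp n F
  obtain ⟨κ, hκ⟩ := presS' n
  obtain ⟨g, h1, h2⟩ := perm_stab fun j : Fin n => j.1 ≠ 0
  obtain ⟨g', h1', h2'⟩ := perm_stab fun j : Fin n => 1 < j.1
  obtain ⟨s, hs⟩ := pres_sp_of P hn hκ g g' (fun i j h => h1 i j (not_not.2 h))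
    (fun i j h => h1' i j h.not_gt) (fun σ h => h2 σ fun j e => h j (not_not.1 e))
    fun σ h => h2' σ fun j e => h j (not_lt.1 e)
  exact ⟨_, (hs.equiv (spOm n F).symm).mono (by split_ifs <;> omega)⟩

theorem pres_sp4 : ∃ s : Fin 6 → Matrix.symplecticGroup (Fin 2) F, Pres s 33 := by
  obtain ⟨P, -⟩ := frame_sp 2 F
  obtain ⟨κ, hκ⟩ := presS' 2
  have key : ∀ σ : Perm (Fin 2), σ 0 = 0 → σ = 1 := by decide
  obtain ⟨s, hs⟩ := pres_sp_of P le_rfl hκ (m := 0) (m' := 0) Fin.elim0 Fin.elim0 (fun i => i.elim0)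
    (fun i => i.elim0) (fun σ h => key σ (h (0 : Fin 2) rfl) ▸ one_mem _)
    fun σ h => key σ (h (0 : Fin 2) zero_le_one) ▸ one_mem _
  exact ⟨_, (hs.equiv (spOm 2 F).symm).mono le_rfl⟩

theorem cyclic_center_sp {n : ℕ} (hn : 2 ≤ n) :
    IsCyclic (center (Matrix.symplecticGroup (Fin n) F)) := by
  haveI : Nonempty (Fin n) := ⟨⟨0, by omega⟩⟩
  exact isCyclic_of_card_dvd_prime (p := 2) (by rw [card_center_sp]; exact Nat.gcd_dvd_left _ _)

theorem Pres.both {G : Type u} [Group G] [IsCyclic (center G)] {g r : ℕ} {s : Fin g → G} (h : Pres s r)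
    (j : ℕ) {r' : ℕ} (hr : r + j ≤ r') :
    (∃ rels : Finset (FreeGroup (Fin (g + j))), rels.card ≤ r' ∧
      Nonempty (PresentedGroup (↑rels : Set (FreeGroup (Fin (g + j)))) ≃* G)) ∧
    ∃ rels : Finset (FreeGroup (Fin (g + j))), rels.card ≤ r' + 1 ∧
      Nonempty (PresentedGroup (↑rels : Set (FreeGroup (Fin (g + j)))) ≃* G ⧸ center G) := by
  obtain ⟨t, ht⟩ := h.pad j
  exact ⟨(ht.mono hr).out', (ht.mono hr).modCenter.out'⟩

end Cfsg.Agent.H7.Pr
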