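import Mathlib
import Cfsg.Agent.H7.Pr13

/-! Symplectic groups are generated by two elements. -/

set_option autoImplicit false
set_option linter.unusedSectionVars false

namespace Cfsg.Agent.H7.Pr
open Subgroup Equiv Polynomial H10 H11 H12 H17 H17.CT H17.Frame H19.St
open scoped MatrixGroups

universe u v

theorem exists_rot {n : ℕ} (hn : 2 ≤ n) : ∃ c : Perm (Fin n),
    (∀ i j : Fin n, j.1 = i.1 + 1 ∨ j.1 = 0 ∧ i.1 + 1 = n → c i = j) ∧
      ∀ i, closure {c, swap i (c i)} = ⊤ := by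
  refine ⟨finRotate n, fun i j h => ?_, Perm.closure_cycle_adjacent_swap
    (isCycle_finRotate_of_le hn) (support_finRotate_of_le hn)⟩
  obtain ⟨m, rfl⟩ : ∃ m, n = m + 1 := ⟨n - 1, by omega⟩
  have := j.2
  rw [Fin.ext_iff, finRotate_succ_apply, Fin.val_add_one]
  simp only [Fin.ext_iff, Fin.val_last]
  split_ifs <;> omega

theorem two_of {G : Type*} [Group G] (g g' : G) (h : ∀ H : Subgroup G, g ∈ H → g' ∈ H → H = ⊤) :
    ∃ g g' : G, closure {g, g'} = ⊤ :=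
  ⟨g, g', h _ (subset_closure (.inl rfl)) (subset_closure (.inr rfl))⟩

theorem two_map {G G' : Type*} [Group G] [Group G'] (f : G →* G') (hf : Function.Surjective f)
    (h : ∃ g g' : G, closure {g, g'} = ⊤) : ∃ g g' : G', closure {g, g'} = ⊤ := by
  obtain ⟨g, g', e⟩ := h
  have := congrArg (Subgroup.map f) e
  rw [MonoidHom.map_closure, Set.image_pair, map_top_of_surjective _ hf] at this
  exact ⟨_, _, this⟩

theorem Pres.two {G : Type u} [Group G] {ι : Type} {s : ι → G} {r : ℕ} (h : Pres s r)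
    (h' : ∃ g g' : G, closure {g, g'} = ⊤) : ∃ t : Fin 2 → G, Pres t (r + 2) := by
  obtain ⟨g, g', e⟩ := h'
  exact ⟨![g, g'], h.change (by simpa [Set.pair_comm g'] using e)⟩

theorem gen_ne_one {F : Type*} [Field F] {ω : Fˣ} (hω : ∀ u : Fˣ, u ∈ zpowers ω) {x : F} (h0 : x ≠ 0)
    (h1 : x ≠ 1) : (ω : F) ≠ 1 := fun e => by
  obtain ⟨m, hm⟩ := hω (Units.mk0 x h0)
  exact h1 (by simpa [e] using (congrArg Units.val hm).symm)

/-- the labels in cyclic order -/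
def lb {n : ℕ} (i₀ : Fin n) (a : ℕ) : Fin n ⊕ Fin n :=
  if h : a < n then .inl ⟨a, h⟩ else if h : a - n < n then .inr ⟨a - n, h⟩ else .inl i₀

theorem lb_l {n : ℕ} (i₀ i : Fin n) : lb i₀ i = .inl i := dif_pos i.2

theorem lb_swap {n : ℕ} (i₀ : Fin n) {a b : ℕ} (h : a < n) (e : b = a + n) :
    (lb i₀ b).swap = lb i₀ a := by
  simp [lb, h, e]

theorem lb_inj {n : ℕ} (i₀ : Fin n) {a b : ℕ} (h : a < 2 * n) (h' : b < 2 * n)
    (e : lb i₀ a = lb i₀ b) : a = b := by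
  unfold lb at e
  split_ifs at e <;> simp at e <;> omega

theorem lb_ix {C : CT} (i₀ : Fin C.n) {a b : ℕ} (h : a < 2 * C.n) (h' : b < 2 * C.n) (h1 : a ≠ b)
    (h2 : a ≠ b + C.n) (h3 : b ≠ a + C.n) : idx (C := C) (lb i₀ a) ≠ idx (C := C) (lb i₀ b) := by
  unfold lb
  split_ifs <;> simp [idx] <;> omega

theorem lb_succ {C : CT} {i₀ : Fin C.n} (e₀ : i₀.1 = 0) {c : Perm (Fin C.n)}
    (hc : ∀ i j : Fin C.n, j.1 = i.1 + 1 ∨ j.1 = 0 ∧ i.1 + 1 = C.n → c i = j) {a : ℕ}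
    (h : a < 2 * C.n) : (C.ρ (.inl i₀) (.inl i₀) * Equiv.sumCongr c c) (lb i₀ a) = lb i₀ (a + 1) := by
  have h0 := i₀.2
  simp only [CT.ρ, if_true, Perm.mul_apply, Equiv.sumCongr_apply, Sum.swap_inl, lb]
  split_ifs <;> try omega
  · rw [Sum.map_inl, hc _ ⟨a + 1, ‹_›⟩ (.inl rfl), swap_apply_of_ne_of_ne (by simp [Fin.ext_iff, e₀])
      (by simp)]
  · rw [Sum.map_inl, hc _ i₀ (.inr ⟨e₀, by simp; omega⟩), swap_apply_left]
    congr 1; simp [Fin.ext_iff]; omega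
  · rw [Sum.map_inr, hc _ ⟨a + 1 - C.n, ‹_›⟩ (.inl (by simp; omega)),
      swap_apply_of_ne_of_ne (by simp) (by simp [Fin.ext_iff]; omega)]
  · rw [Sum.map_inr, hc _ i₀ (.inr ⟨e₀, by simp; omega⟩), swap_apply_right]

variable {F : Type u} [Field F] [Fintype F] {V : Type u} [AddCommGroup V] [Module F V]
  {C : CT} {k : Type*} [CommRing k] [LinearOrder k] [IsStrictOrderedRing k]
  {B : V →ₗ[F] V →ₗ[F] F} {Q : V → F}
  {P : Frame (σ := RingHom.id F) C k (-1) 0 0 B Q} [FiniteDimensional F V] {a b c d : C.ι}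
  {H : Subgroup P.cl.Om}

variable (P H) in
/-- the root group lies in `H` -/
def Sx (a b : C.ι) : Prop := ∀ t, ym P a b t ∈ H

theorem Sx.conj {g n : P.cl.Om} {ρ : Perm C.ι} (hg : g ∈ H) (hn : P.Mon ρ n.1)
    (sw : ∀ c, ρ c.swap = (ρ c).swap) (h : C.Val a b)
    (e : ∀ t, g * ym P a b t * g⁻¹ = n * ym P a b t * n⁻¹) : Sx P H a b ↔ Sx P H (ρ a) (ρ b) := by
  obtain ⟨s, hs, ha⟩ := hn.exists a
  obtain ⟨s', hs', hb⟩ := hn.exists b
  have key : ∀ t, ym P (ρ a) (ρ b) (s * s' * t) ∈ H ↔ ym P a b t ∈ H := fun t => by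
    rw [← ym_conj P h (h.map sw) ρ.injective.eq_iff.symm ha hb, ← e, H.mul_mem_cancel_right (inv_mem hg),
      H.mul_mem_cancel_left hg]
  exact ⟨fun p t => by rw [← mul_inv_cancel_left₀ (mul_ne_zero hs hs') t, key]; exact p _,
    fun p t => (key t).1 (p _)⟩

theorem Sx.symm (h : idx a ≠ idx b) (p : Sx P H a b) : Sx P H b a := fun t => by
  rw [ym_ne P h.symm, xo_comm_sp h, ← ym_ne P h]; exact p t

theorem Sx.cm (h1 : idx a ≠ idx b) (h2 : idx a ≠ idx d) (h3 : idx b ≠ idx d) (p : Sx P H a b)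
    (q : Sx P H b.swap d) : Sx P H a d := fun t => by
  have := P.cm_xx h1 h2 h3 1 ((-P.β b)⁻¹ * t)
  rw [mul_one, mul_inv_cancel_left₀ (neg_ne_zero.2 (P.β_ne b)), ← ym_ne P h1, ← ym_ne P h2,
    ← ym_ne P (a := b.swap) (b := d) ix] at this
  exact this ▸ mul_mem (mul_mem (mul_mem (q _) (p _)) (inv_mem (q _))) (inv_mem (p _))

theorem ym_zo (h : C.Val a b) (h1 : a ≠ c.swap) (h2 : b ≠ c.swap) (t x : F) :
    ym P a b t * P.yo c 0 x = P.yo c 0 x * ym P a b t := by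
  by_cases e : b = a
  · subst e; rw [ym_self]; exact zz_comm h1 _ _
  · rw [ym_ne P (ix_of_ne e h.1)]; exact P.xy_comm (ix_of_ne e h.1) h1 h2 _ (vp_sp _)

theorem sp_top {i₀ i₁ : Fin C.n} (h01 : i₀ ≠ i₁) (h1 : ∀ σ, JJ P σ ∈ H) (h2 : ∀ γ, ph P i₀ γ ∈ H)
    (h3 : ∀ t, P.xo (.inl i₀) (.inl i₁) t ∈ H) : H = ⊤ := by
  rw [eq_top_iff, ← P.rgdO_US_univ, RGD.US_le]
  intro r _ y hy
  obtain ⟨a, b, h, rfl⟩ := exists_rt r
  obtain ⟨t, rfl⟩ := (ym_mem P h).1 hy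
  have h4 : ∀ i γ, PH i₀ (JJ P) (ph P i₀) i γ ∈ H := fun i γ =>
    mul_mem (mul_mem (h1 _) (h2 _)) (inv_mem (h1 _))
  have h5 : ∀ a b, nn i₀ i₁ (JJ P) (ph P i₀) a b ∈ H := fun a b =>
    mul_mem (h1 _) (mul_mem (h4 _ _) (h4 _ _))
  rw [← YY_eq P h01 h, YY]
  split_ifs
  exacts [h4 _ _, mul_mem (mul_mem (h5 _ _) (h3 _)) (inv_mem (h5 _ _))]

variable {i₀ i₁ : Fin C.n} (e₀ : i₀.1 = 0) (e₁ : i₁.1 = 1) {κ : Perm (Fin C.n)}
  (hc : ∀ i j : Fin C.n, j.1 = i.1 + 1 ∨ j.1 = 0 ∧ i.1 + 1 = C.n → κ i = j)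
  (hc' : ∀ i, closure {κ, swap i (κ i)} = ⊤)

theorem mon_w (i : Fin C.n) : P.Mon (C.ρ (.inl i) (.inl i)) (ph P i (ww xx yy (1 : F))).1 := by
  rw [ph_ww]; exact mon_my (vp_sp 1) one_ne_zero P.isD_sp _

theorem mon_n (i : Fin C.n) (κ : Perm (Fin C.n)) : P.Mon (C.ρ (.inl i) (.inl i) * Equiv.sumCongr κ κ)
    (ph P i (ww xx yy (1 : F)) * JJ P κ).1 := (mon_w i).mul (mon_JJ P κ)

include P in
theorem sw_n (i : Fin C.n) (κ : Perm (Fin C.n)) (c : C.ι) :
    (C.ρ (.inl i) (.inl i) * Equiv.sumCongr κ κ) c.swap =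
      ((C.ρ (.inl i) (.inl i) * Equiv.sumCongr κ κ) c).swap := by
  rw [Perm.mul_apply, Perm.mul_apply, ← ρ_swap (val_self P.isD_sp _)]
  exact congrArg _ (swap_map κ c)

include e₀ e₁ hc hc'

theorem sp_top' (hn : ph P i₀ (ww xx yy (1 : F)) * JJ P κ ∈ H) (h1 : Sx P H (.inl i₀) (.inl i₀))
    (h2 : Sx P H (.inl i₀) (.inl i₁)) : H = ⊤ := by
  have h01 : i₀ ≠ i₁ := by rw [← Fin.val_ne_iff]; omega
  have x01 : idx (C := C) (.inl i₀) ≠ idx (C := C) (.inl i₁) := jx_ne.2 h01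
  have k0 : κ i₀ = i₁ := hc _ _ (by omega)
  have a1 : ∀ a, a ≤ C.n → Sx P H (lb i₀ a) (lb i₀ a) := fun a => by
    induction a with
    | zero => intro; rwa [← e₀, lb_l]
    | succ a ih =>
      intro h
      rw [← lb_succ e₀ hc (by omega)]
      exact (Sx.conj hn (mon_n i₀ κ) (sw_n (P := P) i₀ κ) (val_self P.isD_sp _) fun _ => rfl).1 (ih (by omega))
  have a2 : ∀ γ, ph P i₀ γ ∈ H := sl_induction (p := fun γ => ph P i₀ γ ∈ H)
    (fun t => by rw [ph_xx, ← ym_self]; exact h1 t)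
    (fun t => by
      have := a1 _ le_rfl (-t)
      rwa [← (lb i₀ C.n).swap_swap, lb_swap i₀ i₀.2 (by omega), lb_l, ym_self, Sum.swap_inl, ← ph_yy] at this)
    fun a b p q => by rw [map_mul]; exact mul_mem p q
  have a3 := (H.mul_mem_cancel_left (a2 _)).1 hn
  have a4 : ∀ γ, ph P i₁ γ ∈ H := fun γ => by
    rw [← k0, ← JJ_ph]; exact mul_mem (mul_mem a3 (a2 _)) (inv_mem a3)
  have a5 := (Sx.conj (a4 _) (mon_w i₁) (ρ_swap (val_self P.isD_sp _)) (val_ix x01) fun _ => rfl).1 h2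
  have a6 := (Sx.conj (a2 _) (mon_w i₀) (ρ_swap (val_self P.isD_sp _)) (val_ix x01) fun _ => rfl).1 h2
  simp only [CT.ρ, if_true, Sum.swap_inl, swap_apply_left] at a5 a6
  rw [swap_apply_of_ne_of_ne (by simp [h01]) (by simp)] at a5
  rw [swap_apply_of_ne_of_ne (by simp [h01.symm]) (by simp)] at a6
  have a7 : JJ P (swap i₀ i₁) ∈ H := by
    rw [← H.mul_mem_cancel_left (a2 (hD F (-1))), ← mo_eq P h01, mo,
      ← ym_ne P (a := .inl i₀) (b := .inr i₁) x01, Sum.swap_inl, Sum.swap_inr,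
      ← ym_ne P (a := .inr i₀) (b := .inl i₁) x01]
    exact mul_mem (mul_mem (a5 _) (a6 _)) (a5 _)
  refine sp_top h01 (fun σ => ?_) a2 fun t => ym_ne P x01 ▸ h2 t
  refine ((closure_le (H.comap (JJ P))).2 ?_) ((hc' i₀).ge (mem_top σ))
  rintro _ (rfl | rfl)
  exacts [a3, k0 ▸ a7]

theorem sp_big {x : F} (x0 : x ≠ 0) (x1 : x ≠ 1) : ∃ g g' : P.cl.Om, closure {g, g'} = ⊤ := by
  obtain ⟨ω, hω⟩ := IsCyclic.exists_generator (α := Fˣ)
  have h01 : i₀ ≠ i₁ := by rw [← Fin.val_ne_iff]; omega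
  have x01 : idx (C := C) (.inl i₀) ≠ idx (C := C) (.inl i₁) := jx_ne.2 h01
  have k0 : κ i₀ = i₁ := hc _ _ (by omega)
  have ω1 := gen_ne_one hω x0 x1
  set n := ph P i₀ (ww xx yy (1 : F)) * JJ P κ with hn
  have nc : ∀ γ, n * ph P i₀ γ * n⁻¹ = ph P i₁ γ := fun γ => by
    have := (ph_comm P h01 (ww xx yy (1 : F)) γ).eq
    rw [← k0, ← JJ_ph] at this
    rw [← k0, ← JJ_ph, hn, mul_inv_rev, mul_assoc _ (JJ P κ), mul_assoc, ← mul_assoc (_ * _),
      ← mul_assoc, this, mul_inv_cancel_right]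
  refine two_of (ph P i₀ (hD F ω) * ph P i₁ (xx 1)) (P.xo (.inl i₀) (.inl i₁) 1 * n) fun H g1 g2 => ?_
  have b1 : ph P i₀ (hD F ω) ∈ H := by
    have := pow_mem g1 (Fintype.card F)
    rwa [(ph_comm P h01 _ _).mul_pow, ← map_pow, ← map_pow, ← map_pow,
      show ω ^ Fintype.card F = ω from Units.ext (by simp [FiniteField.pow_card]),
      show xx (1 : F) ^ Fintype.card F = 1 by
        rw [← zpow_natCast, ← xx_add.zsmul]; simp [xx_add.zero], map_one, mul_one] at this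
  have ad := P.xo_add x01
  have b2 : P.xo (.inl i₀) (.inl i₁) (1 - ω) * ph P i₁ (hD F ω) ∈ H := by
    have := mul_mem (mul_mem g2 b1) (inv_mem g2)
    have e := hD_xo P h01.symm ω (-1)
    rw [xo_comm_sp x01, xo_comm_sp x01, mul_neg_one, IsAdd.neg ad 1] at e
    rw [sub_eq_add_neg, ad, ← e, ← nc]
    convert this using 1
    group
  have b3 : P.xo (.inl i₀) (.inl i₁) ((ω - 1) * (1 - ω)) ∈ H := by
    have := mul_mem (mul_mem (mul_mem b1 b2) (inv_mem b1)) (inv_mem b2)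
    rw [sub_mul, one_mul, sub_eq_add_neg, ad, IsAdd.neg ad, ← hD_xo P h01]
    convert this using 1
    rw [mul_assoc (ph P i₀ _) (_ * _), mul_assoc (P.xo _ _ _), ← (ph_comm P h01 _ _).inv_left.eq]
    group
  have b4 : ∀ t, P.xo (.inl i₀) (.inl i₁) t ∈ H := fun t => by
    have h0 := mul_ne_zero (sub_ne_zero.2 ω1) (sub_ne_zero.2 ω1.symm)
    rw [← inv_mul_cancel_right₀ h0 t]
    refine gen_ind hω (Q := fun s => P.xo (.inl i₀) (.inl i₁) (s * ((ω - 1) * (1 - ω))) ∈ H)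
      (by simp [P.xo_zero]) (by simpa using b3) (fun s h => ?_) _
    rw [mul_assoc, ← hD_xo P h01]
    exact mul_mem (mul_mem b1 h) (inv_mem b1)
  have b5 := (H.mul_mem_cancel_left (b4 _)).1 g2
  refine sp_top' e₀ e₁ hc hc' b5 (fun t => ?_) fun t => (ym_ne P x01).symm ▸ b4 t
  rw [ym_self, ← ph_xx]
  refine all_of_sq_stable hω (P := fun t => ph P i₀ (xx t) ∈ H) (by simp [rel_SL.x_zero])
    (fun a b p q => by rw [rel_SL.x_add, map_mul]; exact mul_mem p q) (fun a p => ?_) one_ne_zero ?_ t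
  · rw [← hD_xx, map_mul, map_mul, map_inv]; exact mul_mem (mul_mem b1 p) (inv_mem b1)
  · have := (H.mul_mem_cancel_left b1).1 g1
    rwa [← nc, H.mul_mem_cancel_right (inv_mem b5), H.mul_mem_cancel_left b5] at this

theorem sp_small (hF : ∀ t : F, t ≠ 0 → t = 1) (h3 : 3 ≤ C.n) :
    ∃ g g' : P.cl.Om, closure {g, g'} = ⊤ := by
  set n := ph P i₀ (ww xx yy (1 : F)) * JJ P κ with hn
  refine two_of (ym P (lb i₀ 0) (lb i₀ (0 + (C.n - 1))) 1) (n * P.yo (lb i₀ (C.n - 1)) 0 1)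
    fun H g1 g2 => ?_
  have one : ∀ {a b s}, C.Val a b → s ≠ 0 → ym P a b s ∈ H → Sx P H a b := fun h hs p t => by
    by_cases e : t = 0
    · rw [e, (ym_add P h).zero]; exact one_mem _
    · rwa [(hF t e).trans (hF _ hs).symm]
  have ls : lb i₀ (2 * C.n - 1) = (lb i₀ (C.n - 1)).swap := by
    rw [← lb_swap i₀ (a := C.n - 1) (b := 2 * C.n - 1) (by omega) (by omega), Sum.swap_swap]
  have vl : ∀ a d, d < C.n → a + d < 2 * C.n → C.Val (lb i₀ a) (lb i₀ (a + d)) := fun a d h h' => by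
    by_cases e : d = 0
    · rw [e]; exact val_self P.isD_sp _
    · exact val_ix (lb_ix i₀ (by omega) h' (by omega) (by omega) (by omega))
  have sh : ∀ d, d < C.n → ∀ a, a + d < 2 * C.n →
      (Sx P H (lb i₀ 0) (lb i₀ (0 + d)) ↔ Sx P H (lb i₀ a) (lb i₀ (a + d))) := fun d hd a => by
    induction a with
    | zero => exact fun _ => Iff.rfl
    | succ a ih =>
      intro h
      rw [ih (by omega), add_right_comm, ← lb_succ e₀ hc (a := a) (by omega),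
        ← lb_succ e₀ hc (a := a + d) (by omega)]
      refine Sx.conj g2 (mon_n i₀ κ) (sw_n (P := P) i₀ κ) (vl a d hd (by omega)) fun t => ?_
      rw [mul_assoc n, ← ym_zo (vl a d hd (by omega))]
      · rw [← hn]; group
      all_goals
        rw [← ls]
        exact fun e => by have := lb_inj i₀ (by omega) (by omega) e; omega
  have dg : ∀ {d a b}, d < C.n → b = a + d → b < 2 * C.n → Sx P H (lb i₀ a) (lb i₀ b) →
      ∀ a b, b = a + d → b < 2 * C.n → Sx P H (lb i₀ a) (lb i₀ b) := by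
    rintro d a _ hd rfl h p a' _ rfl h'
    exact (sh d hd a' h').1 ((sh d hd a h).2 p)
  have d1 := dg (by omega) rfl (by omega) (one (vl 0 _ (by omega) (by omega)) one_ne_zero g1)
  have d2 : ∀ j d, d + j + 1 = C.n → 1 ≤ d → ∀ a b, b = a + d → b < 2 * C.n →
      Sx P H (lb i₀ a) (lb i₀ b) := fun j => by
    induction j with
    | zero => exact fun d h _ a b e => d1 a b (by omega)
    | succ j ih =>
      intro d h h'
      refine dg (a := 1) (b := d + 1) (by omega) (by omega) (by omega) (Sx.cm (b := lb i₀ C.n) ?_ ?_ ?_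
        (d1 _ _ (by omega) (by omega)) ?_)
      · exact lb_ix i₀ (by omega) (by omega) (by omega) (by omega) (by omega)
      · exact lb_ix i₀ (by omega) (by omega) (by omega) (by omega) (by omega)
      · exact lb_ix i₀ (by omega) (by omega) (by omega) (by omega) (by omega)
      · rw [lb_swap i₀ (a := 0) (by omega) (by omega)]
        exact ih (d + 1) (by omega) (by omega) _ _ (by omega) (by omega)
  have d3 := d2 (C.n - 2) 1 (by omega) le_rfl
  have d4 := d2 (C.n - 3) 2 (by omega) (by omega)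
  have x1 : idx (C := C) (lb i₀ C.n) ≠ idx (C := C) (lb i₀ (2 * C.n - 1)) :=
    lb_ix i₀ (by omega) (by omega) (by omega) (by omega) (by omega)
  have x2 : idx (C := C) (lb i₀ C.n) ≠ idx (C := C) (lb i₀ (C.n - 1)) :=
    lb_ix i₀ (by omega) (by omega) (by omega) (by omega) (by omega)
  have cj : ∀ a b, C.Val (lb i₀ a) (lb i₀ b) → a < 2 * C.n → b < 2 * C.n → ∃ s : F, s ≠ 0 ∧ ∀ t,
      n * ym P (lb i₀ a) (lb i₀ b) t * n⁻¹ = ym P (lb i₀ (a + 1)) (lb i₀ (b + 1)) (s * t) :=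
    fun a b h ha hb => by
      obtain ⟨s, hs, e⟩ := (mon_n (P := P) i₀ κ).exists (lb i₀ a)
      obtain ⟨s', hs', e'⟩ := (mon_n (P := P) i₀ κ).exists (lb i₀ b)
      rw [← lb_succ e₀ hc ha, ← lb_succ e₀ hc hb]
      exact ⟨_, mul_ne_zero hs hs', ym_conj P h (h.map (sw_n (P := P) i₀ κ))
        (Equiv.injective _).eq_iff.symm e e'⟩
  obtain ⟨s1, n1, c1⟩ := cj C.n C.n (val_self P.isD_sp _) (by omega) (by omega)
  obtain ⟨s2, -, c2⟩ := cj C.n (C.n - 1) (val_ix x2) (by omega) (by omega)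
  obtain ⟨s3, -, c3⟩ := cj C.n (2 * C.n - 1) (val_ix x1) (by omega) (by omega)
  have l0 : lb i₀ (2 * C.n - 1 + 1) = lb i₀ 0 := by
    rw [← e₀, lb_l, lb, dif_neg (by omega), dif_neg (by omega)]
  have p2 : Sx P H (lb i₀ (C.n + 1)) (lb i₀ (C.n - 1 + 1)) :=
    (d3 _ _ (by omega) (by omega)).symm (lb_ix i₀ (by omega) (by omega) (by omega) (by omega) (by omega))
  have p3 : Sx P H (lb i₀ (C.n + 1)) (lb i₀ (2 * C.n - 1 + 1)) := by
    rw [l0]
    refine Sx.cm (b := lb i₀ (C.n + 2)) ?_ ?_ ?_ (d3 _ _ (by omega) (by omega)) ?_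
    · exact lb_ix i₀ (by omega) (by omega) (by omega) (by omega) (by omega)
    · exact lb_ix i₀ (by omega) (by omega) (by omega) (by omega) (by omega)
    · exact lb_ix i₀ (by omega) (by omega) (by omega) (by omega) (by omega)
    · rw [lb_swap i₀ (a := 2) (by omega) (by omega)]
      exact (d4 _ _ (by omega) (by omega)).symm
        (lb_ix i₀ (by omega) (by omega) (by omega) (by omega) (by omega))
  have p1 : ym P (lb i₀ (C.n + 1)) (lb i₀ (C.n + 1)) (s1 * -(1 * 1 * 1)) ∈ H := by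
    have e := cm_zx (P := P) x1 1 1
    rw [ls, Sum.swap_swap, ← ls, ← ym_ne P x1, ← ym_ne P x2, ← ym_self P (lb i₀ C.n),
      mul_inv_eq_iff_eq_mul] at e
    have := mul_mem (mul_mem g2 (d1 C.n (2 * C.n - 1) (by omega) (by omega) 1)) (inv_mem g2)
    have key : ∀ n z x a b c : P.cl.Om, z * x * z⁻¹ = a * b * c →
        n * z * x * (n * z)⁻¹ = n * a * n⁻¹ * (n * b * n⁻¹) * (n * c * n⁻¹) := fun n z x a b c h => by
      calc _ = n * (z * x * z⁻¹) * n⁻¹ := by group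
        _ = _ := by rw [h]; group
    rwa [key _ _ _ _ _ _ e, c1, c2, c3, H.mul_mem_cancel_right (p3 _), H.mul_mem_cancel_right (p2 _)]
      at this
  have d0 := dg (d := 0) (by omega) rfl (by omega) (one (val_self P.isD_sp _) (by simpa) p1)
  refine sp_top' e₀ e₁ hc hc' ((H.mul_mem_cancel_right ?_).1 g2) ?_ ?_
  · exact ym_self P _ ▸ d0 _ _ rfl (by omega) 1
  · exact lb_l i₀ i₀ ▸ d0 _ _ rfl (by omega)
  · rw [← lb_l i₀ i₀, ← lb_l i₀ i₁]; exact d3 _ _ (by omega) (by omega)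

omit e₀ e₁ hc hc'

theorem sp_two {n : ℕ} (hn : 2 ≤ n) (h : n = 2 → 2 < Fintype.card F) :
    ∃ g g' : Matrix.symplecticGroup (Fin n) F, closure {g, g'} = ⊤ := by
  obtain ⟨P, -⟩ := frame_sp n F
  obtain ⟨κ, hc, hc'⟩ := exists_rot hn
  obtain ⟨g, g', e⟩ : ∃ g g' : P.cl.Om, closure {g, g'} = ⊤ := by
    by_cases hF : ∀ t : F, t ≠ 0 → t = 1
    · refine sp_small (P := P) (i₀ := (⟨0, by omega⟩ : Fin n)) (i₁ := (⟨1, hn⟩ : Fin n)) rfl rfl hc hc' hF
        (lt_of_le_of_ne hn fun e => (h e.symm).not_ge ?_)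
      classical
      exact (Finset.card_le_card (t := {0, 1}) fun t _ => by simpa [or_iff_not_imp_left] using hF t).trans
        Finset.card_le_two
    · push Not at hF
      obtain ⟨x, x0, x1⟩ := hF
      exact sp_big (P := P) (i₀ := (⟨0, by omega⟩ : Fin n)) (i₁ := (⟨1, hn⟩ : Fin n)) rfl rfl hc hc' x0 x1
  exact two_map (spOm n F).symm.toMonoidHom (spOm n F).symm.surjective ⟨g, g', e⟩

end Cfsg.Agent.H7.Pr
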