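import Mathlib
import Cfsg.Agent.H7.Pr14

/-! Classical groups are generated by two elements: the general steps. -/

set_option autoImplicit false
set_option linter.unusedSectionVars false

namespace Cfsg.Agent.H7.Pr
open Subgroup Equiv H10 H11 H12 H17 H17.CT H17.Frame

theorem trick {G : Type*} [Group G] {H : Subgroup G} {h y n h' : G} (h1 : h ∈ H) (h2 : y * n ∈ H)
    (e : h' = n * h * n⁻¹) (hc : Commute h h') :
    h * (y * (h' * y⁻¹ * h'⁻¹)) * h⁻¹ * (y * (h' * y⁻¹ * h'⁻¹))⁻¹ ∈ H := by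
  have h3 : y * h' * y⁻¹ ∈ H := by
    convert mul_mem (mul_mem h2 h1) (inv_mem h2) using 1
    rw [e]; group
  convert mul_mem (mul_mem (mul_mem h1 h3) (inv_mem h1)) (inv_mem h3) using 1
  calc _ = h * (y * h' * y⁻¹) * (h'⁻¹ * h⁻¹ * h') * (y * h' * y⁻¹)⁻¹ * (y * h' * y⁻¹) * y * h'⁻¹ * y⁻¹ *
      (y * y⁻¹) * (y * h' * y⁻¹ * y * h'⁻¹ * y⁻¹)⁻¹ * (y * h' * y⁻¹ * y * h'⁻¹ * y⁻¹) := by group
    _ = _ := by rw [← hc.inv_inv.eq, inv_mul_cancel_right]; group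

variable {F : Type*} [Field F] {V : Type*} [AddCommGroup V] [Module F V] {σ : F →+* F}
  {C : CT} {k : Type*} [CommRing k] [LinearOrder k] [IsStrictOrderedRing k] {ε κ : F}
  {τ : F →+ F} {B : V →ₛₗ[σ] V →ₗ[F] F} {Q : V → F} {P : Frame C k ε κ τ B Q}
  [FiniteDimensional F V] {a b c d : C.ι} {M : Subgroup (V ≃ₗ[F] V)} {r : ℕ} {w : V}

theorem two_om (g g' : V ≃ₗ[F] V) (hg : g ∈ P.cl.Om) (hg' : g' ∈ P.cl.Om)
    (h : ∀ M : Subgroup (V ≃ₗ[F] V), M ≤ Isom B Q → g ∈ M → g' ∈ M → P.cl.Om ≤ M) :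
    ∃ g g' : P.cl.Om, closure {g, g'} = ⊤ :=
  two_of ⟨g, hg⟩ ⟨g', hg'⟩ fun H h1 h2 => eq_top_iff.2 fun x _ => by
    obtain ⟨y, hy, e⟩ := h (H.map P.cl.Om.subtype) ((map_subtype_le _).trans P.cl.om_le_isom)
      ⟨_, h1, rfl⟩ ⟨_, h2, rfl⟩ x.2
    rwa [← show y = x from Subtype.ext e]

variable (P M) in
/-- the root group lies in `M` -/
def SX (a b : C.ι) : Prop := ∀ t, P.X a b t ∈ M

variable (P M) in
/-- all root groups on the first `r` pairs lie in `M` -/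
def AX (r : ℕ) : Prop := ∀ a b, idx a < r → idx b < r → idx a ≠ idx b → SX P M a b

variable (P) in
/-- the complement of the first `r` pairs -/
def WW (r : ℕ) : Submodule F V where
  carrier := {w | ∀ a, idx a < r → B (P.f a) w = 0}
  zero_mem' a := by simp
  add_mem' hx hy a h := by simp [hx a h, hy a h]
  smul_mem' c x hx a h := by simp [hx a h]

theorem V0_le : P.V0 ≤ WW P r := fun _ h a _ => h a

theorem WW_le : WW P C.n ≤ P.V0 := fun _ h a => h a (idx_lt a)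

theorem SX.symm (h : idx a ≠ idx b) (p : SX P M a b) : SX P M b a := fun t => by
  rw [P.X_comm nx]; exact p _

theorem SX.cm (h1 : idx a ≠ idx b) (h2 : idx a ≠ idx d) (h3 : idx b ≠ idx d) (p : SX P M a b)
    (q : SX P M b.swap d) : SX P M a d := fun t => by
  have := P.cm_XX (a := a) (b := b) (d := d) nx nx nx nx nx 1 ((-P.β b)⁻¹ * t)
  rw [mul_one, mul_inv_cancel_left₀ (neg_ne_zero.2 (P.β_ne b))] at this
  exact this ▸ mul_mem (mul_mem (mul_mem (q _) (p _)) (inv_mem (q _))) (inv_mem (p _))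

theorem SX.conj (hM : M ≤ Isom B Q) {g : V ≃ₗ[F] V} (hg : g ∈ M) (h : idx c ≠ idx d) {s s' : F}
    (hs : s ≠ 0) (hs' : s' ≠ 0) (ha : g (P.f a) = s • P.f c) (hb : g (P.f b) = s' • P.f d) :
    SX P M a b ↔ SX P M c d := by
  have key : ∀ t, P.X c d (σ s * s' * t) ∈ M ↔ P.X a b t ∈ M := fun t => by
    rw [← conj_X (hM hg) nx ha hb, M.mul_mem_cancel_right (inv_mem hg), M.mul_mem_cancel_left hg]
  exact ⟨fun p t => by
    rw [← mul_inv_cancel_left₀ (mul_ne_zero (P.cl.sigma_ne hs) hs') t, key]; exact p _,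
    fun p t => (key t).1 (p _)⟩

theorem SX.ar (h : idx c ≠ idx d) (p : SX P M c d) (s : F) : s • P.f d ∈ P.cl.Ar M (P.f c) :=
  (P.cl.mem_ar (P.Qf c)).2 ⟨P.perp_smul nx s, 0, by rw [P.cl.sing_smul (P.Qf d), map_zero], p s⟩

theorem AX.ar (H : AX P M r) (hc : idx c < r) (hd : idx d < r) (h : d ≠ c.swap) (s : F) :
    s • P.f d ∈ P.cl.Ar M (P.f c) := by
  by_cases e : d = c
  · rw [e]; exact P.cl.smul_mem_ar (P.Qf c) s
  · exact (H c d hc hd (ix_of_ne e h)).ar (ix_of_ne e h) s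

theorem AX.tr (H : AX P M r) (hM : M ≤ Isom B Q) (hw : w ∈ WW P r) (h : w ∈ P.cl.Ar M (P.f c))
    (hc : idx c < r) (hd : idx d < r) (e : idx c ≠ idx d) (s : F) : s • w ∈ P.cl.Ar M (P.f d) := by
  by_cases hs : s = 0
  · rw [hs, zero_smul]; exact zero_mem _
  have h0 := mul_ne_zero (P.β_ne c.swap) hs
  have h1 : P.mX d c.swap (P.β c.swap * s) ∈ M :=
    mul_mem (mul_mem (H _ _ hd ix ix _) (H _ _ ix ix ix _)) (H _ _ hd ix ix _)
  have h2 := P.mX_swap_right (a := d) (b := c.swap) nx nx h0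
  have := P.cl.map_mem_ar hM h1 h
  rw [Sum.swap_swap] at h2
  rw [h2, P.mX_fix (hw _ hd) (hw _ ix) (hw _ ix) (hw _ ix)] at this
  have := P.cl.mem_ar_smul (P.Qf d) _ this (mul_ne_zero (P.β_ne _) (P.cl.sigma_ne h0))
  rwa [map_mul, P.cl.invol, sigma_β, ← mul_assoc, β_mul, one_mul] at this

theorem ex_ix (h2 : 2 ≤ r) (hr : r ≤ C.n) (c : C.ι) : ∃ e : C.ι, idx e < r ∧ idx e ≠ idx c := by
  by_cases h : idx c = 0
  · exact ⟨.inl ⟨1, by omega⟩, by simp [idx]; omega, by rw [h]; simp [idx]⟩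
  · exact ⟨.inl ⟨0, by omega⟩, by simp [idx]; omega, Ne.symm h⟩

theorem AX.all (H : AX P M r) (hM : M ≤ Isom B Q) (h2 : 2 ≤ r) (hr : r ≤ C.n) (hw : w ∈ WW P r)
    (h : w ∈ P.cl.Ar M (P.f c)) (hc : idx c < r) (hd : idx d < r) (s : F) :
    s • w ∈ P.cl.Ar M (P.f d) := by
  by_cases e : idx c = idx d
  · obtain ⟨x, h1, h3⟩ := ex_ix h2 hr c
    exact H.tr hM hw (one_smul F w ▸ H.tr hM hw h hc h1 h3.symm 1) h1 hd (e ▸ h3) s
  · exact H.tr hM hw h hc hd e s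

theorem AX.fin0 (H : AX P M r) (hM : M ≤ Isom B Q) (h2 : 2 ≤ r) (hr : r ≤ C.n) (hτ : τ ≠ 0)
    (h : ∀ w ∈ WW P r, ∀ c, idx c < r → w ∈ P.cl.Ar M (P.f c)) : P.cl.Om ≤ M := by
  have key : ∀ c, idx c < r → P.cl.Full M (P.f c) := fun c hc => by
    have h1 : ∀ y, B (P.f c) y = 0 → y ∈ P.cl.Ar M (P.f c) := fun y hy => by
      have h3 : y - ∑ a with idx a < r, (P.β a.swap * B (P.f a.swap) y) • P.f a ∈ WW P r := by
        intro c hc
        rw [map_sub, map_sum, Finset.sum_eq_single c.swap (fun a _ ha => by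
          rw [map_smul, P.perp c a ha, smul_zero]) (by simp [idx_swap, hc]), map_smul, Sum.swap_swap,
          smul_eq_mul]
        change _ - _ * P.β c = 0
        linear_combination (-B (P.f c) y) * P.β_mul c
      rw [← sub_add_cancel y _]
      refine add_mem (h _ h3 c hc) (sum_mem fun a ha => ?_)
      by_cases e : a = c.swap
      · simp [e, hy]
      · exact H.ar hc (Finset.mem_filter.1 ha).2 e _
    exact P.cl.full_of_ar (P.Qf c) h1 fun x => P.cl.center_of_ar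
      (by have := P.finrank_V0; omega) (fun e => absurd e hτ) (P.Qf c) h1
  obtain ⟨c, hc, -⟩ := ex_ix h2 hr (.inl ⟨0, by omega⟩)
  exact P.cl.om_le_of_full hM (key c hc) (key c.swap ix) (P.β_ne c)

variable (P) in
/-- a monomial element permuting the first `r` pairs cyclically -/
structure Cyc (r : ℕ) where
  l : ℕ → C.ι
  n : V ≃ₗ[F] V
  ρ : Perm C.ι
  h2 : 2 ≤ r
  hr : r ≤ C.n
  mon : P.Mon ρ n
  sw : ∀ c, ρ c.swap = (ρ c).swap
  succ : ∀ a < 2 * r, ρ (l a) = l (a + 1)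
  zero : l (2 * r) = l 0
  ix_l : ∀ a < 2 * r, idx (l a) = if a < r then a else a - r
  swap_l : ∀ a < r, (l (a + r)).swap = l a
  surj : ∀ c, idx c < r → ∃ a < 2 * r, c = l a

namespace Cyc

variable (Z : Cyc P r)

theorem lt {a : ℕ} (h : a < 2 * r) : idx (Z.l a) < r := by rw [Z.ix_l a h]; split_ifs <;> omega

theorem ne {a b : ℕ} (h : a < 2 * r ∧ b < 2 * r ∧ a ≠ b ∧ a ≠ b + r ∧ b ≠ a + r) :
    idx (Z.l a) ≠ idx (Z.l b) := by
  rw [Z.ix_l a h.1, Z.ix_l b h.2.1]; split_ifs <;> omega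

theorem swap_eq {a b : ℕ} (h : a < r ∧ b = a + r) : (Z.l b).swap = Z.l a := h.2 ▸ Z.swap_l a h.1

theorem act {a b : ℕ} (h : a < 2 * r ∧ b = a + 1) : ∃ s : F, s ≠ 0 ∧ Z.n (P.f (Z.l a)) = s • P.f (Z.l b) := by
  rw [h.2, ← Z.succ a h.1]; exact Z.mon.exists _

theorem ρ_lt (h : idx c < r) : idx (Z.ρ c) < r := by
  obtain ⟨a, ha, rfl⟩ := Z.surj c h
  rw [Z.succ a ha]
  by_cases e : a + 1 = 2 * r
  · rw [e, Z.zero]; exact Z.lt (by omega)
  · exact Z.lt (by omega)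

theorem map_WW (hw : w ∈ WW P r) : Z.n w ∈ WW P r := fun c h => by
  obtain ⟨a, ha, rfl⟩ := Z.surj c h
  obtain ⟨b, hb, e⟩ : ∃ b < 2 * r, Z.l a = Z.l (b + 1) := by
    cases a
    · exact ⟨2 * r - 1, by omega, by rw [Nat.sub_add_cancel (by omega), Z.zero]⟩
    · exact ⟨_, by omega, rfl⟩
  obtain ⟨s, hs, e'⟩ := Z.act ⟨hb, rfl⟩
  have := Z.mon.isom.1 (P.f (Z.l b)) w
  rw [e', hw _ (Z.lt hb)] at this
  simpa [e, P.cl.sigma_ne hs, hs] using this

theorem diag (hM : M ≤ Isom B Q) {g : V ≃ₗ[F] V} (hg : g ∈ M)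
    (e : ∀ a, a + 1 < 2 * r → g (P.f (Z.l a)) = Z.n (P.f (Z.l a))) {a₀ b₀ : ℕ}
    (h0 : b₀ + 1 = a₀ + r ∧ b₀ < 2 * r) (h1 : SX P M (Z.l a₀) (Z.l b₀))
    (h3 : 3 ≤ r ∨ (SX P M (Z.l (2 * r - 1)) (Z.l r) → SX P M (Z.l 0) (Z.l (r + 1)))) : AX P M r := by
  have := Z.h2
  have sh : ∀ d, 0 < d → d < r → ∀ a, a + d < 2 * r →
      (SX P M (Z.l 0) (Z.l (0 + d)) ↔ SX P M (Z.l a) (Z.l (a + d))) := fun d hd hd' a => by
    induction a with
    | zero => exact fun _ => Iff.rfl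
    | succ a ih =>
      intro h
      obtain ⟨s, hs, e1⟩ := Z.act (a := a) ⟨by omega, rfl⟩
      obtain ⟨s', hs', e2⟩ := Z.act (a := a + d) (b := a + 1 + d) (by omega)
      rw [ih (by omega)]
      exact SX.conj hM hg (Z.ne (by omega)) hs hs' ((e _ (by omega)).trans e1) ((e _ (by omega)).trans e2)
  have dg : ∀ {d a b}, 0 < d ∧ d < r ∧ b = a + d ∧ b < 2 * r → SX P M (Z.l a) (Z.l b) →
      ∀ a b, b = a + d ∧ b < 2 * r → SX P M (Z.l a) (Z.l b) := by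
    rintro d a _ ⟨hd, hd', rfl, h⟩ p a' _ ⟨rfl, h'⟩
    exact (sh d hd hd' a' h').1 ((sh d hd hd' a h).2 p)
  have d1 := dg (d := r - 1) (by omega) h1
  have d2 : ∀ j d, d + j + 1 = r → 1 ≤ d → ∀ a b, b = a + d ∧ b < 2 * r → SX P M (Z.l a) (Z.l b) :=
    fun j => by
      induction j with
      | zero => exact fun d h _ a b e => d1 a b (by omega)
      | succ j ih =>
        intro d h h'
        refine dg (a := 1) (b := d + 1) (by omega) (SX.cm (b := Z.l r) (Z.ne (by omega))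
          (Z.ne (by omega)) (Z.ne (by omega)) (d1 _ _ (by omega)) ?_)
        rw [Z.swap_eq (a := 0) (by omega)]
        exact ih (d + 1) (by omega) (by omega) _ _ (by omega)
  have d3 : ∀ a b, a < 2 * r ∧ b < 2 * r ∧ a ≠ b ∧ a < b + r ∧ b < a + r → SX P M (Z.l a) (Z.l b) :=
    fun a b h => by
      rcases lt_or_gt_of_ne h.2.2.1 with e | e
      · exact d2 (r - 1 - (b - a)) (b - a) (by omega) (by omega) _ _ (by omega)
      · exact (d2 (r - 1 - (a - b)) (a - b) (by omega) (by omega) _ _ (by omega)).symm (Z.ne (by omega))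
  have d4 : ∀ a b, b < 2 * r ∧ a + r < b → SX P M (Z.l a) (Z.l b) := fun a b h => by
    by_cases h4 : 3 ≤ r
    · obtain ⟨j, hj⟩ : ∃ j, j < r ∧ j ≠ a ∧ j + r ≠ b := by
        by_cases e : a = 0
        · by_cases e' : b = 1 + r
          exacts [⟨2, by omega⟩, ⟨1, by omega⟩]
        · exact ⟨0, by omega⟩
      refine (SX.cm (b := Z.l (j + r)) (Z.ne (by omega)) (Z.ne (by omega)) (Z.ne (by omega))
        (d3 _ _ (by omega)) ?_).symm (Z.ne (by omega))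
      rw [Z.swap_l j hj.1]
      exact d3 _ _ (by omega)
    · rw [show a = 0 by omega, show b = r + 1 by omega]
      exact h3.resolve_left h4 (d3 _ _ (by omega))
  intro a b ha hb h
  obtain ⟨a, ha', rfl⟩ := Z.surj a ha
  obtain ⟨b, hb', rfl⟩ := Z.surj b hb
  have h' := h
  rw [Z.ix_l a ha', Z.ix_l b hb'] at h'
  by_cases e1 : a + r < b
  · exact d4 _ _ ⟨hb', e1⟩
  by_cases e2 : b + r < a
  · exact (d4 _ _ ⟨ha', e2⟩).symm h.symm
  · exact d3 _ _ (by split_ifs at h' <;> omega)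

theorem step (H : AX P M r) (hM : M ≤ Isom B Q) {g : V ≃ₗ[F] V} (hg : g ∈ M) (hc : idx c < r)
    (e : g (P.f c) = Z.n (P.f c)) {y : V} (hy : y ∈ P.cl.Ar M (P.f c)) (hw : w ∈ WW P r) {s : F}
    (hs : s ≠ 0) (e' : g y - s • Z.n w ∈ (P.cl.Ar M (P.f (Z.ρ c))).comap (DistribMulAction.toAddMonoidHom V
      (σ (Z.mon.exists c).choose))) (hd : idx d < r) (t : F) : t • Z.n w ∈ P.cl.Ar M (P.f d) := by
  obtain ⟨h0, e1⟩ := (Z.mon.exists c).choose_spec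
  have := P.cl.map_mem_ar hM hg hy
  rw [e, e1] at this
  have := sub_mem (P.cl.mem_ar_smul (P.Qf _) _ this h0) e'
  rw [DistribMulAction.toAddMonoidHom_apply, ← smul_sub, sub_sub_cancel, smul_smul] at this
  have := H.all hM Z.h2 Z.hr (Submodule.smul_mem _ _ (Z.map_WW hw)) this (Z.ρ_lt hc) hd
    (t * (σ (Z.mon.exists c).choose * s)⁻¹)
  rwa [smul_smul, inv_mul_cancel_right₀ (mul_ne_zero (P.cl.sigma_ne h0) hs)] at this

theorem fin (H : AX P M r) (hM : M ≤ Isom B Q) (hτ : τ ≠ 0) {j : C.ι} (hj : idx j < r) {w' : V}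
    (hw' : w' ∈ WW P r) {c' : F} (hg : Z.n * P.cl.eich (P.f j) w' c' ∈ M) (hw : w ∈ WW P r)
    (h : ∀ d, idx d < r → ∀ t : F, t • w ∈ P.cl.Ar M (P.f d))
    (sp : ∀ N : Submodule F V, w ∈ N → (∀ x ∈ N, Z.n x ∈ N) → WW P r ≤ N) : P.cl.Om ≤ M := by
  let N : Submodule F V :=
    { carrier := {x | x ∈ WW P r ∧ ∀ d, idx d < r → ∀ t : F, t • x ∈ P.cl.Ar M (P.f d)}
      zero_mem' := ⟨zero_mem _, fun d _ t => by rw [smul_zero]; exact zero_mem _⟩
      add_mem' := fun p q => ⟨add_mem p.1 q.1, fun d h t => by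
        rw [smul_add]; exact add_mem (p.2 d h t) (q.2 d h t)⟩
      smul_mem' := fun s x p => ⟨Submodule.smul_mem _ _ p.1, fun d h t => by
        rw [smul_smul]; exact p.2 d h _⟩ }
  refine H.fin0 hM Z.h2 Z.hr hτ fun x hx c hc => one_smul F x ▸ (sp N ⟨hw, h⟩ (fun x hx =>
    ⟨Z.map_WW hx.1, fun d hd t => ?_⟩) hx).2 c hc 1
  obtain ⟨c, hc, h1⟩ := ex_ix Z.h2 Z.hr j
  refine Z.step H hM hg hc ?_ (one_smul F x ▸ hx.2 c hc 1) hx.1 one_ne_zero ?_ hd t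
  · rw [LinearEquiv.mul_apply, P.cl.eich_fix _ (P.perp _ _ nx) (P.cl.refl (hw' c hc))]
  · obtain ⟨s, -, e⟩ := Z.mon.exists j
    rw [LinearEquiv.mul_apply, P.cl.eich_of_perp (P.Qf j) (hw' j hj) _ (hx.1 j hj), map_add, map_smul, e]
    simpa [smul_smul] using H.ar (Z.ρ_lt hc) (Z.ρ_lt hj) (by have := idx_map Z.sw h1; exact nx) _

end Cyc

end Cfsg.Agent.H7.Pr
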