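import Mathlib
import Cfsg.Agent.H7.Pr15

/-! Classical groups are generated by two elements. -/

set_option autoImplicit false
set_option linter.unusedSectionVars false

namespace Cfsg.Agent.H7.Pr
open Subgroup Equiv H10 H11 H12 H17 H17.CT H17.Frame

variable {F : Type*} [Field F] [Fintype F] {V : Type*} [AddCommGroup V] [Module F V] {σ : F →+* F}
  {C : CT} {k : Type*} [CommRing k] [LinearOrder k] [IsStrictOrderedRing k] {ε κ : F}
  {τ : F →+ F} {B : V →ₛₗ[σ] V →ₗ[F] F} {Q : V → F} {P : Frame C k ε κ τ B Q}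
  [FiniteDimensional F V] {a b c d : C.ι} {M : Subgroup (V ≃ₗ[F] V)} {r : ℕ} {w : V}

theorem conj_eig {n h : V ≃ₗ[F] V} {u v : V} {s y : F} (hs : s ≠ 0) (e : n u = s • v)
    (e' : h u = y • u) : (n * h * n⁻¹) v = y • v := by
  have : n⁻¹ v = s⁻¹ • u := by
    rw [← inv_smul_smul₀ hs v, ← e, map_smul]; simp
  rw [LinearEquiv.mul_apply, LinearEquiv.mul_apply, this, map_smul, e', map_smul, map_smul, e,
    smul_comm y, inv_smul_smul₀ hs]

theorem diag_comm {h h' : V ≃ₗ[F] V} (h1 : P.Mon 1 h) (h2 : P.Mon 1 h') (h3 : ∀ w ∈ P.V0, h w = w)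
    (h4 : ∀ w ∈ P.V0, h' w = w) : Commute h h' := P.ext (fun a => by
  obtain ⟨s, e⟩ := h1.2 a
  obtain ⟨t, e'⟩ := h2.2 a
  simp [e, e', smul_smul, mul_comm]) fun w hw => by simp [h3 w hw, h4 w hw]

theorem diag_pow {h : V ≃ₗ[F] V} (h1 : P.Mon 1 h) (h3 : ∀ w ∈ P.V0, h w = w) :
    h ^ Fintype.card F = h := by
  have key : ∀ {x : V} {s : F}, h x = s • x → ∀ m : ℕ, (h ^ m) x = s ^ m • x := fun e m => by
    induction m with
    | zero => simp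
    | succ m ih => rw [pow_succ', LinearEquiv.mul_apply, ih, map_smul, e, smul_smul, pow_succ]
  refine P.ext (fun a => ?_) fun w hw => by
    rw [key ((h3 w hw).trans (one_smul F w).symm), h3 w hw]; simp
  obtain ⟨s, e⟩ := h1.2 a
  rw [key e, FiniteField.pow_card]; exact e.symm

theorem Cyc.comm (Z : Cyc P r) {h : V ≃ₗ[F] V} (h1 : P.Mon 1 h) (h3 : ∀ w ∈ P.V0, h w = w) :
    Commute h (Z.n * h * Z.n⁻¹) :=
  diag_comm h1 (by simpa using (Z.mon.mul h1).mul Z.mon.inv) h3 fun w hw => by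
    rw [LinearEquiv.mul_apply, LinearEquiv.mul_apply, h3 _ (Z.mon.inv.V0 hw)]; simp

theorem Cyc.small (Z : Cyc P r) (hF : ∀ t : F, t ≠ 0 → t = 1) (h3 : 3 ≤ r) (hτ : τ ≠ 0)
    (hw : w ∈ WW P r) (sp : ∀ N : Submodule F V, Z.n w ∈ N → (∀ x ∈ N, Z.n x ∈ N) → WW P r ≤ N) :
    ∃ g g' : P.cl.Om, closure {g, g'} = ⊤ := by
  obtain ⟨x, hx⟩ := P.cl.exists_tau w
  have hj := Z.lt (a := r - 1) (by omega)
  have h0 := Z.ne (a := 0) (b := r - 1) (by omega)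
  have ls : (Z.l (r - 1)).swap = Z.l (2 * r - 1) := by
    rw [← Z.swap_eq (a := r - 1) (b := 2 * r - 1) (by omega), Sum.swap_swap]
  refine two_om (P := P) (P.X (Z.l 0) (Z.l (r - 1)) 1) (Z.n * P.cl.eich (P.f (Z.l (r - 1))) w x)
    (P.X_mem_om nx _) (mul_mem Z.mon.1 (P.cl.eich_mem_om (P.Qf _) (hw _ hj) hx)) fun M hM g1 g2 => ?_
  have e : ∀ a, a + 1 < 2 * r → (Z.n * P.cl.eich (P.f (Z.l (r - 1))) w x) (P.f (Z.l a)) =
      Z.n (P.f (Z.l a)) := fun a ha => by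
    rw [LinearEquiv.mul_apply, P.cl.eich_fix _ (P.perp _ _ ?_) (P.cl.refl (hw _ (Z.lt (by omega))))]
    by_cases e : a = r - 1
    · rw [e]; exact (swap_ne_self _).symm
    · rw [ls]; exact ne_ix (Z.ne (by omega))
  have H := Z.diag hM g2 e (a₀ := 0) (b₀ := r - 1) (by omega) (fun t => by
    by_cases e : t = 0
    · rw [e, X_zero]; exact one_mem _
    · rwa [hF t e]) (.inl h3)
  refine Z.fin H hM hτ hj hw g2 (Z.map_WW hw) (fun d hd t => ?_) sp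
  have hc := Z.lt (a := r) (by omega)
  have hd' := Z.lt (a := 2 * r - 1) (by omega)
  have h1 := Z.ne (a := r) (b := 2 * r - 1) (by omega)
  have h2 := Z.ne (a := r) (b := r - 1) (by omega)
  refine Z.step H hM g2 hc (e _ (by omega)) (H.ar hc hd' nx 1) hw
    (s := -(ε * P.β (Z.l (r - 1)))) (by simp [P.cl.eps_ne, P.β_ne]) ?_ hd t
  obtain ⟨s, -, e1⟩ := Z.mon.exists (Z.l (r - 1))
  obtain ⟨s', -, e2⟩ := Z.mon.exists (Z.l (2 * r - 1))
  rw [one_smul, LinearEquiv.mul_apply, P.cl.eich_apply (P.Qf _) (hw _ hj), P.cl.refl (hw _ hd'),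
    map_sub, map_sub, map_add, map_smul, map_smul, map_smul, e1, e2, ← ls]
  have p1 := fun s => H.ar (Z.ρ_lt hc) (Z.ρ_lt hj) (by have := idx_map Z.sw h2; exact nx) s
  have p2 := fun s => H.ar (Z.ρ_lt hc) (Z.ρ_lt hd') (by have := idx_map Z.sw h1; exact nx) s
  simpa [smul_smul, smul_sub, ls, β, sub_right_comm _ (_ • Z.n w)] using sub_mem (p2 _) (p1 _)

theorem Cyc.big (Z : Cyc P r) {ω : Fˣ} (hω : ∀ u : Fˣ, u ∈ zpowers ω) (hτ : τ ≠ 0)
    (hw : w ∈ WW P r) (sp : ∀ N : Submodule F V, w ∈ N → (∀ x ∈ N, Z.n x ∈ N) → WW P r ≤ N)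
    {h : V ≃ₗ[F] V} (h1 : P.Mon 1 h) (h3 : ∀ x ∈ WW P r, h x = x) {x₁ x₂ y₁ y₂ : F}
    (e1 : h (P.f (Z.l 1)) = x₁ • P.f (Z.l 1)) (e2 : h (P.f (Z.l r)) = x₂ • P.f (Z.l r))
    (e3 : h (P.f (Z.l 0)) = y₁ • P.f (Z.l 0)) (e4 : h (P.f (Z.l (r - 1))) = y₂ • P.f (Z.l (r - 1)))
    (n1 : σ x₁ * x₂ ≠ 1) (n2 : σ y₁ * y₂ ≠ 1) (n3 : σ x₁ * x₂ = ω ∨ σ x₁ * x₂ = ω ^ 2)
    (n4 : y₁ = 1 ∨ w = 0) : ∃ g g' : P.cl.Om, closure {g, g'} = ⊤ := by
  obtain ⟨x, hx, hx0⟩ : ∃ x, τ x = Q w ∧ (w = 0 → x = 0) := by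
    by_cases e : w = 0
    · exact ⟨0, by rw [e, map_zero, P.cl.Q_zero], fun _ => rfl⟩
    · exact (P.cl.exists_tau w).imp fun _ h => ⟨h, fun e' => absurd e' e⟩
  have := Z.h2
  have hj := Z.lt (a := 0) (by omega)
  have h0 := Z.ne (a := 1) (b := r) (by omega)
  have h4 : ∀ x ∈ P.V0, h x = x := fun x hx => h3 x (V0_le hx)
  refine two_om (P := P) (h * P.cl.eich (P.f (Z.l 0)) w x) (P.X (Z.l 1) (Z.l r) 1 * Z.n)
    (mul_mem h1.1 (P.cl.eich_mem_om (P.Qf _) (hw _ hj) hx)) (mul_mem (P.X_mem_om nx _) Z.mon.1)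
    fun M hM g1 g2 => ?_
  have c1 : Commute h (P.cl.eich (P.f (Z.l 0)) w x) := by
    rcases n4 with e | e
    · exact mul_inv_eq_iff_eq_mul.1 (by rw [P.cl.conj_eich h1.isom, e3, e, one_smul, h3 w hw])
    · rw [hx0 e, e, P.cl.eich_zero]; exact Commute.one_right _
  have b1 : h ∈ M := by
    have := pow_mem g1 (Fintype.card F ^ 2)
    rwa [c1.mul_pow, eich_pow_char P.cl (P.Qf _) (hw _ hj) _ (FiniteField.cast_card_eq_zero F), mul_one,
      sq, pow_mul, diag_pow h1 h4, diag_pow h1 h4] at this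
  have ad : IsAdd (P.X (Z.l 1) (Z.l r)) := P.X_add nx
  obtain ⟨s, hs, a1⟩ := Z.act (a := 0) (b := 1) (by omega)
  obtain ⟨s', hs', a2⟩ := Z.act (a := r - 1) (b := r) (by omega)
  have c2 := conj_X h1.isom (a' := Z.l 1) (b' := Z.l r) nx e1 e2
  have c3 := conj_X ((Z.mon.mul h1).mul Z.mon.inv).isom (a' := Z.l 1) (b' := Z.l r) nx
    (conj_eig hs a1 e3) (conj_eig hs' a2 e4)
  have b2 := trick b1 g2 rfl (Z.comm h1 h4)
  rw [← ad.neg, c3, ← ad, c2, ← ad.neg, ← ad] at b2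
  have b3 : SX P M (Z.l 1) (Z.l r) := by
    have q : ∀ t, P.X (Z.l 1) (Z.l r) t ∈ M → P.X (Z.l 1) (Z.l r) (σ x₁ * x₂ * t) ∈ M := fun t p =>
      c2 t ▸ mul_mem (mul_mem b1 p) (inv_mem b1)
    refine all_of_sq_stable hω (P := fun t => P.X (Z.l 1) (Z.l r) t ∈ M)
      (by rw [X_zero]; exact one_mem _) (fun a b p q => by rw [ad]; exact mul_mem p q)
      (fun a p => ?_) (fun e => ?_) b2
    · rcases n3 with e | e
      · rw [sq, mul_assoc, ← e]; exact q _ (q _ p)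
      · rw [← e]; exact q _ p
    · exact mul_ne_zero (sub_ne_zero.2 n1) (sub_ne_zero.2 n2.symm) (by linear_combination e)
  have b4 := (M.mul_mem_cancel_left (b3 1)).1 g2
  have H := Z.diag hM b4 (fun _ _ => rfl) (a₀ := 1) (b₀ := r) (by omega) b3 (.inr fun p => by
    obtain ⟨s, hs, a1⟩ := Z.act (a := 2 * r - 1) (b := 2 * r) (by omega)
    obtain ⟨s', hs', a2⟩ := Z.act (a := r) (b := r + 1) (by omega)
    rw [Z.zero] at a1
    exact (SX.conj hM b4 (Z.ne (by omega)) hs hs' a1 a2).1 p)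
  refine Z.fin H hM hτ hj (zero_mem _) (c' := 0) (by rwa [P.cl.eich_zero, mul_one]) hw
    (fun d hd t => H.all hM Z.h2 Z.hr hw ?_ hj hd t) sp
  exact (P.cl.mem_ar (P.Qf _)).2 ⟨hw _ hj, x, hx, (M.mul_mem_cancel_left b1).1 g1⟩

theorem mon_ho (h : idx a ≠ idx b) {t : F} (ht : t ≠ 0) : P.Mon 1 (P.ho a b t).1 :=
  ⟨(P.ho a b t).2, P.mem_rgdO_T.1 (P.ho_mem h ht)⟩

theorem ho_WW (h : idx a ≠ idx b) (ha : idx a < r) (hb : idx b < r) (t : F) :
    ∀ x ∈ WW P r, (P.ho a b t).1 x = x := fun x hx => by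
  have : ∀ t, (P.mo a b t).1 x = x := fun t => by
    rw [P.mo_val h, P.mX_fix (hx _ ha) (hx _ hb) (hx _ ix) (hx _ ix)]
  exact P.eq_mul_inv_apply (this t) (this 1)

theorem Cyc.two (Z : Cyc P r) (h3 : 3 ≤ r) (hτ : τ ≠ 0) (hw : w ∈ WW P r)
    (sp : ∀ N : Submodule F V, Z.n w ∈ N → (∀ x ∈ N, Z.n x ∈ N) → WW P r ≤ N) :
    ∃ g g' : P.cl.Om, closure {g, g'} = ⊤ := by
  by_cases hF : ∀ t : F, t ≠ 0 → t = 1
  · exact Z.small hF h3 hτ hw sp
  push Not at hF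
  obtain ⟨x, x0, x1⟩ := hF
  obtain ⟨ω, hω⟩ := IsCyclic.exists_generator (α := Fˣ)
  have h := Z.ne (a := 1) (b := r - 1) (by omega)
  have := gen_ne_one hω x0 x1
  exact Z.big hω hτ (Z.map_WW hw) sp (mon_ho h ω.ne_zero)
    (ho_WW h (Z.lt (by omega)) (Z.lt (by omega)) _) (P.ho_l h ω.ne_zero)
    ((P.ho_f h (Z.ne (by omega)) (Z.ne (by omega)) _).trans (one_smul F _).symm)
    ((P.ho_f h (Z.ne (by omega)) (Z.ne (by omega)) _).trans (one_smul F _).symm) (P.ho_r h ω.ne_zero)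
    (by simpa [P.cl.invol]) (by simpa) (.inl (by simp [P.cl.invol])) (.inl rfl)

theorem Cyc.two' (Z : Cyc P 2) (hσ : σ ≠ RingHom.id F) (hτ : τ ≠ 0) (h0 : WW P 2 ≤ ⊥) :
    ∃ g g' : P.cl.Om, closure {g, g'} = ⊤ := by
  obtain ⟨ω, hω⟩ := IsCyclic.exists_generator (α := Fˣ)
  have h := Z.ne (a := 1) (b := 2) (by omega)
  have h1 : σ ω ≠ ω := fun e => hσ (RingHom.ext (gen_ind hω (by simp) (by simp) fun a h => by
    rw [map_mul, e, h]; rfl))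
  have h2 := P.ho_r' h ω.ne_zero
  rw [Z.swap_eq (a := 0) (by omega)] at h2
  refine Z.big hω hτ (zero_mem _) (fun _ _ _ => h0.trans bot_le) (mon_ho h ω.ne_zero)
    (ho_WW h (Z.lt (by omega)) (Z.lt (by omega)) _) (P.ho_l h ω.ne_zero) (P.ho_r h ω.ne_zero) h2
    (P.ho_l h ω.ne_zero) (fun e => h1 ?_) (fun e => h1 ?_) (.inr (by rw [P.cl.invol, sq])) (.inr rfl)
  · rw [P.cl.invol] at e
    rcases mul_self_eq_one_iff.1 e with e | e <;> simp [e]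
  · rwa [map_inv₀, P.cl.invol, inv_mul_eq_one₀ ω.ne_zero, eq_comm] at e

theorem Cyc.odd (Z : Cyc P C.n) (hτ : τ ≠ 0) {x₀ : F} (x0 : x₀ ≠ 0) (x1 : x₀ ≠ 1) (hw : w ∈ P.V0)
    (hB : B w w ≠ 0) (sp : ∀ y ∈ P.V0, ∃ s : F, y = s • w) :
    ∃ g g' : P.cl.Om, closure {g, g'} = ⊤ := by
  obtain ⟨ω, hω⟩ := IsCyclic.exists_generator (α := Fˣ)
  have ω1 := gen_ne_one hω x0 x1
  obtain ⟨x, hx⟩ := P.cl.exists_tau w
  have := Z.h2
  have h := Z.ne (a := 1) (b := 0) (by omega)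
  have h1 := mon_ho (P := P) h ω.ne_zero
  have h4 := fun x hx => P.ho_V0 h (w := x) ω hx
  refine two_om (P := P) (P.ho (Z.l 1) (Z.l 0) ω).1 (P.Y (Z.l 1) w x * Z.n) h1.1
    (mul_mem (P.Y_mem_om _ hw hx) Z.mon.1) fun M hM b1 g2 => ?_
  obtain ⟨s, hs, a1⟩ := Z.act (a := 0) (b := 1) (by omega)
  have b2 := trick b1 g2 rfl (Z.comm h1 h4)
  let Yw : (V ≃ₗ[F] V) → F → Prop := fun u s => ∃ c, τ c = Q (s • w) ∧ u = P.Y (Z.l 1) (s • w) c
  have m : ∀ s : F, s • w ∈ P.V0 := fun s => Submodule.smul_mem _ _ hw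
  have y1 : ∀ {u u' s s'}, Yw u s → Yw u' s' → Yw (u * u') (s + s') := by
    rintro _ _ s s' ⟨c, p, rfl⟩ ⟨c', q, rfl⟩
    exact ⟨_, add_smul s s' w ▸ (VP.add ⟨m s, p⟩ ⟨m s', q⟩).2, add_smul s s' w ▸ P.Y_mul _ (m s) (m s') _ _⟩
  have y2 : ∀ {u s}, Yw u s → Yw u⁻¹ (-s) := by
    rintro _ s ⟨c, p, rfl⟩
    exact ⟨_, by rw [neg_smul, map_sub, P.cl.tau_eps, P.cl.tau_diag, p, P.cl.form.neg]; ring,
      neg_smul s w ▸ P.Y_inv _ (m s) _⟩
  have y3 : ∀ {g : V ≃ₗ[F] V} {y u s}, g ∈ Isom B Q → g (P.f (Z.l 1)) = y • P.f (Z.l 1) → g w = w →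
      Yw u s → Yw (g * u * g⁻¹) (σ y * s) := by
    rintro g y _ s hg e e' ⟨c, p, rfl⟩
    exact ⟨σ y * y * c, by rw [mul_smul, P.cl.tau_norm, P.cl.Q_smul, P.cl.invol, p]; ring, by
      rw [conj_Y hg e (by rw [map_smul, e']; exact m s), map_smul, e', mul_smul]⟩
  have y0 : Yw (P.Y (Z.l 1) w x) 1 := ⟨x, by rwa [one_smul], by rw [one_smul]⟩
  have y4 := y1 y0 (y3 ((Z.mon.mul h1).mul Z.mon.inv).isom (conj_eig hs a1 (P.ho_r h ω.ne_zero)) (by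
    rw [LinearEquiv.mul_apply, LinearEquiv.mul_apply, h4 _ (Z.mon.inv.V0 hw)]; simp) (y2 y0))
  obtain ⟨c, p, e⟩ := y1 (y3 h1.isom (P.ho_l h ω.ne_zero) (h4 w hw) y4) (y2 y4)
  rw [P.cl.invol] at p e
  have b3 : ∀ s : F, s • w ∈ P.cl.Ar M (P.f (Z.l 1)) := fun s => by
    have n0 : (ω : F) * (1 + σ ω * -1) + -(1 + σ ω * -1) ≠ 0 := fun e =>
      mul_ne_zero (sub_ne_zero.2 ω1) (sub_ne_zero.2 (show (1 : F) ≠ σ ω from fun e => ω1 (by
        rw [← P.cl.invol ω, ← e, map_one]))) (by linear_combination e)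
    rw [← inv_mul_cancel_right₀ n0 s]
    refine gen_ind hω (Q := fun s => (s * _) • w ∈ P.cl.Ar M (P.f (Z.l 1))) (by simp) (by
      rw [one_mul]; exact (P.cl.mem_ar (P.Qf _)).2 ⟨m _ _, c, p, (e ▸ b2 : P.Y _ _ _ ∈ M)⟩)
      (fun s q => ?_) _
    have := P.cl.map_mem_ar hM b1 q
    rw [P.ho_l h ω.ne_zero, h4 _ (m _)] at this
    have := P.cl.mem_ar_smul (P.Qf _) _ this (P.cl.sigma_ne ω.ne_zero)
    rwa [P.cl.invol, smul_smul, ← mul_assoc] at this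
  have hD : C.isD = false := by
    by_contra e
    exact hB (by rw [(P.hD (by simpa using e)).2 w hw, map_zero])
  have b4 : P.UL (Z.l 1) (Z.l 1) ≤ M := fun u hu => by
    obtain ⟨y, hy, c, p, rfl⟩ := P.mem_UL_self.1 hu
    obtain ⟨s, rfl⟩ := sp y hy
    obtain ⟨-, c', p', q⟩ := (P.cl.mem_ar (P.Qf _)).1 (b3 s)
    obtain ⟨t, ht⟩ : ∃ t, ε * (t - ε * σ t) = c - c' := by
      have : τ (c - c') = 0 := by rw [map_sub, p, p', sub_self]
      rcases P.cl.kind with ⟨-, -, -, d⟩ | ⟨a, b, -, d⟩ | ⟨a, b, -, d⟩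
      · exact absurd d hτ
      · exact ⟨0, by simpa [d] using this.symm⟩
      · obtain ⟨t, ht⟩ := exists_sub_conj a P.cl.invol (c := c - c') (by simpa [d] using this)
        exact ⟨t, by simpa [b] using ht⟩
    have := P.cl.comm_mem (P.Qf _) (b3 (σ (t / B w w))) (one_smul F w ▸ b3 1)
    rw [P.cl.symm (_ • w) w, LinearMap.map_smulₛₗ, P.cl.invol, LinearMap.smul_apply, smul_eq_mul,
      div_mul_cancel₀ _ hB, ht] at this
    have := mul_mem q this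
    rw [P.cl.eich_mul (P.Qf _) (m s _) (by simp)] at this
    simpa [Y] using this
  have b5 := (M.mul_mem_cancel_left (b4 (P.Y_mem _ hw hx))).1 g2
  have b6 : ∀ a, a < 2 * C.n → P.UL (Z.l (a + 1)) (Z.l (a + 1)) ≤ M := fun a => by
    induction a with
    | zero => exact fun _ => b4
    | succ a ih =>
      intro ha u hu
      have := Z.mon.inv.conj (fun c => by rw [Perm.inv_eq_iff_eq, Z.sw]; simp) (val_self hD _) hu
      rw [← Z.succ _ ha, Perm.inv_def, symm_apply_apply] at this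
      simpa [mul_assoc] using mul_mem (mul_mem b5 (ih (by omega) this)) (inv_mem b5)
  have b7 : ∀ c y x, y ∈ P.V0 → τ x = Q y → P.Y c y x ∈ M := fun c y x hy hx => by
    obtain ⟨a, ha, rfl⟩ := Z.surj c (idx_lt c)
    cases a
    · exact b6 (2 * C.n - 1) (by omega)
        (by rw [Nat.sub_add_cancel (by omega), Z.zero]; exact P.Y_mem _ hy hx)
    · exact b6 _ (by omega) (P.Y_mem _ hy hx)
  refine AX.fin0 (P := P) (fun a b _ _ h t => ?_) hM Z.h2 Z.hr hτ fun y hy c _ => ?_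
  · obtain ⟨x', hx'⟩ := P.cl.exists_tau (σ (t / B w w) • w)
    have := P.cm_YY (a := a) (c := b) nx hw (m _) x hx'
    rw [LinearMap.map_smulₛₗ, P.cl.invol, LinearMap.smul_apply, smul_eq_mul, div_mul_cancel₀ _ hB] at this
    have p := b7 a _ _ hw hx
    have q := b7 b _ _ (m _) hx'
    exact this ▸ mul_mem (mul_mem (mul_mem q p) (inv_mem q)) (inv_mem p)
  · obtain ⟨x', hx'⟩ := P.cl.exists_tau y
    exact (P.cl.mem_ar (P.Qf _)).2 ⟨WW_le hy _, x', hx', b7 _ _ _ (WW_le hy) hx'⟩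

theorem exists_perm (κ : Perm (Fin C.n)) :
    ∃ p, P.Mon (Equiv.sumCongr κ κ) p ∧ ∀ w ∈ P.V0, p w = w := by
  induction κ using Perm.swap_induction_on with
  | one => exact ⟨1, by simpa [← Perm.one_def] using mon_one, fun _ _ => rfl⟩
  | swap_mul κ i j h ih =>
    obtain ⟨p, h1, h2⟩ := ih
    refine ⟨P.mX (.inl i) (.inr j) 1 * p, ?_, fun w hw => by
      rw [LinearEquiv.mul_apply, h2 w hw, P.mX_fix (hw _) (hw _) (hw _) (hw _)]⟩
    convert (P.mon_mX (a := .inl i) (b := .inr j) (by simp [h.symm]) (by simp) one_ne_zero).mul h1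
    ext c
    cases c <;> simp [CT.ρ, swap_apply_def] <;> split_ifs <;> simp_all

theorem exists_cyc (h2 : 2 ≤ r) (hr : r ≤ C.n) {i : Fin C.n} (hi : i.1 = 0) {m : V ≃ₗ[F] V}
    {ρ : Perm C.ι} (hm : P.Mon ρ m) (sw : ∀ c, ρ c.swap = (ρ c).swap) (h0 : ρ (.inl i) = .inr i)
    (h1 : ∀ c, 0 < idx c → idx c < r → ρ c = c) :
    ∃ Z : Cyc P r, (∀ w ∈ P.V0, Z.n w = m w) ∧ ∀ c, r ≤ idx c → Z.ρ c = ρ c := by
  obtain ⟨κ, k1, k2⟩ : ∃ κ : Perm (Fin C.n), (∀ a b : Fin C.n, b.1 = a.1 + 1 ∧ b.1 < r ∨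
      b.1 = 0 ∧ a.1 + 1 = r → κ a = b) ∧ ∀ a : Fin C.n, r ≤ a.1 → κ a = a := by
    generalize C.n = n at hr
    obtain ⟨n, rfl⟩ : ∃ m, n = m + 1 := ⟨n - 1, by omega⟩
    refine ⟨Fin.cycleRange ⟨r - 1, by omega⟩, fun a b h => ?_, fun a h =>
      Fin.cycleRange_of_gt (by rw [Fin.lt_def]; simp; omega)⟩
    rcases h with h | h
    · exact Fin.ext ((Fin.coe_cycleRange_of_lt (by rw [Fin.lt_def]; simp; omega)).trans h.1.symm)
    · rw [Fin.cycleRange_of_eq (Fin.ext (by simp; omega))]; exact Fin.ext h.1.symm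
  obtain ⟨p, p1, p2⟩ := exists_perm (P := P) κ
  have h0' : ρ (.inr i) = .inl i := (sw (.inl i)).trans (by rw [h0]; rfl)
  refine ⟨⟨fun a => if h : a < r then .inl ⟨a, by omega⟩ else if h : a - r < r then
    .inr ⟨a - r, by omega⟩ else .inl i, m * p, _, h2, hr, hm.mul p1, fun c => ?_, fun a ha => ?_, ?_,
    fun a ha => ?_, fun a ha => by simp [ha], ?_⟩, fun w hw => by simp [p2 w hw], fun c hc => ?_⟩
  · rw [Perm.mul_apply, Perm.mul_apply, ← sw]; exact congrArg _ (swap_map κ c)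
  · simp only [Perm.mul_apply, Equiv.sumCongr_apply]
    split_ifs <;> try omega
    · rw [Sum.map_inl, k1 _ ⟨a + 1, by omega⟩ (by simp; omega), h1 _ (by simp [idx]) (by simpa [idx])]
    · rw [Sum.map_inl, k1 _ i (by simp; omega), h0]
      congr 1; simp [Fin.ext_iff]; omega
    · rw [Sum.map_inr, k1 _ ⟨a + 1 - r, by omega⟩ (by simp; omega),
        h1 _ (by simp [idx]; omega) (by simpa [idx])]
    · rw [Sum.map_inr, k1 _ i (by simp; omega), h0']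
  · rw [dif_neg (by omega), dif_neg (by omega), dif_pos (by omega)]
    congr 1; exact Fin.ext hi
  · split_ifs <;> first | rfl | omega
  · rintro (c | c) hc
    · exact ⟨c, by simp [idx] at hc; omega, by rw [dif_pos (by exact hc)]⟩
    · exact ⟨c + r, by simp [idx] at hc; omega, by
        rw [dif_neg (by omega), dif_pos (by simpa [idx] using hc)]; simp⟩
  · cases c <;> simp [k2 _ hc]

theorem exists_cycY (h2 : 2 ≤ C.n) (hD : C.isD = false) (hw : w ∈ P.V0) {x : F} (hx : τ x = Q w)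
    (h0 : x ≠ 0) : ∃ Z : Cyc P C.n, ∀ y ∈ P.V0, Z.n y = y - (ε * B w y / x) • w := by
  obtain ⟨Z, h, -⟩ := exists_cyc h2 le_rfl (i := ⟨0, by omega⟩) rfl (P.mon_mY (.inl _) hw hx h0 hD)
    (ρ_swap (val_self hD _)) (ρ_left (val_self hD _)) fun c h _ => by
      have : idx (C := C) (.inl ⟨0, by omega⟩) ≠ idx c := h.ne
      exact ρ_of_ne nx nx nx nx
  exact ⟨Z, fun y hy => by rw [h y hy, P.mY_perp _ hw hx h0 (hy _) (hy _)]⟩

theorem V0_sep (hw : w ∈ P.V0) (h : ∀ y ∈ P.V0, B w y = 0) : w = 0 := P.cl.sep w fun y => by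
  simpa [P.V0_perp hw] using h _ (P.sub_sum_mem y)

variable (P)

theorem two_dim0 (h2 : 2 ≤ C.n) (hD : C.isD = false) (hσ : σ ≠ RingHom.id F) (hτ : τ ≠ 0)
    (h : Module.finrank F V = 2 * C.n) : ∃ g g' : P.cl.Om, closure {g, g'} = ⊤ := by
  have h0 : P.V0 = ⊥ := Submodule.finrank_eq_zero.1 (by have := P.finrank_V0; omega)
  obtain ⟨x, x0, hx⟩ := (P.hY hD).resolve_right fun ⟨w, a, b⟩ => a (h0.le b)
  obtain ⟨Z, -⟩ := exists_cycY (P := P) h2 hD (zero_mem _) (hx.trans P.cl.Q_zero.symm) x0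
  have h1 := (WW_le (P := P)).trans h0.le
  by_cases h3 : 3 ≤ C.n
  · exact Z.two h3 hτ (zero_mem _) fun _ _ _ => h1.trans bot_le
  · obtain e : 2 = C.n := by omega
    generalize C.n = r at Z h1 e
    subst e
    exact Z.two' hσ hτ h1

theorem two_dim1 (h2 : 2 ≤ C.n) (hD : C.isD = false) (hτ : τ ≠ 0) {x₀ : F} (x0 : x₀ ≠ 0) (x1 : x₀ ≠ 1)
    (h : Module.finrank F V = 2 * C.n + 1) : ∃ g g' : P.cl.Om, closure {g, g'} = ⊤ := by
  obtain ⟨w, w0, hw⟩ := finrank_eq_one_iff'.1 (show Module.finrank F P.V0 = 1 by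
    have := P.finrank_V0; omega)
  have sp : ∀ y ∈ P.V0, ∃ s : F, y = s • w.1 := fun y hy =>
    (hw ⟨y, hy⟩).imp fun s e => (congrArg Subtype.val e).symm
  obtain ⟨x, hx⟩ := P.cl.exists_tau w.1
  have w1 : w.1 ≠ 0 := fun e => w0 (Subtype.ext e)
  obtain ⟨Z, -⟩ := exists_cycY (P := P) h2 hD w.2 hx (P.c_ne w.2 hx (.inl w1))
  exact Z.odd hτ x0 x1 w.2 (fun e => w1 (V0_sep w.2 fun y hy => by
    obtain ⟨s, rfl⟩ := sp y hy; simp [e])) sp

theorem two_dim2 (h3 : 3 ≤ C.n) (hD : C.isD = false) (hτ : τ ≠ 0)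
    (h : Module.finrank F V = 2 * C.n + 2) : ∃ g g' : P.cl.Om, closure {g, g'} = ⊤ := by
  let b := Module.finBasisOfFinrankEq F P.V0 (n := 2) (by have := P.finrank_V0; omega)
  have sp : ∀ y ∈ P.V0, ∃ s t : F, y = s • (b 0).1 + t • (b 1).1 := fun y hy =>
    ⟨_, _, (congrArg Subtype.val ((Fin.sum_univ_two _).symm.trans (b.sum_repr ⟨y, hy⟩))).symm⟩
  have w1 : (b 0).1 ≠ 0 := fun e => b.ne_zero 0 (Subtype.ext e)
  obtain ⟨x, hx⟩ := P.cl.exists_tau (b 0).1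
  have x0 := P.c_ne (b 0).2 hx (.inl w1)
  obtain ⟨Z, hZ⟩ := exists_cycY (P := P) (by omega) hD (b 0).2 hx x0
  obtain ⟨u, hu⟩ : ∃ u : F, B (b 0) (u • (b 0).1 + b 1) ≠ 0 := by
    by_contra! e
    have e1 : B (b 0) (b 1) = 0 := by simpa using e 0
    have e2 : B (b 0) (b 0) = 0 := by simpa [e1] using e 1
    exact w1 (V0_sep (b 0).2 fun y hy => by obtain ⟨s, t, rfl⟩ := sp y hy; simp [e1, e2])
  have m : u • (b 0).1 + b 1 ∈ P.V0 := add_mem (Submodule.smul_mem _ _ (b 0).2) (b 1).2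
  refine Z.two h3 hτ (V0_le (Z.mon.inv.V0 m)) fun N h1 h2 y hy => ?_
  obtain ⟨s, t, rfl⟩ := sp y (WW_le hy)
  replace h1 : u • (b 0).1 + b 1 ∈ N := by simpa using h1
  have h4 := sub_mem h1 (h2 _ h1)
  rw [hZ _ m, sub_sub_cancel, N.smul_mem_iff (div_ne_zero (mul_ne_zero P.cl.eps_ne hu) x0)] at h4
  exact add_mem (N.smul_mem _ h4) (N.smul_mem _ ((N.add_mem_iff_right (N.smul_mem _ h4)).1 h1))

theorem two_D (h4 : 4 ≤ C.n) (hτ : τ ≠ 0) (h : Module.finrank F V = 2 * C.n) :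
    ∃ g g' : P.cl.Om, closure {g, g'} = ⊤ := by
  have h0 : P.V0 = ⊥ := Submodule.finrank_eq_zero.1 (by have := P.finrank_V0; omega)
  obtain ⟨i, hi⟩ : ∃ i : Fin C.n, i.1 = 0 := ⟨⟨0, by omega⟩, rfl⟩
  obtain ⟨j, hj⟩ : ∃ j : Fin C.n, j.1 = C.n - 1 := ⟨⟨_, by omega⟩, rfl⟩
  have h1 : idx (C := C) (.inl i) ≠ idx (C := C) (.inl j) := by simp [idx]; omega
  have h2 : idx (C := C) (.inl i) ≠ idx (C := C) (.inr j) := h1
  obtain ⟨Z, -, hZ⟩ := exists_cyc (r := C.n - 1) (by omega) (by omega) hi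
    ((P.mon_mX (ne_ix (idx_swap (C := C) _ ▸ h1.symm)) (ne_ix h1.symm) one_ne_zero).mul
      (P.mon_mX (ne_ix (idx_swap (C := C) _ ▸ h2.symm)) (ne_ix h2.symm) one_ne_zero))
    (fun c => by rw [Perm.mul_apply, ρ_swap (val_ix h2), ρ_swap (val_ix h1)]; rfl)
    (by rw [Perm.mul_apply, ρ_left (val_ix h2)]; exact ρ_right (val_ix h1)) fun c p q => by
      have e1 : idx (C := C) (.inl i) ≠ idx c := by simp [idx, hi]; exact p.ne
      have e2 : idx (C := C) (.inl j) ≠ idx c := by simp [idx, hj]; exact q.ne'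
      have e3 : idx (C := C) (.inr j) ≠ idx c := e2
      rw [Perm.mul_apply, ρ_of_ne (a := .inl i) (b := .inr j) (c := c) nx nx nx nx,
        ρ_of_ne (a := .inl i) (b := .inl j) (c := c) nx nx nx nx]
  obtain ⟨s, hs, e1⟩ := Z.mon.exists (.inl j)
  obtain ⟨s', hs', e2⟩ := Z.mon.exists (.inr j)
  rw [hZ (.inl j) hj.ge, Perm.mul_apply, show C.ρ _ _ (.inl j) = _ from ρ_swap_right (val_ix h2),
    ρ_left (val_ix h1)] at e1
  rw [hZ (.inr j) hj.ge, Perm.mul_apply, ρ_right (val_ix h2), ρ_swap_left (val_ix h1)] at e2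
  refine Z.two (w := P.f (.inl j)) (by omega) hτ (fun c hc => P.perp _ _ (ne_ix ?_))
    fun N p q y hy => ?_
  · rw [idx_swap]; exact (hc.trans_le hj.ge).ne'
  rw [e1, N.smul_mem_iff hs] at p
  have p' := q _ p
  rw [Sum.swap_inl, e2, N.smul_mem_iff hs'] at p'
  rw [sub_eq_zero.1 (h0.le (P.sub_sum_mem y))]
  refine sum_mem fun c _ => ?_
  by_cases e : idx c < C.n - 1
  · rw [hy _ ix]; simp
  · have := idx_lt c
    rcases eq_of_ix (a := .inl j) (b := c) (hj.trans (by omega)) with rfl | rfl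
    exacts [N.smul_mem _ p', N.smul_mem _ p]

end Cfsg.Agent.H7.Pr
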