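import Cfsg.Agent.H5.HH
import Cfsg.Agent.H1.Coprime2
import Cfsg.Agent.H4.SylowIn
import Cfsg.Agent.H27.ClassSize

/-! Sylow subgroups normalising Sylow subgroups. -/

namespace Cfsg.Agent.H7

open Subgroup
open scoped Pointwise commutatorElement

universe u
variable {G : Type u} [Group G] [Finite G]

theorem sn_mem_pPrimeCore {p : ℕ} [hp : Fact p.Prime] (hG : IsPSolvable p G) (P : Sylow p G)
    {y : G} (hy : (orderOf y).Coprime p)
    (h : ∀ x ∈ (P : Subgroup G), (orderOf ⁅x, y⁆).Coprime p) : y ∈ pPrimeCore p G := by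
  haveI : (pPrimeCore p G).Normal := inferInstance
  set K := pPrimeCore p G with hK
  let π := QuotientGroup.mk' K
  have hq : IsPSolvable p (G ⧸ K) := H1.isPSolvable_quotient hp.out hG K
  have hb : pPrimeCore p (G ⧸ K) = ⊥ := H2.pPrimeCore_quotient_self
  have hc := H5b.centralizer_pCore_le hq hb
  have hO : IsPGroup p (pCore p (G ⧸ K)) := H2.pCore_isPGroup
  haveI : (pCore p (G ⧸ K)).Normal := inferInstance
  have triv : ∀ z : G ⧸ K, z ∈ pCore p (G ⧸ K) → (orderOf z).Coprime p → z = 1 := by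
    intro z hz hcop
    obtain ⟨k, hk⟩ := (IsPGroup.iff_orderOf.1 hO) ⟨z, hz⟩
    rw [Subgroup.orderOf_mk] at hk
    rw [hk] at hcop
    rcases k with _ | k
    · simpa using hk
    · exfalso
      have := (Nat.Coprime.coprime_dvd_left (dvd_pow_self p (Nat.succ_ne_zero k)) hcop)
      exact hp.out.one_lt.ne' (by simpa using this)
  let Pb : Sylow p (G ⧸ K) := P.mapSurjective (f := π) (QuotientGroup.mk'_surjective K)
  have hle : pCore p (G ⧸ K) ≤ Pb := H2.pCore_le_sylow Pb
  have hyc : π y ∈ centralizer (pCore p (G ⧸ K) : Set (G ⧸ K)) := by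
    intro z hz
    obtain ⟨x, hx, rfl⟩ := hle hz
    have h1 : ⁅π x, π y⁆ ∈ pCore p (G ⧸ K) := by
      rw [commutatorElement_def, mul_assoc, mul_assoc, ← mul_assoc (π y)]
      refine mul_mem hz ?_
      exact Normal.conj_mem inferInstance _ (inv_mem hz) _
    have h2 : (orderOf ⁅π x, π y⁆).Coprime p := by
      rw [← map_commutatorElement]
      exact Nat.Coprime.coprime_dvd_left (orderOf_map_dvd π _) (h x hx)
    have := triv _ h1 h2
    exact commutatorElement_eq_one_iff_mul_comm.1 this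
  have := triv _ (hc hyc) (Nat.Coprime.coprime_dvd_left (orderOf_map_dvd π _) hy)
  exact (QuotientGroup.eq_one_iff y).1 this

theorem sn_hall_iff {p : ℕ} [hp : Fact p.Prime] {S K : Subgroup G} :
    IsPiHallOf {p} S K ↔ H4.IsSylowIn p S K := by
  constructor
  · rintro ⟨h1, h2, h3⟩
    refine ⟨h1, H1.isPGroup_iff_isPiNum.2 h2, h3 p hp.out rfl⟩
  · rintro ⟨h1, h2, h3⟩
    refine ⟨h1, H1.isPGroup_iff_isPiNum.1 h2, ?_⟩
    rintro r - rfl
    exact h3

theorem sn_of_not_dvd {p q : ℕ} [hp : Fact p.Prime] [hq : Fact q.Prime]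
    (h : ¬ q ∣ (pPrimeCore p G).index) :
    ∃ (P : Sylow p G) (Q : Sylow q G), (P : Subgroup G) ≤ normalizer ((Q : Subgroup G) : Set G) := by
  obtain ⟨P⟩ : Nonempty (Sylow p G) := inferInstance
  haveI : (pPrimeCore p G).Normal := inferInstance
  set K := pPrimeCore p G with hK
  have hcop : (Nat.card (P : Subgroup G)).Coprime (Nat.card K) := by
    obtain ⟨k, hk⟩ := P.isPGroup'.exists_card_eq
    rw [hk]
    exact Nat.Coprime.pow_left _ (H2.pPrimeCore_coprime (p := p) (G := G)).symm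
  have hs : Group.IsSolvable (P : Subgroup G) := by
    haveI := P.isPGroup'.isNilpotent
    infer_instance
  obtain ⟨S, hS, hn⟩ := H1.exists_invariant_sylowOf (P : Subgroup G) K
    (by rw [normalizer_eq_top]; exact le_top) hcop (Or.inl hs) q
  have hS' := sn_hall_iff.1 hS
  have : H4.IsSylowIn q S ⊤ := by
    refine ⟨le_top, hS'.2.1, ?_⟩
    rw [relIndex_top_right, ← relIndex_mul_index hS'.1]
    intro hd
    rcases (Nat.Prime.dvd_mul hq.out).1 hd with h1 | h1
    · exact hS'.2.2 h1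
    · exact h h1
  obtain ⟨Q, rfl⟩ := this.exists_sylow_of_top
  exact ⟨P, Q, hn⟩

theorem sn_coprime_of_mem {p q : ℕ} [hp : Fact p.Prime] [hq : Fact q.Prime] (hpq : p ≠ q)
    {Q : Subgroup G} (hQ : IsPGroup q Q) {y : G} (hy : y ∈ Q) : (orderOf y).Coprime p := by
  obtain ⟨k, hk⟩ := (IsPGroup.iff_orderOf.1 hQ) ⟨y, hy⟩
  rw [Subgroup.orderOf_mk] at hk
  rw [hk]
  exact Nat.Coprime.pow_left _ ((Nat.coprime_primes hq.out hp.out).2 hpq.symm)

theorem sn_not_dvd_of_le {q : ℕ} [hq : Fact q.Prime] (Q : Sylow q G) {K : Subgroup G}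
    (h : (Q : Subgroup G) ≤ K) : ¬ q ∣ K.index := fun hd =>
  Q.not_dvd_index (hd.trans (index_dvd_of_le h))

theorem s4602 (p q : ℕ) [hp : Fact p.Prime] [hq : Fact q.Prime] (hpq : p ≠ q)
    (hsolv : IsPSolvable p G) :
    (∃ (P : Sylow p G) (Q : Sylow q G), (P : Subgroup G) ≤ normalizer ((Q : Subgroup G) : Set G)) ↔
      ¬ q ∣ (pPrimeCore p G).index := by
  refine ⟨?_, sn_of_not_dvd⟩
  rintro ⟨P, Q, h⟩
  refine sn_not_dvd_of_le Q fun y hy => ?_
  refine sn_mem_pPrimeCore hsolv P (sn_coprime_of_mem hpq Q.isPGroup' hy) fun x hx => ?_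
  refine sn_coprime_of_mem hpq Q.isPGroup' ?_
  rw [commutatorElement_def]
  exact mul_mem ((mem_normalizer_iff.1 (h hx) y).1 hy) (inv_mem hy)

theorem sn_exists_sylow_le {p : ℕ} [hp : Fact p.Prime] {H : Subgroup G} (h : ¬ p ∣ H.index) :
    ∃ P : Sylow p G, (P : Subgroup G) ≤ H := by
  obtain ⟨S, hS⟩ := H4.IsSylowIn.exists_isSylowIn p H
  have : H4.IsSylowIn p S ⊤ := by
    refine ⟨le_top, hS.2.1, ?_⟩
    rw [relIndex_top_right, ← relIndex_mul_index hS.1]
    intro hd
    rcases (Nat.Prime.dvd_mul hp.out).1 hd with h1 | h1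
    · exact hS.2.2 h1
    · exact h h1
  obtain ⟨P, rfl⟩ := this.exists_sylow_of_top
  exact ⟨P, hS.1⟩

theorem sn_ind (p q : ℕ) [hp : Fact p.Prime] [hq : Fact q.Prime] (hpq : p ≠ q) (n : ℕ) :
    ∀ (G : Type u) [Group G] [Finite G], Nat.card G = n → IsPSolvable q G →
    (∀ y : G, (∃ k : ℕ, orderOf y = q ^ k) → ¬ p ∣ (centralizer ({y} : Set G)).index) →
    ∀ Q : Sylow q G, ¬ p ∣ (normalizer ((Q : Subgroup G) : Set G)).index := by
  induction n using Nat.strong_induction_on with
  | _ n ih =>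
  intro G _ _ hn hs h Q
  rcases subsingleton_or_nontrivial G with hG | hG
  · have : normalizer ((Q : Subgroup G) : Set G) = ⊤ := Subsingleton.elim _ _
    rw [this, index_top]
    exact hp.out.not_dvd_one
  -- a nontrivial normal subgroup
  obtain ⟨N, hN, hN1, hNq⟩ : ∃ N : Subgroup G, N.Normal ∧ N ≠ ⊥ ∧
      (IsPGroup q N ∨ (Nat.card N).Coprime q) := by
    by_cases h1 : pPrimeCore q G = ⊥
    · refine ⟨pCore q G, inferInstance, fun h2 => ?_, Or.inl H2.pCore_isPGroup⟩
      have := H5b.centralizer_pCore_le hs h1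
      rw [h2] at this
      obtain ⟨x, hx⟩ := exists_ne (1 : G)
      apply hx
      refine mem_bot.1 (this ?_)
      intro z hz
      rw [SetLike.mem_coe, mem_bot] at hz
      simp [hz]
    · exact ⟨pPrimeCore q G, inferInstance, h1, Or.inr H2.pPrimeCore_coprime⟩
  let π := QuotientGroup.mk' N
  have hπ : Function.Surjective π := QuotientGroup.mk'_surjective N
  have hlt : Nat.card (G ⧸ N) < n := by
    rw [← hn, card_eq_card_quotient_mul_card_subgroup N]
    have := (one_lt_card_iff_ne_bot N).2 hN1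
    have h0 : 0 < Nat.card (G ⧸ N) := Nat.card_pos
    nlinarith
  let Qb : Sylow q (G ⧸ N) := Q.mapSurjective (f := π) hπ
  have hq' := ih _ hlt (G ⧸ N) rfl (H1.isPSolvable_quotient hq.out hs N) (by
    rintro y ⟨k, hk⟩ hd
    have hyP : IsPGroup q (zpowers y) := IsPGroup.of_card (by rw [Nat.card_zpowers, hk])
    obtain ⟨R, hR⟩ := hyP.exists_le_sylow
    obtain ⟨R', hR'⟩ := Sylow.mapSurjective_surjective hπ q R
    have hy : y ∈ (R : Subgroup (G ⧸ N)) := hR (mem_zpowers y)
    rw [← hR'] at hy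
    obtain ⟨x, hx, rfl⟩ := hy
    obtain ⟨j, hj⟩ := (IsPGroup.iff_orderOf.1 R'.isPGroup') ⟨x, hx⟩
    rw [Subgroup.orderOf_mk] at hj
    exact h x ⟨j, hj⟩ (hd.trans (H27.index_centralizer_map_dvd π hπ x))) Qb
  set M := normalizer ((Q : Subgroup G) : Set G) with hM
  -- the preimage of the normaliser
  have hcom : (normalizer ((Qb : Subgroup (G ⧸ N)) : Set (G ⧸ N))).comap π ≤ M ⊔ N := by
    intro g hg
    have hg' : g ∈ normalizer (((Q : Subgroup G) ⊔ N : Subgroup G) : Set G) := by
      rw [← H1.comap_map_mk N (Q : Subgroup G)]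
      rw [mem_normalizer_iff]
      intro x
      have := (mem_normalizer_iff.1 (mem_comap.1 hg)) (π x)
      simp only [mem_comap, map_mul, map_inv]
      exact this
    have hS : H4.IsSylowIn q (Q : Subgroup G) ((Q : Subgroup G) ⊔ N) :=
      H4.IsSylowIn.sylow_of_le Q le_sup_left
    obtain ⟨k, hk, m, hm, rfl⟩ := hS.frattini_arg hg'
    refine mul_mem ?_ (mem_sup_left hm)
    exact sup_le_sup_right le_normalizer N hk
  have h1 : ¬ p ∣ (M ⊔ N).index := by
    intro hd
    apply hq'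
    rw [← index_comap_of_surjective _ hπ]
    exact hd.trans (index_dvd_of_le hcom)
  have h2 : ¬ p ∣ M.relIndex N := by
    rcases hNq with hNq | hNq
    · have : N ≤ M := (hNq.le_sylow_of_normal Q).trans le_normalizer
      rw [relIndex_eq_one.2 this]
      exact hp.out.not_dvd_one
    · have hcop : (Nat.card (Q : Subgroup G)).Coprime (Nat.card N) := by
        obtain ⟨k, hk⟩ := Q.isPGroup'.exists_card_eq
        rw [hk]
        exact Nat.Coprime.pow_left _ hNq.symm
      have hsQ : Group.IsSolvable (Q : Subgroup G) := by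
        haveI := Q.isPGroup'.isNilpotent
        infer_instance
      obtain ⟨S, hS, hSn⟩ := H1.exists_invariant_sylowOf (Q : Subgroup G) N
        (by rw [normalizer_eq_top]; exact le_top) hcop (Or.inl hsQ) p
      have hS' := sn_hall_iff.1 hS
      have hcen : ∀ y ∈ (Q : Subgroup G), S ≤ centralizer ({y} : Set G) := by
        intro y hy
        obtain ⟨j, hj⟩ := (IsPGroup.iff_orderOf.1 Q.isPGroup') ⟨y, hy⟩
        rw [Subgroup.orderOf_mk] at hj
        obtain ⟨P, hP⟩ := sn_exists_sylow_le (h y ⟨j, hj⟩)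
        have hT : H4.IsSylowIn p ((P : Subgroup G) ⊓ N) N :=
          (H4.IsSylowIn.sylow_top P).inf_of_normal_le le_top
            (by rw [normalizer_eq_top])
        have hzle : zpowers y ≤ (Q : Subgroup G) := by
          rwa [zpowers_le]
        have hTc : zpowers y ≤ centralizer (((P : Subgroup G) ⊓ N : Subgroup G) : Set G) := by
          rw [zpowers_le]
          intro t ht
          exact (hP ht.1 y rfl).symm
        obtain ⟨c, hc, hcT⟩ := H1.invariant_sylowOf_conj (A := zpowers y) (K := N)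
          (by rw [normalizer_eq_top]; exact le_top)
          (Nat.Coprime.coprime_dvd_left (card_dvd_of_le hzle) hcop)
          (Or.inl (by infer_instance)) (sn_hall_iff.2 hT) hS
          (hTc.trans (centralizer_le_normalizer _)) (hzle.trans hSn)
        rw [← hcT]
        rintro s hs
        rw [mem_smul_pointwise_iff_exists] at hs
        obtain ⟨t, ht, rfl⟩ := hs
        have hcy : c ∈ centralizer ({y} : Set G) := by
          intro w hw
          rw [Set.mem_singleton_iff] at hw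
          subst hw
          exact hc.2 w (mem_zpowers w)
        exact mul_mem (mul_mem hcy (hP ht.1)) (inv_mem hcy)
      have hSM : S ≤ M := by
        intro s hs
        refine centralizer_le_normalizer _ ?_
        intro y hy
        exact hcen y hy hs y rfl
      intro hd
      exact hS'.2.2 (hd.trans (relIndex_dvd_of_le_left N hSM))
  rw [← relIndex_mul_index (le_sup_left : M ≤ M ⊔ N),
    H1.relIndex_sup_of_le_normalizer (by rw [normalizer_eq_top]; exact le_top)]
  intro hd
  rcases (Nat.Prime.dvd_mul hp.out).1 hd with h3 | h3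
  · exact h2 h3
  · exact h1 h3

theorem s4601 (p q : ℕ) [hp : Fact p.Prime] [hq : Fact q.Prime]
    (hsolv : IsPSolvable p G ∨ IsPSolvable q G)
    (h : ∀ y : G, (∃ k : ℕ, orderOf y = q ^ k) → ¬ p ∣ (centralizer ({y} : Set G)).index) :
    ∃ (P : Sylow p G) (Q : Sylow q G), (P : Subgroup G) ≤ normalizer ((Q : Subgroup G) : Set G) := by
  by_cases hpq : p = q
  · subst hpq
    obtain ⟨P⟩ : Nonempty (Sylow p G) := inferInstance
    exact ⟨P, P, le_normalizer⟩
  obtain ⟨Q⟩ : Nonempty (Sylow q G) := inferInstance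
  rcases hsolv with hs | hs
  · refine sn_of_not_dvd (sn_not_dvd_of_le Q fun y hy => ?_)
    obtain ⟨j, hj⟩ := (IsPGroup.iff_orderOf.1 Q.isPGroup') ⟨y, hy⟩
    rw [Subgroup.orderOf_mk] at hj
    obtain ⟨P, hP⟩ := sn_exists_sylow_le (h y ⟨j, hj⟩)
    refine sn_mem_pPrimeCore hs P (sn_coprime_of_mem hpq Q.isPGroup' hy) fun x hx => ?_
    have : ⁅x, y⁆ = 1 := commutatorElement_eq_one_iff_mul_comm.2 (hP hx y rfl).symm
    simp [this]
  · obtain ⟨P, hP⟩ := sn_exists_sylow_le (sn_ind p q hpq _ G rfl hs h Q)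
    exact ⟨P, Q, hP⟩

end Cfsg.Agent.H7
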