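import Mathlib
import Cfsg.Agent.H12.RGD7
import Cfsg.Agent.H12.Tor

/-!
Finite overgroups of the fixed points of an endomorphism of a root group datum: rational
Borel–Tits theorem and strong embedding.
-/

set_option autoImplicit false
set_option linter.unusedSectionVars false

namespace Cfsg.Agent.H7.Sf

open Cfsg.Agent.H12 Cfsg.Agent.H12.RGD

variable {Φ I : Type*} [DecidableEq I] [Fintype I] [Finite Φ] {R : RS Φ I ℤ}
  {G : Type*} [Group G] {X : RGD R G} {σ : G →* G} {M : Subgroup G}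

theorem meq {H : Subgroup G} {a b : G} (h : a ∈ H) (e : b = a := by group) : b ∈ H := e ▸ h

/-- Kempf's form of the Borel–Tits theorem -/
theorem bt {y : G} (hy : y ∈ X.Up) (hne : y ≠ 1) :
    ∃ g ∈ X.grp, ∃ J : Set I, (∃ i, i ∉ J) ∧ ∃ S : Set Φ, g * y * g⁻¹ ∈ X.US S ∧
      ∀ x ∈ X.grp, x * (g * y * g⁻¹) * x⁻¹ ∈ X.US S → x ∈ X.PJ J := by
  have := Fintype.ofFinite Φ
  obtain ⟨l₁, ⟨S, ⟨g₁, hg, hg₁⟩, hS⟩, hmin⟩ := R.exists_optimal
    {S | ∃ g ∈ X.grp, g * y * g⁻¹ ∈ X.US S} (l₀ := fun _ => 1)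
    ⟨{r | R.Pos r}, ⟨1, one_mem _, meq hy⟩, fun r hr => by
      have : (1 : ℝ) ≤ R.ht r := by exact_mod_cast R.ht_pos hr
      simpa [RS.ev, RS.ht] using this⟩
  obtain ⟨v, hv⟩ := R.exists_dominant l₁
  obtain ⟨n₁, hn₁⟩ := exists_rep (X := X) v⁻¹
  obtain ⟨l, hl⟩ : ∃ l, l = fun i => R.ev l₁ (v • R.simple i) := ⟨_, rfl⟩
  replace hv : ∀ i, 0 ≤ l i := by rwa [hl]
  have hsum : ∀ (l : I → ℝ) (w : R.W), ∑ r, R.ev l (w • r) ^ 2 = ∑ r, R.ev l r ^ 2 := fun l w =>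
    Equiv.sum_comp (MulAction.toPerm w) fun r => R.ev l r ^ 2
  have h1 : n₁ * g₁ * y * (n₁ * g₁)⁻¹ ∈ X.US {r | 1 ≤ R.ev l r} := by
    have := hn₁.conj_US (S' := {r | 1 ≤ R.ev l r})
      (fun r hr => by simpa [hl, R.ev_smul] using hS r hr) hg₁
    convert this using 1; group
  have hpos : ∀ r ∈ {r | 1 ≤ R.ev l r}, R.Pos r := fun _ h =>
    R.pos_of_ev_pos hv (one_pos.trans_le h)
  have hgrp : n₁ * g₁ ∈ X.grp := mul_mem (N_le_grp hn₁.mem_N) hg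
  refine ⟨n₁ * g₁, hgrp, {i | l i = 0}, ?_, _, h1, ?_⟩
  · by_contra h
    simp only [not_exists, not_not] at h
    rw [show {r | 1 ≤ R.ev l r} = ∅ from Set.eq_empty_of_forall_notMem fun r hr => by
      have := R.ev_eq_zero_of_inJ (l := l) (r := r) fun i hi => absurd (h i) hi
      simp only [Set.mem_ofPred_eq] at hr; linarith, US_empty, Subgroup.mem_bot] at h1
    exact hne (conj_eq_one_iff.1 h1)
  generalize hy' : n₁ * g₁ * y * (n₁ * g₁)⁻¹ = y' at h1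
  intro x hx hx'
  obtain ⟨w, hw⟩ := mem_grp_iff.1 hx
  refine (mem_PJ_iff_of_mem_cell hw).2 (R.mem_WJ_of_ev hv fun r => ?_)
  obtain ⟨b, hb, n, hn, b', hb', rfl⟩ := hw
  have e : ∀ r, R.ev (fun i => (l i + R.ev l (w • R.simple i)) / 2) r =
      (R.ev l r + R.ev l (w • r)) / 2 := fun r => by
    rw [← R.ev_smul l w r]
    simp only [RS.ev, ← Finset.sum_add_distrib, Finset.sum_div]
    exact Finset.sum_congr rfl fun _ _ => by ring
  have h3 := hmin (fun i => (l i + R.ev l (w • R.simple i)) / 2)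
    ⟨{r | r ∈ {r | 1 ≤ R.ev l r} ∧ w • r ∈ {r | 1 ≤ R.ev l r}},
      ⟨b' * (n₁ * g₁), mul_mem (B_le_grp hb') hgrp, ?_⟩, fun r hr => ?_⟩
  · have h4 : ∑ r, (R.ev l (w • r) - R.ev l r) ^ 2 = 2 * ∑ r, R.ev l (w • r) ^ 2 +
        2 * ∑ r, R.ev l r ^ 2 - 4 * ∑ r, ((R.ev l r + R.ev l (w • r)) / 2) ^ 2 := by
      simp only [Finset.mul_sum, ← Finset.sum_add_distrib, ← Finset.sum_sub_distrib]
      exact Finset.sum_congr rfl fun _ _ => by ring
    have h5 : ∑ r, R.ev l r ^ 2 = ∑ r, R.ev l₁ r ^ 2 := by simp only [hl, R.ev_smul, hsum]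
    simp only [e] at h3
    have h6 := (Finset.sum_eq_zero_iff_of_nonneg fun r _ => sq_nonneg (R.ev l (w • r) - R.ev l r)).1
      (le_antisymm (by rw [h4, hsum]; linarith) (Finset.sum_nonneg fun _ _ => sq_nonneg _)) r
      (Finset.mem_univ r)
    exact sub_eq_zero.1 (pow_eq_zero_iff two_ne_zero |>.1 h6)
  · have h4 := (Subgroup.mem_normalizer_iff''.1 (B_le_normalizer_ev (l := l) hv one_pos hb) _).1 hx'
    rw [show b⁻¹ * (b * n * b' * y' * (b * n * b')⁻¹) * b = n * (b' * y' * b'⁻¹) * n⁻¹ by group] at h4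
    rw [show b' * (n₁ * g₁) * y * (b' * (n₁ * g₁))⁻¹ = b' * y' * b'⁻¹ by rw [← hy']; group]
    exact hn.mem_US_inter (R.closed_ev l zero_le_one) (R.closed_ev l zero_le_one) hpos hpos
      ((Subgroup.mem_normalizer_iff.1 (B_le_normalizer_ev (l := l) hv one_pos hb') y').1 h1) h4
  · have h1 : 1 ≤ R.ev l r := hr.1
    have h2 : 1 ≤ R.ev l (w • r) := hr.2
    rw [e]; linarith

theorem stab_sup (h : X.Stab σ) {S : Set Φ} {g : G} (hg : g ∈ X.US S ⊔ X.T) :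
    σ g ∈ X.US S ⊔ X.T := by
  obtain ⟨u, hu, t, ht, rfl⟩ := mem_US_sup_T.1 hg
  rw [map_mul]
  exact mul_mem (Subgroup.mem_sup_left (h.US hu)) (Subgroup.mem_sup_right (h.T t ht))

theorem stab_grp (h : X.Stab σ) {g : G} (hg : g ∈ X.grp) : σ g ∈ X.grp := stab_sup h hg

theorem stab_PJ (h : X.Stab σ) {J : Set I} {g : G} (hg : g ∈ X.PJ J) : σ g ∈ X.PJ J := by
  rw [PJ_eq] at hg ⊢; exact stab_sup h hg

theorem pos_of_conj {w : R.W} {g y : G} (hg : g ∈ X.cell w) {r : Φ} (hr : R.Pos r)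
    (hy : y ∈ X.U r) (h1 : y ≠ 1) (h : g * y * g⁻¹ ∈ X.Up) : R.Pos (w • r) := by
  obtain ⟨b, hb, n, hn, b', hb', rfl⟩ := hg
  have hpos : ∀ t ∈ {t | t = r ∨ (R.Pos t ∧ R.ht r < R.ht t)}, R.Pos t := by
    rintro t (rfl | h)
    exacts [hr, h.1]
  have hS : R.Closed {t | t = r ∨ (R.Pos t ∧ R.ht r < R.ht t)} := closed_of_upper hpos (by
    rintro s (rfl | h) t h1 h2
    exacts [Or.inr ⟨h1, h2⟩, Or.inr ⟨h1, h.2.trans h2⟩])
  have h2 := hn.mem_US_inter hS R.closed_pos hpos (fun _ h => h) ((Subgroup.mem_normalizer_iff.1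
    (B_le_normalizer_ht' hr hb') y).1 (U_le_US (S := {t | t = r ∨ _}) (Or.inl rfl) hy))
      (meq ((Subgroup.mem_normalizer_iff''.1 (B_le_normalizer_Up hb) _).1 h))
  by_contra hw
  refine h1 (eq_one_of_mem_U_US (S := {t | R.Pos t ∧ R.ht r < R.ht t})
    (closed_of_upper (fun _ h => h.1) fun s h t h1 h2 => ⟨h1, h.2.trans h2⟩) (fun _ h => h.1) hr
    (by simp) hy ((Subgroup.mem_normalizer_iff.1 (B_le_normalizer_ht (R.ht r) hb') y).2
      (US_mono ?_ h2)))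
  rintro t ⟨rfl | h3, h4⟩
  exacts [absurd h4 hw, h3]

variable (X σ M) in
/-- the basic set-up -/
structure SU : Prop where
  irr : R.Irred
  rk : ∀ i : I, ∃ j, j ≠ i
  nonempty : Nonempty I
  ab : X.Ab
  stab : X.Stab σ
  le : M ≤ X.grp
  mem : ∀ r, ∀ u ∈ X.U r, σ u = u → u ∈ M
  neg : ∀ i, ∃ v ∈ X.U (R.neg (R.simple i)), v ≠ 1 ∧ σ v = v
  faith : ∀ t ∈ X.T, (∀ i, ∀ y ∈ X.U (R.simple i), σ y = y → t * y = y * t) → t = 1

namespace SU

variable (h : SU X σ M)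
include h

theorem mem_US {S : Set Φ} (hS : R.Closed S) (hpos : ∀ r ∈ S, R.Pos r) {u : G} (hu : u ∈ X.US S)
    (hσ : σ u = u) : u ∈ M :=
  (iSup₂_le fun r _ v hv => h.mem r v hv.1 hv.2 : ⨆ r ∈ S, X.U r ⊓ fxs σ ≤ M)
    (h.stab.mem_iSup h.ab hS hpos hu hσ)

theorem mem_Up {u : G} (hu : u ∈ X.Up) (hσ : σ u = u) : u ∈ M :=
  h.mem_US R.closed_pos (fun _ h => h) hu hσ

theorem rep_s (i : I) : ∃ n ∈ M, σ n = n ∧ X.Rep n (R.s i) := by
  obtain ⟨v, hv, h1, h2⟩ := h.neg i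
  obtain ⟨a, ha, n, hn, u, hu, e, e1, e2, e3⟩ := h.stab.decomp (mem_cell_of_mem_U_neg hv h1) h2
  refine ⟨n, ?_, e2, hn⟩
  rw [show n = a⁻¹ * v * u⁻¹ by rw [e]; group]
  exact mul_mem (mul_mem (inv_mem (h.mem_Up ha e1)) (h.mem _ v hv h2))
    (inv_mem (h.mem_US (R.closed_invSet _) (fun _ h => h.1) hu e3))

theorem rep (w : R.W) : ∃ n ∈ M, σ n = n ∧ X.Rep n w := by
  induction w using R.W_induction with
  | one => exact ⟨1, one_mem _, map_one _, rep_one⟩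
  | step i w ih =>
    obtain ⟨n, h1, h2, h3⟩ := h.rep_s i
    obtain ⟨n', h1', h2', h3'⟩ := ih
    exact ⟨n * n', mul_mem h1 h1', by rw [map_mul, h2, h2'], h3.mul h3'⟩

theorem ne (r : Φ) : ∃ y ∈ X.U r, y ≠ 1 ∧ σ y = y := by
  obtain ⟨w, i, e⟩ := R.exists_smul_simple (R.neg r)
  obtain ⟨n, -, h2, h3⟩ := h.rep w
  obtain ⟨v, hv, h4, h5⟩ := h.neg i
  refine ⟨n * v * n⁻¹, ?_, by simpa using h4, by rw [map_mul, map_mul, map_inv, h2, h5]⟩
  have := h3.conj_U hv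
  rwa [R.smul_neg, ← e, R.neg_neg] at this

/-- fixed cosets of a parabolic subgroup are rational -/
theorem coset {J : Set I} {g : G} (hg : g ∈ X.grp) (hc : g⁻¹ * σ g ∈ X.PJ J) :
    ∃ k ∈ M, σ k = k ∧ k⁻¹ * g ∈ X.PJ J := by
  obtain ⟨w, b, hb, n', hn', b', hb', rfl⟩ := mem_grp_iff.1 hg
  obtain ⟨v, u, hu, hv, rfl⟩ := R.exists_minRep J w
  obtain ⟨n, h1, h2, h3⟩ := h.rep v
  have h4 : n⁻¹ * n' ∈ X.PJ J := (h3.inv.mul hn').mem_PJ (by simpa using hu)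
  obtain ⟨c, hc', a, ha, e⟩ := h3.inv.exists_normal_form
    (inv_mem_cell (mul_mem_cell hb h3.mem_cell))
  have h5 : c⁻¹ * (n⁻¹ * n') * b' ∈ X.PJ J :=
    mul_mem (mul_mem (inv_mem (B_le_PJ J hc')) h4) (B_le_PJ J hb')
  generalize hp : c⁻¹ * (n⁻¹ * n') * b' = p at h5
  have e2 : b * n' * b' = a⁻¹ * n * p := by
    rw [← hp, show b * n' * b' = (b * n)⁻¹⁻¹ * (n⁻¹ * n') * b' by group, e]; group
  rw [e2] at hc ⊢
  have h6 : a * σ a⁻¹ ∈ X.US (R.invSet v⁻¹) := mul_mem ha (h.stab.US (inv_mem ha))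
  have h7 : n⁻¹ * (a * σ a⁻¹) * n ∈ X.PJ J ⊓ X.Um := by
    refine ⟨?_, h3.conj_US' (fun r hr => hr.2) h6⟩
    have := mul_mem (mul_mem h5 hc) (inv_mem (stab_PJ h.stab h5))
    rw [map_mul, map_mul, h2] at this
    exact meq (H := X.PJ J) this
  rw [PJ_inf_Um] at h7
  have h8 := h3.conj_US (S' := {r | ¬ R.Pos r}) (fun r hr => by
    have := hr.1
    rwa [← hv.pos_iff hr.2] at this) h7
  have h9 : a * σ a⁻¹ = 1 := eq_one_of_mem_B_Um (Up_le_B (US_mono (fun _ h => h.1) h6))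
    (meq h8)
  have h10 : σ a⁻¹ = a⁻¹ := eq_inv_of_mul_eq_one_right h9
  refine ⟨a⁻¹ * n, mul_mem (h.mem_US (R.closed_invSet _) (fun _ h => h.1) (inv_mem ha) h10) h1,
    by rw [map_mul, h10, h2], meq h5⟩

variable (X σ) in
/-- commutes with the rational points of `U_J` -/
def Cn (J : Set I) (g : G) : Prop :=
  ∀ r, R.Pos r → ¬ R.InJ J r → ∀ y ∈ X.U r, σ y = y → g * y = y * g

theorem cn_comm {J : Set I} {g : G} (hg : Cn X σ J g) {y : G} (hy : y ∈ X.UJ J) (hσ : σ y = y) :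
    g * y = y * g :=
  (Subgroup.mem_centralizer_singleton_iff.1 ((iSup₂_le fun r hr v hv =>
    Subgroup.mem_centralizer_singleton_iff.2 (hg r hr.1 hr.2 v hv.1 hv.2).symm :
      ⨆ r ∈ {r | R.Pos r ∧ ¬ R.InJ J r}, X.U r ⊓ fxs σ ≤ Subgroup.centralizer {g})
    (h.stab.mem_iSup h.ab (R.closed_pos_not_inJ J) (fun _ h => h.1) hy hσ))).symm

theorem cn_conj {J : Set I} {g x : G} (hg : Cn X σ J g) (hx : x ∈ X.PJ J) (hσ : σ x = x) :
    Cn X σ J (x * g * x⁻¹) := fun r h1 h2 y hy hy' => by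
  have := h.cn_comm hg ((Subgroup.mem_normalizer_iff''.1 (PJ_le_normalizer J hx) y).1
    (U_le_US (S := {r | R.Pos r ∧ ¬ R.InJ J r}) ⟨h1, h2⟩ hy))
    (by rw [map_mul, map_mul, map_inv, hσ, hy'])
  calc x * g * x⁻¹ * y = x * (g * (x⁻¹ * y * x)) * x⁻¹ := by group
    _ = _ := by rw [this]; group

theorem cn_B {J : Set I} (hJ : ∃ i, i ∉ J) {g : G} (hg : g ∈ X.PJ J) (hc : Cn X σ J g) :
    g ∈ X.B := by
  obtain ⟨w, hw, hg'⟩ := mem_PJ_iff.1 hg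
  rw [← mem_cell_one, ← h.irr.eq_one hJ (w := w) fun r => ?_]
  · exact hg'
  induction r using (InvImage.wf R.neg R.ht_wf).induction with
  | _ r ih =>
    intro h1 h2
    obtain ⟨y, hy, hy1, hy2⟩ := h.ne r
    refine (smul_eq_or_lt hg' h1 hy hy1 ?_).elim id fun h3 => ?_
    · rw [hc r h1 h2 y hy hy2, mul_inv_cancel_right]
      exact U_le_US (S := {t | t = r ∨ _}) (Or.inl rfl) hy
    · simpa using ih _ (by simpa [InvImage, R.ht_neg] using h3.2) h3.1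
        fun h => h2 ((R.inJ_smul_iff hw).1 h)

theorem cn_Up {J : Set I} (hJ : ∃ i, i ∉ J) {g : G} (hg : g ∈ X.PJ J) (hc : Cn X σ J g) :
    g ∈ X.Up := by
  obtain ⟨u, hu, t, ht, rfl⟩ := mem_B.1 (h.cn_B hJ hg hc)
  have h1 : Cn X σ J t := fun r h1 h2 y hy hy' => by
    have h3 := hc r h1 h2 y hy hy'
    have h4 := h.ab.comm_mem_ht R.closed_pos (fun _ h => h) 1 (R.ht r)
      (US_mono (S' := {t | R.Pos t ∧ 1 ≤ R.ht t}) (fun t ht => ⟨ht, R.ht_pos ht⟩) (inv_mem hu))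
      (U_le_US (S := {t | R.Pos t ∧ R.ht r ≤ R.ht t}) ⟨h1, le_rfl⟩ hy)
    have h5 := eq_one_of_mem_U_US (S := {t | R.Pos t ∧ 1 + R.ht r ≤ R.ht t})
      (closed_of_upper (fun _ h => h.1) fun s h t h1 h2 => ⟨h1, by have := h.2; omega⟩)
      (fun _ h => h.1) h1 (by simp) (mul_mem (X.T_conj t ht r y hy) (inv_mem hy)) (by
        rwa [show t * y * t⁻¹ * y⁻¹ = u⁻¹ * y * u⁻¹⁻¹ * y⁻¹ by
          rw [show t * y * t⁻¹ = u⁻¹ * (u * t * y) * t⁻¹ by group, h3]; group])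
    rwa [mul_inv_eq_one, mul_inv_eq_iff_eq_mul] at h5
  have h3 : ∀ i, ∀ y ∈ X.U (R.simple i), σ y = y → t * y = y * t := fun i y hy hy' => by
    by_cases hi : i ∈ J
    · obtain ⟨n, -, hn1, hn⟩ := h.rep_s i
      have hnP : n ∈ X.PJ J := hn.mem_PJ (R.s_mem_WJ hi)
      have hyP : y ∈ X.PJ J := B_le_PJ J (U_le_B (R.pos_simple i) hy)
      have h4 := mul_mem (X.T_conj t ht _ y hy) (inv_mem hy)
      have h5 := hn.conj_U h4
      rw [RS.s_smul, R.sref_simple] at h5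
      have h7 : Cn X σ J (t * y * t⁻¹ * y⁻¹) := fun r a b z hz hz' => by
        have e1 := h1 r a b z hz hz'
        have e2 := h.cn_conj h1 hyP hy' r a b z hz hz'
        have e3 : Commute (y * t * y⁻¹)⁻¹ z := (show Commute _ _ from e2).inv_left
        have := ((show Commute t z from e1).mul_left e3).eq
        convert this using 1 <;> group
      have h6 := eq_one_of_mem_U_neg h5 (h.cn_B hJ (mul_mem (mul_mem hnP
        (B_le_PJ J (U_le_B (R.pos_simple i) h4))) (inv_mem hnP)) (h.cn_conj h7 hnP hn1))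
      simpa [mul_inv_eq_iff_eq_mul] using h6
    · exact h1 _ (R.pos_simple i) (fun h => hi (R.inJ_simple_iff.1 h)) y hy hy'
  rwa [h.faith t ht h3, mul_one]

theorem cn_UJ {J : Set I} (hJ : ∃ i, i ∉ J) {g : G} (hg : g ∈ X.PJ J) (hc : Cn X σ J g) :
    g ∈ X.UJ J := by
  obtain ⟨w, hw, h0⟩ := R.exists_w0J J
  obtain ⟨n, -, hn1, hn⟩ := h.rep w
  have hnP := hn.mem_PJ hw
  exact US_mono (S' := {r | R.Pos r ∧ ¬ R.InJ J r})
    (fun r hr => ⟨hr.1, fun hJ => h0 r hJ hr.1 hr.2⟩) (hn.mem_US_of_conj_mem_B (h.cn_Up hJ hg hc)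
    (Up_le_B (h.cn_Up hJ (mul_mem (mul_mem hnP hg) (inv_mem hnP)) (h.cn_conj hc hnP hn1))))

section H1

variable (hU : ∀ u ∈ M, u ∈ X.Up → σ u = u)
include hU

theorem c_mem_UJ {J : Set I} (hJ : ∃ i, i ∉ J) {g : G} (hM : g ∈ M) (hg : g ∈ X.PJ J) :
    g⁻¹ * σ g ∈ X.UJ J := by
  refine h.cn_UJ hJ (mul_mem (inv_mem hg) (stab_PJ h.stab hg)) fun r h1 h2 y hy hy' => ?_
  have h3 := hU _ (mul_mem (mul_mem hM (h.mem r y hy hy')) (inv_mem hM)) (UJ_le_Up J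
    ((Subgroup.mem_normalizer_iff.1 (PJ_le_normalizer J hg) y).1
      (U_le_US (S := {r | R.Pos r ∧ ¬ R.InJ J r}) ⟨h1, h2⟩ hy)))
  rw [map_mul, map_mul, map_inv, hy'] at h3
  exact commute_of_conj_eq h3.symm

theorem fix_B {g : G} (hM : g ∈ M) (hg : g ∈ X.B) : σ g = g := by
  have key : ∀ w : R.W, ∃ n, X.Rep n w ∧ ∃ g' ∈ M, g' ∈ X.B ∧
      g'⁻¹ * σ g' = n * (g⁻¹ * σ g) * n⁻¹ := by
    intro w
    induction w using R.W_induction with
    | one => exact ⟨1, rep_one, g, hM, hg, by simp⟩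
    | step i w ih =>
      obtain ⟨n, hn, g', h1, h2, h3⟩ := ih
      obtain ⟨m, hm1, hm2, hm⟩ := h.rep_s i
      have hJ : ∃ j, j ∉ ({i} : Set I) := h.rk i
      have hc := h.c_mem_UJ hU hJ h1 (B_le_PJ _ h2)
      have hUJ : X.UJ {i} = X.US {r | R.Pos r ∧ r ≠ R.simple i} := by
        simp only [UJ, R.pos_not_inJ_singleton]
      obtain ⟨u, hu, t, ht, rfl⟩ := mem_B.1 h2
      obtain ⟨v, hv, a, ha, -, rfl⟩ := exists_of_mem_US R.closed_pos (fun _ h => h) i hu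
      replace hv : v ∈ X.UJ {i} := by rw [hUJ]; exact hv
      have hN := fun x (hx : x ∈ X.PJ {i}) y (hy : y ∈ X.UJ {i}) =>
        (Subgroup.mem_normalizer_iff.1 (PJ_le_normalizer {i} hx) y).1 hy
      have haP : a ∈ X.PJ {i} := B_le_PJ _ (U_le_B (R.pos_simple i) ha)
      have h4 := hN t (B_le_PJ _ (T_le_B ht)) _ hc
      have h5 := (eq_of_mul_eq_mul_T (h.stab.US hu) (mul_mem hu (UJ_le_Up _ h4)) (h.stab.T t ht) ht
        (by rw [← map_mul]; group)).1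
      have h6 : a⁻¹ * σ a = 1 := by
        refine eq_one_of_mem_U_simple (mul_mem (inv_mem ha) (h.stab.U _ a ha))
          (S := {r | R.Pos r ∧ r ≠ R.simple i}) (fun _ h => h) ?_
        rw [← hUJ]
        have := mul_mem (hN _ (inv_mem haP) _ (mul_mem (inv_mem (h.stab.US hv)) hv)) h4
        convert this using 1
        rw [map_mul] at h5
        rw [show σ a = (σ v)⁻¹ * (σ v * σ a) by group, h5]; group
      replace h6 : σ a = a := (inv_mul_eq_one.1 h6).symm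
      have hmP : m ∈ X.PJ {i} := hm.mem_PJ (R.s_mem_WJ rfl)
      refine ⟨m * n, hm.mul hn, m * (a⁻¹ * (v * a * t)) * m⁻¹, mul_mem (mul_mem hm1
        (mul_mem (inv_mem (h.mem _ a ha h6)) h1)) (inv_mem hm1), ?_, ?_⟩
      · have := mul_mem (Up_le_B (UJ_le_Up _ (hN m hmP _ (hN _ (inv_mem haP) v hv))))
          (T_le_B (hm.conj_T ht))
        convert this using 1; group
      · rw [map_mul, map_mul, map_mul σ a⁻¹, map_inv, map_inv, hm2, h6,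
          show m * n * (g⁻¹ * σ g) * (m * n)⁻¹ = m * (n * (g⁻¹ * σ g) * n⁻¹) * m⁻¹ by group, ← h3]
        group
  obtain ⟨n, hn, g', h1, h2, h3⟩ := key R.w0
  have hJ : ∃ j, j ∉ (∅ : Set I) := h.nonempty.elim fun j => ⟨j, Set.notMem_empty j⟩
  have h4 := UJ_le_Up _ (h.c_mem_UJ hU hJ h1 (B_le_PJ _ h2))
  have h5 := conj_Up_w0 hn (UJ_le_Up _ (h.c_mem_UJ hU hJ hM (B_le_PJ _ hg)))
  rw [← h3] at h5
  have h6 := eq_one_of_mem_B_Um (Up_le_B h4) h5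
  rw [h3, conj_eq_one_iff, inv_mul_eq_one] at h6
  exact h6.symm

theorem fix_PJ {J : Set I} (hJ : ∃ i, i ∉ J) {g : G} (hM : g ∈ M) (hg : g ∈ X.PJ J) : σ g = g := by
  obtain ⟨k, h1, h2, h3⟩ := h.coset (J := ∅) (h.le hM)
    (B_le_PJ _ (Up_le_B (UJ_le_Up _ (h.c_mem_UJ hU hJ hM hg))))
  rw [PJ_empty] at h3
  have := h.fix_B hU (mul_mem (inv_mem h1) hM) h3
  rwa [map_mul, map_inv, h2, mul_right_inj] at this

omit hU in
/-- the rational Borel–Tits theorem -/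
theorem bt_rat {y : G} (hy : y ∈ X.Up) (hne : y ≠ 1) (hσ : σ y = y) :
    ∃ k ∈ M, σ k = k ∧ ∃ J : Set I, (∃ i, i ∉ J) ∧
      ∀ c ∈ X.grp, c * y = y * c → k⁻¹ * c * k ∈ X.PJ J := by
  obtain ⟨g, hg, J, hJ, S, h1, h2⟩ := bt hy hne
  have h3 := h2 (σ g * g⁻¹) (mul_mem (stab_grp h.stab hg) (inv_mem hg)) (meq (h.stab.US h1) (by
    rw [map_mul, map_mul, map_inv, hσ]; group))
  obtain ⟨k, h4, h5, h6⟩ := h.coset (J := J) (inv_mem hg) (meq (inv_mem h3) (by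
    rw [map_inv]; group))
  refine ⟨k, h4, h5, J, hJ, fun c hc e => ?_⟩
  have h7 := h2 (g * c * g⁻¹) (mul_mem (mul_mem hg hc) (inv_mem hg)) (meq h1 (by
    rw [show g * c * g⁻¹ * (g * y * g⁻¹) * (g * c * g⁻¹)⁻¹ = g * (c * y) * c⁻¹ * g⁻¹ by group, e]
    group))
  exact meq (mul_mem (mul_mem h6 h7) (inv_mem h6))

theorem fix_of_Up {y c : G} (hy : y ∈ X.Up) (hne : y ≠ 1) (hσ : σ y = y) (hc : c ∈ M)
    (e : c * y = y * c) : σ c = c := by
  obtain ⟨k, h1, h2, J, hJ, h3⟩ := h.bt_rat hy hne hσ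
  have := h.fix_PJ hU hJ (mul_mem (mul_mem (inv_mem h1) hc) h1) (h3 c (h.le hc) e)
  rwa [map_mul, map_mul, map_inv, h2, mul_left_inj, mul_right_inj] at this

theorem fix_all {a : G} (ha : a ∈ X.Up) (hne : a ≠ 1) (hσ : σ a = a)
    (hall : ∀ g ∈ M, σ (g * a * g⁻¹) = g * a * g⁻¹) {g : G} (hg : g ∈ M) : σ g = g := by
  obtain ⟨k, h1, h2, J, hJ, h3⟩ := h.bt_rat ha hne hσ
  have h4 := hall g hg
  rw [map_mul, map_mul, map_inv, hσ] at h4
  have h5 := h3 _ (mul_mem (inv_mem (h.le hg)) (stab_grp h.stab (h.le hg)))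
    (commute_of_conj_eq h4.symm)
  obtain ⟨k', h6, h7, h8⟩ := h.coset (J := J) (h.le (mul_mem hg h1)) (meq h5 (by
    rw [map_mul, h2]; group))
  have := h.fix_PJ hU hJ (mul_mem (inv_mem h6) (mul_mem hg h1)) h8
  rwa [map_mul, map_mul, map_inv, h2, h7, mul_right_inj, mul_left_inj] at this

theorem exists_conj_Up [Finite M] {p : ℕ} [Fact p.Prime] (hp : X.CharP p) {y : G} (hy : y ∈ M)
    (hσ : σ y = y) {n : ℕ} (hn : y ^ p ^ n = 1) : ∃ k ∈ M, σ k = k ∧ k * y * k⁻¹ ∈ X.Up := by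
  let L : Subgroup G := M ⊓ fxs σ
  have : Finite L := Finite.of_injective _ (Subgroup.inclusion_injective (inf_le_left : L ≤ M))
  let Q : Subgroup L := X.Up.subgroupOf L
  have hQ : IsPGroup p Q := hp.Up.comap_of_injective _ L.subtype_injective
  obtain ⟨P, hP⟩ := hQ.exists_le_sylow
  have h1 : (P : Subgroup L) = Q := by
    by_contra hne
    obtain ⟨g, hg, h3, h4⟩ := exists_lt_normalizer P.isPGroup' (lt_of_le_of_ne hP (Ne.symm hne))
    obtain ⟨m, hm⟩ := P.isPGroup' ⟨g, hg⟩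
    obtain ⟨w, hw⟩ := mem_grp_iff.1 (h.le g.2.1)
    have h5 : w = 1 := R.eq_one_of_pos fun i => by
      obtain ⟨z, hz, z1, z2⟩ := h.ne (R.simple i)
      exact pos_of_conj hw (R.pos_simple i) hz z1 ((Subgroup.mem_normalizer_iff.1 h3
        ⟨z, h.mem _ z hz z2, z2⟩).1 (U_le_Up (R.pos_simple i) hz))
    rw [h5, mem_cell_one] at hw
    exact h4 (hp.mem_Up hw (congrArg (fun x : P => ((x : L) : G)) hm))
  have hY : IsPGroup p (Subgroup.zpowers (⟨y, hy, hσ⟩ : L)) :=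
    IsPGroup.of_card (n := (Nat.card (Subgroup.zpowers (⟨y, hy, hσ⟩ : L))).factorization p) (by
      obtain ⟨k, -, hk⟩ := (Nat.dvd_prime_pow (Fact.out : p.Prime)).1
        (orderOf_dvd_of_pow_eq_one (show (⟨y, hy, hσ⟩ : L) ^ p ^ n = 1 from Subtype.ext hn))
      rw [Nat.card_zpowers, hk, Nat.Prime.factorization_pow Fact.out, Finsupp.single_eq_same])
  obtain ⟨P', hP'⟩ := hY.exists_le_sylow
  obtain ⟨g, rfl⟩ := MulAction.exists_smul_eq L P' P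
  have h6 : g * ⟨y, hy, hσ⟩ * g⁻¹ ∈ Q := by
    rw [← h1]
    exact Subgroup.mem_map_of_mem (MulAut.conj g).toMonoidHom (hP' (Subgroup.mem_zpowers _))
  exact ⟨g, g.2.1, g.2.2, h6⟩

/-- strong embedding -/
theorem se [Finite M] {p : ℕ} [Fact p.Prime] (hp : X.CharP p) {y c : G} (hy : y ∈ M) (hne : y ≠ 1)
    (hσ : σ y = y) {n : ℕ} (hn : y ^ p ^ n = 1) (hc : c ∈ M) (e : c * y = y * c) : σ c = c := by
  obtain ⟨k, h1, h2, h3⟩ := h.exists_conj_Up hU hp hy hσ hn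
  have := h.fix_of_Up hU h3 (by simpa using hne) (by rw [map_mul, map_mul, map_inv, h2, hσ])
    (mul_mem (mul_mem h1 hc) (inv_mem h1)) (by
      rw [show k * c * k⁻¹ * (k * y * k⁻¹) = k * (c * y) * k⁻¹ by group, e]; group)
  rwa [map_mul, map_mul, map_inv, h2, mul_left_inj, mul_right_inj] at this

end H1

end SU

end Cfsg.Agent.H7.Sf
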