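import Mathlib
import Cfsg.Agent.H7.Sf1

/-!
Finite overgroups of fixed points: the Sylow subgroup, and the two concluding arguments.
-/

set_option autoImplicit false
set_option linter.unusedSectionVars false

namespace Cfsg.Agent.H7.Sf

open Cfsg.Agent.H12 Cfsg.Agent.H12.RGD

theorem dihedral {G : Type*} [Group G] {b z : G} (hb : b * b = 1) (hz : z * z = 1)
    (hf : IsOfFinOrder (b * z)) : (∃ k : ℕ, (b * z) ^ k * b * ((b * z) ^ k)⁻¹ = z) ∨
      ∃ k : ℕ, (b * z) ^ k ≠ 1 ∧ ((b * z) ^ k) ^ 2 ^ 1 = 1 ∧ b * (b * z) ^ k = (b * z) ^ k * b ∧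
        (b * z) ^ k * z = z * (b * z) ^ k := by
  have hb' : b⁻¹ = b := inv_eq_of_mul_eq_one_right hb
  have hz' : z⁻¹ = z := inv_eq_of_mul_eq_one_right hz
  have h1 : ∀ k : ℕ, b * ((b * z) ^ k)⁻¹ = (b * z) ^ k * b := fun k => by
    have : b * (b * z)⁻¹ * b⁻¹ = b * z := by rw [mul_inv_rev, hb', hz']; simp [mul_assoc, hb]
    rw [← inv_pow, ← mul_inv_eq_iff_eq_mul, ← conj_pow, this]
  have h2 : ∀ k : ℕ, z * ((b * z) ^ k)⁻¹ = (b * z) ^ k * z := fun k => by
    have : z * (b * z)⁻¹ * z⁻¹ = b * z := by rw [mul_inv_rev, hb', hz', ← mul_assoc, hz, one_mul]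
    rw [← inv_pow, ← mul_inv_eq_iff_eq_mul, ← conj_pow, this]
  have h0 := hf.orderOf_pos
  have h3 := pow_orderOf_eq_one (b * z)
  obtain ⟨k, hk | hk⟩ := Nat.even_or_odd' (orderOf (b * z))
  · have h4 : (b * z) ^ k * (b * z) ^ k = 1 := by rw [← pow_add, ← two_mul, ← hk, h3]
    have h5 := inv_eq_of_mul_eq_one_right h4
    refine Or.inr ⟨k, pow_ne_one_of_lt_orderOf (by omega) (by omega), by rw [pow_one, sq, h4],
      by rw [← h1, h5], by rw [← h2, h5]⟩
  · refine Or.inl ⟨k, ?_⟩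
    rw [mul_assoc, h1, ← mul_assoc, ← pow_add, ← two_mul]
    rw [hk, pow_succ, ← mul_assoc, mul_eq_one_iff_eq_inv, hz'] at h3
    exact h3

variable {Φ I : Type*} [DecidableEq I] [Fintype I] [Finite Φ] {R : RS Φ I ℤ}
  {G : Type*} [Group G] {X : RGD R G} {σ : G →* G} {M : Subgroup G}

theorem fin_order [Finite M] {g : G} (hg : g ∈ M) : IsOfFinOrder g :=
  MonoidHom.isOfFinOrder M.subtype (isOfFinOrder_of_finite (⟨g, hg⟩ : M))

variable (X) in
/-- the root groups of height at least that of `γ`, other than `γ` -/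
def Ag (γ : Φ) : Subgroup G := X.US {t | R.Pos t ∧ t ≠ γ ∧ R.ht γ ≤ R.ht t}

theorem ht_add {r s γ : Φ} (h : R.α γ = R.α r + R.α s) : R.ht γ = R.ht r + R.ht s := by
  simp [RS.ht, h, Finset.sum_add_distrib]

theorem eq_one_of_mem_Ag {γ : Φ} (hγ : R.Pos γ) {x : G} (h1 : x ∈ X.U γ) (h2 : x ∈ Ag X γ) :
    x = 1 := by
  refine eq_one_of_mem_U_US ?_ (fun _ h => h.1) hγ (by simp) h1 h2
  intro a ha b hb u hu
  have h5 := R.ht_of_mem_itv ha.1 hb.1 hu
  have h6 := R.ht_pos ha.1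
  have h7 := hb.2.2
  refine ⟨R.closed_pos a ha.1 b hb.1 hu, ?_, by omega⟩
  rintro rfl; omega

theorem US_le_normalizer_Ag {γ : Φ} (hγ : R.Pos γ) :
    X.Up ≤ Subgroup.normalizer (Ag X γ : Set G) :=
  US_le.2 fun _ hr => U_le_normalizer_ht hγ hr

theorem comm_mem_Ag (hX : X.Ab) {r s γ : Φ} (hr : R.Pos r) (hs : R.Pos s)
    (h1 : R.ht γ ≤ R.ht r + R.ht s) (h2 : R.α γ ≠ R.α r + R.α s) {a b : G} (ha : a ∈ X.U r)
    (hb : b ∈ X.U s) : a * b * a⁻¹ * b⁻¹ ∈ Ag X γ := by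
  by_cases h : s = r
  · subst h; rw [hX s a ha b hb]; simp
  refine US_mono (fun t ht => ?_)
    (X.comm r s h (fun h' => R.pos_neg_iff.1 (h' ▸ hs) hr) a ha b hb)
  refine ⟨R.closed_pos r hr s hs ht, ?_, h1.trans (R.ht_of_mem_itv hr hs ht)⟩
  rintro rfl
  obtain ⟨p, q, hp, hq, e⟩ := ht
  have h3 : R.ht t = p * R.ht r + q * R.ht s := by
    simp only [RS.ht, e, Pi.add_apply, Pi.smul_apply, smul_eq_mul, Finset.sum_add_distrib,
      Finset.mul_sum]
  have h4 := R.ht_pos hr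
  have h5 := R.ht_pos hs
  have h6 : p = 1 := by nlinarith
  have h7 : q = 1 := by nlinarith
  exact h2 (by rw [e, h6, h7, one_smul, one_smul])

theorem comm_mem_Ag' (hX : X.Ab) {S S' : Set Φ} {γ : Φ} (hγ : R.Pos γ) (hS : ∀ r ∈ S, R.Pos r)
    (hS' : ∀ r ∈ S', R.Pos r)
    (h : ∀ r ∈ S, ∀ s ∈ S', R.ht γ ≤ R.ht r + R.ht s ∧ R.α γ ≠ R.α r + R.α s) {a b : G}
    (ha : a ∈ X.US S) (hb : b ∈ X.US S') : a * b * a⁻¹ * b⁻¹ ∈ Ag X γ := by
  refine comm_mem_of_iSup (fun s hs => U_le_normalizer_ht hγ (hS' s hs)) (fun s hs b hb => ?_) hb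
  exact meq (inv_mem (comm_mem_of_iSup (a := b) (fun r hr => U_le_normalizer_ht hγ (hS r hr))
    (fun r hr a ha => meq (inv_mem (comm_mem_Ag hX (hS r hr) (hS' s hs) (h r hr s hs).1
      (h r hr s hs).2 ha hb))) ha))

theorem cent (hX : X.Ab) (Z : Set Φ) (k : ℤ)
    (hdet : ∀ r, R.Pos r → R.ht r < k → ∀ x ∈ X.U r, x ≠ 1 →
      (r ∈ Z ∧ ∀ y ∈ X.Up, σ y = y → x * y = y * x) ∨ ∃ s γ, R.Pos s ∧ R.α γ = R.α r + R.α s ∧
        ∃ y ∈ X.U s, σ y = y ∧ x * y * x⁻¹ * y⁻¹ ∉ Ag X γ)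
    {c : G} (hc : c ∈ X.Up) (h : ∀ y ∈ X.Up, σ y = y → c * y = y * c) :
    c ∈ X.US {t | R.Pos t ∧ (t ∈ Z ∨ k ≤ R.ht t)} := by
  have key : ∀ (n : ℕ) (S : Set Φ), S.ncard = n → (∀ r ∈ S, R.Pos r) →
      (∀ r ∈ S, ∀ t, R.Pos t → R.ht r < R.ht t → t ∈ S) → ∀ c ∈ X.US S,
      (∀ y ∈ X.Up, σ y = y → c * y = y * c) → c ∈ X.US {t | R.Pos t ∧ (t ∈ Z ∨ k ≤ R.ht t)} := by
    intro n
    induction n using Nat.strong_induction_on with
    | _ n ih =>
      intro S hn hpos hup c hc h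
      rcases S.eq_empty_or_nonempty with rfl | hne
      · rw [US_empty, Subgroup.mem_bot] at hc; rw [hc]; exact one_mem _
      obtain ⟨r, hr, hmin⟩ := Set.exists_min_image S R.ht (Set.toFinite S) hne
      by_cases hk : k ≤ R.ht r
      · exact US_mono (S' := {t | R.Pos t ∧ (t ∈ Z ∨ k ≤ R.ht t)})
          (fun t ht => ⟨hpos t ht, Or.inr (hk.trans (hmin t ht))⟩) hc
      have hN : X.U r ≤ Subgroup.normalizer (X.US (S \ {r}) : Set G) :=
        U_le_normalizer (fun h => R.pos_neg_iff.1 (hpos _ h.1) (hpos r hr)) fun s hs _ t ht => by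
          have h1 := R.ht_of_mem_itv (hpos r hr) (hpos s hs.1) ht
          have h2 := R.ht_pos (hpos s hs.1)
          refine ⟨hup r hr t (R.closed_pos r (hpos r hr) s (hpos s hs.1) ht) (by omega), ?_⟩
          rintro rfl; omega
      rw [US_eq_sup_diff hr, mem_sup_of_le_normalizer' hN] at hc
      obtain ⟨x, hx, d, hd, rfl⟩ := hc
      have ih' := ih _ (hn ▸ Set.ncard_sdiff_singleton_lt_of_mem hr) (S \ {r}) rfl
        (fun s hs => hpos s hs.1) (fun s hs t h1 h2 => ⟨hup s hs.1 t h1 h2, by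
          rintro rfl; have := hmin s hs.1; omega⟩) d hd
      by_cases h1 : x = 1
      · subst h1; rw [one_mul] at h ⊢; exact ih' h
      rcases hdet r (hpos r hr) (not_le.1 hk) x hx h1 with ⟨h2, h3⟩ | ⟨s, γ, h2, h3, y, hy, h4, h5⟩
      · refine mul_mem (U_le_US (S := {t | R.Pos t ∧ (t ∈ Z ∨ k ≤ R.ht t)})
          ⟨hpos r hr, Or.inl h2⟩ hx) (ih' fun y hy hy' => ?_)
        have := h y hy hy'
        rwa [← mul_assoc, ← h3 y hy hy', mul_assoc, mul_assoc, mul_right_inj] at this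
      · exfalso
        have hγ : R.Pos γ := by
          change 0 ≤ R.α γ
          rw [h3]; exact add_nonneg (hpos r hr) h2
        have h6 := comm_mem_Ag' hX hγ (fun t ht => hpos t ht.1) (S' := {s})
          (fun t ht => ht ▸ h2) (fun t ht s' hs' => by
            rw [Set.mem_singleton_iff.1 hs', ht_add h3, h3]
            exact ⟨by have := hmin t ht.1; omega, fun e => ht.2 (R.inj (add_right_cancel e)).symm⟩)
          hd (US_singleton (X := X) s ▸ hy)
        refine h5 (meq (inv_mem ((Subgroup.mem_normalizer_iff.1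
          (US_le_normalizer_Ag hγ (U_le_Up (hpos r hr) hx)) _).1 h6)) ?_)
        have e := h y (U_le_Up h2 hy) h4
        rw [show x * (d * y * d⁻¹ * y⁻¹) * x⁻¹ = x * d * y * d⁻¹ * y⁻¹ * x⁻¹ by group, e]; group
  exact key _ _ rfl (fun _ h => h) (fun _ _ _ h _ => h) c hc h

theorem split (hX : X.Ab) (hσ : X.Stab σ) {S : Set Φ} (hS : R.Closed S) (hpos : ∀ r ∈ S, R.Pos r)
    {u : G} (hu : u ∈ X.Up) (hc : u⁻¹ * σ u ∈ X.US S) :
    ∃ a ∈ X.Up, σ a = a ∧ a⁻¹ * u ∈ X.US S := by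
  classical
  let L₁ := ({r | R.Pos r} \ S).toFinite.toFinset.toList
  let L₂ := S.toFinite.toFinset.toList
  have m1 : ∀ r, r ∈ L₁ ↔ R.Pos r ∧ r ∉ S := fun r => by simp [L₁]
  have m2 : ∀ r, r ∈ L₂ ↔ r ∈ S := fun r => by simp [L₂]
  have hL : (L₁ ++ L₂).Nodup := List.nodup_append.2 ⟨Finset.nodup_toList _, Finset.nodup_toList _,
    fun a ha b hb e => ((m1 a).1 ha).2 (e ▸ (m2 b).1 hb)⟩
  have e1 : {r | r ∈ L₁ ++ L₂} = {r | R.Pos r} := Set.ext fun r => by
    simp only [Set.mem_ofPred_eq, List.mem_append, m1, m2]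
    exact ⟨fun h => h.elim (fun h => h.1) (hpos r), fun h => by tauto⟩
  have e2 : {r | r ∈ L₂} = S := Set.ext m2
  have hp : ∀ r ∈ L₁ ++ L₂, R.Pos r := fun r hr => e1.le hr
  obtain ⟨f, hf, rfl⟩ := hX.exists_prod hL (by rw [e1]; exact R.closed_pos) hp (g := u)
    (by rw [e1]; exact hu)
  have h1 : (L₂.map f).prod ∈ X.US S := list_prod_mem fun x hx => by
    obtain ⟨r, hr, rfl⟩ := List.mem_map.1 hx
    exact U_le_US ((m2 r).1 hr) (hf r)
  obtain ⟨f', hf', h2⟩ := hX.exists_prod (L := L₂) (Finset.nodup_toList _) (by rw [e2]; exact hS)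
    (fun r hr => hpos r ((m2 r).1 hr)) (by rw [e2]; exact mul_mem h1 hc)
  have h3 : ((L₁ ++ L₂).map fun r => σ (f r)).prod =
      ((L₁ ++ L₂).map fun r => if r ∈ S then f' r else f r).prod := by
    rw [List.map_append (f := fun r => if r ∈ S then f' r else f r), List.prod_append,
      List.map_congr_left (l := L₁) (g := f) (fun r hr => if_neg ((m1 r).1 hr).2),
      List.map_congr_left (l := L₂) (g := f') (fun r hr => if_pos ((m2 r).1 hr)), ← h2,
      map_list_prod, List.map_map, List.map_append (f := f), List.prod_append]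
    simp only [Function.comp_def]; group
  refine ⟨(L₁.map f).prod, list_prod_mem fun x hx => ?_, ?_, ?_⟩
  · obtain ⟨r, hr, rfl⟩ := List.mem_map.1 hx
    exact U_le_Up ((m1 r).1 hr).1 (hf r)
  · rw [map_list_prod, List.map_map]
    refine congrArg List.prod (List.map_congr_left fun r hr => ?_)
    have := prod_unique hL hp (fun r _ => hσ.U r _ (hf r))
      (fun r _ => by split_ifs; exacts [hf' r, hf r]) h3 (List.mem_append_left _ hr)
    rwa [if_neg ((m1 r).1 hr).2] at this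
  · rw [List.map_append, List.prod_append, inv_mul_cancel_left]; exact h1

section Top

variable {θ : Φ} (hθ : ∀ r, r ≠ θ → R.ht r < R.ht θ)
include hθ

theorem top_pos : R.Pos θ := by
  have := hθ _ (R.neg_ne θ)
  rw [R.ht_neg] at this
  exact R.pos_iff_ht.2 (by omega)

theorem top_le (r : Φ) : R.ht r ≤ R.ht θ := by
  by_cases h : r = θ
  · rw [h]
  · exact (hθ r h).le

theorem top_cor {r : Φ} (hr : R.Pos r) :
    r = θ ∨ R.cor θ (R.α r) = 0 ∨ R.cor θ (R.α r) = 1 := by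
  refine (eq_or_ne r θ).imp_right fun h => ?_
  have h1 : R.ht (R.rrefl θ • r) = R.ht r - R.cor θ (R.α r) * R.ht θ := by
    simp only [RS.ht, R.α_rrefl, Pi.sub_apply, Pi.smul_apply, smul_eq_mul, Finset.sum_sub_distrib,
      Finset.mul_sum]
  have h2 := top_le hθ (R.rrefl θ • r)
  have h3 := top_le hθ (R.neg (R.rrefl θ • r))
  have h4 := hθ r h
  have h5 := R.ht_pos hr
  rw [R.ht_neg] at h3
  have h6 : -1 < R.cor θ (R.α r) := by nlinarith
  have h7 : R.cor θ (R.α r) < 2 := by nlinarith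
  omega

theorem top_norm {b a : G} (hb : b ∈ X.B) (ha : a ∈ X.U θ) : b * a * b⁻¹ ∈ X.U θ := by
  have := (Subgroup.mem_normalizer_iff.1 (B_le_normalizer_ht' (top_pos hθ) hb) a).1
    (U_le_US (S := {t | t = θ ∨ _}) (Or.inl rfl) ha)
  rw [← US_singleton]
  exact US_mono (fun t ht => ht.elim id fun h => absurd h.2 (top_le hθ t).not_gt) this

theorem top_comm (hX : X.Ab) {u a : G} (hu : u ∈ X.Up) (ha : a ∈ X.U θ) : u * a = a * u := by
  have h4 := hX.comm_mem_ht R.closed_pos (fun _ h => h) 1 (R.ht θ)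
    (US_mono (S' := {t | R.Pos t ∧ 1 ≤ R.ht t}) (fun t ht => ⟨ht, R.ht_pos ht⟩) hu)
    (U_le_US (S := {t | R.Pos t ∧ R.ht θ ≤ R.ht t}) ⟨top_pos hθ, le_rfl⟩ ha)
  rw [show {t | t ∈ {r | R.Pos r} ∧ 1 + R.ht θ ≤ R.ht t} = ∅ from
    Set.eq_empty_of_forall_notMem fun t ht => by have := top_le hθ t; have := ht.2; omega,
    US_empty, Subgroup.mem_bot, mul_inv_eq_one, mul_inv_eq_iff_eq_mul] at h4
  exact h4

end Top

theorem comm_of_itv {r s : Φ} (h1 : s ≠ r) (h2 : s ≠ R.neg r) (h : ∀ t, t ∉ R.itv r s) {a b : G}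
    (ha : a ∈ X.U r) (hb : b ∈ X.U s) : a * b = b * a := by
  have := X.comm r s h1 h2 a ha b hb
  rw [Set.eq_empty_of_forall_notMem h] at this
  simpa [mul_inv_eq_iff_eq_mul] using this

namespace SU

variable (h : SU X σ M) [Finite M]
include h

theorem fix_Up {p : ℕ} [Fact p.Prime] (hp : X.CharP p) {S : Set Φ} (hS : R.Closed S)
    (hpos : ∀ r ∈ S, R.Pos r)
    (hc : ∀ c ∈ X.Up, (∀ y ∈ X.Up, σ y = y → c * y = y * c) → c ∈ X.US S)
    (top : ∀ u ∈ M, u ∈ X.US S → σ u = u) : ∀ u ∈ M, u ∈ X.Up → σ u = u := by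
  let P : Subgroup M := X.Up.subgroupOf M
  let Q : Subgroup M := (X.Up ⊓ fxs σ).subgroupOf M
  have hP : IsPGroup p P := hp.Up.comap_of_injective _ M.subtype_injective
  by_contra hne
  have hlt : Q < P := lt_of_le_of_ne (fun x hx => hx.1) fun e => hne fun u hu hu' =>
    (show (⟨u, hu⟩ : M) ∈ Q from e ▸ hu').2
  obtain ⟨⟨g, hgM⟩, hg, h1, h2⟩ := exists_lt_normalizer hP hlt
  replace hg : g ∈ X.Up := hg
  obtain ⟨a, ha, h3, h4⟩ := split h.ab h.stab hS hpos hg (hc _ (mul_mem (inv_mem hg)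
    (h.stab.US hg)) fun y hy hy' => by
      have h5 : σ (g * y * g⁻¹) = g * y * g⁻¹ :=
        ((Subgroup.mem_normalizer_iff.1 h1 ⟨y, h.mem_Up hy hy'⟩).1 ⟨hy, hy'⟩).2
      rw [map_mul, map_mul, map_inv, hy'] at h5
      exact commute_of_conj_eq h5.symm)
  have h5 := top _ (mul_mem (inv_mem (h.mem_Up ha h3)) hgM) h4
  rw [map_mul, map_inv, h3, mul_right_inj] at h5
  exact h2 ⟨hg, h5⟩

variable (hU : ∀ u ∈ M, u ∈ X.Up → σ u = u)
include hU

theorem two (hp : X.CharP 2) {a z : G} (ha : a ∈ X.Up) (hz : z ∈ X.Up) (a1 : a ≠ 1) (z1 : z ≠ 1)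
    (aσ : σ a = a) (zσ : σ z = z) (a2 : a * a = 1) (z2 : z * z = 1)
    (hnc : ∀ g ∈ X.grp, g * a * g⁻¹ ≠ z) {g : G} (hg : g ∈ M) : σ g = g := by
  refine h.fix_all hU ha a1 aσ (fun g hg => ?_) hg
  have hb := mul_mem (mul_mem hg (h.mem_Up ha aσ)) (inv_mem hg)
  have hbz := mul_mem hb (h.mem_Up hz zσ)
  rcases dihedral (b := g * a * g⁻¹) (by rw [conj_mul, a2]; group) z2 (fin_order hbz) with
    ⟨k, hk⟩ | ⟨k, h1, h2, h3, h4⟩
  · exact absurd (Eq.trans (by generalize (g * a * g⁻¹ * z) ^ k = d; group) hk)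
      (hnc _ (h.le (mul_mem (pow_mem hbz k) hg)))
  · exact h.se hU hp (pow_mem hbz k) h1 (h.fix_of_Up hU hz z1 zσ (pow_mem hbz k) h4) h2 hb h3

theorem odd {p : ℕ} [Fact p.Prime] (hp : X.CharP p) {θ : Φ} (hθ : ∀ r, r ≠ θ → R.ht r < R.ht θ)
    (hs : ∃ s, R.Pos s ∧ R.cor θ (R.α s) = 0)
    (hι : ∀ a ∈ X.U θ, a ≠ 1 → ∀ b ∈ X.U (R.neg θ), b ≠ 1 → IsOfFinOrder (a * b) →
      ∃ ι ∈ Subgroup.closure {a, b}, ι ∈ X.T ∧ ι * a = a * ι ∧ ∀ r, R.Pos r →
        R.cor θ (R.α r) = 1 → ∀ x ∈ X.U r, ι * x = x * ι → x = 1)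
    {g : G} (hg : g ∈ M) : σ g = g := by
  obtain ⟨a, ha, a1, aσ⟩ := h.ne θ
  have haU := U_le_Up (top_pos hθ) ha
  have haM := h.mem θ a ha aσ
  refine h.fix_all hU haU a1 aσ (fun g hg => ?_) hg
  have hx := mul_mem (mul_mem hg haM) (inv_mem hg)
  obtain ⟨w, b, hb, n, hn, b', hb', e⟩ := mem_grp_iff.1 (h.le hg)
  obtain ⟨u, hu, t, ht, rfl⟩ := mem_B.1 hb
  have h1 := X.T_conj t ht _ _ (hn.conj_U (top_norm hθ hb' ha))
  generalize hc : t * (n * (b' * a * b'⁻¹) * n⁻¹) * t⁻¹ = c at h1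
  have c1 : c ≠ 1 := by rw [← hc]; simpa using a1
  have e1 : g * a * g⁻¹ = u * c * u⁻¹ := by rw [e, ← hc]; group
  have e2 : u * a * u⁻¹ = a := by rw [top_comm hθ h.ab hu ha, mul_inv_cancel_right]
  rw [e1] at hx ⊢
  by_cases hw : w • θ = R.neg θ
  · rw [hw] at h1
    obtain ⟨ι, h2, h3, h4, h5⟩ := hι a ha a1 c h1 c1 (by
      have := fin_order (mul_mem haM hx)
      rwa [show a * (u * c * u⁻¹) = u * (a * c) * u⁻¹ by conv_lhs => rw [← e2]
                                                         group,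
        ← MulAut.conj_apply, ← MulEquiv.coe_toMonoidHom,
        (MulAut.conj u).injective.isOfFinOrder_iff] at this)
    have h6 : u * ι * u⁻¹ ∈ M :=
      (Subgroup.closure_le (M.comap (MulAut.conj u).toMonoidHom)).2 (by
        rintro _ (rfl | rfl)
        exacts [meq (H := M) haM e2, hx]) h2
    have h7 := h.fix_of_Up hU haU a1 aσ h6 (by
      conv_lhs => rw [← e2]
      conv_rhs => rw [← e2]
      rw [conj_mul, conj_mul, h4])
    have h8 : ∀ v ∈ X.Up, v * ι * v⁻¹ * ι⁻¹ ∈ X.Up := fun v hv =>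
      meq (mul_mem hv (T_conj_US h3 (inv_mem hv)))
    have h9 := (eq_of_mul_eq_mul_T (h.stab.US (h8 u hu)) (h8 u hu) (h.stab.T ι h3) h3 (by
      rw [← map_mul, inv_mul_cancel_right, h7])).2
    rw [map_mul, map_mul, map_inv, h9] at h7
    have h10 := commute_of_conj_eq h7.symm
    let S : Set Φ := {r | R.Pos r ∧ Even (R.cor θ (R.α r))}
    have hS : R.Closed S := fun r hr s hs t ht => ⟨R.closed_pos r hr.1 s hs.1 ht, by
      obtain ⟨p, q, -, -, e⟩ := ht
      rw [e, map_add, map_smul, map_smul]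
      exact (hr.2.mul_left p).add (hs.2.mul_left q)⟩
    have h11 : u⁻¹ * σ u ∈ X.US S := by
      refine (iSup₂_le fun r hr x hx => ?_ : _ ≤ X.US S) ((stab_conj h3 fun s hs =>
        mul_mem (mul_mem h3 hs) (inv_mem h3)).mem_iSup h.ab R.closed_pos (fun _ h => h)
        (mul_mem (inv_mem hu) (h.stab.US hu)) (by
          rw [MulEquiv.coe_toMonoidHom, MulAut.conj_apply, ← h10, mul_inv_cancel_right]))
      by_cases hr' : R.cor θ (R.α r) = 1
      · rw [h5 r hr hr' x hx.1 (mul_inv_eq_iff_eq_mul.1 hx.2)]; exact one_mem _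
      · refine U_le_US (S := S) ⟨hr, ?_⟩ hx.1
        rcases top_cor hθ hr with rfl | h' | h'
        exacts [by rw [R.cor_self]; exact even_two, by rw [h']; exact Even.zero, absurd h' hr']
    obtain ⟨v, hv, vσ, h12⟩ := split h.ab h.stab hS (fun _ h => h.1) hu h11
    obtain ⟨s, hs, hmax⟩ := Set.exists_max_image {s | R.Pos s ∧ R.cor θ (R.α s) = 0} R.ht
      (Set.toFinite _) hs
    obtain ⟨y, hy, y1, yσ⟩ := h.ne s
    have h13 : (v⁻¹ * u) * y = y * (v⁻¹ * u) := Subgroup.mem_centralizer_singleton_iff.1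
      (US_le (H := Subgroup.centralizer {y}).2 (fun r hr x hx =>
        Subgroup.mem_centralizer_singleton_iff.2 (by
          by_cases hrs : s = r
          · exact h.ab s x (hrs ▸ hx) y hy
          refine comm_of_itv hrs (fun e => R.pos_neg_iff.1 (e ▸ hs.1) hr.1) (fun t ht => ?_) hx hy
          have h14 := R.ht_of_mem_itv hr.1 hs.1 ht
          have h15 := R.ht_pos hr.1
          have h16 := R.ht_pos hs.1
          rcases top_cor hθ hr.1 with rfl | h' | h'
          · have := top_le hθ t; omega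
          · have := hmax t ⟨R.closed_pos r hr.1 s hs.1 ht, by
              obtain ⟨p, q, -, -, e⟩ := ht
              rw [e, map_add, map_smul, map_smul, h', hs.2]; simp⟩
            omega
          · have := hr.2; rw [h'] at this; exact absurd this (by decide))) h12)
    have h14 : c * y = y * c := by
      refine comm_of_itv (fun e => R.pos_neg_iff.1 (e ▸ hs.1) (top_pos hθ)) (fun e => ?_)
        (fun t ht => ?_) h1 hy
      · have := hs.2
        rw [e, R.neg_neg, R.cor_self] at this; omega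
      · obtain ⟨p, q, hp, hq, e⟩ := ht
        have h15 : R.cor θ (R.α t) = -2 * p := by
          rw [e, map_add, map_smul, map_smul, R.α_neg, map_neg, R.cor_self, hs.2]; simp; ring
        by_cases ht : R.Pos t
        · rcases top_cor hθ ht with rfl | h' | h'
          · rw [R.cor_self] at h15; omega
          all_goals omega
        · have h16 : R.cor θ (R.α (R.neg t)) = 2 * p := by rw [R.α_neg, map_neg, h15]; ring
          rcases top_cor hθ (R.pos_neg_iff.2 ht) with h' | h' | h'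
          · rw [h', R.cor_self] at h16
            rw [R.neg_eq_iff.1 h', show p = 1 by omega, one_smul, left_eq_add,
              smul_eq_zero] at e
            exact e.elim hq.ne' (R.α_ne_zero s)
          all_goals omega
    have hvM := h.mem_Up hv vσ
    have h15 := h.fix_of_Up hU (U_le_Up hs.1 hy) y1 yσ (mul_mem (mul_mem (inv_mem hvM) hx) hvM) (by
      have := (((show Commute _ y from h13).mul_left (show Commute c y from h14)).mul_left
        (show Commute _ y from h13).inv_left).eq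
      convert this using 2 <;> group)
    rwa [map_mul, map_mul _ v⁻¹, map_inv, vσ, mul_left_inj, mul_right_inj] at h15
  · obtain ⟨w', h2, h3⟩ := H13.exists_smul_pos_pos R hw
    obtain ⟨m, hm⟩ := exists_rep (X := X) w'
    let H : Subgroup G := Subgroup.closure {a, u * c * u⁻¹}
    have hH : H ≤ M := (Subgroup.closure_le _).2 (by rintro _ (rfl | rfl); exacts [haM, hx])
    have : Finite H := Finite.of_injective _ (Subgroup.inclusion_injective hH)
    have hH' : H ≤ X.Up.comap (MulAut.conj (m * u⁻¹)).toMonoidHom :=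
      (Subgroup.closure_le _).2 (by
        rintro _ (rfl | rfl)
        · exact meq (H := X.Up) (U_le_Up h2 (hm.conj_U ha)) (by
            conv_lhs => rw [← e2]
            simp [mul_assoc])
        · exact meq (H := X.Up) (U_le_Up h3 (hm.conj_U h1)) (by simp [mul_assoc]))
    have hP : IsPGroup p H :=
      (hp.Up.comap_of_injective _ (MulAut.conj (m * u⁻¹)).injective).to_le hH'
    have a0 : a ∈ H := Subgroup.subset_closure (Or.inl rfl)
    have : Nontrivial H := ⟨⟨a, a0⟩, 1, fun e => a1 (congrArg Subtype.val e)⟩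
    have := hP.center_nontrivial
    obtain ⟨y, y1⟩ := exists_ne (1 : Subgroup.center H)
    obtain ⟨k, hk⟩ := hP y
    have hy := Subgroup.mem_center_iff.1 y.2
    refine h.se hU hp (hH y.1.2) (fun e => y1 (Subtype.ext (Subtype.ext e)))
      (h.fix_of_Up hU haU a1 aσ (hH y.1.2) (congrArg Subtype.val (hy ⟨a, a0⟩)).symm)
      (congrArg Subtype.val hk) hx
      (congrArg Subtype.val (hy ⟨_, Subgroup.subset_closure (Or.inr rfl)⟩))

end SU

end Cfsg.Agent.H7.Sf
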