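import Mathlib
import Cfsg.Agent.H7.Sf2
import Cfsg.Agent.H10.SL2Gen
import Cfsg.Agent.H12.St2

/-!
Two transvections whose product has finite order generate the central involution; a criterion
for non-conjugacy to root elements.
-/

set_option autoImplicit false
set_option linter.unusedSectionVars false

namespace Cfsg.Agent.H7.Sf

open Cfsg.Agent.H12 Cfsg.Agent.H12.RGD H19.St Matrix
open scoped MatrixGroups

/-- inclusion of a subfield followed by a diagonal automorphism -/
def tw₀ {K : Type*} [Field K] (F : Subfield K) {u : K} (hu : u ≠ 0) (g : SL(2, F)) : SL(2, K) :=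
  ⟨!![(g.1 0 0 : K), g.1 0 1 / u; g.1 1 0 * u, g.1 1 1], by
    have := congrArg Subtype.val (sl_det g)
    push_cast at this
    rw [det_fin_two_of, ← this]; field_simp⟩

theorem tw₀_val {K : Type*} [Field K] (F : Subfield K) {u : K} (hu : u ≠ 0) (g : SL(2, F)) :
    (tw₀ F hu g).1 = !![(g.1 0 0 : K), g.1 0 1 / u; g.1 1 0 * u, g.1 1 1] := rfl

/-- inclusion of a subfield followed by a diagonal automorphism -/
def tw {K : Type*} [Field K] (F : Subfield K) {u : K} (hu : u ≠ 0) : SL(2, F) →* SL(2, K) :=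
  MonoidHom.mk' (tw₀ F hu) fun a b => by
    apply sl_ext <;> simp only [H19.St.mul_apply, tw₀_val] <;> simp <;> field_simp

theorem tw_val {K : Type*} [Field K] (F : Subfield K) {u : K} (hu : u ≠ 0) (g : SL(2, F)) :
    (tw F hu g).1 = !![(g.1 0 0 : K), g.1 0 1 / u; g.1 1 0 * u, g.1 1 1] := rfl

theorem neg_one_mem_SL {K : Type*} [Field K] {p : ℕ} [Fact p.Prime] [CharP K p] (hp : p ≠ 2)
    {t u : K} (ht : t ≠ 0) (hu : u ≠ 0) (hf : IsOfFinOrder (xx t * yy u : SL(2, K))) :
    (-1 : SL(2, K)) ∈ Subgroup.closure {xx t, yy u} := by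
  letI := ZMod.algebra K p
  obtain ⟨n, hn, e⟩ := isOfFinOrder_iff_pow_eq_one.1 hf
  have h1 : IsIntegral (ZMod p) (t * u) := by
    obtain ⟨n, rfl⟩ := Nat.exists_eq_succ_of_ne_zero hn.ne'
    let f : SL(2, K) →* Matrix (Fin 2) (Fin 2) K := SpecialLinearGroup.coeMonoidHom
    have h2 : IsIntegral (ZMod p) (f (xx t * yy u)) :=
      IsIntegral.of_pow hn (by rw [← map_pow, e, map_one]; exact isIntegral_one)
    have h3 := Algebra.self_mem_adjoin_singleton (ZMod p) (f (xx t * yy u))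
    have h4 := IsIntegral.of_mem_of_fg _ h2.fg_adjoin_singleton _ (add_mem h3 (pow_mem h3 n))
    rw [← map_pow, eq_inv_of_mul_eq_one_left ((pow_succ _ n).symm.trans e), _root_.mul_inv_rev, ← rel_SL.x_neg, ← rel_SL.y_neg,
      map_mul, map_mul, show f (xx t) * f (yy u) + f (yy (-u)) * f (xx (-t)) =
        algebraMap K _ (2 + t * u) by
      change !![1, t; 0, 1] * !![1, 0; u, 1] + !![1, 0; -u, 1] * !![1, -t; 0, 1] = _
      ext i j
      fin_cases i <;> fin_cases j <;> simp [algebraMap_matrix_apply] <;> ring,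
      isIntegral_algebraMap_iff (FaithfulSMul.algebraMap_injective _ _)] at h4
    simpa [one_add_one_eq_two] using h4.sub (isIntegral_one.add isIntegral_one)
  let F := Subfield.closure {t * u}
  have : Finite F := by
    have := IntermediateField.adjoin.finiteDimensional h1
    have := Module.finite_of_finite (ZMod p) (M := IntermediateField.adjoin (ZMod p) {t * u})
    exact Finite.of_injective _ (Subfield.inclusion (show F ≤ (IntermediateField.adjoin (ZMod p)
      {t * u}).toSubfield from Subfield.closure_le.2 (IntermediateField.subset_adjoin _ _))).injective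
  let l : F := ⟨t * u, Subfield.subset_closure rfl⟩
  have hl : Subfield.closure {l} = ⊤ := eq_top_iff.2 fun x _ => by
    obtain ⟨y, hy, e⟩ := (show F = (Subfield.closure {l}).map F.subtype by
      rw [RingHom.map_field_closure, Set.image_singleton]; rfl).le x.2
    rwa [← Subtype.ext e]
  have h2 : (2 : F) ≠ 0 := fun h => hp ((Nat.prime_dvd_prime_iff_eq Fact.out Nat.prime_two).1
    ((CharP.cast_eq_zero_iff F p 2).1 h))
  have h3 : (-1 : SL(2, F)) ∈ Subgroup.closure (H10.genSet l) := by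
    rcases H10.closure_genSet_cases hp (fun h => mul_ne_zero ht hu (congrArg Subtype.val h)) hl
      with h | h
    · rw [h]; trivial
    · exact H10.neg_one_mem_of_even h2 (by rw [h.2.2.1]; norm_num)
  have h4 := (Subgroup.closure_le ((Subgroup.closure {xx t, yy u}).comap (tw F hu))).2 (by
    rintro g (hg | hg)
    · exact Subgroup.subset_closure (Or.inr (by apply sl_ext <;> simp [tw_val, hg]))
    · exact Subgroup.subset_closure (Or.inl (by apply sl_ext <;> simp [tw_val, hg, l, hu]))) h3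
  exact meq (H := Subgroup.closure _) h4 (by apply sl_ext <;> simp [tw_val])

variable {Φ I : Type*} [DecidableEq I] [Fintype I] [Finite Φ] {R : RS Φ I ℤ}
  {G : Type*} [Group G]

theorem h_mem_closure {C : CD R} {K : Type*} [Field K] {p : ℕ} [Fact p.Prime] [CharP K p]
    (hp : p ≠ 2) {S : StSys C K G} (hS : S.NC) (hM : S.NM) (h3 : S.R3) (r : Φ) {t u : K}
    (ht : t ≠ 0) (hu : u ≠ 0) (hf : IsOfFinOrder (S.x r t * S.x (R.neg r) u)) :
    S.h r (-1) ∈ Subgroup.closure {S.x r t, S.x (R.neg r) u} := by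
  obtain ⟨φ, -, h1, h2⟩ := hS.exists_sl2 r (h3 r)
  have h4 := ker_le_center φ fun a b e => by
    by_contra hc
    push Not at hc
    rw [h1, h2] at e
    have h5 := hS.n_conj_self r (neg_ne_zero.2 (inv_ne_zero hc.2)) a
    have h6 : Commute (S.x r (-b⁻¹)) (S.x r a) := S.x_mul_comm _ _ _
    rw [StSys.n, inv_neg, inv_inv, neg_neg, ((h6.mul_left (show Commute (S.x (R.neg r) b) _ from
      e.symm)).mul_left h6).eq, mul_inv_cancel_right] at h5
    exact hc.1 ((StSys.x_eq_one_iff hS hM).1 (eq_one_of_mem_U_U (X := StSys.rgd hS hM)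
      (R.neg_ne r).symm (S.x_mem_U _ _) (h5 ▸ S.x_mem_U _ _)))
  obtain ⟨n, hn, e⟩ := isOfFinOrder_iff_pow_eq_one.1 hf
  have h5 := neg_one_mem_SL hp ht hu (isOfFinOrder_iff_pow_eq_one.2 ⟨n * 2, by omega, by
    rcases mem_center_iff.1 (h4 (show (xx t * yy u) ^ n ∈ φ.ker by
      rw [MonoidHom.mem_ker, map_pow, map_mul, h1, h2, e])) with h | h <;> simp [pow_mul, h]⟩)
  have h6 := Subgroup.mem_map_of_mem φ h5
  rw [MonoidHom.map_closure, Set.image_pair, h1, h2] at h6
  refine meq h6 ?_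
  rw [show (-1 : SL(2, K)) = hh xx yy (-1) from Subtype.ext (by
    rw [coe_hh (neg_ne_zero.2 one_ne_zero), SpecialLinearGroup.coe_neg]
    ext i j; fin_cases i <;> fin_cases j <;> simp), ← StSys.hh_eq]
  simp [hh, ww, h1, h2]

variable {X : RGD R G}

theorem B_le_normalizer_Ag {γ : Φ} (hγ : R.Pos γ) : X.B ≤ Subgroup.normalizer (Ag X γ : Set G) :=
  sup_le (US_le_normalizer_Ag hγ) (T_le_normalizer_US _)

theorem nonconj {θ : Φ} (hθ : ∀ r, r ≠ θ → R.ht r < R.ht θ) {a z : G} (ha : a ∈ X.U θ)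
    (hz : z ∈ X.Up) (h : ∀ w : R.W, ∃ i, w • θ ≠ R.simple i ∧ z ∉ Ag X (R.simple i)) :
    ∀ g ∈ X.grp, g * a * g⁻¹ ≠ z := by
  rintro g hg rfl
  obtain ⟨w, b, hb, n, hn, b', hb', rfl⟩ := mem_grp_iff.1 hg
  obtain ⟨i, h1, h2⟩ := h w
  have h3 := hn.conj_U (top_norm hθ hb' ha)
  refine h2 (meq ((Subgroup.mem_normalizer_iff.1 (B_le_normalizer_Ag (R.pos_simple i) hb)
    (n * (b' * a * b'⁻¹) * n⁻¹)).1 ?_))
  by_cases hw : R.Pos (w • θ)
  · exact U_le_US (S := {t | R.Pos t ∧ t ≠ _ ∧ _}) ⟨hw, h1, R.ht_simple i ▸ R.ht_pos hw⟩ h3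
  · rw [eq_one_of_mem_B_Um (Up_le_B (meq ((Subgroup.mem_normalizer_iff''.1
      (B_le_normalizer_Up hb) _).1 hz))) (U_le_US (S := {r | ¬ R.Pos r}) hw h3)]
    exact one_mem _

end Cfsg.Agent.H7.Sf
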