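import Mathlib
import Cfsg.Agent.H7.Sf3
import Cfsg.Agent.H12.Nrm
import Cfsg.Agent.H12.Aut1
import Cfsg.Agent.H12.Inv2
import Cfsg.Agent.H12.Tb

/-!
Finite subgroups of a Chevalley group that contain all `x_r(1)`.
-/

set_option autoImplicit false
set_option linter.unusedSectionVars false

namespace Cfsg.Agent.H7.Sf

open Cfsg.Lie Cfsg.Agent.H12 Cfsg.Agent.H12.RGD

theorem exists_mul_eq {K : Type*} [Field K] {A : Set K} (hA : A.Finite) {t : K} (ht : t ≠ 0)
    (h : ∀ u ∈ A, t * u ∈ A) {v : K} (hv : v ∈ A) : ∃ u ∈ A, t * u = v :=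
  ((hA.injOn_iff_bijOn_of_mapsTo (f := (t * ·)) h).1 (mul_right_injective₀ ht).injOn).surjOn hv

theorem exists_pow_iff {K : Type*} [Field K] (p : ℕ) [Fact p.Prime] [CharP K p] (A : Subring K)
    (hA : (A : Set K).Finite) : ∃ n, 0 < n ∧ ∀ t, t ∈ A ↔ t ^ p ^ n = t := by
  let F : Subfield K := { A with
    inv_mem' := fun t ht => by
      by_cases h : t = 0
      · rw [h, inv_zero]; exact A.zero_mem
      obtain ⟨u, hu, e⟩ := exists_mul_eq hA h (fun u hu => A.mul_mem ht hu) A.one_mem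
      rwa [← eq_inv_of_mul_eq_one_right e] }
  have : Finite F := hA
  have := Fintype.ofFinite F
  obtain ⟨n, -, hn⟩ := FiniteField.card F p
  refine ⟨n, n.2, fun t => ⟨fun ht => ?_, fun ht => ?_⟩⟩
  · rw [← hn]; exact congrArg Subtype.val (FiniteField.pow_card (⟨t, ht⟩ : F))
  · refine Polynomial.Splits.mem_subfield_of_isRoot F
      (f := Polynomial.X ^ Fintype.card F - Polynomial.X) (Polynomial.splits_iff_card_roots.2 ?_)
      (FiniteField.X_pow_card_sub_X_ne_zero F Fintype.one_lt_card) (by simp [hn, ht])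
    rw [FiniteField.roots_X_pow_card_sub_X,
      FiniteField.X_pow_card_sub_X_natDegree_eq F Fintype.one_lt_card]; rfl

section St

variable {Φ I : Type*} [DecidableEq I] [Fintype I] [Finite Φ] {R : RS Φ I ℤ} {C : CD R}
  {K : Type*} [Field K] {G : Type*} [Group G] {S : StSys C K G} (hS : S.NC) (hM : S.NM)
  {M : Subgroup G}

theorem x_sign {r : Φ} {e : ℤ} (he : e = 1 ∨ e = -1) {t : K} : S.x r (e * t) ∈ M ↔ S.x r t ∈ M := by
  rcases he with rfl | rfl <;> simp [S.x_neg]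

include hS in
theorem x_smul (h1 : ∀ r, S.x r 1 ∈ M) (w : R.W) {r : Φ} {t : K} :
    S.x (w • r) t ∈ M ↔ S.x r t ∈ M := by
  induction w using R.W_induction generalizing t with
  | one => rw [one_smul]
  | step i w ih =>
    have h2 : S.n (R.simple i) 1 ∈ M :=
      mul_mem (mul_mem (h1 _) (by rw [inv_one, S.x_neg]; exact inv_mem (h1 _))) (h1 _)
    rw [mul_smul, RS.s_smul, ← x_sign (C.eta_sign i (w • r)), ← hS.m_conj_x, ← ih,
      mul_mem_cancel_right (inv_mem h2), mul_mem_cancel_left h2]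

theorem det_of_terms {r s γ : Φ} {c : ℤ} (hr : R.Pos r) (hs : R.Pos s) (h : s ≠ r)
    (hc : (γ, c, 1, 1) ∈ C.terms r s) (hc' : (c : K) ≠ 0) {t : K} (ht : t ≠ 0) :
    S.x r t * S.x s 1 * (S.x r t)⁻¹ * (S.x s 1)⁻¹ ∉ Ag (StSys.rgd hS hM) γ := by
  intro h1
  have hγ : R.α γ = R.α r + R.α s := by simpa using (C.vec r s _ hc).1
  have h2 := S.comm r s h (fun e => R.pos_neg_iff.1 (e ▸ hs) hr) (-t) (-1)
  have hn := C.nodup r s
  have hv := C.vec r s
  obtain ⟨L₁, L₂, e⟩ := List.append_of_mem hc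
  rw [e] at h2 hn hv
  have key : ∀ L : List (Φ × ℤ × ℕ × ℕ), (∀ d ∈ L, d ∈ L₁ ++ (γ, c, 1, 1) :: L₂ ∧ d.2.2 ≠ (1, 1)) →
      (L.map fun c => S.x c.1 ((c.2.1 : K) * (- -t) ^ c.2.2.1 * (-1) ^ c.2.2.2)).prod ∈
        Ag (StSys.rgd hS hM) γ := fun L hL => list_prod_mem fun y hy => by
    obtain ⟨⟨δ, d, i, j⟩, hd, rfl⟩ := List.mem_map.1 hy
    obtain ⟨h3, h4, h5⟩ := hv _ (hL _ hd).1
    have h6 : R.ht δ = i * R.ht r + j * R.ht s := by
      simp only [RS.ht, show R.α δ = _ from h3, Pi.add_apply, Pi.smul_apply, smul_eq_mul,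
        Finset.sum_add_distrib, Finset.mul_sum]
    have h7 := R.ht_pos hr
    have h8 := R.ht_pos hs
    have h9 : R.ht γ < R.ht δ := by
      have : ¬ (i = 1 ∧ j = 1) := fun h => (hL _ hd).2 (Prod.ext h.1 h.2)
      have h10 : (1 : ℤ) ≤ i := by exact_mod_cast h4
      have h11 : (1 : ℤ) ≤ j := by exact_mod_cast h5
      rw [h6, ht_add hγ]
      rcases (show (2 : ℤ) ≤ i ∨ (2 : ℤ) ≤ j by omega) with h | h <;> nlinarith
    exact U_le_US (X := StSys.rgd hS hM) (S := {t | R.Pos t ∧ t ≠ γ ∧ R.ht γ ≤ R.ht t})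
      ⟨R.pos_iff_ht.2 (by rw [ht_add hγ] at h9; omega), by rintro rfl; omega, h9.le⟩
      (S.x_mem_U _ _)
  simp only [List.map_append, List.map_cons, List.nodup_append, List.nodup_cons, List.mem_map,
    List.mem_cons] at hn
  have k1 := key L₁ fun d hd => ⟨by simp [hd], hn.2.2 _ ⟨d, hd, rfl⟩ _ (Or.inl rfl)⟩
  have k2 := key L₂ fun d hd => ⟨by simp [hd], fun e => hn.2.1.1 ⟨d, hd, e⟩⟩
  rw [List.map_append, List.map_cons, List.prod_append, List.prod_cons, S.x_neg, S.x_neg] at h2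
  have h3 := eq_one_of_mem_Ag (X := StSys.rgd hS hM) (by
    change 0 ≤ R.α γ
    rw [hγ]; exact add_nonneg hr hs) (S.x_mem_U γ (c * (- -t) ^ 1 * (-1) ^ 1))
    (meq (mul_mem (mul_mem (inv_mem k1) (inv_mem h1)) (inv_mem k2)) (by
      rw [show (S.x r t * S.x s 1 * (S.x r t)⁻¹ * (S.x s 1)⁻¹)⁻¹ =
        S.x s 1 * S.x r t * ((S.x s 1)⁻¹ * (S.x r t)⁻¹) by group, h2]; group))
  simp [StSys.x_eq_one_iff hS hM, hc', ht] at h3

end St

/-- the combinatorial facts, in characteristic `p`, for the highest root `θ`, the highest short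
root `θs`, and the second root `ζ` in the centre of `U` -/
noncomputable def datChk (X : Tab) (p θ θs ζ : ℕ) (ok : List ℤ) : Bool :=
  (allLt X.n fun r => decide (r = θ) || decide (r = θs) || anyLt X.l fun i => decide (r < X.refl i r)) &&
  (decide (θs = θ) || (decide (X.len θs ≠ X.len θ) && decide (X.pairing θ θs = 1))) &&
  (allLt X.n fun r => decide (r = θ) || decide (X.ht r < X.ht θ)) &&
  (anyLt X.n fun s => decide (X.pairing θ s = 0) && decide (0 < X.ht s)) &&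
  decide (X.ht θ < 2 * X.ht ζ) &&
  (decide (ζ = θ) || allLt X.n fun s => decide (X.ht s ≤ 0) || X.commutes p ζ s) &&
  (allLt X.n fun r => decide (X.ht r ≤ 0) || decide (r = θ) || decide (r = ζ) ||
    anyLt X.n fun s => (X.chainRoot r s 1).isSome && decide (X.chainM r s 1 ∈ ok) &&
      decide (0 < X.ht s) && decide (s ≠ r)) &&
  ((anyLt X.l fun i => anyLt i fun j => X.commutes 0 (X.simple i) (X.simple j)) ||
    anyLt X.l fun i => decide (X.len (X.simple i) ≠ X.len θ))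

variable {D : ChevalleyDatum} [Good D] {K : Type*} [Field K] {M : Subgroup (GL D.Idx K)}

variable (D) in
/-- the two orbits of the Weyl group -/
def Orb2 (θ θs : Fin D.nroots) : Prop :=
  (∀ r, ∃ w : (rsOf D).W, w • θ = r ∨ w • θs = r) ∧
    (θs = θ ∨ rlen D θs ≠ rlen D θ ∧ D.pairing θ θs = 1)

theorem orb2_of_chk {p : ℕ} {θ θs : Fin D.nroots} {ζ : ℕ} {ok : List ℤ}
    (h : datChk (tb D) p θ θs ζ ok = true) : Orb2 D θ θs := by
  simp only [datChk, Bool.and_eq_true, Bool.or_eq_true, decide_eq_true_eq, allLt_iff,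
    anyLt_iff] at h
  obtain ⟨⟨⟨⟨⟨⟨⟨h1, h2⟩, -⟩, -⟩, -⟩, -⟩, -⟩, -⟩ := h
  refine ⟨fun r => ?_, h2.imp Fin.ext fun h => ⟨h.1, tb_pairing (D := D) θ θs ▸ h.2⟩⟩
  refine down_induction (p := fun r => ∀ hr : r < D.nroots, ∃ w : (rsOf D).W,
    w • θ = ⟨r, hr⟩ ∨ w • θs = ⟨r, hr⟩) (fun r hr ih _ => ?_) r.2 r.2
  rcases h1 r hr with (h | h) | ⟨i, hi, h⟩
  · exact ⟨1, Or.inl (by rw [one_smul]; exact Fin.ext h.symm)⟩
  · exact ⟨1, Or.inr (by rw [one_smul]; exact Fin.ext h.symm)⟩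
  · obtain ⟨w, hw⟩ := ih _ h (refl_lt hi hr) (refl_lt hi hr)
    refine ⟨(rsOf D).s ⟨i, hi⟩ * w, hw.imp ?_ ?_⟩ <;>
    · intro e
      rw [mul_smul, e, RS.s_smul]
      exact Fin.ext (refl_refl hi hr)

theorem Orb2.mem_iff {θ θs : Fin D.nroots} (h : Orb2 D θ θs) (h1 : ∀ r, (chevSt D K).x r 1 ∈ M)
    {r s : ℕ} (hr : r < D.nroots) (hs : s < D.nroots) (e : (tb D).len r = (tb D).len s) {t : K} :
    xN (chevSt D K) r t ∈ M ↔ xN (chevSt D K) s t ∈ M := by
  obtain ⟨w, hw⟩ := h.1 ⟨r, hr⟩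
  obtain ⟨v, hv⟩ := h.1 ⟨s, hs⟩
  have e' : rlen D (⟨r, hr⟩ : Fin D.nroots) = rlen D (⟨s, hs⟩ : Fin D.nroots) := e
  rw [xN_lt _ hr, xN_lt _ hs]
  rcases hw with hw | hw <;> rcases hv with hv | hv <;>
    rw [← hw, ← hv, rlen_smul, rlen_smul] at e' <;>
    rw [← hw, ← hv, x_smul chevNC h1, x_smul chevNC h1]
  · rw [h.2.resolve_right fun h => h.1 e'.symm]
  · rw [h.2.resolve_right fun h => h.1 e']

theorem finite_A [Finite M] (r : Fin D.nroots) : {t : K | (chevSt D K).x r t ∈ M}.Finite :=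
  (Set.toFinite (M : Set (GL D.Idx K))).preimage (StSys.x_injective chevNC chevNM r).injOn

theorem chev_main [Finite M] {p : ℕ} [Fact p.Prime] [CharP K p] {θ θs ζ : Fin D.nroots}
    {p' : ℕ} {ok : List ℤ} (h : datChk (tb D) p' θ θs ζ ok = true) (hp' : (p' : K) = 0)
    (hok : ∀ c ∈ ok, (c : K) ≠ 0) (hM : M ≤ D.group K) (h1 : ∀ r, (chevSt D K).x r 1 ∈ M)
    (hmul : ∀ t u, (chevSt D K).x θ t ∈ M → (chevSt D K).x θ u ∈ M → (chevSt D K).x θ (t * u) ∈ M)
    (htop : ∀ t s, (chevSt D K).x ζ t * (chevSt D K).x θ s ∈ M →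
      ζ = θ ∨ (chevSt D K).x θ (t ^ p) ∈ M ∧ (chevSt D K).x θ s ∈ M) :
    ∃ n, 0 < n ∧ (∀ r t, t ^ p ^ n = t → (chevSt D K).x r t ∈ M) ∧
      ∀ g ∈ M, Matrix.GeneralLinearGroup.map (iterateFrobenius K p n) g = g := by
  have hO := orb2_of_chk h
  simp only [datChk, Bool.and_eq_true, Bool.or_eq_true, decide_eq_true_eq, allLt_iff,
    anyLt_iff] at h
  obtain ⟨⟨⟨⟨⟨⟨-, h3⟩, h4⟩, h5⟩, h6⟩, h7⟩, h8⟩ := h
  set S := chevSt D K
  let A : Subring K :=
    { carrier := {t | S.x θ t ∈ M}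
      mul_mem' := hmul _ _
      one_mem' := h1 θ
      add_mem' := fun ha hb => meq (mul_mem ha hb) (S.add _ _ _)
      zero_mem' := meq (one_mem M) (S.x_zero _)
      neg_mem' := fun ha => meq (inv_mem ha) (S.x_neg _ _) }
  obtain ⟨n, hn, hA⟩ := exists_pow_iff p A (finite_A θ)
  replace hA : ∀ t, S.x θ t ∈ M ↔ t ^ p ^ n = t := hA
  have hx : ∀ r t, t ^ p ^ n = t → S.x r t ∈ M := fun r t ht => by
    obtain ⟨w, rfl | rfl⟩ := hO.1 r
    · exact (x_smul chevNC h1 w).2 ((hA t).2 ht)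
    rw [x_smul chevNC h1]
    rcases hO.2 with rfl | ⟨-, h⟩
    · exact (hA t).2 ht
    by_cases h0 : t = 0
    · rw [h0, S.x_zero]; exact one_mem _
    have hn : ∀ t, t ^ p ^ n = t → S.n θ t ∈ M := fun t ht =>
      mul_mem (mul_mem ((hA t).2 ht) (by
        rw [← (rsOf D).rrefl_self, x_smul chevNC h1, S.x_neg]
        exact inv_mem ((hA _).2 (by rw [inv_pow, ht])))) ((hA t).2 ht)
    have h2 : S.h θ t ∈ M := S.h_eq θ t ▸ mul_mem (hn t ht) (inv_mem (hn 1 (one_pow _)))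
    have := mul_mem (mul_mem h2 (h1 θs)) (inv_mem h2)
    rwa [chevNC.h_conj_x θ θs h0, cor_α, h, zpow_one, mul_one] at this
  refine ⟨n, hn, hx, ?_⟩
  set σ := Matrix.GeneralLinearGroup.map (n := D.Idx) (iterateFrobenius K p n)
  have hσ : ∀ r t, σ (S.x r t) = S.x r (t ^ p ^ n) := fun r t => map_x _ r t
  have hσ1 : ∀ r, σ (S.x r 1) = S.x r 1 := fun r => by rw [hσ, one_pow]
  have hne : ∀ r, S.x r 1 ≠ 1 := fun r e => one_ne_zero ((StSys.x_eq_one_iff chevNC chevNM).1 e)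
  have hSU : SU (chevRGD D K) σ M :=
    { irr := rsOf_irred
      rk := fun i => have := Fin.nontrivial_iff_two_le.2 (two_le_rank (D := D)); exists_ne i
      nonempty := inferInstance
      ab := chev_ab
      stab := chev_stab_map _
      le := group_eq (D := D) (F := K) ▸ hM
      mem := fun r u hu e => by
        obtain ⟨t, rfl⟩ := S.mem_U.1 hu
        exact hx r t (StSys.x_injective chevNC chevNM r ((hσ r t).symm.trans e))
      neg := fun i => ⟨_, S.x_mem_U _ 1, hne _, hσ1 _⟩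
      faith := fun t ht h => eq_one_of_commute ht fun i => h i _ (S.x_mem_U _ 1) (hσ1 _) }
  have hθ : ∀ r, r ≠ θ → (rsOf D).ht r < (rsOf D).ht θ := fun r hr => by
    rw [ht_eq, ht_eq]; exact (h3 r r.2).resolve_left fun e => hr (Fin.ext e)
  rw [← ht_eq, ← ht_eq] at h5
  have hθp := (rsOf D).ht_pos (top_pos hθ)
  have hζ := top_le hθ ζ
  have hζp : (rsOf D).Pos ζ := (rsOf D).pos_iff_ht.2 (by omega)
  have hZ : ∀ r ∈ ({ζ, θ} : Set (Fin D.nroots)), (rsOf D).Pos r ∧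
      (rsOf D).ht ζ ≤ (rsOf D).ht r := by
    rintro r (rfl | rfl)
    exacts [⟨hζp, le_rfl⟩, ⟨top_pos hθ, hζ⟩]
  have hU := hSU.fix_Up (chev_charP p) (S := {ζ, θ}) (fun a ha b hb t ht => by
      have := (rsOf D).ht_of_mem_itv (hZ a ha).1 (hZ b hb).1 ht
      have := top_le hθ t
      have := (hZ a ha).2
      have := (hZ b hb).2
      omega) (fun r hr => (hZ r hr).1) (fun c hc hc' => US_mono (by
      rintro t ⟨-, h | h⟩
      exacts [h, absurd (top_le hθ t) (by omega)]) (cent chev_ab {ζ, θ} ((rsOf D).ht θ + 1)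
      (fun r hr _ x hx x1 => by
        by_cases e : r = θ
        · exact Or.inl ⟨Or.inr e, fun y hy _ => (top_comm hθ chev_ab hy (e ▸ hx)).symm⟩
        obtain ⟨t, rfl⟩ := S.mem_U.1 hx
        have hr' := (rsOf D).ht_pos hr
        rcases h7 r r.2 with ((h | h) | h) | ⟨s, hs, ⟨⟨a1, a2⟩, a3⟩, a4⟩
        · rw [← ht_eq] at h; omega
        · exact absurd (Fin.ext h) e
        · obtain rfl : r = ζ := Fin.ext h
          refine Or.inl ⟨Or.inl rfl, fun y hy _ => (Subgroup.mem_centralizer_singleton_iff.1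
            ((US_le (H := Subgroup.centralizer {S.x r t})).2 (fun s hs => S.U_le.2 fun u =>
              Subgroup.mem_centralizer_singleton_iff.2 ?_) hy)).symm⟩
          have := commute_of_commutes S hp' (((h6.resolve_left fun h => e (Fin.ext h)) s
            s.2).resolve_left (by rw [← ht_eq]; exact ((rsOf D).ht_pos hs).not_ge)) t u
          rw [xN_fin, xN_fin] at this
          exact this.symm
        · obtain ⟨k, hk⟩ := Option.isSome_iff_exists.1 a1
          have hs' : (rsOf D).Pos ⟨s, hs⟩ := (rsOf D).pos_iff_ht.2 (by rw [ht_eq]; exact a3)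
          have hc : ((⟨k, (chainRoot_spec r.2 hs (k := 0) hk).1⟩, D.chainM r s 1, 1, 1) :
              Fin D.nroots × ℤ × ℕ × ℕ) ∈ (cdOf D).terms r ⟨s, hs⟩ := by
            refine List.mem_map.2 ⟨_, mem_commTerms_of_chainRoot (Or.inl rfl) hk, ?_⟩
            exact Prod.ext (Fin.ext (finR_val _ (chainRoot_spec r.2 hs (k := 0) hk).1)) rfl
          exact Or.inr ⟨⟨s, hs⟩, _, hs', by simpa using ((cdOf D).vec _ _ _ hc).1, _,
            S.x_mem_U _ 1, hσ1 _, det_of_terms chevNC chevNM hr hs' (fun e => a4 (congrArg Fin.val e))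
              hc (hok _ a2) fun e => x1 (by rw [e, S.x_zero])⟩) hc hc')) (fun u hu hu' => by
      have hN : (chevRGD D K).U ζ ≤ Subgroup.normalizer ((chevRGD D K).U θ : Set _) :=
        fun b hb => Subgroup.mem_normalizer_iff.2 fun a => ⟨top_norm hθ (U_le_B hζp hb), fun h =>
          meq (top_norm hθ (inv_mem (U_le_B hζp hb)) h)⟩
      rw [Set.insert_eq, US_union, US_singleton, US_singleton, sup_comm,
        mem_sup_of_le_normalizer' hN] at hu'
      obtain ⟨a, ha, b, hb, rfl⟩ := hu'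
      obtain ⟨t, rfl⟩ := S.mem_U.1 ha
      obtain ⟨s, rfl⟩ := S.mem_U.1 hb
      rcases htop t s hu with rfl | ⟨a1, a2⟩
      · rw [← S.add] at hu ⊢
        rw [hσ, (hA _).1 hu]
      · rw [map_mul, hσ, hσ, (hA _).1 a2, frobenius_inj K p (a₁ := t ^ p ^ n) (a₂ := t) (by
          rw [frobenius_def, frobenius_def, ← pow_mul, mul_comm, pow_mul, (hA _).1 a1])])
  intro g hg
  by_cases hp : p = 2
  · subst hp
    have h2 : ∀ r, S.x r 1 * S.x r 1 = 1 := fun r => by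
      rw [← S.add, CharTwo.add_self_eq_zero, S.x_zero]
    have hAg : ∀ i, S.x ((rsOf D).simple i) 1 ∉ Ag (chevRGD D K) ((rsOf D).simple i) :=
      fun i h => hne _ (eq_one_of_mem_Ag ((rsOf D).pos_simple i) (S.x_mem_U _ _) h)
    have hUp : ∀ i, S.x ((rsOf D).simple i) 1 ∈ (chevRGD D K).Up := fun i =>
      U_le_Up ((rsOf D).pos_simple i) (S.x_mem_U _ _)
    rcases h8 with ⟨i, hi, j, hj, h⟩ | ⟨i, hi, h⟩
    · lift i to Fin D.rank using hi
      lift j to Fin D.rank using hj.trans i.2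
      have hij : (rsOf D).simple i ≠ (rsOf D).simple j := fun e =>
        hj.ne' (congrArg Fin.val ((rsOf D).simple_injective e))
      have hc : Commute (S.x ((rsOf D).simple i) 1) (S.x ((rsOf D).simple j) 1) := by
        have := commute_of_commutes S (p := 0) Nat.cast_zero h 1 1
        rwa [← xN_fin, ← xN_fin]
      have hm : ∀ i j, (rsOf D).simple i ≠ (rsOf D).simple j →
          S.x ((rsOf D).simple i) 1 ∈ Ag (chevRGD D K) ((rsOf D).simple j) := fun i j e =>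
        U_le_US (X := chevRGD D K) (S := {t | _ ∧ t ≠ _ ∧ _}) ⟨(rsOf D).pos_simple i, e,
          by rw [RS.ht_simple, RS.ht_simple]⟩ (S.x_mem_U _ _)
      have a1 := fun h => hAg i ((mul_mem_cancel_right (hm j i hij.symm)).1 h)
      refine hSU.two hU (chev_charP 2) (U_le_Up (top_pos hθ) (S.x_mem_U θ 1))
        (mul_mem (hUp i) (hUp j)) (hne _) (fun e => a1 (e ▸ one_mem _)) (hσ1 _)
        (by rw [map_mul, hσ1, hσ1]) (h2 _) (by rw [hc.symm.mul_mul_mul_comm, h2, h2, one_mul])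
        (nonconj hθ (S.x_mem_U θ 1) (mul_mem (hUp i) (hUp j)) fun w => ?_) hg
      by_cases e : w • θ = (rsOf D).simple i
      · exact ⟨j, e ▸ hij, fun h => hAg j ((mul_mem_cancel_left (hm i j hij)).1 h)⟩
      · exact ⟨i, e, a1⟩
    · exact hSU.two hU (chev_charP 2) (U_le_Up (top_pos hθ) (S.x_mem_U θ 1)) (hUp ⟨i, hi⟩)
        (hne _) (hne _) (hσ1 _) (hσ1 _) (h2 _) (h2 _) (nonconj hθ (S.x_mem_U θ 1) (hUp ⟨i, hi⟩)
          fun w => ⟨_, fun e => h (by
            have := rlen_smul w θ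
            rwa [e] at this), hAg _⟩) hg
  · obtain ⟨s, hs, a1, a2⟩ := h4
    refine hSU.odd hU (chev_charP p) hθ ⟨⟨s, hs⟩, (rsOf D).pos_iff_ht.2 (by rw [ht_eq]; exact a2),
      by rw [cor_α, ← tb_pairing]; exact a1⟩ (fun a ha a1 b hb b1 hf => ?_) hg
    obtain ⟨t, rfl⟩ := S.mem_U.1 ha
    obtain ⟨u, rfl⟩ := S.mem_U.1 hb
    have hc := chevNC.h_conj_x (S := S) θ (t := -1)
    refine ⟨_, h_mem_closure hp chevNC chevNM chevSt_r3 θ (fun e => a1 (by rw [e, S.x_zero]))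
      (fun e => b1 (by rw [e, S.x_zero])) hf, S.h_mem_H _ (by simp), ?_, fun r _ hr x hx e => ?_⟩
    · rw [← mul_inv_eq_iff_eq_mul, hc θ (by simp), RS.cor_self]; simp
    · obtain ⟨v, rfl⟩ := S.mem_U.1 hx
      rw [← mul_inv_eq_iff_eq_mul, hc r (by simp), hr] at e
      have := StSys.x_injective chevNC chevNM r e
      rw [zpow_one, neg_one_mul, neg_eq_iff_add_eq_zero, ← two_mul, mul_eq_zero] at this
      rw [this.resolve_left (fun h => hp ((Nat.prime_dvd_prime_iff_eq Fact.out Nat.prime_two).1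
        ((CharP.cast_eq_zero_iff K p 2).1 h))), S.x_zero]

end Cfsg.Agent.H7.Sf
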