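import Mathlib
import Cfsg.Agent.H7.Sf4

/-!
Finite subgroups of a Chevalley group that contain all `x_r(1)`: the seven types.
-/

set_option autoImplicit false
set_option linter.unusedSectionVars false
set_option maxRecDepth 100000

namespace Cfsg.Agent.H7.Sf

open Cfsg.Lie Cfsg.Agent.H12 Cfsg.Agent.H12.RGD

variable {D : ChevalleyDatum} [Good D] {K : Type*} [Field K] {M : Subgroup (GL D.Idx K)}

theorem xN_neg (r : ℕ) (t : K) : xN (chevSt D K) r (-t) = (xN (chevSt D K) r t)⁻¹ :=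
  eq_inv_of_mul_eq_one_left (by rw [← xN_add, neg_add_cancel, xN_zero])

theorem comm_eq {X : Tab} (hX : tb D = X) {r s : ℕ} {L : List (ℕ × ℤ × ℕ × ℕ)}
    (h : r < X.n ∧ s < X.n ∧ s ≠ r ∧ s ≠ X.neg r ∧ X.commTerms r s = L) (t u : K) :
    (xN (chevSt D K) s u)⁻¹ * xN (chevSt D K) r t * xN (chevSt D K) s u *
      (xN (chevSt D K) r t)⁻¹ = evT (chevSt D K) t u L := by
  subst hX
  have := xN_comm (chevSt D K) h.1 h.2.1 h.2.2.1 h.2.2.2.1 (-t) u
  rw [show D.commTerms r s = L from h.2.2.2.2, neg_neg, xN_neg] at this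
  rw [mul_assoc, this, evT]; group

theorem comm_mem {X : Tab} (hX : tb D = X) {r s : ℕ} {L : List (ℕ × ℤ × ℕ × ℕ)}
    (h : r < X.n ∧ s < X.n ∧ s ≠ r ∧ s ≠ X.neg r ∧ X.commTerms r s = L) {t u : K}
    (ht : xN (chevSt D K) r t ∈ M) (hu : xN (chevSt D K) s u ∈ M) :
    evT (chevSt D K) t u L ∈ M :=
  comm_eq hX h t u ▸ mul_mem (mul_mem (mul_mem (inv_mem hu) ht) hu) (inv_mem ht)

theorem sep {X : Tab} (hX : tb D = X) {p ζ θ δ γ : ℕ} (hp : (p : K) = 0)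
    (h : θ < X.n ∧ δ < X.n ∧ δ ≠ θ ∧ δ ≠ X.neg θ ∧ X.commTerms θ δ = [(γ, -1, 1, 1)])
    (hc : X.commutes p ζ δ = true) (h1 : ∀ r, (chevSt D K).x r 1 ∈ M) {t s : K}
    (hu : xN (chevSt D K) ζ t * xN (chevSt D K) θ s ∈ M) : xN (chevSt D K) γ s ∈ M := by
  have h2 := comm_eq hX h (-s) 1
  have h3 := (commute_of_commutes (chevSt D K) hp (hX ▸ hc) t 1).inv_left
  have h4 : xN (chevSt D K) δ 1 ∈ M := by rw [xN_lt _ (by subst hX; exact h.2.1)]; exact h1 _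
  simp only [evT, List.map_cons, List.map_nil, List.prod_cons, List.prod_nil, xN_neg] at h2
  refine meq (mul_mem (mul_mem (mul_mem (inv_mem h4) (inv_mem hu)) h4) hu) ?_
  rw [mul_inv_rev, mul_assoc _ (_ * _), mul_assoc _⁻¹ _⁻¹ (xN _ δ 1), h3.eq]
  simp only [← mul_assoc, inv_mul_cancel_right] at h2 ⊢
  simpa using h2.symm

/-- the conclusion -/
def Concl (M : Subgroup (GL D.Idx K)) (p : ℕ) [Fact p.Prime] [CharP K p] : Prop :=
  ∃ n, 0 < n ∧ (∀ r t, t ^ p ^ n = t → (chevSt D K).x r t ∈ M) ∧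
    ∀ g ∈ M, Matrix.GeneralLinearGroup.map (iterateFrobenius K p n) g = g

variable [Finite M] {p : ℕ} [Fact p.Prime] [CharP K p]

theorem main_tab {X : Tab} (hX : tb D = X) {θ θs ζ p' : ℕ} {ok : List ℤ}
    (h : (θ < X.n ∧ θs < X.n ∧ ζ < X.n) ∧ datChk X p' θ θs ζ ok = true) (hp' : (p' : K) = 0)
    (hok : ∀ c ∈ ok, (c : K) ≠ 0) (hM : M ≤ D.group K) (h1 : ∀ r, (chevSt D K).x r 1 ∈ M)
    (H : (∀ r s, r < X.n ∧ s < X.n ∧ X.len r = X.len s → ∀ t,
      xN (chevSt D K) r t ∈ M → xN (chevSt D K) s t ∈ M) → (∀ r < X.n, xN (chevSt D K) r 1 ∈ M) →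
      (∀ t u, xN (chevSt D K) θ t ∈ M → xN (chevSt D K) θ u ∈ M → xN (chevSt D K) θ (t * u) ∈ M) ∧
      ∀ t s, xN (chevSt D K) ζ t * xN (chevSt D K) θ s ∈ M →
        ζ = θ ∨ xN (chevSt D K) θ (t ^ p) ∈ M ∧ xN (chevSt D K) θ s ∈ M) : Concl M p := by
  subst hX
  obtain ⟨⟨a, b, c⟩, h⟩ := h
  obtain ⟨h2, h3⟩ := H (fun r s h' t => ((orb2_of_chk (θ := ⟨θ, a⟩) (θs := ⟨θs, b⟩) h).mem_iff h1
    h'.1 h'.2.1 h'.2.2).1) fun r hr => by rw [xN_lt _ hr]; exact h1 _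
  simp only [xN_lt _ a, xN_lt _ c] at h2 h3
  exact chev_main (θ := ⟨θ, a⟩) (θs := ⟨θs, b⟩) (ζ := ⟨ζ, c⟩) h hp' hok hM h1 h2
    fun t s h => (h3 t s h).imp_left Fin.ext

omit [Finite M] in
theorem mul_A2 {X : Tab} (hX : tb D = X) {θ a b γ : ℕ} {e : ℤ} (he : e = 1 ∨ e = -1)
    (h : a < X.n ∧ b < X.n ∧ b ≠ a ∧ b ≠ X.neg a ∧ X.commTerms a b = [(γ, e, 1, 1)])
    (h' : (θ < X.n ∧ a < X.n ∧ X.len θ = X.len a) ∧ (θ < X.n ∧ b < X.n ∧ X.len θ = X.len b) ∧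
      γ < X.n ∧ θ < X.n ∧ X.len γ = X.len θ)
    (H : ∀ r s, r < X.n ∧ s < X.n ∧ X.len r = X.len s → ∀ t,
      xN (chevSt D K) r t ∈ M → xN (chevSt D K) s t ∈ M) (t u : K) (ht : xN (chevSt D K) θ t ∈ M)
    (hu : xN (chevSt D K) θ u ∈ M) : xN (chevSt D K) θ (t * u) ∈ M := by
  have := comm_mem hX h (H _ _ h'.1 t ht) (H _ _ h'.2.1 u hu)
  refine H _ _ h'.2.2 _ ?_
  rcases he with rfl | rfl <;> simpa [evT, xN_neg] using this

theorem main_good {X : Tab} (hX : tb D = X) (θ θs a b γ : ℕ) (e : ℤ) (ok : List ℤ)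
    (h : ((θ < X.n ∧ θs < X.n ∧ θ < X.n) ∧ datChk X 0 θ θs θ ok = true) ∧ (e = 1 ∨ e = -1) ∧
      (a < X.n ∧ b < X.n ∧ b ≠ a ∧ b ≠ X.neg a ∧ X.commTerms a b = [(γ, e, 1, 1)]) ∧
      (θ < X.n ∧ a < X.n ∧ X.len θ = X.len a) ∧ (θ < X.n ∧ b < X.n ∧ X.len θ = X.len b) ∧
      γ < X.n ∧ θ < X.n ∧ X.len γ = X.len θ)
    (hok : ∀ c ∈ ok, (c : K) ≠ 0) (hM : M ≤ D.group K) (h1 : ∀ r, (chevSt D K).x r 1 ∈ M) :
    Concl M p :=
  main_tab hX h.1 Nat.cast_zero hok hM h1 fun H _ =>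
    ⟨mul_A2 hX h.2.1 h.2.2.1 h.2.2.2 H, fun _ _ _ => Or.inl rfl⟩

theorem cast_ne {q : ℕ} (hq : q.Prime) (h : p ≠ q) : (q : K) ≠ 0 := fun e =>
  h ((Nat.prime_dvd_prime_iff_eq Fact.out hq).1 ((CharP.cast_eq_zero_iff K p q).1 e))

end Cfsg.Agent.H7.Sf

namespace Cfsg.Agent.H7.Sf

open Cfsg.Lie Cfsg.Agent.H12 Cfsg.Agent.H12.RGD

variable {K : Type*} [Field K] {p : ℕ} [Fact p.Prime] [CharP K p]

theorem main_F4 {M : Subgroup (GL chevF4.Idx K)} [Finite M] (hM : M ≤ chevF4.group K)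
    (h1 : ∀ r, (chevSt chevF4 K).x r 1 ∈ M) : Concl M p := by
  by_cases hp : p = 2
  swap
  · exact main_good tbF4 47 44 25 24 26 (-1) [1, -1, 2, -2] (by decide +kernel)
      (by simpa using cast_ne (K := K) Nat.prime_two hp) hM h1
  subst hp
  refine main_tab tbF4 (θ := 47) (θs := 44) (ζ := 44) (p' := 2) (ok := [1, -1])
    (by decide +kernel) (CharP.cast_eq_zero K 2) (by simp) hM h1 fun H H1 =>
      ⟨mul_A2 tbF4 (a := 25) (b := 24) (γ := 26) (Or.inr rfl) (by decide +kernel)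
        (by decide +kernel) H, fun t s h => Or.inr ?_⟩
  have h2 := H 46 47 (by decide +kernel) _ (sep tbF4 (δ := 23) (CharP.cast_eq_zero K 2)
    (by decide +kernel) (by decide +kernel) h1 h)
  have h3 := (mul_mem_cancel_right h2).1 h
  have h4 := comm_mem tbF4 (r := 27) (s := 25) (L := [(28, -1, 1, 1), (30, -1, 2, 1)])
    (by decide +kernel) (H _ _ (by decide +kernel) t h3) (H1 _ (by decide +kernel))
  refine ⟨H 30 _ (by decide +kernel) _ ?_, h2⟩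
  simpa [evT, xN_neg, mul_mem_cancel_left (inv_mem (H _ 28 (by decide +kernel) t h3))] using h4

theorem main_G2 {M : Subgroup (GL chevG2.Idx K)} [Finite M] (hM : M ≤ chevG2.group K)
    (h1 : ∀ r, (chevSt chevG2 K).x r 1 ∈ M) : Concl M p := by
  by_cases hp : p = 3
  swap
  · exact main_good tbG2 11 9 6 10 11 1 [1, -1, 3, -3] (by decide +kernel)
      (by simpa using cast_ne (K := K) Nat.prime_three hp) hM h1
  subst hp
  have h0 : (3 : K) = 0 := CharP.cast_eq_zero K 3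
  have h0' : (2 : K) = -1 := by linear_combination h0
  refine main_tab tbG2 (θ := 11) (θs := 9) (ζ := 9) (p' := 3) (ok := [1, -1, 2, -2])
    (by decide +kernel) h0 (by simp [h0']) hM h1 fun H H1 =>
      ⟨mul_A2 tbG2 (a := 6) (b := 10) (γ := 11) (Or.inl rfl) (by decide +kernel)
        (by decide +kernel) H, fun t s h => Or.inr ?_⟩
  have h2 := H 10 11 (by decide +kernel) _ (sep tbG2 (δ := 5) h0
    (by decide +kernel) (by decide +kernel) h1 h)
  have h3 := (mul_mem_cancel_right h2).1 h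
  have h4 := comm_mem tbG2 (r := 7) (s := 8) (L := [(9, -2, 1, 1), (10, -3, 2, 1), (11, 3, 1, 2)])
    (by decide +kernel) (H _ _ (by decide +kernel) t h3) (H _ _ (by decide +kernel) t h3)
  have h5 := comm_mem tbG2 (r := 7) (s := 6)
    (L := [(8, -1, 1, 1), (9, 1, 2, 1), (10, 1, 3, 1), (11, 1, 3, 2)])
    (by decide +kernel) (H _ _ (by decide +kernel) t h3) (H1 _ (by decide +kernel))
  simp [evT, h0, h0', xN_zero, ← sq] at h4
  simp [evT, xN_neg, mul_mem_cancel_left (inv_mem (H _ 8 (by decide +kernel) t h3)),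
    mul_mem_cancel_left h4] at h5
  exact ⟨H 10 _ (by decide +kernel) _ (sep tbG2 (δ := 5) h0 (by decide +kernel) (by decide +kernel)
    h1 h5), h2⟩

local notation "SB" => chevSt chevB2 K

theorem main_B2 {M : Subgroup (GL chevB2.Idx K)} [Finite M] (hM : M ≤ chevB2.group K)
    (h1 : ∀ r, (chevSt chevB2 K).x r 1 ∈ M) : Concl M p := by
  have e1 := fun t u : K => comm_eq tbB2 (r := 5) (s := 4) (L := [(6, -1, 1, 1), (7, -1, 2, 1)])
    (by decide +kernel) t u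
  by_cases hp : p = 2
  swap
  · refine main_tab tbB2 (θ := 7) (θs := 6) (ζ := 7) (p' := 0) (ok := [1, -1, 2, -2])
      (by decide +kernel) Nat.cast_zero (by simpa using cast_ne (K := K) Nat.prime_two hp) hM h1
      fun H H1 => ⟨fun t u ht hu => ?_, fun _ _ _ => Or.inl rfl⟩
    have key : ∀ t, xN SB 7 t ∈ M → xN SB 6 t ∈ M := fun t ht => by
      have := comm_mem tbB2 (r := 5) (s := 4) (L := [(6, -1, 1, 1), (7, -1, 2, 1)])
        (by decide +kernel) (H1 _ (by decide +kernel)) (H _ _ (by decide +kernel) t ht)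
      simpa [evT, xN_neg, mul_mem_cancel_right (inv_mem ht)] using this
    have h2 := comm_mem tbB2 (r := 5) (s := 6) (L := [(7, 2, 1, 1)]) (by decide +kernel)
      (H _ _ (by decide +kernel) t (key t ht)) (key u hu)
    simp only [evT, List.map_cons, List.map_nil, List.prod_cons, List.prod_nil, mul_one] at h2
    obtain ⟨k, hk⟩ := (Fact.out : p.Prime).odd_of_ne_two hp
    have h3 : ∀ (n : ℕ) v, xN SB 7 v ∈ M → xN SB 7 (n * v) ∈ M := fun n v hv => by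
      induction n with
      | zero => simp [xN_zero]
      | succ n ih => rw [Nat.cast_succ, add_one_mul, xN_add]; exact mul_mem ih hv
    have h4 : (2 * k + 1 : K) = 0 := by exact_mod_cast hk ▸ CharP.cast_eq_zero K p
    convert h3 (k + 1) _ h2 using 2
    push_cast; linear_combination (-(t * u)) * h4
  subst hp
  have h0 : ((2 : ℕ) : K) = 0 := CharP.cast_eq_zero K 2
  have hn : ∀ i, (SB).n ((rsOf chevB2).simple i) 1 ∈ M := fun i =>
    mul_mem (mul_mem (h1 _) (by rw [inv_one, (SB).x_neg]; exact inv_mem (h1 _))) (h1 _)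
  have hc : ∀ (i : Fin chevB2.rank) (r s : ℕ), r < 8 ∧ fastB2.tab.refl i r = s → ∀ t,
      (SB).n ((rsOf chevB2).simple i) 1 * xN SB r t * ((SB).n ((rsOf chevB2).simple i) 1)⁻¹ = xN SB s t := by
    rintro i r _ ⟨hr, rfl⟩ t
    rw [xN_lt SB hr, chevNC.m_conj_x, ← xN_fin, ← tbB2]
    rcases (cdOf chevB2).eta_sign i ⟨r, hr⟩ with h | h <;> rw [h] <;> simp [CharTwo.neg_eq] <;> rfl
  have hcm : ∀ a b, fastB2.tab.commutes 2 a b = true → ∀ t u, Commute (xN SB a t) (xN SB b u) :=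
    fun a b h => commute_of_commutes SB h0 (tbB2 ▸ h)
  have Z1 : ∀ {t s t' s'}, xN SB 6 t * xN SB 7 s ∈ M → xN SB 6 t' * xN SB 7 s' ∈ M →
      xN SB 6 (t * s') * xN SB 7 (t ^ 2 * s') ∈ M := fun {t s t' s'} h h' => by
    have a1 := mul_mem (mul_mem (hn ⟨1, by decide⟩) h) (inv_mem (hn ⟨1, by decide⟩))
    have a2 := mul_mem (mul_mem (hn ⟨0, by decide⟩) h') (inv_mem (hn ⟨0, by decide⟩))
    rw [← conj_mul, hc _ 6 5 (by decide +kernel), hc _ 7 7 (by decide +kernel)] at a1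
    rw [← conj_mul, hc _ 6 6 (by decide +kernel), hc _ 7 4 (by decide +kernel)] at a2
    have c1 := hcm 7 6 (by decide +kernel) s t'
    have c2 := hcm 7 4 (by decide +kernel) s s'
    have c3 := hcm 5 6 (by decide +kernel) t t'
    have c4 := hcm 5 7 (by decide +kernel) t s
    refine meq (mul_mem (mul_mem (mul_mem (inv_mem a2) a1) a2) (inv_mem a1)) ?_
    rw [mul_assoc _ (xN SB 5 t * _), mul_assoc (xN SB 5 t), (c1.mul_right c2).eq,
      ← mul_assoc (xN SB 5 t), ← mul_assoc (xN SB 5 t), c3.eq]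
    have := e1 t s'
    simp only [evT, List.map_cons, List.map_nil, List.prod_cons, List.prod_nil, mul_one, pow_one,
      Int.cast_neg, Int.cast_one, CharTwo.neg_eq, one_mul] at this
    rw [← this]; group
  have Z2 : ∀ {t s t' s'}, xN SB 6 t * xN SB 7 s ∈ M → xN SB 6 t' * xN SB 7 s' ∈ M →
      xN SB 6 (t + t') * xN SB 7 (s + s') ∈ M := fun {t s t' s'} h h' => by
    rw [xN_add, xN_add, ← (hcm 7 6 (by decide +kernel) s t').mul_mul_mul_comm]
    exact mul_mem h h'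
  have Z3 : xN SB 6 1 * xN SB 7 0 ∈ M := by rw [xN_zero, mul_one]; exact h1 ⟨6, by decide⟩
  have Z4 : xN SB 6 0 * xN SB 7 1 ∈ M := by rw [xN_zero, one_mul]; exact h1 ⟨7, by decide⟩
  let P : Set K := {t | ∃ s, xN SB 6 t * xN SB 7 s ∈ M}
  have hP : P.Finite := by
    refine Set.Finite.subset (Set.Finite.image Prod.fst ((Set.toFinite (M : Set (GL chevB2.Idx K))).preimage
      (f := fun a : K × K => xN SB 6 a.1 * xN SB 7 a.2) (Function.Injective.injOn ?_)))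
      fun t ⟨s, h⟩ => ⟨(t, s), h, rfl⟩
    rintro ⟨t, s⟩ ⟨t', s'⟩ e
    have e2 : xN SB 6 (-t' + t) = xN SB 7 (s' + -s) := by
      rw [xN_add, xN_add, xN_neg, xN_neg, inv_mul_eq_iff_eq_mul, ← mul_assoc,
        eq_mul_inv_iff_mul_eq]; exact e
    rw [xN_lt SB (by decide), xN_lt SB (by decide)] at e2
    have e3 := eq_one_of_mem_U_U (X := chevRGD chevB2 K) (by decide) ((SB).x_mem_U _ _)
      (e2 ▸ (SB).x_mem_U _ _)
    have e4 := (StSys.x_eq_one_iff chevNC chevNM).1 (e2.trans e3)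
    have e5 := (StSys.x_eq_one_iff chevNC chevNM).1 e3
    exact Prod.ext (by linear_combination e4) (by linear_combination -e5)
  have P2 : ∀ {t s}, xN SB 6 t * xN SB 7 s ∈ M → s ∈ P := fun h => ⟨_, by simpa using Z1 Z3 h⟩
  have P1 : ∀ t ∈ P, ∃ t', xN SB 6 t' * xN SB 7 t ∈ M := fun t ht => by
    obtain ⟨u, ⟨s, hu⟩, rfl⟩ := ((hP.injOn_iff_bijOn_of_mapsTo (f := fun t : K => t ^ 2)
      fun t ⟨s, h⟩ => P2 (by simpa using Z1 h Z4)).1 (frobenius_inj K 2).injOn).surjOn ht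
    exact ⟨_, by simpa using Z1 hu Z4⟩
  have Pm : ∀ t ∈ P, ∀ u ∈ P, t * u ∈ P := fun t ⟨s, h⟩ u hu =>
    (P1 u hu).elim fun _ h' => ⟨_, Z1 h h'⟩
  have P3 : ∀ t ∈ P, xN SB 7 t ∈ M := fun t ht => by
    by_cases h : t = 0
    · rw [h, xN_zero]; exact one_mem _
    obtain ⟨u, hu, e⟩ := exists_mul_eq hP h (Pm t ht) ⟨_, Z3⟩
    obtain ⟨s, hs⟩ := ht
    obtain ⟨t', ht'⟩ := P1 u hu
    have := Z2 (Z1 hs ht') Z3
    rwa [sq, mul_assoc, e, CharTwo.add_self_eq_zero, xN_zero, one_mul, mul_one, add_zero] at this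
  have P4 : ∀ t, xN SB 7 t ∈ M → t ∈ P := fun t h => P2 (t := 0) (by rwa [xN_zero, one_mul])
  exact main_tab tbB2 (θ := 7) (θs := 6) (ζ := 6) (p' := 2) (ok := [1, -1])
    (by decide +kernel) h0 (by simp) hM h1 fun _ _ =>
      ⟨fun t u ht hu => P3 _ (Pm t (P4 t ht) u (P4 u hu)), fun t s h =>
        Or.inr ⟨P3 _ (sq t ▸ Pm t ⟨s, h⟩ t ⟨s, h⟩), P3 _ (P2 h)⟩⟩

theorem main_all {D : ChevalleyDatum}
    (hD : D ∈ [chevG2, chevB2, chevD4, chevF4, chevE6, chevE7, chevE8])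
    {M : Subgroup (GL D.Idx K)} [Finite M] (hM : M ≤ D.group K)
    (h1 : ∀ (r : Fin D.nroots) g, (g : GL D.Idx K).1 = D.x K r 1 → g ∈ M) :
    ∃ n, 0 < n ∧ (∀ (r : Fin D.nroots) t, t ^ p ^ n = t → ∀ g : GL D.Idx K,
      g.1 = D.x K r t → g ∈ M) ∧ ∀ g ∈ M, ∀ i j, g.1 i j ^ p ^ n = g.1 i j := by
  have key : ∀ {D : ChevalleyDatum} [Good D] {M : Subgroup (GL D.Idx K)},
      (∀ (r : Fin D.nroots) g, (g : GL D.Idx K).1 = D.x K r 1 → g ∈ M) →
      ((∀ r, (chevSt D K).x r 1 ∈ M) → Concl M p) →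
      ∃ n, 0 < n ∧ (∀ (r : Fin D.nroots) t, t ^ p ^ n = t → ∀ g : GL D.Idx K,
        g.1 = D.x K r t → g ∈ M) ∧ ∀ g ∈ M, ∀ i j, g.1 i j ^ p ^ n = g.1 i j := by
    intro D _ M h1 h
    obtain ⟨n, hn, h2, h3⟩ := h fun r => h1 r _ (chevSt_x_val r 1)
    exact ⟨n, hn, fun r t ht g hg => val_eq_x_iff.1 hg ▸ h2 r t ht,
      fun g hg i j => congrArg (fun g : GL D.Idx K => g.1 i j) (h3 g hg)⟩
  simp only [List.mem_cons, List.not_mem_nil, or_false] at hD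
  rcases hD with rfl | rfl | rfl | rfl | rfl | rfl | rfl
  · exact key h1 (main_G2 hM)
  · exact key h1 (main_B2 hM)
  · exact key h1 (main_good tbD4 23 23 18 14 19 (-1) [1, -1] (by decide +kernel) (by simp) hM)
  · exact key h1 (main_F4 hM)
  · exact key h1 (main_good tbE6 71 71 56 42 57 (-1) [1, -1] (by decide +kernel) (by simp) hM)
  · exact key h1 (main_good tbE7 125 125 93 73 94 (-1) [1, -1] (by decide +kernel) (by simp) hM)
  · exact key h1 (main_good tbE8 239 239 162 135 163 (-1) [1, -1] (by decide +kernel) (by simp) hM)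

theorem dvd_of_fix {a n : ℕ} {ζ : K} (hζ : IsPrimitiveRoot ζ (p ^ a - 1)) (ha : 0 < a)
    (h : ∀ t : K, t ^ p ^ a = t → t ^ p ^ n = t) : a ∣ n := by
  have hp := (Fact.out : p.Prime).one_lt
  have h1 := Nat.one_lt_pow ha.ne' hp
  have h2 := Nat.one_le_pow n p (by omega)
  have h3 := h ζ (by rw [← Nat.sub_add_cancel h1.le, pow_succ, hζ.pow_eq_one, one_mul])
  rw [← Nat.sub_add_cancel h2, pow_succ, mul_eq_right₀ (hζ.ne_zero (by omega))] at h3
  have h4 := Nat.gcd_eq_left (hζ.dvd_of_pow_eq_one _ h3)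
  rw [Nat.pow_sub_one_gcd_pow_sub_one] at h4
  have h5 := Nat.one_le_pow (a.gcd n) p (by omega)
  rw [← Nat.pow_right_injective hp (show p ^ a.gcd n = p ^ a by omega)]
  exact Nat.gcd_dvd_right _ _

theorem exists_prim [Fintype K] {a r : ℕ} (hK : Fintype.card K = (p ^ a) ^ r) :
    (∃ ζ : K, IsPrimitiveRoot ζ (p ^ a - 1)) ∧ ∃ ζ : K, IsPrimitiveRoot ζ (p ^ (a * r) - 1) := by
  obtain ⟨γ, hγ⟩ := IsCyclic.exists_generator (α := Kˣ)
  have h1 := IsPrimitiveRoot.coe_units_iff.2 (IsPrimitiveRoot.orderOf γ)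
  rw [orderOf_eq_card_of_forall_mem_zpowers hγ, Nat.card_units, Nat.card_eq_fintype_card, hK] at h1
  obtain ⟨m, hm⟩ := Nat.sub_one_dvd_pow_sub_one (p ^ a) r
  exact ⟨⟨_, h1.pow (by have := Fintype.one_lt_card (α := K); omega) (hm.trans (mul_comm _ _))⟩,
    _, pow_mul p a r ▸ h1⟩

theorem fix_cases [Fintype K] {a r n : ℕ} (ha : 0 < a) (hr : r.Prime)
    (hK : Fintype.card K = (p ^ a) ^ r) (h : ∀ t : K, t ^ p ^ a = t → t ^ p ^ n = t) :
    (∀ t : K, t ^ p ^ n = t → t ^ p ^ a = t) ∨ ∀ t : K, t ^ p ^ n = t := by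
  obtain ⟨ζ, hζ⟩ := (exists_prim hK).1
  obtain ⟨m, rfl⟩ := dvd_of_fix hζ ha h
  by_cases hm : r ∣ m
  · obtain ⟨k, rfl⟩ := hm
    exact Or.inr fun t => by rw [← mul_assoc, pow_mul, pow_mul, ← hK, FiniteField.pow_card_pow]
  · refine Or.inl fun t ht => ?_
    have h1 : Function.IsPeriodicPt (frobenius K p) (a * m) t := (iterate_frobenius _ _ _).trans ht
    have h2 : Function.IsPeriodicPt (frobenius K p) (a * r) t :=
      (iterate_frobenius _ _ _).trans (by rw [pow_mul, ← hK, FiniteField.pow_card])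
    have h3 := h2.gcd h1
    rw [Nat.gcd_mul_left, (hr.coprime_iff_not_dvd.2 hm).gcd_eq_one, mul_one] at h3
    exact (iterate_frobenius _ _ _).symm.trans h3

theorem exists_not_fix [Fintype K] {a r : ℕ} (ha : 0 < a) (hr : 1 < r)
    (hK : Fintype.card K = (p ^ a) ^ r) : ∃ t : K, t ^ p ^ a ≠ t := by
  obtain ⟨ζ, hζ⟩ := (exists_prim hK).2
  by_contra h
  push Not at h
  have := Nat.le_of_dvd ha (dvd_of_fix hζ (by positivity) fun t _ => h t)
  nlinarith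

end Cfsg.Agent.H7.Sf
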