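import Mathlib
import Cfsg.Agent.H7.Sf5
import Cfsg.Agent.H12.TwInv
import Cfsg.Agent.H13.TwFr

/-!
Overgroups of the rational points in a twisted group.
-/

set_option autoImplicit false
set_option linter.unusedSectionVars false

namespace Cfsg.Agent.H7.Sf

open Cfsg.Lie Cfsg.Agent.H12 Cfsg.Agent.H12.RGD Cfsg.Agent.H13

theorem comm_mem_iff {G : Type*} [Group G] {N : Subgroup G} {a d b e : G}
    (ha : a ∈ Subgroup.normalizer (N : Set G)) (hb : b ∈ Subgroup.normalizer (N : Set G))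
    (h1 : d * (b * e) * d⁻¹ * (b * e)⁻¹ ∈ N) (h2 : a * e * a⁻¹ * e⁻¹ ∈ N)
    (h : a * d * (b * e) * (a * d)⁻¹ * (b * e)⁻¹ ∈ N) : a * b * a⁻¹ * b⁻¹ ∈ N :=
  meq (mul_mem (mul_mem (inv_mem ((Subgroup.mem_normalizer_iff.1 ha _).1 h1)) h)
    (inv_mem ((Subgroup.mem_normalizer_iff.1 hb _).1 h2)))

variable {D D' : ChevalleyDatum} [Good D] [Good D'] {K : Type*} [Field K]
  {F : Fold (rsOf D) (rsOf D')}

theorem Orb2.exists_smul {θ θs : Fin D.nroots} (h : Orb2 D θ θs) {r s : Fin D.nroots}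
    (e : rlen D r = rlen D s) : ∃ w : (rsOf D).W, w • r = s := by
  obtain ⟨w, hw⟩ := h.1 r
  obtain ⟨v, hv⟩ := h.1 s
  refine ⟨v * w⁻¹, ?_⟩
  rcases hw with hw | hw <;> rcases hv with hv | hv <;>
    rw [← hw, ← hv, rlen_smul, rlen_smul] at e <;> rw [← hw, ← hv, mul_smul, inv_smul_smul]
  · rw [h.2.resolve_right fun h => h.1 e.symm]
  · rw [h.2.resolve_right fun h => h.1 e]

theorem coord_zero {δ : Fin D.nroots} (w₁ w₂ : List (Fin D.nroots × K)) {t : K}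
    (h : ((w₁ ++ (δ, t) :: w₂).map fun a => (chevSt D K).x a.1 a.2).prod ∈ Ag (chevRGD D K) δ)
    (h' : (rsOf D).Pos δ ∧ ∀ r ∈ (w₁ ++ w₂).map Prod.fst, (rsOf D).Pos r ∧ r ≠ δ ∧
      (rsOf D).ht δ ≤ (rsOf D).ht r) : t = 0 := by
  have key : ∀ w : List (Fin D.nroots × K), (∀ a ∈ w, a ∈ w₁ ++ w₂) →
      (w.map fun a => (chevSt D K).x a.1 a.2).prod ∈ Ag (chevRGD D K) δ := fun w hw =>
    list_prod_mem fun y hy => by
      obtain ⟨a, ha, rfl⟩ := List.mem_map.1 hy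
      exact U_le_US (X := chevRGD D K) (S := {t | (rsOf D).Pos t ∧ t ≠ δ ∧
        (rsOf D).ht δ ≤ (rsOf D).ht t}) (h'.2 a.1 (List.mem_map_of_mem (hw a ha)))
        ((chevSt D K).x_mem_U a.1 a.2)
  rw [List.map_append, List.map_cons, List.prod_append, List.prod_cons,
    mul_mem_cancel_left (key w₁ fun a ha => by simp [ha]),
    mul_mem_cancel_right (key w₂ fun a ha => by simp [ha])] at h
  exact (StSys.x_eq_one_iff chevNC chevNM).1
    (eq_one_of_mem_Ag h'.1 ((chevSt D K).x_mem_U _ _) h)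

theorem twSt_comm (A : TwSt F (chevNC (D := D) (F := K)) chevNM) {θ : K →+* K}
    (hφ : ∀ i, A.φ i = θ) : ∀ g ∈ (chevRGD D K).grp, A.σ (Matrix.GeneralLinearGroup.map θ g) =
      Matrix.GeneralLinearGroup.map θ (A.σ g) := by
  have hs := fun g (hg : g ∈ (chevRGD D K).grp) => stab_grp (chev_stab_map θ) hg
  let Q : Subgroup (GL D.Idx K) :=
    { carrier := {g | g ∈ (chevRGD D K).grp ∧ A.σ (Matrix.GeneralLinearGroup.map θ g) =
        Matrix.GeneralLinearGroup.map θ (A.σ g)}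
      one_mem' := ⟨one_mem _, by rw [map_one, A.map_one, map_one]⟩
      mul_mem' := fun {a b} ha hb => ⟨mul_mem ha.1 hb.1, by
        rw [map_mul, A.map_mul _ (hs a ha.1) _ (hs b hb.1), ha.2, hb.2, A.map_mul _ ha.1 _ hb.1,
          map_mul]⟩
      inv_mem' := fun {a} ha => ⟨inv_mem ha.1, by
        rw [map_inv, A.map_inv (hs a ha.1), ha.2, A.map_inv ha.1, map_inv]⟩ }
  intro g hg
  rw [← group_eq, group_eq_US] at hg
  refine (US_univ_le (H := Q) (fun i => (StSys.U_le _ (H := Q)).2 fun t =>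
    ⟨x_mem_grp chevNC chevNM _ _, ?_⟩) (fun i => ⟨_, (chevSt D K).x_mem_U _ 1, fun e => one_ne_zero
      ((StSys.x_eq_one_iff chevNC chevNM).1 e), x_mem_grp chevNC chevNM _ _, ?_⟩) hg).2
  · rw [map_x, A.σ_pos, A.σ_pos, map_x, hφ]
  · rw [map_x, A.σ_neg, A.σ_neg, map_x, hφ]

variable (F) in
/-- the combinatorial facts on the folding -/
def FoldC (θ θs : Fin D'.nroots) (τ : Fin D.nroots) : Prop :=
  (∀ r, (rsOf D').ht (F.π r) = (rsOf D).ht r) ∧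
  (∀ r s, F.π r = F.π s → s = r ∨ s = F.ρ r ∨ s = F.ρ (F.ρ r)) ∧ (∀ r s, F.ρ r = F.ρ s → r = s) ∧
  (∀ r, F.π r = θ ↔ r = τ) ∧ (∀ r, D'.pairing θ (F.π r) = 1 → D.pairing τ r = 1) ∧
  (∀ c, (rsOf D').ht θs ≤ (rsOf D').ht c → c = θs ∨ rlen D' c = rlen D' θ) ∧ (rsOf D').Pos θs

instance (θ θs : Fin D'.nroots) (τ : Fin D.nroots) : Decidable (FoldC F θ θs τ) := by
  unfold FoldC; infer_instance

variable (F) in
/-- `δ = r + s`, uniquely in the classes of `r` and `s` -/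
def UP (r s δ : Fin D.nroots) (e : ℤ) : Prop :=
  (rsOf D).Pos r ∧ (rsOf D).Pos s ∧ (r ≠ s ∧ r ≠ (rsOf D).neg s ∧
    D.commTerms s r = [(δ.1, e, 1, 1)]) ∧ (e = 1 ∨ e = -1) ∧
  (∀ i, (rsOf D').α (F.π δ) i = (rsOf D').α (F.π r) i + (rsOf D').α (F.π s) i) ∧
  ∀ r', F.π r' = F.π r → ∀ s', F.π s' = F.π s →
    (∀ i, (rsOf D).α δ i = (rsOf D).α r' i + (rsOf D).α s' i) → r' = r ∧ s' = s

instance (r s δ : Fin D.nroots) (e : ℤ) : Decidable (UP F r s δ e) := by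
  unfold UP; infer_instance

variable {θ θs : Fin D'.nroots} {τ : Fin D.nroots} (hF : FoldC F θ θs τ)
  (A : Twist F (chevRGD D K))
include hF

theorem itv_empty {r s : Fin D.nroots} (h : F.π r = F.π s) (t : Fin D.nroots) :
    t ∉ (rsOf D).itv r s := fun ht => by
  have h1 := F.π_itv r s t ht
  rw [← h] at h1
  have h2 := (rsOf D').closed_singleton (F.π r) _ rfl _ rfl h1
  obtain ⟨p, q, hp, hq, e⟩ := h1
  rw [Set.mem_singleton_iff.1 h2, ← add_smul, eq_comm, ← sub_eq_zero] at e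
  nth_rw 2 [← one_smul ℤ ((rsOf D').α (F.π r))] at e
  rw [← sub_smul, smul_eq_zero] at e
  exact e.elim (by omega) ((rsOf D').α_ne_zero _)

theorem class_comm {c : Fin D'.nroots} {a b : GL D.Idx K}
    (ha : a ∈ (chevRGD D K).US (F.π ⁻¹' {c})) (hb : b ∈ (chevRGD D K).US (F.π ⁻¹' {c})) :
    a * b = b * a := by
  refine Subgroup.mem_centralizer_singleton_iff.1 ((US_le (H := Subgroup.centralizer {b})).2
    (fun r hr a ha => Subgroup.mem_centralizer_singleton_iff.2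
      (Subgroup.mem_centralizer_singleton_iff.1 ((US_le (H := Subgroup.centralizer {a})).2
        (fun s hs b hb => Subgroup.mem_centralizer_singleton_iff.2 ?_) hb)).symm) ha)
  have e : F.π s = F.π r := (show F.π s = c from hs).trans (show F.π r = c from hr).symm
  by_cases h : r = s
  · exact chev_ab s b hb a (h ▸ ha)
  · exact comm_of_itv h (fun h => (rsOf D').neg_ne _ (by rw [← F.π_neg, ← h, e]))
      (itv_empty hF e) hb ha

theorem tw_ab : A.rgd.Ab := fun _ _ ha _ hb => class_comm hF ha.1 hb.1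

theorem class_sq [CharP K 2] {c : Fin D'.nroots} {u : GL D.Idx K}
    (hu : u ∈ (chevRGD D K).US (F.π ⁻¹' {c})) : u * u = 1 := by
  let Q : Subgroup (GL D.Idx K) :=
    { carrier := {u | u ∈ (chevRGD D K).US (F.π ⁻¹' {c}) ∧ u * u = 1}
      one_mem' := ⟨one_mem _, mul_one _⟩
      mul_mem' := fun {a b} ha hb => ⟨mul_mem ha.1 hb.1, by
        rw [mul_assoc, ← mul_assoc b, ← class_comm hF ha.1 hb.1, mul_assoc, hb.2, mul_one, ha.2]⟩
      inv_mem' := fun {a} ha => ⟨inv_mem ha.1, by rw [← mul_inv_rev, ha.2, inv_one]⟩ }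
  refine ((US_le (H := Q)).2 (fun r hr => (StSys.U_le _ (H := Q)).2 fun t =>
    ⟨U_le_US hr ((chevSt D K).x_mem_U r t), ?_⟩) hu).2
  rw [← StSys.add, CharTwo.add_self_eq_zero, StSys.x_zero]

theorem exists_split {r : Fin D.nroots} (hr : (rsOf D).Pos r) {x : GL D.Idx K}
    (hx : x ∈ A.rgd.U (F.π r)) (x1 : x ≠ 1) : ∃ t, t ≠ 0 ∧
      ∃ d ∈ (chevRGD D K).US (F.π ⁻¹' {F.π r} \ {r}), x = (chevSt D K).x r t * d := by
  have hp : ∀ s ∈ F.π ⁻¹' {F.π r}, (rsOf D).Pos s := fun s hs =>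
    (F.π_pos s).1 ((show F.π s = _ from hs) ▸ (F.π_pos r).2 hr)
  have hc : ∀ S ⊆ F.π ⁻¹' {F.π r}, (rsOf D).Closed S := fun S hS a ha b hb t ht =>
    absurd ht (itv_empty hF ((show F.π a = _ from hS ha).trans (show F.π b = _ from hS hb).symm) t)
  have h1 : x ∈ (chevRGD D K).US (F.π ⁻¹' {F.π r}) := hx.1
  rw [US_eq_sup_diff (r := r) (S := F.π ⁻¹' {F.π r}) rfl, mem_sup_of_le_normalizer' (U_le_normalizer
    (fun h => (rsOf D).pos_neg_iff.1 (hp _ h.1) hr) fun s hs _ t ht =>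
      absurd ht (itv_empty hF (show F.π s = _ from hs.1).symm t))] at h1
  obtain ⟨a, ha, d, hd, rfl⟩ := h1
  obtain ⟨t, rfl⟩ := (chevSt D K).mem_U.1 ha
  refine ⟨t, ?_, d, hd, rfl⟩
  rintro rfl
  rw [StSys.x_zero, one_mul] at hx x1
  have h2 : ∀ s, d ∈ (chevRGD D K).US (F.π ⁻¹' {F.π r} \ {s}) →
      d ∈ (chevRGD D K).US (F.π ⁻¹' {F.π r} \ {F.ρ s}) := fun s h => meq (A.σ_US
    (S' := F.π ⁻¹' {F.π r} \ {F.ρ s})
    (fun t ht => ⟨(F.π_ρ t).trans ht.1, fun e => ht.2 (hF.2.2.1 _ _ e)⟩) h) hx.2.2.symm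
  have h3 := (US_inf_US (X := chevRGD D K) (hc _ Set.sdiff_subset) (hc _ Set.sdiff_subset)
    (fun s hs => hp s hs.1) fun s hs => hp s hs.1).le ⟨hd, h2 r hd⟩
  have h4 := (US_inf_US (X := chevRGD D K) (hc _ fun s hs => hs.1.1) (hc _ Set.sdiff_subset)
    (fun s hs => hp s hs.1.1) fun s hs => hp s hs.1).le ⟨h3, h2 _ (h2 r hd)⟩
  rw [Set.eq_empty_of_forall_notMem (s := _ ∩ _) fun s hs => by
    rcases hF.2.1 r s (show F.π s = _ from hs.2.1).symm with h | h | h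
    exacts [hs.1.1.2 h, hs.1.2.2 h, hs.2.2 h], US_empty] at h4
  exact x1 h4

theorem Ag_le (δ : Fin D.nroots) : Ag A.rgd (F.π δ) ≤ Ag (chevRGD D K) δ :=
  (A.rgd_US_le _).trans (inf_le_left.trans (US_mono fun t ht =>
    ⟨(F.π_pos t).1 ht.1, fun e => ht.2.1 (by rw [e]), by rw [← hF.1, ← hF.1]; exact ht.2.2⟩))

theorem det_UP {r s δ : Fin D.nroots} {e : ℤ} (h : UP F r s δ e) {x y : GL D.Idx K}
    (hx : x ∈ A.rgd.U (F.π r)) (x1 : x ≠ 1) (hy : y ∈ A.rgd.U (F.π s)) (y1 : y ≠ 1) :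
    x * y * x⁻¹ * y⁻¹ ∉ Ag A.rgd (F.π δ) := fun hc => by
  obtain ⟨h1, h2, h3, h4, h5, h6⟩ := h
  have h7 := ht_add (R := rsOf D') (funext h5)
  have hr := (F.π_pos r).2 h1
  have hs := (F.π_pos s).2 h2
  have hδ : (rsOf D).Pos δ := (F.π_pos δ).1 fun i => by
    rw [h5]; exact add_nonneg (hr i) (hs i)
  have hp : ∀ {r s}, (rsOf D).Pos r → s ∈ F.π ⁻¹' {F.π r} → (rsOf D).Pos s := fun {r s} hr hs =>
    (F.π_pos s).1 ((show F.π s = _ from hs) ▸ (F.π_pos r).2 hr)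
  have h8 : ∀ r' ∈ F.π ⁻¹' {F.π r}, ∀ s' ∈ F.π ⁻¹' {F.π s}, r' ≠ r ∨ s' ≠ s →
      (rsOf D).ht δ ≤ (rsOf D).ht r' + (rsOf D).ht s' ∧
        (rsOf D).α δ ≠ (rsOf D).α r' + (rsOf D).α s' := fun r' hr' s' hs' h =>
    ⟨by rw [← hF.1, ← hF.1, ← hF.1, h7, show F.π r' = _ from hr', show F.π s' = _ from hs'],
      fun e => by have := h6 r' hr' s' hs' (congrFun e); tauto⟩
  have hy' : y ∈ (chevRGD D K).US (F.π ⁻¹' {F.π s}) := hy.1
  obtain ⟨t, ht, d, hd, rfl⟩ := exists_split hF A h1 hx x1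
  obtain ⟨u, hu, d', hd', rfl⟩ := exists_split hF A h2 hy y1
  have h9 := comm_mem_iff (N := Ag (chevRGD D K) δ)
    (US_le_normalizer_Ag hδ (U_le_Up h1 ((chevSt D K).x_mem_U r t)))
    (US_le_normalizer_Ag hδ (U_le_Up h2 ((chevSt D K).x_mem_U s u)))
    (comm_mem_Ag' chev_ab hδ (fun _ h => hp h1 h.1) (fun _ h => hp h2 h)
      (fun r' hr' s' hs' => h8 r' hr'.1 s' hs' (Or.inl hr'.2)) hd hy')
    (comm_mem_Ag' chev_ab hδ (S := {r}) (fun _ h => h ▸ h1) (fun _ h => hp h2 h.1)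
      (fun r' hr' s' hs' => h8 r' (congrArg F.π hr') s' hs'.1 (Or.inr hs'.2))
      (U_le_US (X := chevRGD D K) (S := {r}) rfl ((chevSt D K).x_mem_U r t)) hd')
    (Ag_le hF A δ hc)
  have h10 := x_comm_one h3 (-u) (-t)
  rw [StSys.x_neg, StSys.x_neg, inv_inv, inv_inv] at h10
  rw [h10] at h9
  have h11 := eq_one_of_mem_Ag (X := chevRGD D K) hδ ((chevSt D K).x_mem_U _ _) h9
  rcases h4 with rfl | rfl <;> simp [StSys.x_eq_one_iff chevNC chevNM, ht, hu] at h11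

variable {σ : GL D.Idx K →* GL D.Idx K} {H : Subgroup (GL D.Idx K)}

theorem tw_SU (hS : (chevRGD D K).Stab σ) (hc : ∀ g ∈ (chevRGD D K).grp, A.σ (σ g) = σ (A.σ g))
    (hne : ∀ i, (∃ v ∈ A.rgd.U ((rsOf D').simple i), v ≠ 1 ∧ σ v = v) ∧
      ∃ v ∈ A.rgd.U ((rsOf D').neg ((rsOf D').simple i)), v ≠ 1 ∧ σ v = v)
    (h1 : H ≤ A.Fix) (h2 : ∀ g ∈ A.Fix, σ g = g → g ∈ H) : SU A.rgd σ H := by
  have hf : ∀ g ∈ A.Fix, σ g ∈ A.Fix := fun g hg => ⟨stab_grp hS hg.1, by rw [hc g hg.1, hg.2]⟩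
  refine ⟨rsOf_irred, fun i => have := Fin.nontrivial_iff_two_le.2 (two_le_rank (D := D'));
    exists_ne i, inferInstance, tw_ab hF A, ⟨fun c u hu => ⟨hS.US hu.1, hf u hu.2⟩,
    fun t ht => ⟨hS.T t ht.1, hf t ht.2⟩, fun i => A.rgd_rep_iff.2 ⟨hf _ (A.m_mem_Fix i), _,
      hS.rep (A.rep_m' i), F.lifts_w i⟩⟩, A.rgd_grp ▸ h1, fun r u hu => h2 u hu.2,
    fun i => (hne i).2, fun t ht h => eq_one_of_commute ht.1 fun i => ?_⟩
  obtain ⟨y, hy, y1, yσ⟩ := (hne (F.cls i)).1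
  have h3 := h _ y hy yσ
  rw [← F.π_simple] at hy
  obtain ⟨s, hs, d, hd, rfl⟩ := exists_split hF A ((rsOf D).pos_simple i) hy y1
  obtain ⟨c, -, h4⟩ := chevNC.exists_H_conj ht.1 ((rsOf D).simple i)
  have h5 := eq_one_of_mem_U_simple (X := chevRGD D K)
    ((chevSt D K).x_mem_U ((rsOf D).simple i) (-s + c * s))
    (S := F.π ⁻¹' {F.π ((rsOf D).simple i)} \ {(rsOf D).simple i}) (fun r hr =>
      ⟨(F.π_pos r).1 ((show F.π r = _ from hr.1) ▸ (F.π_pos _).2 ((rsOf D).pos_simple i)), hr.2⟩)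
    (meq (mul_mem hd (inv_mem (T_conj_US ht.1 hd))) (by
      rw [StSys.add, StSys.x_neg, ← h4]
      generalize (chevSt D K).x _ s = a at h3
      rw [show a⁻¹ * (t * a * t⁻¹) = a⁻¹ * (t * (a * d)) * d⁻¹ * t⁻¹ by group, h3]; group))
  rw [StSys.x_eq_one_iff chevNC chevNM] at h5
  rw [← mul_inv_eq_iff_eq_mul, h4, show c = 1 from mul_right_cancel₀ hs (by linear_combination h5),
    one_mul]

variable {p' ζ : ℕ} {ok : List ℤ} (hd : datChk (tb D') p' θ θs ζ ok = true)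
  (h : SU A.rgd σ H) {i₁ : Fin D'.rank} (h₁ : rlen D' ((rsOf D').simple i₁) = rlen D' θ)
  (h₁' : ∀ u ∈ A.rgd.U ((rsOf D').simple i₁), σ u = u)
include hd h h₁ h₁'

theorem fix_long {c : Fin D'.nroots} (hc : rlen D' c = rlen D' θ) {u : GL D.Idx K}
    (hu : u ∈ A.rgd.U c) : σ u = u := by
  obtain ⟨w, rfl⟩ := (orb2_of_chk hd).exists_smul (h₁.trans hc.symm)
  obtain ⟨n, -, h2, h3⟩ := h.rep w
  have := h₁' _ (by simpa using h3.conj_U' hu)
  rwa [map_mul, map_mul, map_inv, h2, mul_left_inj, mul_right_inj] at this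

theorem tw_main [Finite H] {p : ℕ} [Fact p.Prime] [CharP K p] {i₀ : Fin D'.rank}
    (h₀ : rlen D' ((rsOf D').simple i₀) = rlen D' θs) (h₀' : rlen D' θs ≠ rlen D' θ)
    (hdet : ∀ c, (rsOf D').Pos c → (rsOf D').ht c < (rsOf D').ht θs → ∀ x ∈ A.rgd.U c, x ≠ 1 →
      ∃ s γ, (rsOf D').Pos s ∧ (rsOf D').α γ = (rsOf D').α c + (rsOf D').α s ∧
        ∃ y ∈ A.rgd.U s, σ y = y ∧ x * y * x⁻¹ * y⁻¹ ∉ Ag A.rgd γ)
    (hsh : ∀ u ∈ H, u ∈ A.rgd.U ((rsOf D').simple i₀) → σ u = u) : ∀ g ∈ H, σ g = g := by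
  have hl := fun c hc u hu => fix_long hF A hd h h₁ h₁' (c := c) hc (u := u) hu
  have hO := orb2_of_chk hd
  simp only [datChk, Bool.and_eq_true, Bool.or_eq_true, decide_eq_true_eq, allLt_iff,
    anyLt_iff] at hd
  obtain ⟨⟨⟨⟨⟨⟨-, h3⟩, h4⟩, -⟩, -⟩, -⟩, -⟩ := hd
  have hθ : ∀ r, r ≠ θ → (rsOf D').ht r < (rsOf D').ht θ := fun r hr => by
    rw [ht_eq, ht_eq]; exact (h3 r r.2).resolve_left fun e => hr (Fin.ext e)
  have hp := twist_charP A (chev_charP (D := D) (K := K) p)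
  have hU := h.fix_Up hp (S := {t | (rsOf D').Pos t ∧ (t ∈ (∅ : Set _) ∨
      (rsOf D').ht θs ≤ (rsOf D').ht t)}) (closed_of_upper (fun _ h => h.1) fun r hr t h1 h2 =>
      ⟨h1, Or.inr ((hr.2.resolve_left id).trans h2.le)⟩) (fun _ h => h.1)
    (fun c hc hc' => cent h.ab ∅ _ (fun r hr h1 x hx x1 => Or.inr (hdet r hr h1 x hx x1)) hc hc')
    fun u hu hu' => by
      have hs := hF.2.2.2.2.2.2
      rw [US_eq_sup_diff (r := θs) (S := {t | (rsOf D').Pos t ∧ (t ∈ (∅ : Set _) ∨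
          (rsOf D').ht θs ≤ (rsOf D').ht t)}) ⟨hs, Or.inr le_rfl⟩,
        mem_sup_of_le_normalizer' (U_le_normalizer (fun h => (rsOf D').pos_neg_iff.1 h.1.1 hs)
          fun s h _ t ht => by
            have h1 := (rsOf D').ht_of_mem_itv hs h.1.1 ht
            have h2 := (rsOf D').ht_pos h.1.1
            refine ⟨⟨(rsOf D').closed_pos _ hs s h.1.1 ht, Or.inr (by omega)⟩, ?_⟩
            rintro rfl; omega)] at hu'
      obtain ⟨x, hx, d, hd, rfl⟩ := hu'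
      have h1 : d ∈ H ⊓ fxs σ := (US_le.2 fun c hc u hu => by
        have := hl c ((hF.2.2.2.2.2.1 c (hc.1.2.resolve_left id)).resolve_left hc.2) u hu
        exact ⟨h.mem c u hu this, this⟩ : _ ≤ H ⊓ fxs σ) hd
      obtain ⟨w, rfl⟩ := hO.exists_smul h₀
      obtain ⟨n, a1, a2, a3⟩ := h.rep w
      have := hsh _ (mul_mem (mul_mem (inv_mem a1) ((mul_mem_cancel_right (H := H) h1.1).1 hu)) a1)
        (by simpa using a3.conj_U' hx)
      rw [map_mul, map_mul, map_inv, a2, mul_left_inj, mul_right_inj] at this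
      rw [map_mul, this, show σ d = d from h1.2]
  intro g hg
  by_cases hp2 : p = 2
  · subst hp2
    obtain ⟨a, ha, a1, a2⟩ := h.ne θ
    obtain ⟨z, hz, z1, z2⟩ := h.ne ((rsOf D').simple i₀)
    have hz' := U_le_Up ((rsOf D').pos_simple i₀) hz
    exact h.two hU hp (U_le_Up (top_pos hθ) ha) hz' a1 z1 a2 z2 (class_sq hF ha.1) (class_sq hF hz.1)
      (nonconj hθ ha hz' fun w => ⟨i₀, fun e => h₀' (by rw [← h₀, ← e, rlen_smul]), fun h =>
        z1 (eq_one_of_mem_Ag ((rsOf D').pos_simple i₀) hz h)⟩) hg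
  · obtain ⟨s, hs, a1, a2⟩ := h4
    refine h.odd hU hp hθ ⟨⟨s, hs⟩, (rsOf D').pos_iff_ht.2 (by rw [ht_eq]; exact a2),
      by rw [cor_α, ← tb_pairing]; exact a1⟩ (fun a ha a1 b hb b1 hf => ?_) hg
    have ha' : a ∈ (chevRGD D K).US {τ} := US_mono (fun r hr => (hF.2.2.2.1 r).1 hr) ha.1
    have hb' : b ∈ (chevRGD D K).US {(rsOf D).neg τ} := US_mono (fun r hr => by
      rw [← (hF.2.2.2.1 ((rsOf D).neg r)).1 (by rw [F.π_neg, show F.π r = _ from hr, RS.neg_neg]),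
        RS.neg_neg]; rfl) hb.1
    rw [US_singleton] at ha' hb'
    obtain ⟨t, rfl⟩ := (chevSt D K).mem_U.1 ha'
    obtain ⟨u, rfl⟩ := (chevSt D K).mem_U.1 hb'
    have hc := chevNC.h_conj_x (S := chevSt D K) τ (t := -1)
    have h5 := h_mem_closure hp2 chevNC chevNM chevSt_r3 τ (fun e => a1 (by rw [e, StSys.x_zero]))
      (fun e => b1 (by rw [e, StSys.x_zero])) hf
    have h6 : (chevSt D K).h τ (-1) ∈ (chevRGD D K).T := (chevSt D K).h_mem_H _ (by simp)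
    refine ⟨_, h5, ⟨h6, (Subgroup.closure_le A.Fix).2 (by
      rintro _ (rfl | rfl); exacts [ha.2, hb.2]) h5⟩, ?_, fun r hr hr' x hx e => ?_⟩
    · rw [← mul_inv_eq_iff_eq_mul, hc τ (by simp), RS.cor_self]; simp
    · refine Subgroup.mem_bot.1 (SetLike.le_def.1 (iSup₂_le fun s hs y hy => ?_) ((stab_conj h6 fun s hs =>
        mul_mem (mul_mem h6 hs) (inv_mem h6)).mem_iSup chev_ab
        (F.closed_preimage ((rsOf D').closed_singleton r))
        (fun s hs => (F.π_pos s).1 ((show F.π s = r from hs) ▸ hr)) hx.1 (by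
          rw [MulEquiv.coe_toMonoidHom, MulAut.conj_apply, e, mul_inv_cancel_right])))
      obtain ⟨v, rfl⟩ := (chevSt D K).mem_U.1 hy.1
      have e : (chevSt D K).h τ (-1) * _ * ((chevSt D K).h τ (-1))⁻¹ = _ := hy.2
      rw [hc s (by simp), cor_α, hF.2.2.2.2.1 s (by
        rw [show F.π s = r from hs, ← cor_α, hr'])] at e
      have := StSys.x_injective chevNC chevNM s e
      rw [zpow_one, neg_one_mul, neg_eq_iff_add_eq_zero, ← two_mul, mul_eq_zero] at this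
      rw [this.resolve_left (cast_ne Nat.prime_two hp2), StSys.x_zero]; exact one_mem _

theorem tw_dich [Finite H] {p : ℕ} [Fact p.Prime] [CharP K p] {i₀ : Fin D'.rank}
    (h₀ : rlen D' ((rsOf D').simple i₀) = rlen D' θs) (h₀' : rlen D' θs ≠ rlen D' θ)
    (hdet : ∀ c, (rsOf D').Pos c → (rsOf D').ht c < (rsOf D').ht θs → ∀ x ∈ A.rgd.U c, x ≠ 1 →
      ∃ s γ, (rsOf D').Pos s ∧ (rsOf D').α γ = (rsOf D').α c + (rsOf D').α s ∧
        ∃ y ∈ A.rgd.U s, σ y = y ∧ x * y * x⁻¹ * y⁻¹ ∉ Ag A.rgd γ)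
    (hsub : ∀ u ∈ H, u ∈ A.rgd.U ((rsOf D').simple i₀) → σ u ≠ u →
      A.rgd.U ((rsOf D').simple i₀) ≤ H) : (∀ g ∈ H, σ g = g) ∨ A.rgd.US Set.univ ≤ H := by
  by_cases hsh : ∀ u ∈ H, u ∈ A.rgd.U ((rsOf D').simple i₀) → σ u = u
  · exact Or.inl (tw_main hF A hd h h₁ h₁' h₀ h₀' hdet hsh)
  push Not at hsh
  obtain ⟨u, h1, h2, h3⟩ := hsh
  refine Or.inr (US_le.2 fun c _ v hv => ?_)
  obtain ⟨w, e | e⟩ := (orb2_of_chk hd).1 c
  · exact h.mem c v hv (fix_long hF A hd h h₁ h₁' (by rw [← e, rlen_smul]) hv)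
  obtain ⟨w, rfl⟩ := (orb2_of_chk hd).exists_smul (h₀.trans (by rw [← e, rlen_smul] :
    rlen D' θs = rlen D' c))
  obtain ⟨n, a1, -, a3⟩ := h.rep w
  exact meq (mul_mem (mul_mem a1 (hsub u h1 h2 h3 (by simpa using a3.conj_U' hv))) (inv_mem a1))

omit hd h₁ h₁' in
theorem det_of_UP {c : Fin D'.nroots} {r s δ : Fin D.nroots} {e : ℤ} (hc : F.π r = c ∧ UP F r s δ e)
    {x : GL D.Idx K} (hx : x ∈ A.rgd.U c) (x1 : x ≠ 1) :
    ∃ s γ, (rsOf D').Pos s ∧ (rsOf D').α γ = (rsOf D').α c + (rsOf D').α s ∧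
      ∃ y ∈ A.rgd.U s, σ y = y ∧ x * y * x⁻¹ * y⁻¹ ∉ Ag A.rgd γ := by
  obtain ⟨rfl, hc⟩ := hc
  obtain ⟨y, hy, y1, y2⟩ := h.ne (F.π s)
  exact ⟨_, _, (F.π_pos s).2 hc.2.1, funext hc.2.2.2.2.1, y, hy, y2, det_UP hF A hc hx x1 hy y1⟩

end Cfsg.Agent.H7.Sf
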