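import Mathlib
import Cfsg.Agent.H7.Sf6
import Cfsg.Agent.H12.Coll
import Cfsg.Agent.H13.D4Str
import Cfsg.Agent.H13.E6Str

/-!
The rational points of `²E₆(q)` and `³D₄(q)` form maximal subgroups.
-/

set_option autoImplicit false
set_option linter.unusedSectionVars false
set_option maxRecDepth 100000

namespace Cfsg.Agent.H7.Sf

open Cfsg.Lie Cfsg.Agent.H12 Cfsg.Agent.H12.RGD Cfsg.Agent.H13

variable {K : Type*} [Field K]

theorem h_scale {D : ChevalleyDatum} [Good D] {l r : Fin D.nroots} (h : D.pairing l r = -1) {a : K}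
    (ha : a ≠ 0) (t : K) : (chevSt D K).h l a⁻¹ * (chevSt D K).x r t * ((chevSt D K).h l a⁻¹)⁻¹ =
      (chevSt D K).x r (a * t) := by
  rw [chevNC.h_conj_x l r (inv_ne_zero ha), cor_α, h, zpow_neg, zpow_one, inv_inv]

/-- witnesses -/
def wE6 (c : ℕ) : Fin chevE6.nroots × Fin chevE6.nroots × Fin chevE6.nroots × ℤ :=
  [(46, 39, 47, 1), (39, 37, 40, 1), (47, 37, 48, 1), (37, 36, 38, 1), (40, 36, 41, 1),
    (48, 36, 49, 1), (44, 36, 45, 1), (51, 36, 52, 1), (53, 36, 54, 1), (36, 37, 38, -1),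
    (38, 39, 41, -1), (41, 42, 45, -1), (49, 42, 52, 1), (45, 46, 52, 1), (52, 39, 54, 1),
    (54, 37, 55, 1), (55, 56, 66, -1), (60, 46, 63, 1), (63, 39, 65, 1), (65, 37, 66, 1)].getD
    (c - 24) (0, 0, 0, 0)

theorem wE6_ok : ∀ c : Fin chevF4.nroots, (rsOf chevF4).Pos c →
    (rsOf chevF4).ht c < (rsOf chevF4).ht 44 → foldE6.π (wE6 c).1 = c ∧
      UP foldE6 (wE6 c).1 (wE6 c).2.1 (wE6 c).2.2.1 (wE6 c).2.2.2 := by decide +kernel

theorem foldC_E6 : FoldC foldE6 47 44 71 := by decide +kernel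

theorem foldC_D4 : FoldC foldD4 11 9 23 := by decide +kernel

theorem ed_dich (p : ℕ) [Fact p.Prime] [CharP K p] (S : ED K)
    {H : Subgroup (GL chevE6.Idx K)} [Finite H] (h1 : H ≤ S.G)
    (h2 : ∀ g ∈ S.G, Matrix.GeneralLinearGroup.map S.θ g = g → g ∈ H) :
    (∀ g ∈ H, Matrix.GeneralLinearGroup.map S.θ g = g) ∨ S.G ≤ H := by
  have hx : ∀ r t, Matrix.GeneralLinearGroup.map S.θ (E6.x r t) = E6.x r (S.θ t) := map_x S.θ
  have hu : ∀ a b t, Matrix.GeneralLinearGroup.map S.θ (S.up a b t) = S.up a b (S.θ t) :=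
    fun a b t => by rw [ED.up, map_mul, hx, hx, ED.up]
  have hG : ∀ {r g}, g ∈ S.X.U r → g ∈ S.G := fun h => h.2
  have hn : ∀ {a b : Fin chevE6.nroots}, Orth a b → (∀ r ∈ [a, b], (rsOf chevE6).Pos r) →
      S.up a b 1 ≠ 1 := fun {a b} h hp e => one_ne_zero (two_inj h hp (A' := 0) (B' := 0)
        (e.trans (by simp))).1
  have h := tw_SU foldC_E6 S.tw (chev_stab_map S.θ) (twSt_comm S.A S.φ) (fun i => by
    fin_cases i
    · exact ⟨⟨_, S.mem_U33.2 ⟨1, rfl⟩, hn E6.o1 (by decide +kernel), by rw [hu, map_one]⟩,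
        _, S.mem14 1, S.up_ne_one E6.o1' (by decide +kernel), by rw [hu, map_one]⟩
    · exact ⟨⟨_, S.mem_U27.2 ⟨1, rfl⟩, hn E6.o2 (by decide +kernel), by rw [hu, map_one]⟩,
        _, S.mem20 1, S.up_ne_one E6.o2' (by decide +kernel), by rw [hu, map_one]⟩
    · exact ⟨⟨_, S.mem_U25.2 ⟨1, map_one _, rfl⟩, E6.x_ne_one _, by rw [hx, map_one]⟩,
        _, S.mem22 (map_one _), E6.x_ne_one _, by rw [hx, map_one]⟩
    · exact ⟨⟨_, S.mem_U24.2 ⟨1, map_one _, rfl⟩, E6.x_ne_one _, by rw [hx, map_one]⟩,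
        _, S.mem23 (map_one _), E6.x_ne_one _, by rw [hx, map_one]⟩) h1 h2
  rw [S.G_eq_US]
  refine tw_dich foldC_E6 S.tw (p' := 0) (ζ := 47) (ok := [1, -1, 2, -2])
    (by rw [tbF4]; decide +kernel) h (i₁ := 2) (by decide +kernel) (fun u hu => by
      obtain ⟨t, ht, rfl⟩ := S.mem_U25.1 hu
      rw [hx, ht]) (p := p) (i₀ := 1) (by decide +kernel) (by decide +kernel)
    (fun c a b x hx x1 => det_of_UP foldC_E6 S.tw h (wE6_ok c a b) hx x1) fun u a1 a2 a3 v hv => ?_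
  obtain ⟨t, rfl⟩ := S.mem_U27.1 a2
  obtain ⟨s, rfl⟩ := S.mem_U27.1 hv
  have h3 : t - S.θ t ≠ 0 := fun e => a3 (by rw [hu, ← sub_eq_zero.1 e])
  have h4 : ∀ a t, S.θ a = a → S.up 42 37 t ∈ H → S.up 42 37 (a * t) ∈ H := fun a t ha ht => by
    by_cases a0 : a = 0
    · simp [a0, ED.up]
    have h5 : (chevSt chevE6 K).h 39 a⁻¹ ∈ H := h_mem_one S.θ
      (fun t ht => h2 _ (hG (S.mem_U25.2 ⟨t, ht, rfl⟩)) (by rw [hx, ht]))
      (fun t ht => h2 _ (hG (S.mem22 ht)) (by rw [hx, ht])) (by rw [map_inv₀, ha])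
    have := mul_mem (mul_mem h5 ht) (inv_mem h5)
    rw [ED.up, ← conj_mul, h_scale (by decide +kernel) a0, h_scale (by decide +kernel) a0] at this
    rwa [ED.up, map_mul, ha]
  have h5 : S.θ ((s - S.θ s) / (t - S.θ t)) = (s - S.θ s) / (t - S.θ t) := by
    rw [map_div₀, map_sub, map_sub, S.hθ, S.hθ, ← neg_sub s, ← neg_sub t, neg_div_neg_eq]
  have h6 := mul_mem (h4 _ 1 (show S.θ (s - (s - S.θ s) / (t - S.θ t) * t) = _ by
    rw [map_sub, map_mul, h5]; field_simp; ring) (h2 _ (hG (S.mem_U27.2 ⟨1, rfl⟩))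
      (by rw [hu, map_one]))) (h4 _ t h5 a1)
  rwa [ED.up, ED.up, (E6.o2.pp _ _).symm.mul_mul_mul_comm, ← StSys.add, ← StSys.add, ← map_add,
    mul_one, sub_add_cancel] at h6

open D4

theorem chk0 (μ : ℕ →*₀ K) (w w' : List (Fin chevD4.nroots × Ex))
    (h : Col.chk ⟨fastD4.tab, 0, id, id, 60⟩ (w.map fun a => (a.1.1, a.2))
      (w'.map fun a => (a.1.1, a.2)) = true) :
    (w.map fun a => x a.1 (a.2.ev μ)).prod = (w'.map fun a => x a.1 (a.2.ev μ)).prod := by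
  simpa [eev, Function.comp_def, xN_fin] using
    Col.OK.eq_of_chk (chevSt chevD4 K) (μ := μ) ⟨tbD4, Int.cast_zero, fun _ => rfl⟩ h

/-- the simple reflections -/
noncomputable def ns (K : Type*) [Field K] (i : Fin chevD4.rank) : GL chevD4.Idx K :=
  (chevSt chevD4 K).n ((rsOf chevD4).simple i) 1

theorem ns_x (i : Fin chevD4.rank) (r s : Fin chevD4.nroots) (e : ℤ)
    (h : fastD4.tab.refl i r = s ∧ fastD4.tab.eta i r = e) (t : K) :
    ns K i * x r t * (ns K i)⁻¹ = x s (e * t) := by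
  rw [← tbD4] at h
  rw [ns, chevNC.m_conj_x, ← h.2, show (rsOf chevD4).sref i r = s from Fin.ext h.1]
  rfl

theorem n3_x (r r1 r2 s : Fin chevD4.nroots)
    (h : (fastD4.tab.refl 3 r = r1 ∧ fastD4.tab.refl 2 r1 = r2 ∧ fastD4.tab.refl 0 r2 = s) ∧
      fastD4.tab.eta 0 r2 * (fastD4.tab.eta 2 r1 * fastD4.tab.eta 3 r) = 1) (t : K) :
    ns K 0 * (ns K 2 * ns K 3) * x r t * (ns K 0 * (ns K 2 * ns K 3))⁻¹ = x s t := by
  have : x s t = x s (((fastD4.tab.eta 0 r2 * (fastD4.tab.eta 2 r1 * fastD4.tab.eta 3 r) : ℤ) : K)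
    * t) := by rw [h.2]; simp
  rw [this, Int.cast_mul, Int.cast_mul, mul_assoc (_ : K),
    mul_assoc (_ : K), ← ns_x 0 r2 s (fastD4.tab.eta 0 r2) ⟨h.1.2.2, rfl⟩,
    ← ns_x 2 r1 r2 (fastD4.tab.eta 2 r1) ⟨h.1.2.1, rfl⟩,
    ← ns_x 3 r r1 (fastD4.tab.eta 3 r) ⟨h.1.1, rfl⟩]
  group

local notation "v" n:max => Ex.var n

theorem d4_rels (a b c : K) :
    x 19 a * (x 16 b * x 15 c) * (x 18 1 * (x 13 1 * x 12 1)) * (x 19 a * (x 16 b * x 15 c))⁻¹ *
      (x 18 1 * (x 13 1 * x 12 1))⁻¹ = x 17 (-b - c) * (x 20 (c - a) * (x 21 (b - a) *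
        (x 22 (b + c - a) * x 23 (a * b + a * c - b * c)))) ∧
    x 19 a * (x 16 b * x 15 c) * (x 17 1 * (x 20 (-1) * x 21 (-1))) *
      (x 19 a * (x 16 b * x 15 c))⁻¹ * (x 17 1 * (x 20 (-1) * x 21 (-1)))⁻¹ = x 23 (b + c - a) ∧
    (x 14 1)⁻¹ * (x 18 a * (x 13 b * x 12 c))⁻¹ * x 14 1 * (x 18 a * (x 13 b * x 12 c)) =
      x 19 a * (x 16 (-b) * x 15 (-c)) * (x 17 (b * c) * (x 20 (-(c * a)) * x 21 (-(a * b)))) *
        (x 22 (a * b * c) * x 23 (a * b * c)) := by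
  obtain ⟨μ, e1, e2, e3, -⟩ := exists_mu8 a b c 0 0 0 0 0
  simpa [mul_assoc, e1, e2, e3, ← StSys.x_neg, sub_eq_add_neg] using And.intro
    (chk0 μ [(19, v 2), (16, v 3), (15, v 5), (18, v 1), (13, v 1), (12, v 1), (15, -v 5),
      (16, -v 3), (19, -v 2), (12, -v 1), (13, -v 1), (18, -v 1)] [(17, -v 3 + -v 5),
      (20, v 5 + -v 2), (21, v 3 + -v 2), (22, v 3 + v 5 + -v 2),
      (23, v 2 * v 3 + v 2 * v 5 + -(v 3 * v 5))] (by decide +kernel)) <| And.intro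
    (chk0 μ [(19, v 2), (16, v 3), (15, v 5), (17, v 1), (20, -v 1), (21, -v 1), (15, -v 5),
      (16, -v 3), (19, -v 2), (21, v 1), (20, v 1), (17, -v 1)] [(23, v 3 + v 5 + -v 2)]
      (by decide +kernel))
    (chk0 μ [(14, -v 1), (12, -v 5), (13, -v 3), (18, -v 2), (14, v 1), (18, v 2), (13, v 3),
      (12, v 5)] [(19, v 2), (16, -v 3), (15, -v 5), (17, v 3 * v 5), (20, -(v 5 * v 2)),
      (21, -(v 2 * v 3)), (22, v 2 * v 3 * v 5), (23, v 2 * v 3 * v 5)] (by decide +kernel))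

theorem dd_dich (p : ℕ) [Fact p.Prime] [CharP K p] (S : DD K)
    {H : Subgroup (GL chevD4.Idx K)} [Finite H] (h1 : H ≤ S.G)
    (h2 : ∀ g ∈ S.G, Matrix.GeneralLinearGroup.map S.θ g = g → g ∈ H) :
    (∀ g ∈ H, Matrix.GeneralLinearGroup.map S.θ g = g) ∨ S.G ≤ H := by
  have hx : ∀ r t, Matrix.GeneralLinearGroup.map S.θ (x r t) = x r (S.θ t) := map_x S.θ
  have hu : ∀ t, Matrix.GeneralLinearGroup.map S.θ (S.us t) = S.us (S.θ t) :=
    fun t => by rw [DD.us, map_mul, map_mul, hx, hx, hx, DD.us]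
  have hu' : Matrix.GeneralLinearGroup.map S.θ (S.um 1) = S.um 1 := by simp [DD.um, hx]
  have hG : ∀ {r g}, g ∈ S.X.U r → g ∈ S.G := fun h => h.2
  have h := tw_SU foldC_D4 S.tw (chev_stab_map S.θ) (twSt_comm S.A S.φ) (fun i => by
    fin_cases i
    · exact ⟨⟨_, S.mem_U7.2 ⟨1, rfl⟩, fun e => one_ne_zero (three_inj o1 o2 o3 (by decide +kernel)
        (A' := 0) (B' := 0) (C' := 0) (e.trans (by simp))).1, by rw [hu, map_one]⟩,
        _, S.um_mem 1, S.um_ne_one, hu'⟩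
    · exact ⟨⟨_, S.mem_U6.2 ⟨1, map_one _, rfl⟩, fun e => one_ne_zero
        ((StSys.x_eq_one_iff chevNC chevNM).1 e), by rw [hx, map_one]⟩,
        _, S.x9_mem (map_one _), DD.x9_ne_one, by rw [hx, map_one]⟩) h1 h2
  have m14 : ∀ t, S.θ t = t → x 14 t ∈ H := fun t ht =>
    h2 _ (hG (S.mem_U6.2 ⟨t, ht, rfl⟩)) (by rw [hx, ht])
  have m9 : ∀ t, S.θ t = t → x 9 t ∈ H := fun t ht => h2 _ (hG (S.x9_mem ht)) (by rw [hx, ht])
  have m7 : S.us 1 ∈ H := h2 _ (hG (S.mem_U7.2 ⟨1, rfl⟩)) (by rw [hu, map_one])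
  have n : ((rsOf chevD4).neg 18 = 5 ∧ (rsOf chevD4).neg 13 = 10 ∧ (rsOf chevD4).neg 12 = 11 ∧
      (rsOf chevD4).neg 14 = 9) ∧ (rsOf chevD4).simple 0 = 18 ∧ (rsOf chevD4).simple 1 = 14 ∧
      (rsOf chevD4).simple 2 = 13 ∧ (rsOf chevD4).simple 3 = 12 := by decide +kernel
  have m1 : ns K 1 ∈ H := by
    rw [ns, n.2.2.1, StSys.n, n.1.2.2.2]
    exact mul_mem (mul_mem (m14 1 (map_one _)) (m9 _ (by simp))) (m14 1 (map_one _))
  have m3 : ns K 0 * (ns K 2 * ns K 3) ∈ H := by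
    rw [ns, ns, ns, n.2.1, n.2.2.2.1, n.2.2.2.2, StSys.n, StSys.n, StSys.n,
      mul_shuffle (o3.pp _ _) (o3.pn _ _) (o3.np _ _), mul_shuffle ((o1.pp _ _).mul_right (o2.pp _ _))
        ((o1.pn _ _).mul_right (o2.pn _ _)) ((o1.np _ _).mul_right (o2.np _ _)), n.1.1, n.1.2.1,
      n.1.2.2.1]
    simpa [DD.us, DD.um] using mul_mem (mul_mem m7 (h2 _ (hG (S.um_mem (-1)))
      (by simp [DD.um, hx]))) m7
  have e1 : ∀ a b c : K, ns K 1 * (x 18 a * (x 13 b * x 12 c)) * (ns K 1)⁻¹ =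
      x 19 a * (x 16 (-b) * x 15 (-c)) := fun a b c => by
    rw [← conj_mul, ← conj_mul, ns_x 1 18 19 1 (by decide +kernel),
      ns_x 1 13 16 (-1) (by decide +kernel), ns_x 1 12 15 (-1) (by decide +kernel)]; simp
  have e3 : ∀ a b c : K, ns K 0 * (ns K 2 * ns K 3) * (x 19 a * (x 16 b * x 15 c)) *
      (ns K 0 * (ns K 2 * ns K 3))⁻¹ = x 17 a * (x 20 b * x 21 c) := fun a b c => by
    rw [← conj_mul, ← conj_mul, n3_x 19 20 22 17 (by decide +kernel),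
      n3_x 16 17 15 20 (by decide +kernel), n3_x 15 14 16 21 (by decide +kernel)]
  have e4 : ∀ {L : Subgroup (GL chevD4.Idx K)}, H ≤ L → ∀ a b c : K,
      (x 19 a * (x 16 (-b) * x 15 (-c)) ∈ L ↔ x 18 a * (x 13 b * x 12 c) ∈ L) ∧
      (x 17 a * (x 20 (-b) * x 21 (-c)) ∈ L ↔ x 18 a * (x 13 b * x 12 c) ∈ L) := fun hL a b c => by
    rw [← e3, mul_mem_cancel_right (inv_mem (hL m3)), mul_mem_cancel_left (hL m3), ← e1,
      mul_mem_cancel_right (inv_mem (hL m1)), mul_mem_cancel_left (hL m1), and_self]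
  rw [S.G_eq_US]
  refine tw_dich foldC_D4 S.tw (p' := 0) (ζ := 11) (ok := [1, -1, 3, -3])
    (by rw [tbG2]; decide +kernel) h (i₁ := 1) (by decide +kernel) (fun u hu => by
      obtain ⟨t, ht, rfl⟩ := S.mem_U6.1 hu
      rw [hx, ht]) (p := p) (i₀ := 0) (by decide +kernel) (by decide +kernel)
    (fun c a b y hy y1 => ?_) fun u a1 a2 a3 w hw => ?_
  · rcases (show ∀ c, (rsOf chevG2).Pos c → (rsOf chevG2).ht c < (rsOf chevG2).ht 9 →
      c = 6 ∨ c = 7 ∨ c = 8 by decide +kernel) c a b with rfl | rfl | rfl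
    · exact det_of_UP foldC_D4 S.tw h (r := 14) (s := 12) (δ := 15) (e := 1) (by decide +kernel) hy y1
    · exact det_of_UP foldC_D4 S.tw h (r := 12) (s := 14) (δ := 15) (e := -1) (by decide +kernel) hy y1
    obtain ⟨f, rfl, -⟩ := (mem_U_iff S.tw (L := [19, 16, 15]) (by decide) a (by decide +kernel)).1 hy
    rw [pr_three] at y1 ⊢
    by_contra hc
    push Not at hc
    have k1 := hc 7 9 (by decide +kernel) (funext (by decide +kernel)) _ (S.mem_U7.2 ⟨1, rfl⟩)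
      (by rw [hu, map_one])
    have k2 := hc 9 11 (by decide +kernel) (funext (by decide +kernel)) (x 17 1 * (x 20 (-1) * x 21 (-1)))
      ⟨by
        have := fun r (h : foldD4.π r = 9) => x_mem_US (chevNC (D := chevD4) (F := K)) chevNM
          (A := foldD4.π ⁻¹' {9}) h
        exact mul_mem (this 17 (by decide +kernel) _) (mul_mem (this 20 (by decide +kernel) _)
          (this 21 (by decide +kernel) _)), h1 ((e4 le_rfl 1 1 1).2.2 (by simpa [DD.us] using m7))⟩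
      (by simp [hx])
    simp only [DD.us, map_one] at k1
    rw [(d4_rels _ _ _).1] at k1
    rw [(d4_rels _ _ _).2.1] at k2
    have c1 := coord_zero [] [(20, _), (21, _), (22, _), (23, _)]
      (by simpa using Ag_le foldC_D4 S.tw 17 k1) (by simp; decide +kernel)
    have c2 := coord_zero [(17, _)] [(21, _), (22, _), (23, _)]
      (by simpa using Ag_le foldC_D4 S.tw 20 k1) (by simp; decide +kernel)
    have c3 := coord_zero [(17, _), (20, _)] [(22, _), (23, _)]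
      (by simpa [mul_assoc] using Ag_le foldC_D4 S.tw 21 k1) (by simp; decide +kernel)
    have c4 := coord_zero [] [] (by simpa using Ag_le foldC_D4 S.tw 23 k2)
      (by simp; decide +kernel)
    refine y1 ?_
    rw [show f 19 = 0 by linear_combination -c1 - c4, show f 16 = 0 by linear_combination c3 - c1 - c4,
      show f 15 = 0 by linear_combination c2 - c1 - c4]
    simp
  obtain ⟨t, rfl⟩ := S.mem_U7.1 a2
  obtain ⟨s, rfl⟩ := S.mem_U7.1 hw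
  have h3 : S.θ t - t ≠ 0 := fun e => a3 (by rw [hu, sub_eq_zero.1 e])
  have h3' : S.θ (S.θ t) - S.θ t ≠ 0 := by rwa [← map_sub, map_ne_zero]
  have h3'' : t - S.θ (S.θ t) ≠ 0 := by rwa [← map_ne_zero S.θ, map_sub, S.hθ] at h3'
  have h4 : ∀ a t, S.θ a = a → S.us t ∈ H → S.us (a * t) ∈ H := fun a t ha ht => by
    by_cases a0 : a = 0
    · simp [a0, DD.us]
    have h5 : (chevSt chevD4 K).h 14 a⁻¹ ∈ H := h_mem_one S.θ m14 m9 (by rw [map_inv₀, ha])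
    have := mul_mem (mul_mem h5 ht) (inv_mem h5)
    rw [DD.us, ← conj_mul, ← conj_mul, h_scale (by decide +kernel) a0,
      h_scale (by decide +kernel) a0, h_scale (by decide +kernel) a0] at this
    rwa [DD.us, map_mul, map_mul, ha, ha]
  have h5 : ∀ a b, S.us a ∈ H → S.us b ∈ H → S.us (a + b) ∈ H := fun a b ha hb => by
    have := mul_mem ha hb
    rwa [DD.us, DD.us, ((o1.pp _ _).mul_right (o2.pp _ _)).symm.mul_mul_mul_comm,
      (o3.pp _ _).symm.mul_mul_mul_comm, ← StSys.add, ← StSys.add, ← StSys.add, ← map_add,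
      ← map_add, ← map_add] at this
  have h6 : S.us (S.θ t * S.θ (S.θ t)) ∈ H := by
    have k1 := mul_mem (mul_mem (mul_mem (inv_mem (m14 1 (map_one _))) (inv_mem a1))
      (m14 1 (map_one _))) a1
    have k2 := (e4 h1 (S.θ t * S.θ (S.θ t)) (S.θ (S.θ t) * t) (t * S.θ t)).2.2 (by
      simpa [DD.us, S.hθ] using hG (S.mem_U7.2 ⟨S.θ t * S.θ (S.θ t), rfl⟩))
    have k3 := (e4 le_rfl _ _ _).1.2 a1
    rw [DD.us, (d4_rels _ _ _).2.2] at k1
    have k4 := h2 _ ((mul_mem_cancel_left (mul_mem (h1 k3) k2)).1 (h1 k1)) (by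
      simp only [map_mul, hx, S.hθ]; congr 2 <;> ring)
    simpa [DD.us, S.hθ] using (e4 le_rfl _ _ _).2.1
      ((mul_mem_cancel_left k3).1 ((mul_mem_cancel_right k4).1 k1))
  obtain ⟨β, hβ⟩ : ∃ β, β = ((S.θ s - s) * (t * S.θ t - S.θ t * S.θ (S.θ t)) - (S.θ (S.θ s) - s) *
    (S.θ (S.θ t) * t - S.θ t * S.θ (S.θ t))) /
      ((S.θ t - t) * (S.θ (S.θ t) - S.θ t) * (t - S.θ (S.θ t))) := ⟨_, rfl⟩
  obtain ⟨γ, hγ⟩ : ∃ γ, γ = ((S.θ t - t) * (S.θ (S.θ s) - s) - (S.θ (S.θ t) - t) * (S.θ s - s)) /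
      ((S.θ t - t) * (S.θ (S.θ t) - S.θ t) * (t - S.θ (S.θ t))) := ⟨_, rfl⟩
  have h7 : S.θ β = β := by
    simp only [hβ, map_div₀, map_sub, map_mul, S.hθ]; field_simp; ring
  have h8 : S.θ γ = γ := by
    simp only [hγ, map_div₀, map_sub, map_mul, S.hθ]; field_simp; ring
  have h9 := h5 _ _ (h5 _ _ (h4 (s + β * t + γ * (S.θ t * S.θ (S.θ t))) 1 (by
    simp only [map_add, map_mul, h7, h8, S.hθ]
    rw [hβ, hγ]; field_simp; ring) m7) (h4 (-β) t (by rw [map_neg, h7]) a1))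
    (h4 (-γ) _ (by rw [map_neg, h8]) h6)
  convert h9 using 2; ring

theorem fin_max {D : ChevalleyDatum} [Fintype K] {q : ℕ} {θ : K →+* K} (hθ : ∀ t, θ t = t ^ q)
    {G M : Subgroup (GL D.Idx K)} (hM : ∀ g, g ∈ M ↔ g ∈ G ∧ ∀ i j, g.1 i j ^ q = g.1 i j)
    (h1 : ∃ g ∈ G, Matrix.GeneralLinearGroup.map θ g ≠ g)
    (h2 : ∀ H ≤ G, (∀ g ∈ G, Matrix.GeneralLinearGroup.map θ g = g → g ∈ H) →
      (∀ g ∈ H, Matrix.GeneralLinearGroup.map θ g = g) ∨ G ≤ H) :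
    M ≠ G ∧ ∀ H, M ≤ H → H ≤ G → H = M ∨ H = G := by
  have key : ∀ g, g ∈ M ↔ g ∈ G ∧ Matrix.GeneralLinearGroup.map θ g = g := fun g => by
    rw [hM, Units.ext_iff, ← Matrix.ext_iff]
    simp only [← hθ]
    rfl
  obtain ⟨g, hg, h1⟩ := h1
  refine ⟨fun e => h1 ((key g).1 (e ▸ hg)).2, fun H a b => ?_⟩
  rcases h2 H b fun g c d => a ((key g).2 ⟨c, d⟩) with h | h
  · exact Or.inl (le_antisymm (fun g c => (key g).2 ⟨b c, h g c⟩) a)
  · exact Or.inr (le_antisymm b h)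

end Cfsg.Agent.H7.Sf
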