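import Mathlib
import Cfsg.Agent.H7.Ti3
import Cfsg.Agent.H16.Gleason

/-! The Tits group has no doubly transitive action. -/

set_option autoImplicit false

namespace Cfsg.Agent.H7.Ti
open Cfsg.Lie Cfsg.Agent.H25 Cfsg.Agent.H28 MulAction

section Gen
variable {Γ : Type*} [Group Γ] (Ω : Type*) [MulAction Γ Ω] [Fintype Ω]

/-- the number of fixed points -/
noncomputable def fp (a : Γ) : ℕ := Nat.card (fixedBy Ω a)

variable {Ω}

omit [Fintype Ω] in
theorem fp_conj {a b c : Γ} (h : c * a = b * c) : fp Ω a = fp Ω b := by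
  refine Nat.card_congr ((toPerm c).subtypeEquiv fun x => ?_)
  simp only [mem_fixedBy, toPerm_apply]
  rw [← mul_smul, ← h, mul_smul, smul_left_cancel_iff]

theorem fp_one : fp Ω (1 : Γ) = Fintype.card Ω := by
  simp [fp]

theorem fp_lt [FaithfulSMul Γ Ω] {a : Γ} (h : a ≠ 1) : fp Ω a < Fintype.card Ω := by
  rw [fp, ← Nat.card_eq_fintype_card]
  by_contra hc
  have := Set.eq_of_subset_of_ncard_le (Set.subset_univ (fixedBy Ω a))
    (by rw [Set.ncard_univ]; exact not_lt.1 hc)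
  exact h (eq_of_smul_eq_smul (α := Ω) fun x => by
    rw [one_smul]; exact (this.ge (Set.mem_univ x) : x ∈ fixedBy Ω a))

variable {A : Type*} [Group A] [Fintype A]

theorem burn (φ : A →* Γ) : Fintype.card A ∣ ∑ a, fp Ω (φ a) := by
  classical
  letI := MulAction.compHom Ω φ
  have := Fintype.ofFinite (Quotient (orbitRel A Ω))
  have h := sum_card_fixedBy_eq_card_orbits_mul_card_group A Ω
  exact Dvd.intro_left _ (h.symm.trans (Finset.sum_congr rfl fun a _ => Fintype.card_eq_nat_card))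

theorem sum_fp_le (φ : A →* Γ) {m : ℕ}
    (h : ∀ x : Ω, Nat.card ((stabilizer Γ x).comap φ) ≤ m) :
    ∑ a, fp Ω (φ a) ≤ m * Fintype.card Ω := by
  classical
  have h1 : ∑ a, fp Ω (φ a) = ∑ x : Ω, Nat.card ((stabilizer Γ x).comap φ) := by
    simp only [fp, Nat.card_eq_fintype_card, Fintype.card_subtype, Finset.card_filter]
    rw [Finset.sum_comm]
    simp only [mem_fixedBy, Subgroup.mem_comap, mem_stabilizer_iff]
  rw [h1, mul_comm]
  exact Finset.sum_le_card_nsmul _ _ _ fun x _ => h x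

/-- the homomorphism from a cyclic group -/
def cyc (p : ℕ) [NeZero p] (x : Γ) (hx : x ^ p = 1) : Multiplicative (ZMod p) →* Γ :=
  MonoidHom.mk' (fun a => x ^ a.toAdd.val) fun a b => by
    rw [toAdd_mul, ZMod.val_add, ← pow_eq_pow_mod _ hx, pow_add]

theorem two_lemma [FaithfulSMul Γ Ω] (φ : A →* Γ) {z : Γ} (hz : z ^ 2 = 1) (h1 : z ≠ 1)
    (hc : ∀ a, Commute z (φ a)) (h : ∀ a ≠ 1, ∃ c, c * φ a = z * φ a * c) :
    2 * Fintype.card A ≤ Fintype.card Ω := by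
  classical
  obtain ⟨r, hr⟩ := burn (Ω := Ω) φ
  obtain ⟨s, hs⟩ := burn (Ω := Ω) ((cyc 2 z hz).noncommCoprod φ fun m a => (hc a).pow_left _)
  have e : ∑ m : Multiplicative (ZMod 2), ∑ a, fp Ω (((cyc 2 z hz).noncommCoprod φ
      fun m a => (hc a).pow_left _) (m, a)) =
      ∑ a, fp Ω (z ^ 0 * φ a) + ∑ a, fp Ω (z ^ 1 * φ a) := Fin.sum_univ_two _
  rw [Fintype.sum_prod_type] at hs
  rw [e, Fintype.card_prod, Fintype.card_multiplicative, ZMod.card] at hs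
  rw [pow_zero, pow_one] at hs
  simp only [one_mul] at hs
  have e1 := Finset.add_sum_erase Finset.univ (fun a => fp Ω (φ a)) (Finset.mem_univ 1)
  have e2 := Finset.add_sum_erase Finset.univ (fun a => fp Ω (z * φ a)) (Finset.mem_univ 1)
  have e3 : ∑ a ∈ Finset.univ.erase 1, fp Ω (φ a) = ∑ a ∈ Finset.univ.erase 1, fp Ω (z * φ a) :=
    Finset.sum_congr rfl fun a ha => by
      obtain ⟨c, hc⟩ := h a (Finset.ne_of_mem_erase ha)
      exact fp_conj hc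
  simp only [map_one, mul_one, fp_one] at e1 e2
  have h2 := fp_lt (Ω := Ω) h1
  have h3 : 2 * Fintype.card A * s < 2 * Fintype.card A * r := by nlinarith
  have h4 : s + 1 ≤ r := Nat.lt_of_mul_lt_mul_left h3
  nlinarith

theorem five_lemma [FaithfulSMul Γ Ω] (φ : A →* Γ) (hA : Fintype.card A = 5 ^ 2) {x : Γ}
    (h1 : x ≠ 1) (h : ∀ a ≠ 1, ∃ c, c * x = φ a * c)
    (hs : ∀ y : Ω, ¬ 25 ∣ Nat.card (stabilizer Γ y)) :
    ∃ f, 6 * f ≤ Fintype.card Ω ∧ 25 ∣ Fintype.card Ω + 24 * f := by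
  classical
  have e1 := Finset.add_sum_erase Finset.univ (fun a => fp Ω (φ a)) (Finset.mem_univ 1)
  have e2 : ∑ a ∈ Finset.univ.erase 1, fp Ω (φ a) = 24 * fp Ω x := by
    rw [Finset.sum_congr rfl (g := fun _ => fp Ω x) fun a ha => by
      obtain ⟨c, hc⟩ := h a (Finset.ne_of_mem_erase ha)
      exact (fp_conj hc).symm]
    simp [hA]
  simp only [map_one, fp_one, e2] at e1
  have hi : Function.Injective φ := (injective_iff_map_eq_one φ).2 fun a ha => by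
    by_contra h2
    obtain ⟨c, hc⟩ := h a h2
    rw [ha, one_mul, mul_eq_left] at hc
    exact h1 hc
  have h2 := sum_fp_le (Ω := Ω) φ (m := 5) fun y => by
    have h3 := Subgroup.card_subgroup_dvd_card ((stabilizer Γ y).comap φ)
    rw [Nat.card_eq_fintype_card (α := A), hA] at h3
    obtain ⟨k, hk, h4⟩ := (Nat.dvd_prime_pow (by norm_num)).1 h3
    have h5 := Subgroup.card_dvd_of_le (Subgroup.map_comap_le φ (stabilizer Γ y))
    rw [Subgroup.card_map_of_injective hi, h4] at h5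
    rw [h4]
    interval_cases k
    · norm_num
    · norm_num
    · exact absurd h5 (hs y)
  have h3 := burn (Ω := Ω) φ
  rw [← e1] at h2 h3
  exact ⟨fp Ω x, by omega, by rwa [hA] at h3⟩

theorem two_lemma' [FaithfulSMul Γ Ω] {x : ℕ → Γ} {z : Γ} (hz : z ^ 2 = 1) (h1 : z ≠ 1)
    (b1 : ∀ i < 4, x i ^ 2 = 1) (b2 : ∀ i < 4, Commute z (x i))
    (b3 : ∀ i < 4, ∀ j < 4, Commute (x i) (x j))
    (h : ∀ a < 2, ∀ b < 2, ∀ c < 2, ∀ d < 2, Nat.beq (a + b + c + d) 0 = false → ∃ y,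
      y * (x 0 ^ a * (x 1 ^ b * (x 2 ^ c * x 3 ^ d))) =
        z * (x 0 ^ a * (x 1 ^ b * (x 2 ^ c * x 3 ^ d))) * y) : 32 ≤ Fintype.card Ω := by
  have := two_lemma (Ω := Ω) ((cyc 2 _ (b1 0 (by omega))).noncommCoprod
    ((cyc 2 _ (b1 1 (by omega))).noncommCoprod ((cyc 2 _ (b1 2 (by omega))).noncommCoprod
      (cyc 2 _ (b1 3 (by omega))) fun _ _ => (b3 2 (by omega) 3 (by omega)).pow_pow _ _)
      fun _ _ => ((b3 1 (by omega) 2 (by omega)).pow_pow _ _).mul_right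
        ((b3 1 (by omega) 3 (by omega)).pow_pow _ _))
    fun _ _ => ((b3 0 (by omega) 1 (by omega)).pow_pow _ _).mul_right
      (((b3 0 (by omega) 2 (by omega)).pow_pow _ _).mul_right
        ((b3 0 (by omega) 3 (by omega)).pow_pow _ _))) hz h1
    (fun _ => ((b2 0 (by omega)).pow_right _).mul_right (((b2 1 (by omega)).pow_right _).mul_right
      (((b2 2 (by omega)).pow_right _).mul_right ((b2 3 (by omega)).pow_right _)))) (by
    rintro ⟨a, b, c, d⟩ hne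
    exact h _ a.toAdd.val_lt _ b.toAdd.val_lt _ c.toAdd.val_lt _ d.toAdd.val_lt
      (by revert a b c d; decide))
  simpa using this

theorem five_lemma' [FaithfulSMul Γ Ω] {x y : Γ} (hx : x ^ 5 = 1) (hy : y ^ 5 = 1) (h1 : x ≠ 1)
    (hc : Commute x y)
    (h : ∀ a < 5, ∀ b < 5, Nat.beq (a + b) 0 = false → ∃ c, c * x = x ^ a * y ^ b * c)
    (hs : ∀ y : Ω, ¬ 25 ∣ Nat.card (stabilizer Γ y)) :
    ∃ f, 6 * f ≤ Fintype.card Ω ∧ 25 ∣ Fintype.card Ω + 24 * f :=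
  five_lemma ((cyc 5 x hx).noncommCoprod (cyc 5 y hy) fun _ _ => hc.pow_pow _ _) (by simp) h1 (by
    rintro ⟨a, b⟩ hne
    exact h _ a.toAdd.val_lt _ b.toAdd.val_lt (by revert a b; decide)) hs

end Gen

def zw : List ℕ := [nat_lit 1, nat_lit 2, nat_lit 4, nat_lit 5, nat_lit 2, nat_lit 0, nat_lit 4, nat_lit 0, nat_lit 4, nat_lit 3, nat_lit 0, nat_lit 2, nat_lit 4, nat_lit 0]
def xw : List (List ℕ) :=
  [[nat_lit 1, nat_lit 3, nat_lit 0, nat_lit 2, nat_lit 0, nat_lit 5, nat_lit 4, nat_lit 0, nat_lit 2, nat_lit 0, nat_lit 3, nat_lit 1],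
  [nat_lit 5, nat_lit 0, nat_lit 5, nat_lit 0, nat_lit 1, nat_lit 2, nat_lit 5, nat_lit 4, nat_lit 0, nat_lit 5, nat_lit 2, nat_lit 0, nat_lit 5, nat_lit 3],
  [nat_lit 1, nat_lit 2, nat_lit 0, nat_lit 5, nat_lit 2, nat_lit 0, nat_lit 4, nat_lit 2, nat_lit 5, nat_lit 0, nat_lit 5, nat_lit 2, nat_lit 4, nat_lit 0, nat_lit 2],
  [nat_lit 1, nat_lit 2, nat_lit 4, nat_lit 2, nat_lit 5, nat_lit 2, nat_lit 0, nat_lit 4, nat_lit 0, nat_lit 5, nat_lit 0, nat_lit 4, nat_lit 0, nat_lit 5, nat_lit 1]]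
def c2 : List (List ℕ) :=
  [[],
  [nat_lit 1, nat_lit 0, nat_lit 3, nat_lit 4, nat_lit 0, nat_lit 3, nat_lit 5, nat_lit 0, nat_lit 5, nat_lit 4, nat_lit 0, nat_lit 5, nat_lit 4],
  [nat_lit 0, nat_lit 5, nat_lit 2, nat_lit 1, nat_lit 0, nat_lit 5, nat_lit 0, nat_lit 3, nat_lit 0, nat_lit 2, nat_lit 5, nat_lit 0, nat_lit 4, nat_lit 0],
  [nat_lit 1, nat_lit 0, nat_lit 3, nat_lit 4, nat_lit 0, nat_lit 3, nat_lit 5, nat_lit 0, nat_lit 5, nat_lit 4, nat_lit 0, nat_lit 5, nat_lit 4],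
  [nat_lit 2, nat_lit 1, nat_lit 4, nat_lit 0, nat_lit 5, nat_lit 0, nat_lit 4, nat_lit 0, nat_lit 2, nat_lit 5, nat_lit 0, nat_lit 4, nat_lit 1, nat_lit 0, nat_lit 5],
  [nat_lit 1, nat_lit 0, nat_lit 3, nat_lit 4, nat_lit 0, nat_lit 3, nat_lit 5, nat_lit 0, nat_lit 5, nat_lit 4, nat_lit 0, nat_lit 5, nat_lit 4],
  [nat_lit 2, nat_lit 1, nat_lit 4, nat_lit 0, nat_lit 5, nat_lit 0, nat_lit 4, nat_lit 0, nat_lit 2, nat_lit 5, nat_lit 0, nat_lit 4, nat_lit 1, nat_lit 0, nat_lit 5],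
  [nat_lit 1, nat_lit 0, nat_lit 3, nat_lit 4, nat_lit 0, nat_lit 3, nat_lit 5, nat_lit 0, nat_lit 5, nat_lit 4, nat_lit 0, nat_lit 5, nat_lit 4],
  [nat_lit 2, nat_lit 1, nat_lit 4, nat_lit 0, nat_lit 5, nat_lit 0, nat_lit 4, nat_lit 0, nat_lit 2, nat_lit 5, nat_lit 0, nat_lit 4, nat_lit 1, nat_lit 0, nat_lit 5],
  [nat_lit 1, nat_lit 0, nat_lit 3, nat_lit 4, nat_lit 0, nat_lit 3, nat_lit 5, nat_lit 0, nat_lit 5, nat_lit 4, nat_lit 0, nat_lit 5, nat_lit 4],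
  [nat_lit 2, nat_lit 1, nat_lit 4, nat_lit 0, nat_lit 5, nat_lit 0, nat_lit 4, nat_lit 0, nat_lit 2, nat_lit 5, nat_lit 0, nat_lit 4, nat_lit 1, nat_lit 0, nat_lit 5],
  [nat_lit 1, nat_lit 0, nat_lit 3, nat_lit 4, nat_lit 0, nat_lit 3, nat_lit 5, nat_lit 0, nat_lit 5, nat_lit 4, nat_lit 0, nat_lit 5, nat_lit 4],
  [nat_lit 0, nat_lit 3, nat_lit 4, nat_lit 0, nat_lit 5, nat_lit 2, nat_lit 0, nat_lit 1, nat_lit 5, nat_lit 0, nat_lit 2, nat_lit 5, nat_lit 2, nat_lit 4, nat_lit 3],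
  [nat_lit 1, nat_lit 0, nat_lit 3, nat_lit 4, nat_lit 0, nat_lit 3, nat_lit 5, nat_lit 0, nat_lit 5, nat_lit 4, nat_lit 0, nat_lit 5, nat_lit 4],
  [nat_lit 0, nat_lit 3, nat_lit 4, nat_lit 0, nat_lit 5, nat_lit 2, nat_lit 0, nat_lit 1, nat_lit 5, nat_lit 0, nat_lit 2, nat_lit 5, nat_lit 2, nat_lit 4, nat_lit 3],
  [nat_lit 1, nat_lit 0, nat_lit 3, nat_lit 4, nat_lit 0, nat_lit 3, nat_lit 5, nat_lit 0, nat_lit 5, nat_lit 4, nat_lit 0, nat_lit 5, nat_lit 4]]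
def xf : List ℕ := [nat_lit 1, nat_lit 2, nat_lit 0, nat_lit 5, nat_lit 0, nat_lit 4, nat_lit 0, nat_lit 4, nat_lit 0, nat_lit 2, nat_lit 5, nat_lit 2, nat_lit 4, nat_lit 2, nat_lit 4]
def yf : List ℕ := [nat_lit 3, nat_lit 0, nat_lit 1, nat_lit 2, nat_lit 1, nat_lit 4, nat_lit 5, nat_lit 0, nat_lit 4, nat_lit 0, nat_lit 5, nat_lit 0, nat_lit 4]
def c5 : List (List ℕ) :=
  [[],
  [nat_lit 3, nat_lit 4, nat_lit 0, nat_lit 4, nat_lit 0, nat_lit 1, nat_lit 5, nat_lit 0, nat_lit 5, nat_lit 4, nat_lit 3, nat_lit 0, nat_lit 1, nat_lit 0],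
  [nat_lit 0, nat_lit 5, nat_lit 0, nat_lit 4, nat_lit 0, nat_lit 2, nat_lit 4, nat_lit 0, nat_lit 2, nat_lit 5, nat_lit 2, nat_lit 4, nat_lit 2, nat_lit 1, nat_lit 0],
  [nat_lit 4, nat_lit 5, nat_lit 2, nat_lit 0, nat_lit 3, nat_lit 0, nat_lit 5, nat_lit 2, nat_lit 0, nat_lit 2, nat_lit 5, nat_lit 0, nat_lit 5, nat_lit 0],
  [nat_lit 1, nat_lit 3, nat_lit 4, nat_lit 2, nat_lit 5, nat_lit 0, nat_lit 2, nat_lit 5, nat_lit 4, nat_lit 0, nat_lit 1, nat_lit 2, nat_lit 4, nat_lit 1],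
  [],
  [nat_lit 1, nat_lit 4, nat_lit 5, nat_lit 2, nat_lit 0, nat_lit 3, nat_lit 4, nat_lit 0, nat_lit 2, nat_lit 5, nat_lit 3, nat_lit 1, nat_lit 2, nat_lit 0, nat_lit 4],
  [nat_lit 4, nat_lit 0, nat_lit 2, nat_lit 5, nat_lit 0, nat_lit 2, nat_lit 0, nat_lit 3, nat_lit 0, nat_lit 5, nat_lit 4, nat_lit 1, nat_lit 2, nat_lit 0],
  [nat_lit 2, nat_lit 3, nat_lit 0, nat_lit 1, nat_lit 4, nat_lit 0, nat_lit 2, nat_lit 5, nat_lit 0, nat_lit 4, nat_lit 1, nat_lit 2, nat_lit 5],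
  [nat_lit 3, nat_lit 0, nat_lit 5, nat_lit 0, nat_lit 5, nat_lit 0, nat_lit 3, nat_lit 2, nat_lit 0, nat_lit 5, nat_lit 1, nat_lit 2, nat_lit 0, nat_lit 4],
  [nat_lit 3, nat_lit 4, nat_lit 0, nat_lit 2, nat_lit 0, nat_lit 4, nat_lit 5, nat_lit 2, nat_lit 0, nat_lit 4, nat_lit 3, nat_lit 0, nat_lit 3],
  [nat_lit 1, nat_lit 0, nat_lit 4, nat_lit 2, nat_lit 0, nat_lit 5, nat_lit 2, nat_lit 0, nat_lit 4, nat_lit 1, nat_lit 0, nat_lit 5, nat_lit 4, nat_lit 2],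
  [nat_lit 5, nat_lit 0, nat_lit 2, nat_lit 4, nat_lit 0, nat_lit 2, nat_lit 5, nat_lit 4, nat_lit 0, nat_lit 5, nat_lit 4, nat_lit 1],
  [nat_lit 1, nat_lit 0, nat_lit 5, nat_lit 0, nat_lit 2, nat_lit 4, nat_lit 0, nat_lit 2, nat_lit 0, nat_lit 5, nat_lit 4, nat_lit 0, nat_lit 3],
  [nat_lit 1, nat_lit 4, nat_lit 5, nat_lit 0, nat_lit 1, nat_lit 5, nat_lit 0, nat_lit 4, nat_lit 0, nat_lit 5, nat_lit 0, nat_lit 4, nat_lit 0],
  [nat_lit 0, nat_lit 4, nat_lit 0, nat_lit 5, nat_lit 2, nat_lit 0, nat_lit 4, nat_lit 5, nat_lit 0, nat_lit 2, nat_lit 5, nat_lit 0, nat_lit 3, nat_lit 1, nat_lit 0],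
  [nat_lit 5, nat_lit 2, nat_lit 0, nat_lit 1, nat_lit 4, nat_lit 2, nat_lit 5, nat_lit 1, nat_lit 2, nat_lit 0],
  [nat_lit 0, nat_lit 1, nat_lit 3, nat_lit 0, nat_lit 5, nat_lit 0, nat_lit 2, nat_lit 3, nat_lit 0, nat_lit 5, nat_lit 2, nat_lit 4, nat_lit 2, nat_lit 0, nat_lit 4],
  [nat_lit 3, nat_lit 0, nat_lit 4, nat_lit 5, nat_lit 0, nat_lit 3, nat_lit 5, nat_lit 0, nat_lit 4, nat_lit 0, nat_lit 2, nat_lit 0, nat_lit 5, nat_lit 2],
  [nat_lit 0, nat_lit 3, nat_lit 5, nat_lit 2, nat_lit 0, nat_lit 5, nat_lit 2, nat_lit 0, nat_lit 4, nat_lit 2, nat_lit 0, nat_lit 5, nat_lit 1],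
  [nat_lit 0, nat_lit 2, nat_lit 4, nat_lit 0, nat_lit 5, nat_lit 4, nat_lit 0, nat_lit 4, nat_lit 2, nat_lit 0],
  [nat_lit 3, nat_lit 0, nat_lit 3, nat_lit 4, nat_lit 0, nat_lit 2, nat_lit 5, nat_lit 2, nat_lit 4, nat_lit 0, nat_lit 5, nat_lit 4, nat_lit 0, nat_lit 2],
  [nat_lit 4, nat_lit 0, nat_lit 3, nat_lit 4, nat_lit 0, nat_lit 4, nat_lit 5, nat_lit 0, nat_lit 2, nat_lit 5, nat_lit 0, nat_lit 2, nat_lit 5, nat_lit 0],
  [nat_lit 1, nat_lit 5, nat_lit 2, nat_lit 0, nat_lit 1, nat_lit 5, nat_lit 0, nat_lit 4, nat_lit 1, nat_lit 0, nat_lit 3, nat_lit 0, nat_lit 2],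
  [nat_lit 2, nat_lit 0, nat_lit 3, nat_lit 0, nat_lit 5, nat_lit 2, nat_lit 0, nat_lit 5, nat_lit 4, nat_lit 0, nat_lit 5, nat_lit 4, nat_lit 0, nat_lit 5]]

open H15 in
theorem chk_two : band (band (T.chk B (repL zw 2)) (Bool.not (Nat.beq (T.tr zw 91) 91)))
    (band (allLin (fun i => band (T.chk B (repL (gd [] xw i) 2))
      (band (T.chk2 B (app zw (gd [] xw i)) (app (gd [] xw i) zw))
      (allLin (fun j => T.chk2 B (app (gd [] xw i) (gd [] xw j)) (app (gd [] xw j) (gd [] xw i))) 0 4))) 0 4)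
    (allLin (fun a => allLin (fun b => allLin (fun c => allLin (fun d =>
      Bool.rec (T.chk2 B (app (gd [] c2 (a + 2 * b + 4 * c + 8 * d)) (app (repL (gd [] xw 0) a)
        (app (repL (gd [] xw 1) b) (app (repL (gd [] xw 2) c) (repL (gd [] xw 3) d)))))
        (app (app zw (app (repL (gd [] xw 0) a)
        (app (repL (gd [] xw 1) b) (app (repL (gd [] xw 2) c) (repL (gd [] xw 3) d)))))
          (gd [] c2 (a + 2 * b + 4 * c + 8 * d)))) true (Nat.beq (a + b + c + d) 0)) 0 2) 0 2) 0 2) 0 2)) =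
    true := by decide +kernel

open H15 in
theorem chk_five : band (band (T.chk B (repL xf 5)) (T.chk B (repL yf 5)))
    (band (band (T.small xf) (Bool.not (Nat.beq (T.tr xf 91) 91))) (band (T.chk2 B (app xf yf) (app yf xf))
    (allLin (fun a => allLin (fun b =>
      Bool.rec (T.chk2 B (app (gd [] c5 (5 * a + b)) xf)
        (app (app (repL xf a) (repL yf b)) (gd [] c5 (5 * a + b)))) true (Nat.beq (a + b) 0)) 0 5) 0 5))) =
    true := by decide +kernel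

theorem ev_repL (w : List ℕ) (k : ℕ) : ev gT (H15.repL w k) = ev gT w ^ k := by
  rw [← lprod_eq, H15.lprod_repL, lprod_eq]

theorem ev_ne {w : List ℕ} (h1 : T.small w = true) (h2 : Nat.beq (T.tr w 91) 91 = false) :
    ev gT w ≠ 1 := fun h => by
  have h0 : 91 < T.N := by decide +kernel
  obtain ⟨h3, h4⟩ := hT.am.tr (T.small_sound h1) 91 h0
  rw [h, inv_one, one_smul] at h4
  rw [← hT.inj _ h0 _ h3 h4] at h2
  cases h2

theorem no_two {Ω : Type*} [Fintype Ω] [MulAction TG Ω] [FaithfulSMul TG Ω]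
    (hΩ : 3 ≤ Fintype.card Ω) : ¬ IsMultiplyPretransitive TG Ω 2 := fun h2 => by
  have c1 := fun w h => hT.am.chk hBT w h
  have c2 := fun u v h => hT.am.chk2 hBT u v h
  have h3 : 32 ≤ Fintype.card Ω := by
    have h := chk_two
    simp only [band_eq, Bool.and_eq_true, Bool.not_eq_true'] at h
    obtain ⟨⟨a1, a2⟩, a3, a4⟩ := h
    have a5 := fun i (hi : i < 4) => allLin_sound a3 i (Nat.zero_le _) (by omega)
    simp only [band_eq, Bool.and_eq_true] at a5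
    refine two_lemma' (x := fun i => ev gT (gd [] xw i)) (z := ev gT zw)
      (by rw [← ev_repL]; exact c1 _ a1) (ev_ne (by decide +kernel) a2)
      (fun i hi => by rw [← ev_repL]; exact c1 _ (a5 i hi).1)
      (fun i hi => by simpa only [app_eq, ev_append, commute_iff_eq] using c2 _ _ (a5 i hi).2.1)
      (fun i hi j hj => by
        simpa only [app_eq, ev_append, commute_iff_eq] using
          c2 _ _ (allLin_sound (a5 i hi).2.2 j (Nat.zero_le _) (by omega)))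
      fun a ha b hb c hc d hd d2 => ?_
    have d1 := allLin_sound (allLin_sound (allLin_sound (allLin_sound a4 a (Nat.zero_le _) (by omega))
      b (Nat.zero_le _) (by omega)) c (Nat.zero_le _) (by omega)) d (Nat.zero_le _) (by omega)
    rw [d2] at d1
    have d3 := c2 _ _ d1
    simp only [app_eq, ev_append, ev_repL] at d3
    exact ⟨_, d3⟩
  have h4 := H16.descFactorial_dvd_card h2 (by rw [Nat.card_eq_fintype_card]; omega)
  rw [card_TG, Nat.card_eq_fintype_card] at h4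
  have h5 : Fintype.card Ω = 40 ∨ Fintype.card Ω = 65 := by
    generalize Fintype.card Ω = n at h3 h4
    simp only [Nat.descFactorial_succ, Nat.descFactorial_zero, Nat.sub_zero, mul_one] at h4
    have h6 : n < 4300 := by
      obtain ⟨m, rfl⟩ : ∃ m, n = m + 1 := ⟨n - 1, by omega⟩
      have := Nat.le_of_dvd (by norm_num) h4
      rw [Nat.add_sub_cancel] at this
      nlinarith
    have h7 : allRange (fun n => decide ((n - 1) * n ∣ 17971200 → n = 40 ∨ n = 65)) 32 4300 = true := by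
      decide +kernel
    exact of_decide_eq_true (allRange_sound h7 n h3 h6) h4
  have h := chk_five
  simp only [band_eq, Bool.and_eq_true, Bool.not_eq_true'] at h
  obtain ⟨⟨a1, a2⟩, a3, a4, a5⟩ := h
  obtain ⟨f, f1, f2⟩ := five_lemma' (Ω := Ω) (x := ev gT xf) (y := ev gT yf)
    (by rw [← ev_repL]; exact c1 _ a1) (by rw [← ev_repL]; exact c1 _ a2) (ev_ne a3.1 a3.2)
    (by simpa only [app_eq, ev_append, commute_iff_eq] using c2 _ _ a4) (fun a ha b hb d2 => by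
      have d1 := allLin_sound (allLin_sound a5 a (Nat.zero_le _) (by omega)) b (Nat.zero_le _)
        (by omega)
      rw [d2] at d1
      have d3 := c2 _ _ d1
      simp only [app_eq, ev_append, ev_repL] at d3
      exact ⟨_, d3⟩) fun y => by
    have := isPretransitive_of_is_two_pretransitive (G := TG) (α := Ω)
    have h6 := (stabilizer TG y).card_mul_index
    rw [index_stabilizer_of_transitive, card_TG, Nat.card_eq_fintype_card (α := Ω)] at h6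
    rcases h5 with h5 | h5 <;> rw [h5] at h6 <;> omega
  omega

end Cfsg.Agent.H7.Ti
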